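import Cfsg.Agent.Lib.QuatBlock.Invariants
import Cfsg.Agent.Lib.DihedralBlock.Main
import Cfsg.Agent.Lib.TwoGroups.Basic
import Cfsg.Agent.Lib.BrauerPairs.Domination
import Cfsg.Agent.Lib.Correspondences.Codegree
import Cfsg.Agent.S4434

/-!
# A tame block with central involution

When the involution of the rotations is central, it acts on each member by a sign. The sign
separates the families, so the two-regular rank and the number of extra classes add up to three.
-/

set_option autoImplicit false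
set_option linter.style.haveILetI false
set_option linter.unusedSectionVars false
set_option linter.overlappingInstances false
set_option maxHeartbeats 800000

noncomputable section

namespace CfsgLib.QuatBlock

open Cfsg CfsgLib.Blocks MonoidAlgebra CfsgLib.BrauerPairs CfsgLib.BlockStar
open CfsgLib.BrauerCharacters (cenElem blockFinset mem_blockFinset centralVal centralVal_spec)
open CfsgLib.BlockSections (belowBlock)
open CfsgLib.DihedralBlock (rot rotVal)
open scoped ComplexConjugate Classical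

attribute [local instance 5] Fintype.ofFinite

section Sign

variable {G : Type*} [Group G]

/-- The sign by which an involution in the centre acts. -/
def zSign (z : G) (χ : IrrCharacter G) : ℤ :=
  if centralVal (χ : G → ℂ) z = 1 then 1 else -1

theorem zSign_sq (z : G) (χ : IrrCharacter G) : zSign z χ * zSign z χ = 1 := by
  unfold zSign; split_ifs <;> norm_num

theorem zSign_spec [Finite G] {z : G} (hz : ∀ g : G, Commute z g) (h2 : z * z = 1)
    (χ : IrrCharacter G) (g : G) :
    (χ : G → ℂ) (z * g) = (zSign z χ : ℂ) * (χ : G → ℂ) g := by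
  obtain ⟨h1, hs⟩ := centralVal_spec χ hz
  rw [hs g]
  congr 1
  obtain ⟨c, hc⟩ : orderOf z ∣ 2 := orderOf_dvd_of_pow_eq_one (by rw [pow_two, h2])
  have hsq : centralVal (χ : G → ℂ) z ^ 2 = 1 := by rw [hc, pow_mul, h1, one_pow]
  rcases sq_eq_one_iff.1 hsq with e | e
  · rw [zSign, if_pos e, e, Int.cast_one]
  · rw [zSign, if_neg (by rw [e]; norm_num), e]; push_cast; ring

end Sign

section Contribution

variable {G : Type*} [Group G] [Fintype G] [Fact (2 : ℕ).Prime]
  [∀ y : G, Fintype (Subgroup.centralizer ({y} : Set G))] {M : Ideal AlgInt} [M.IsPrime]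
  [CharP (Res M) 2] [IsAlgClosed (Res M)] {B : Set (IrrCharacter G)} {D : Subgroup G}
  {e0 : MonoidAlgebra (Res M) G}
  (hM : IsPModular 2 M) (hB : IsPBlock M B)
  (hmax : IsMaxPair 2 (⊤ : Subgroup G) (redElem M (blockCoeff B)) D e0)

include hM hB hmax

/-- The block idempotent below the pair on a bigger subgroup with the same centraliser. -/
theorem pairLE_bId_of_centralizer_eq {u : G} {Q : Subgroup G} (hu : u ∈ D) (hQD : Q ≤ D)
    (huQ : Subgroup.zpowers u ≤ Q)
    (hC : Subgroup.centralizer (Q : Set G) = Subgroup.centralizer ({u} : Set G)) :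
    PairLE 2 (⊤ : Subgroup G) Q (bId 2 D e0 u) D e0 := by
  have he := hmax.1.1
  have hle := pairLE_bId hM hB hmax hu
  set f := bId (M := M) 2 D e0 u
  have hf := hle.isPair_left he
  have hfb : IsBlockIdem (cenIn (⊤ : Subgroup G) Q) f := by
    have h2 := hf.2.2
    rw [cenIn_top, BrauerCharacters.centralizer_zpowers_eq] at h2
    rwa [cenIn_top, hC]
  have hQ : IsPair 2 (⊤ : Subgroup G) Q f := ⟨he.1.to_le hQD, le_top, hfb⟩
  have hQN : Q ≤ Subgroup.normalizer (Subgroup.zpowers u : Set G) := by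
    have hu' : u ∈ Subgroup.centralizer (Q : Set G) := by
      rw [hC]; exact Subgroup.mem_centralizer_singleton_iff.2 rfl
    refine le_trans (fun a ha => ?_) (Subgroup.centralizer_le_normalizer _)
    rw [BrauerCharacters.centralizer_zpowers_eq]
    exact Subgroup.mem_centralizer_singleton_iff.2 (Subgroup.mem_centralizer_iff.1 hu' a ha)
  obtain ⟨c, hc⟩ := exists_pairLE he hQD
  obtain ⟨f', hf', -⟩ := existsUnique_normalLE (hc.isPair_left he) huQ hQN
  have e : f' = f :=
    (existsUnique_pairLE he hle.le).unique (hf'.pairLE.trans hc) hle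
  rw [e] at hf'
  have hcb := (hc.isPair_left he).2.2
  have h1 : brau Q f * c = c := hf'.2.2.2.2.2
  rw [show brau Q f = f from trunc_eq_self fun g hg =>
    hQ.supp_cen g hg] at h1
  have hcf : f = c := hfb.eq_of_mul_ne_zero hcb (by rw [h1]; exact hcb.ne_zero)
  rwa [hcf]

variable {z : G} (hzD : z ∈ D) (hz : ∀ g : G, Commute z g) (h2 : z * z = 1)
include hzD hz h2

/-- A central involution does not change the block below the pair. -/
theorem bId_mul_central {v : G} (hv : v ∈ D) :
    bId (M := M) 2 D e0 (z * v) = bId (M := M) 2 D e0 v := by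
  set Q := Subgroup.zpowers v ⊔ Subgroup.zpowers z with hQ
  have hQD : Q ≤ D := sup_le (Subgroup.zpowers_le.2 hv) (Subgroup.zpowers_le.2 hzD)
  have hzvQ : z * v ∈ Q :=
    Q.mul_mem (Subgroup.mem_sup_right (Subgroup.mem_zpowers z))
      (Subgroup.mem_sup_left (Subgroup.mem_zpowers v))
  have hcen : ∀ g : G, g ∈ Subgroup.centralizer ({z * v} : Set G) ↔
      g ∈ Subgroup.centralizer ({v} : Set G) := fun g => by
    simp only [Subgroup.mem_centralizer_singleton_iff]
    rw [← mul_assoc g, ← (hz g).eq, mul_assoc, mul_assoc, mul_right_inj]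
  have hCv : Subgroup.centralizer (Q : Set G) = Subgroup.centralizer ({v} : Set G) := by
    refine le_antisymm (Subgroup.centralizer_le (Set.singleton_subset_iff.2
      (Subgroup.mem_sup_left (Subgroup.mem_zpowers v)))) fun g hg => ?_
    have h3 : Q ≤ Subgroup.centralizer ({g} : Set G) := sup_le
      (Subgroup.zpowers_le.2 (Subgroup.mem_centralizer_singleton_iff.2
        (Subgroup.mem_centralizer_singleton_iff.1 hg).symm))
      (Subgroup.zpowers_le.2 (Subgroup.mem_centralizer_singleton_iff.2 (hz g).eq))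
    exact Subgroup.mem_centralizer_iff.2 fun w hw =>
      Subgroup.mem_centralizer_singleton_iff.1 (h3 hw)
  have h3 := pairLE_bId_of_centralizer_eq hM hB hmax hv hQD le_sup_left hCv
  have h4 := pairLE_bId_of_centralizer_eq hM hB hmax (D.mul_mem hzD hv) hQD
    (Subgroup.zpowers_le.2 hzvQ) (hCv.trans (Subgroup.ext fun g => (hcen g).symm))
  exact (existsUnique_pairLE hmax.1.1 hQD).unique h4 h3

/-- The contribution at the product with a central involution. -/
theorem subT_mul_central {v : G} (hv : v ∈ D) (χ φ : IrrCharacter G) :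
    subT (M := M) 2 D e0 (z * v) χ φ =
      (zSign z χ : ℂ) * zSign z φ * subT (M := M) 2 D e0 v χ φ := by
  have hcen : Subgroup.centralizer ({z * v} : Set G) = Subgroup.centralizer ({v} : Set G) := by
    ext g
    simp only [Subgroup.mem_centralizer_singleton_iff]
    rw [← mul_assoc g, ← (hz g).eq, mul_assoc, mul_assoc, mul_right_inj]
  have e1 := secPairing_bId hM hB hmax (D.mul_mem hzD hv) χ φ
  have e2 := secPairing_bId hM hB hmax hv χ φ
  rw [bId_mul_central hM hB hmax hzD hz h2 hv,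
    show Nat.card (Subgroup.centralizer ({z * v} : Set G)) =
      Nat.card (Subgroup.centralizer ({v} : Set G)) by rw [hcen]] at e1
  have hpp : ∀ w ∈ D, ∀ g, IsPPart 2 g w → IsPPart 2 (z * g) (z * w) := by
    intro w hw g hg
    obtain ⟨y, rfl, hc, -, hy⟩ := hg
    exact ⟨y, mul_assoc _ _ _, (hz y).mul_left hc,
      BlockSections.isPElem_of_mem hM hB hmax (D.mul_mem hzD hw), hy⟩
  obtain ⟨hbl, hle, -⟩ := BlockSections.belowBlock_spec hM hB hmax hv
  set f := bId (M := M) 2 D e0 v
  have hfp := hle.isPair_left hmax.1.1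
  have hff : f * f = f := hfp.2.2.mul_self
  have hval : ∀ (ξ : IrrCharacter G) (g : G), g ∈ secSet 2 v →
      val ξ (z * g) f = (zSign z ξ : ℂ) * val ξ g f := by
    intro ξ g hg
    have hgC : g ∈ Subgroup.centralizer ({v} : Set G) :=
      Subgroup.mem_centralizer_singleton_iff.2 (commute_of_isPPart (mem_secSet.1 hg)).symm.eq
    have hcg : Commute (single g (1 : Res M)) f :=
      DihedralBlock.commute_subIdem hbl hgC
    obtain ⟨F, hF, hFm, hFc⟩ := exists_lift_fixed hff hcg
    have hzF : Commute (single z (1 : locRing M)) F :=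
      MonoidAlgebra.single_commute hz (fun r => Commute.one_left r) F
    have hsz : single (z * g) (1 : locRing M) = single z 1 * single g 1 := by
      rw [single_mul_single, one_mul]
    rw [val_eq ξ hF hFm hFc,
      val_eq ξ hF hFm (by rw [hsz]; exact hzF.mul_left hFc), hsz, mul_assoc]
    generalize single g (1 : locRing M) * F = X
    rw [chiSum, chiSum, Finset.mul_sum]
    refine (Fintype.sum_equiv (Equiv.mulLeft z) _ _ fun l => ?_).symm
    rw [Equiv.coe_mulLeft, zSign_spec hz h2, coeff_single_mul_apply]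
    simp
    ring
  have hsum : secPairing 2 (z * v) f χ φ =
      (zSign z χ : ℂ) * zSign z φ * secPairing 2 v f χ φ := by
    rw [secPairing, secPairing, Finset.mul_sum]
    refine (Finset.sum_bij' (fun g _ => z * g) (fun g _ => z * g) (fun g hg => ?_) (fun g hg => ?_)
      (fun g _ => by rw [← mul_assoc, h2, one_mul]) (fun g _ => by rw [← mul_assoc, h2, one_mul])
      fun g hg => ?_).symm
    · exact mem_secSet.2 (hpp v hv g (mem_secSet.1 hg))
    · refine mem_secSet.2 ?_
      have := hpp _ (D.mul_mem hzD hv) g (mem_secSet.1 hg)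
      rwa [← mul_assoc z z, h2, one_mul] at this
    · rw [hval χ g hg, hval φ g hg, map_mul, map_intCast]
      ring
  rw [hsum, e2] at e1
  refine mul_left_cancel₀ (Nat.cast_ne_zero.2
    (Nat.card_pos (α := Subgroup.centralizer ({v} : Set G))).ne') ?_
  rw [← e1]
  ring

end Contribution

variable {G : Type*} [Group G] [Fintype G] [Fact (2 : ℕ).Prime]
  [∀ y : G, Fintype (Subgroup.centralizer ({y} : Set G))] {M : Ideal AlgInt} [M.IsPrime]
  [CharP (Res M) 2] [IsAlgClosed (Res M)] {B : Set (IrrCharacter G)} {D : Subgroup G}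
  {e0 : MonoidAlgebra (Res M) G} {x : G} {h : ℕ} [NeZero (4 * h)] {t : ZMod (4 * h)} {y0 : G}
  {E : Finset G} {a : IrrCharacter G → ZMod (4 * h) → ℤ}

section Dominated

/-- For a quaternion group of order thirty-two with central involution, the members trivial at
the involution are seven. -/
theorem card_sign_one (hM : IsPModular 2 M) (hB : IsPBlock M B) (hD : IsDefectGroup 2 M B D)
    (hS : IsTame D x h t) (hh : h = 4)
    (hQ : t = -1 ∧ ∀ y ∈ D, y ∉ Subgroup.zpowers x → y * y = x ^ (2 * h))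
    (hz : ∀ g : G, Commute (rot x ((2 * h : ℕ) : ZMod (4 * h))) g) :
    ((blockFinset B).filter fun χ =>
      zSign (rot x ((2 * h : ℕ) : ZMod (4 * h))) χ = 1).card = 7 := by
  subst hh
  set z' := rot x ((2 * 4 : ℕ) : ZMod (4 * 4)) with hz'
  have hzz2 : z' * z' = 1 := by
    rw [hz', ← hS.rot_add, hS.two_h_add_two_h, DihedralBlock.rot_zero]
  set N := Subgroup.zpowers z' with hN
  haveI : N.Normal := ⟨fun n hn g => by
    obtain ⟨k, rfl⟩ := Subgroup.mem_zpowers_iff.1 hn
    rw [((hz g).zpow_left k).symm.eq, mul_inv_cancel_right]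
    exact hn⟩
  have hNmem : ∀ u ∈ N, u = 1 ∨ u = z' := by
    intro u hu
    obtain ⟨k, rfl⟩ := Subgroup.mem_zpowers_iff.1 hu
    have hzz : z' ^ (2 : ℤ) = 1 := by rw [zpow_two, hzz2]
    rcases Int.even_or_odd k with ⟨m, rfl⟩ | ⟨m, rfl⟩
    · left; rw [← two_mul, zpow_mul, hzz, one_zpow]
    · right; rw [zpow_add, zpow_mul, hzz, one_zpow, one_mul, zpow_one]
  have hN2 : IsPGroup 2 N := hS.isPGroup.to_le (Subgroup.zpowers_le.2 (hS.rot_mem _))
  have hNcard : Nat.card N = 2 := by
    rw [hN, Nat.card_zpowers]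
    exact orderOf_eq_prime (by rw [pow_two, hzz2]) fun e =>
      hS.two_h_ne_zero (hS.rot_eq_one.1 e)
  obtain ⟨Bb, hBb, hinfl, hdef⟩ := Cfsg.Agent.S4434.result 2 M hM N hN2 B hB
  set f := QuotientGroup.mk' N
  have hf : Function.Surjective f := QuotientGroup.mk'_surjective N
  have hDb : IsDefectGroup 2 M Bb (D.map f) := (hdef _).2 ⟨D, hD, rfl⟩
  have hker : ∀ u : G, f u = 1 ↔ u ∈ N := fun u => QuotientGroup.eq_one_iff u
  -- the image is dihedral of order sixteen
  have hzx : z' = x ^ 8 := by rw [← hS.rot_natCast 8]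
  have hx8 : (f x) ^ 8 = 1 := by
    rw [← map_pow, hker, ← hzx]; exact Subgroup.mem_zpowers _
  have hx4 : ¬ (f x) ^ 4 = 1 := by
    rw [← map_pow, hker]
    intro hm
    rw [← hS.rot_natCast 4] at hm
    rcases hNmem _ hm with e | e
    · exact absurd (hS.rot_eq_one.1 e) (by decide)
    · exact absurd (hS.rot_injective e) (by decide)
  obtain ⟨y, hy, hyo⟩ := hS.exists_outer
  have hordf : orderOf (f x) = 8 := orderOf_eq_prime_pow (p := 2) (n := 2) hx4 hx8
  have hcard : Nat.card (D.map f) = 2 * 8 := by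
    have h1 := Subgroup.card_eq_card_quotient_mul_card_subgroup (f.comp D.subtype).ker
    rw [Nat.card_congr (QuotientGroup.quotientKerEquivRange (f.comp D.subtype)).toEquiv,
      MonoidHom.range_comp, D.range_subtype, hS.card_eq] at h1
    have h2 : Nat.card (f.comp D.subtype).ker = 2 := by
      rw [← hNcard]
      refine Nat.card_congr ⟨fun u => ⟨((u : D) : G), (hker _).1 u.2⟩,
        fun u => ⟨⟨u, by rcases hNmem u u.2 with e | e <;> rw [e]
                         exacts [D.one_mem, hS.rot_mem _]⟩, (hker _).2 u.2⟩,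
        fun u => Subtype.ext (Subtype.ext rfl), fun u => Subtype.ext rfl⟩
    rw [h2] at h1
    omega
  have hdih : Nonempty (D.map f ≃* DihedralGroup (2 ^ (4 - 1))) := by
    refine TwoGroups.nonempty_mulEquiv_dihedral
      (x := (⟨f x, Subgroup.mem_map_of_mem f hS.x_mem⟩ : D.map f))
      (y := ⟨f y, Subgroup.mem_map_of_mem f hy⟩) ?_ hcard ?_ ?_ ?_
    · rw [Subgroup.orderOf_mk, hordf]; norm_num
    · intro hm
      obtain ⟨k, hk⟩ := Subgroup.mem_zpowers_iff.1 hm
      have hk' : f (x ^ k) = f y := by rw [map_zpow]; exact congrArg Subtype.val hk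
      have h3 : (x ^ k)⁻¹ * y ∈ N := (hker _).1 (by rw [map_mul, map_inv, hk', inv_mul_cancel])
      have h4 : (x ^ k)⁻¹ * y ∈ Subgroup.zpowers x := by
        rcases hNmem _ h3 with e | e <;> rw [e]
        exacts [Subgroup.one_mem _, DihedralBlock.rot_mem_zpowers x _]
      exact hyo (by
        simpa using Subgroup.mul_mem _ (Subgroup.zpow_mem_zpowers x k) h4)
    · refine Subtype.ext ?_
      show f y ^ 2 = 1
      rw [← map_pow, hker, pow_two, hQ.2 y hy hyo, show 2 * 4 = 8 by norm_num, ← hzx]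
      exact Subgroup.mem_zpowers _
    · refine Subtype.ext ?_
      show f y * f x * (f y)⁻¹ = (f x)⁻¹
      have h5 := hS.conj_rot hy hyo (1 : ZMod (4 * 4))
      rw [hS.rot_one, mul_one, hQ.1, hS.rot_neg, hS.rot_one] at h5
      rw [← map_inv, ← map_mul, ← map_mul, h5, map_inv]
  obtain ⟨hk7, -⟩ := DihedralBlock.block_invariants M hM Bb hBb _ hDb 4 (by norm_num) hdih
  -- the dominated block consists of the members trivial at the involution
  set P := (blockFinset B).filter fun χ => zSign z' χ = 1 with hP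
  have hkerf : f.ker ≤ Subgroup.center G := fun u hu => by
    rw [Subgroup.mem_center_iff]
    intro g
    rcases hNmem u ((hker u).1 hu) with e | e <;> rw [e]
    · simp
    · exact (hz g).eq.symm
  have hkp : IsPGroup 2 f.ker := by rw [QuotientGroup.ker_mk']; exact hN2
  have hone : ∀ χ : IrrCharacter G, zSign z' χ = 1 ↔ (χ : G → ℂ) z' = (χ : G → ℂ) 1 := by
    intro χ
    have h1 := zSign_spec hz hzz2 χ 1
    rw [mul_one] at h1
    have hne := CharTheory.apply_one_ne_zero_of_isIrr χ.2
    constructor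
    · intro e; rw [h1, e, Int.cast_one, one_mul]
    · intro e
      rw [h1] at e
      have : (zSign z' χ : ℂ) = ((1 : ℤ) : ℂ) := by
        refine mul_right_cancel₀ hne ?_
        rw [e, Int.cast_one, one_mul]
      exact_mod_cast this
  have hsign : ∀ θ : IrrCharacter (G ⧸ N), zSign z' (inflIrr hf θ) = 1 := fun θ => by
    rw [hone]
    show (θ : G ⧸ N → ℂ) (f z') = (θ : G ⧸ N → ℂ) (f 1)
    rw [map_one, (hker z').2 (Subgroup.mem_zpowers _)]
  have hcount : Nat.card Bb = P.card := by
    obtain ⟨θ0, hθ0⟩ := Blocks.isPBlock_nonempty hBb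
    rw [← Nat.card_eq_finsetCard]
    refine Nat.card_eq_of_bijective (fun θ => (⟨inflIrr hf θ.1, Finset.mem_filter.2
      ⟨mem_blockFinset.2 (hinfl θ.1 θ.2 _ rfl), hsign θ.1⟩⟩ : P)) ⟨fun θ θ' he => ?_, fun χ => ?_⟩
    · exact Subtype.ext (inflIrr_injective hf (congrArg Subtype.val he))
    · obtain ⟨hχ, h1⟩ := Finset.mem_filter.1 χ.2
      obtain ⟨θ, hθ⟩ := Correspondences.exists_deflate χ.1.2 N fun u hu => by
        rcases hNmem u hu with e | e <;> rw [e]
        exact (hone χ.1).1 h1
      have hinf : inflIrr hf θ = χ.1 := Subtype.ext (funext hθ)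
      refine ⟨⟨θ, Blocks.mem_of_sameBlock hBb hθ0 (sameBlock_of_inflate hM hf hkerf hkp hB
        (hinfl θ0 hθ0 _ rfl) (by rw [hinf]; exact mem_blockFinset.1 hχ))⟩, Subtype.ext hinf⟩
  rw [hcount] at hk7
  exact hk7

end Dominated

namespace Ctx

variable (C : Ctx M B D e0 x h t y0 E a)
include C

local notation "z" => rot x ((2 * h : ℕ) : ZMod (4 * h))
local notation "T" => subT (M := M) 2 D e0

theorem z_mul_z : z * z = 1 := (C.mem_one_or_z (Or.inr rfl)).2.2

theorem exists_four_wt_one [Fintype (IrrCharacter G)] :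
    ∃ ψ ∈ fours B h a, wt h (a ψ) 1 = 0 := by
  by_cases ht : Tight B h a
  · obtain ⟨-, -, ⟨rfl, -, hO, -⟩ | ⟨rfl, -, -, hall⟩⟩ := C.counts_tight ht
    · by_contra hc
      push Not at hc
      have h1 := C.count_famO
      rw [Finset.filter_true_of_mem hc, C.card_fours, hO] at h1
      norm_num at h1
    · obtain ⟨ψ, hψ⟩ := Finset.card_pos.1 (show 0 < (fours B 4 a).card by rw [C.card_fours]; norm_num)
      exact ⟨ψ, hψ, hall ψ hψ⟩
  · obtain ⟨-, -, hall⟩ := C.counts_generic ht
    obtain ⟨ψ, hψ⟩ := Finset.card_pos.1 (show 0 < (fours B h a).card by rw [C.card_fours]; norm_num)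
    exact ⟨ψ, hψ, (hall ψ hψ).2⟩

variable (hz : ∀ g : G, Commute (rot x ((2 * h : ℕ) : ZMod (4 * h))) g)
include hz

theorem cM_z_eq (χ φ : IrrCharacter G) :
    cM M D e0 h z χ φ = zSign z χ * zSign z φ * cM M D e0 h 1 χ φ := by
  refine Int.cast_injective (α := ℂ) ?_
  rw [Int.cast_mul, Int.cast_mul, C.cast_cM (Or.inr rfl), C.cast_cM (Or.inl rfl)]
  have h1 := subT_mul_central C.hM C.hB C.hmax (C.tame.rot_mem _) hz C.z_mul_z D.one_mem χ φ
  rw [mul_one] at h1
  rw [h1]
  ring

theorem cM_z_self (χ : IrrCharacter G) : cM M D e0 h z χ χ = cM M D e0 h 1 χ χ := by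
  rw [C.cM_z_eq hz, zSign_sq, one_mul]

theorem rotVal_shift [Fintype (IrrCharacter G)] {ψ : IrrCharacter G} (hψ : ψ ∈ fours B h a)
    (hψ1 : wt h (a ψ) 1 = 0) (χ : IrrCharacter G) {i : ZMod (4 * h)} (hi : i ∈ midRot h) :
    rotVal (a χ) (i + ((2 * h : ℕ) : ZMod (4 * h))) =
      ((zSign z χ * zSign z ψ : ℤ) : ℂ) * rotVal (a χ) i := by
  have hS := C.tame
  have hi2 : i + ((2 * h : ℕ) : ZMod (4 * h)) ∈ midRot h := by
    obtain ⟨h0, h2⟩ := C.mem_mid hi
    refine Finset.mem_filter.2 ⟨Finset.mem_univ _, fun e => h2 ?_, fun e => h0 ?_⟩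
    · rw [eq_neg_of_add_eq_zero_left e, hS.neg_two_h]
    · exact add_right_cancel (e.trans (zero_add _).symm)
  have hψB := mem_blockFinset.1 (fours_subset hψ)
  have hne := (C.rotVal_ne_zero hψB ((C.height_zero_iff hψB).2 hψ) hi).1
  have h1 := C.rot_subT hi2 χ ψ
  rw [show rot x (i + ((2 * h : ℕ) : ZMod (4 * h))) = z * rot x i by
      rw [hS.rot_add]; exact hS.rot_commute _ _,
    subT_mul_central C.hM C.hB C.hmax (hS.rot_mem _) hz C.z_mul_z (hS.rot_mem i),
    C.rotVal_shift_of_wt hψ1 hi] at h1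
  refine mul_right_cancel₀ ((map_ne_zero (starRingEnd ℂ)).2 hne) ?_
  rw [← h1, mul_assoc (((zSign z χ * zSign z ψ : ℤ) : ℂ)), ← C.rot_subT hi, Int.cast_mul]
  ring

theorem wt_sign [Fintype (IrrCharacter G)] {ψ : IrrCharacter G} (hψ : ψ ∈ fours B h a)
    (hψ1 : wt h (a ψ) 1 = 0) (χ : IrrCharacter G) :
    (zSign z χ = zSign z ψ → wt h (a χ) 1 = 0) ∧
      (zSign z χ ≠ zSign z ψ → wt h (a χ) 0 = 0) := by
  obtain ⟨hA, hB'⟩ := C.sum_mid_shift χ
  rw [Finset.sum_congr rfl (g := fun i => ((zSign z χ * zSign z ψ : ℤ) : ℂ) *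
      (rotVal (a χ) i * conj (rotVal (a χ) i))) fun i hi => by
    rw [C.rotVal_shift hz hψ hψ1 χ hi, map_mul, map_intCast]; ring, ← Finset.mul_sum, hA] at hB'
  have h1 : zSign z χ * zSign z ψ * (2 * (wt h (a χ) 0 + wt h (a χ) 1)) =
      2 * (wt h (a χ) 0 - wt h (a χ) 1) := by exact_mod_cast hB'
  have e1 := zSign_sq z ψ
  constructor <;> intro e
  · rw [e, e1] at h1; linarith
  · have : zSign z χ * zSign z ψ = -1 := by
      unfold zSign at e ⊢
      split_ifs at e ⊢ <;> simp_all
    rw [this] at h1; linarith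

theorem four_wt_one [Fintype (IrrCharacter G)] {ψ : IrrCharacter G} (hψ : ψ ∈ fours B h a) :
    wt h (a ψ) 1 = 0 := by
  obtain ⟨ψ1, hψ1, h1⟩ := C.exists_four_wt_one
  refine (C.wt_sign hz hψ1 h1 ψ).1 ?_
  by_contra hne
  have h0 := (C.wt_sign hz hψ1 h1 ψ).2 hne
  obtain ⟨hψB, hne'⟩ := Finset.mem_filter.1 hψ
  have hpos := C.h_pos
  rcases (C.wt_zero (mem_blockFinset.1 hψB)).2.2 hne' with e | ⟨-, e⟩ <;> omega

/-- The members on which the involution acts as on the four. -/
theorem sign_eq_iff [Fintype (IrrCharacter G)] {ψ : IrrCharacter G} (hψ : ψ ∈ fours B h a)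
    {χ : IrrCharacter G} (hχ : χ ∈ blockFinset B) :
    zSign z χ = zSign z ψ ↔ χ ∈ fours B h a ∪ famE B h a := by
  have h1 := C.four_wt_one hz hψ
  obtain ⟨hS1, hS0⟩ := C.wt_sign hz hψ h1 χ
  have hχB := mem_blockFinset.1 hχ
  rw [Finset.mem_union]
  constructor
  · intro e
    by_cases h4 : χ ∈ fours B h a
    · exact Or.inl h4
    refine Or.inr (Finset.mem_filter.2 ⟨hχ, h4, fun h0 => ?_⟩)
    have hI : χ ∈ invis B h a := Finset.mem_filter.2 ⟨hχ, h4, h0, hS1 e⟩
    obtain ⟨-, -, -, hrow, -⟩ := C.invis_facts hI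
    obtain ⟨hne, hneg⟩ := hrow ψ hψ
    have h2 := C.cM_z_eq hz χ ψ
    rw [e, zSign_sq, one_mul, hneg] at h2
    omega
  · intro hu
    by_contra hne
    have h0 := hS0 hne
    rcases hu with h4 | hE
    · obtain ⟨-, hne'⟩ := Finset.mem_filter.1 h4
      have hpos := C.h_pos
      rcases (C.wt_zero hχB).2.2 hne' with e | ⟨-, e⟩ <;> omega
    · exact (Finset.mem_filter.1 hE).2.2 h0

/-- An outer involution is not fused to a rotation. -/
theorem not_fus_rot {u w : G} (hu : u ∈ D) (huo : u ∉ Subgroup.zpowers x) (hu2 : u * u = 1)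
    (hf : Fus 2 D e0 u w) : w ∉ Subgroup.zpowers x := by
  intro hw
  obtain ⟨i, rfl⟩ := C.tame.exists_rot hw
  obtain ⟨g, hg, -⟩ := hf
  have hi2 : rot x (i + i) = 1 := by
    rw [C.tame.rot_add, ← hg,
      show g * u * g⁻¹ * (g * u * g⁻¹) = g * (u * u) * g⁻¹ by group, hu2]
    group
  rcases C.tame.eq_zero_or_two_h (C.tame.rot_eq_one.1 hi2) with e | e <;> rw [e] at hg <;>
    apply huo
  · rw [DihedralBlock.rot_zero, mul_inv_eq_one] at hg
    rw [show u = 1 from mul_left_cancel (hg.trans (mul_one g).symm)]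
    exact Subgroup.one_mem _
  · have : u = z := by
      calc u = g⁻¹ * (g * u * g⁻¹) * g := by group
        _ = g⁻¹ * (z * g) := by rw [hg, mul_assoc]
        _ = z := by rw [(hz g).eq, inv_mul_cancel_left]
    rw [this]
    exact DihedralBlock.rot_mem_zpowers x _

theorem exists_extra {u : G} (hu : u ∈ D) (huo : u ∉ Subgroup.zpowers x) (hu2 : u * u = 1) :
    ∃ w ∈ E, Fus 2 D e0 w u := by
  obtain ⟨w, hw, hf⟩ := C.reps.reps.cover u hu
  refine ⟨w, ?_, hf⟩
  have := C.not_fus_rot hz hu huo hu2 hf.symm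
  simp only [Finset.mem_insert, Finset.mem_union, Finset.mem_image] at hw
  rcases hw with rfl | rfl | ⟨i, -, rfl⟩ | hw
  · exact absurd (Subgroup.one_mem _) this
  · exact absurd (DihedralBlock.rot_mem_zpowers x _) this
  · exact absurd (DihedralBlock.rot_mem_zpowers x _) this
  · exact hw

theorem not_tight [Fintype (IrrCharacter G)] : ¬ Tight B h a := by
  intro ht
  obtain ⟨hE, hI, ⟨-, -, -, ψ, hψ, hne⟩ | ⟨hh, hFE, hFO, -⟩⟩ := C.counts_tight ht
  · exact hne (C.four_wt_one hz hψ)
  -- no outer involution, so the defect group is quaternion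
  have hQ : t = -1 ∧ ∀ y ∈ D, y ∉ Subgroup.zpowers x → y * y = x ^ (2 * h) := by
    rcases C.tame.cases with hc | ⟨-, -, y, hy, hyo, hy2⟩
    · exact hc
    · obtain ⟨w, hw, -⟩ := C.exists_extra hz hy hyo hy2
      rw [hE] at hw
      exact absurd hw (Finset.notMem_empty w)
  have hk7 := card_sign_one C.hM C.hB C.isDefectGroup C.tame hh hQ hz
  set P := (blockFinset B).filter fun χ => zSign z χ = 1 with hP
  obtain ⟨ψ, hψ⟩ := Finset.card_pos.1
    (show 0 < (fours B h a).card by rw [C.card_fours]; norm_num)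
  have hfE : (fours B h a ∪ famE B h a).card = 5 := by
    rw [Finset.card_union_of_disjoint, C.card_fours, hFE]
    rw [Finset.disjoint_left]
    exact fun χ h1 h2 => (Finset.mem_filter.1 h2).2.1 h1
  have hrest : (blockFinset B \ (fours B h a ∪ famE B h a)).card = 4 := by
    rw [Finset.card_sdiff_of_subset (show fours B h a ∪ famE B h a ⊆ blockFinset B from
        Finset.union_subset fours_subset (Finset.filter_subset _ _)),
      hfE, show (blockFinset B).card = Nat.card B by
        rw [Nat.card_eq_card_finite_toFinset (Set.toFinite B)]; congr 1,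
      C.split_card, hFE, hFO, hI, Finset.card_empty]
  rcases (show zSign z ψ = 1 ∨ zSign z ψ = -1 by unfold zSign; split_ifs <;> simp) with e | e
  · have : P = fours B h a ∪ famE B h a := by
      ext χ
      simp only [hP, Finset.mem_filter]
      constructor
      · rintro ⟨hχ, h1⟩; exact (C.sign_eq_iff hz hψ hχ).1 (h1.trans e.symm)
      · intro hu
        have hχ : χ ∈ blockFinset B :=
          Finset.union_subset fours_subset (Finset.filter_subset _ _) hu
        exact ⟨hχ, ((C.sign_eq_iff hz hψ hχ).2 hu).trans e⟩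
    rw [this, hfE] at hk7
    norm_num at hk7
  · have : P = blockFinset B \ (fours B h a ∪ famE B h a) := by
      ext χ
      simp only [hP, Finset.mem_filter, Finset.mem_sdiff]
      refine and_congr_right fun hχ => ?_
      rw [← C.sign_eq_iff hz hψ hχ, e]
      rcases (show zSign z χ = 1 ∨ zSign z χ = -1 by unfold zSign; split_ifs <;> simp) with q | q <;>
        rw [q] <;> norm_num
    rw [this, hrest] at hk7
    norm_num at hk7

/-- The rank and the number of extra classes add up to three. -/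
theorem central_count [Fintype (IrrCharacter G)] : blockRank 2 B + E.card = 3 := by
  obtain ⟨hFE, -, hall⟩ := C.counts_generic (C.not_tight hz)
  obtain ⟨ψ, hψ⟩ := Finset.card_pos.1
    (show 0 < (fours B h a).card by rw [C.card_fours]; norm_num)
  set P := fours B h a ∪ famE B h a
  have hPsub : P ⊆ blockFinset B := Finset.union_subset fours_subset (Finset.filter_subset _ _)
  -- the signed trace vanishes
  have h0 : ∑ χ ∈ blockFinset B, zSign z χ * cM M D e0 h 1 χ χ = 0 := by
    have hrow : ∀ χ ∈ blockFinset B,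
        ∑ φ ∈ blockFinset B, zSign z φ * cM M D e0 h 1 χ φ ^ 2 = 0 := by
      intro χ _
      have h1 := C.sum_cM_mul (Or.inl rfl) (Or.inr rfl) χ χ
      rw [if_neg (fun e => C.tame.two_h_ne_zero (C.tame.rot_eq_one.1 e.symm)),
        Finset.sum_congr rfl (g := fun φ => zSign z χ * (zSign z φ * cM M D e0 h 1 χ φ ^ 2))
          fun φ _ => by rw [C.cM_z_eq hz, C.cM_comm (Or.inl rfl) φ χ]; ring,
        ← Finset.mul_sum] at h1
      have := congrArg (zSign z χ * ·) h1
      simp only [← mul_assoc, zSign_sq, one_mul, mul_zero] at this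
      exact this
    have h2 := Finset.sum_eq_zero hrow
    rw [Finset.sum_comm, Finset.sum_congr rfl (g := fun φ =>
      ((8 * h : ℕ) : ℤ) * (zSign z φ * cM M D e0 h 1 φ φ)) fun φ _ => by
        have h1 := C.sum_cM_mul (Or.inl rfl) (Or.inl rfl) φ φ
        rw [if_pos rfl] at h1
        rw [← Finset.mul_sum, mul_left_comm, ← h1]
        congr 1
        exact Finset.sum_congr rfl fun χ _ => by rw [C.cM_comm (Or.inl rfl) χ φ, pow_two],
      ← Finset.mul_sum] at h2
    exact (mul_eq_zero.1 h2).resolve_left (Nat.cast_ne_zero.2 (by have := C.h_pos; omega))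
  have hl : ∑ χ ∈ blockFinset B, cM M D e0 h 1 χ χ = ((8 * h : ℕ) : ℤ) * (blockRank 2 B : ℤ) := by
    rw [C.sum_cM_self (Or.inl rfl), blockRank_belowBlock_one C.hM C.hB C.hmax]
  have h2P : 2 * ∑ χ ∈ P, cM M D e0 h 1 χ χ = ((8 * h : ℕ) : ℤ) * (blockRank 2 B : ℤ) := by
    rw [← hl]
    have h3 : zSign z ψ * (∑ χ ∈ blockFinset B, zSign z χ * cM M D e0 h 1 χ χ) =
        ∑ χ ∈ P, cM M D e0 h 1 χ χ - ∑ χ ∈ blockFinset B \ P, cM M D e0 h 1 χ χ := by
      rw [Finset.mul_sum, ← Finset.sum_sdiff hPsub, add_comm, sub_eq_add_neg,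
        ← Finset.sum_neg_distrib]
      congr 1 <;> refine Finset.sum_congr rfl fun χ hχ => ?_
      · rw [← mul_assoc, (C.sign_eq_iff hz hψ (hPsub hχ)).2 hχ, zSign_sq, one_mul]
      · obtain ⟨hχB, hχP⟩ := Finset.mem_sdiff.1 hχ
        have hne : ¬ zSign z χ = zSign z ψ := fun e => hχP ((C.sign_eq_iff hz hψ hχB).1 e)
        have : zSign z ψ * zSign z χ = -1 := by
          unfold zSign at hne ⊢
          split_ifs at hne ⊢ <;> simp_all
        rw [← mul_assoc, this, neg_one_mul]
    rw [h0, mul_zero] at h3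
    rw [← Finset.sum_sdiff hPsub]
    linarith
  -- the part on the four and the family
  have hsumE : ∑ χ ∈ famE B h a, cM M D e0 h 1 χ χ = 4 * ((h : ℤ) - 1) := by
    rw [Finset.sum_congr rfl (g := fun _ => (4 : ℤ)) fun χ hχ => ?_, Finset.sum_const, hFE,
      nsmul_eq_mul, Nat.cast_sub C.h_pos]
    · push_cast; ring
    · obtain ⟨hχB, h4, hw⟩ := Finset.mem_filter.1 hχ
      exact (C.family_facts (mem_blockFinset.1 hχB) h4 fun e => hw e.1).2.2.2.1
  have hdisj : Disjoint (fours B h a) (famE B h a) := by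
    rw [Finset.disjoint_left]
    exact fun χ h1 h2 => (Finset.mem_filter.1 h2).2.1 h1
  have hfour : 2 * ((∑ χ ∈ fours B h a, cM M D e0 h 1 χ χ : ℤ) : ℝ) =
      4 * (8 * h : ℝ) - 8 * (2 * h - 1) - (8 * h : ℝ) * (E.card : ℝ) := by
    have h5 : ∑ χ ∈ fours B h a, ((cM M D e0 h 1 χ χ : ℝ) + cM M D e0 h z χ χ +
        2 * ((wt h (a χ) 0 : ℝ) + wt h (a χ) 1) +
        (8 * h : ℕ) * ∑ u ∈ E, tre M D e0 u χ) = ∑ _χ ∈ fours B h a, ((8 * h : ℕ) : ℝ) :=
      Finset.sum_congr rfl fun χ hχ => C.diag_eq (mem_blockFinset.1 (fours_subset hχ))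
    rw [Finset.sum_const, C.card_fours, Finset.sum_add_distrib, ← Finset.mul_sum,
      Finset.sum_comm (s := fours B h a) (t := E),
      Finset.sum_congr rfl fun u hu => (C.subT_E_eq_zero hu).2.2, Finset.sum_const,
      Finset.sum_congr rfl (g := fun χ => 2 * (cM M D e0 h 1 χ χ : ℝ) + 2 * ((2 * h - 1 : ℤ) : ℝ))
        fun χ hχ => by rw [C.cM_z_self hz, (hall χ hχ).1, (hall χ hχ).2]; push_cast; ring,
      Finset.sum_add_distrib, ← Finset.mul_sum, Finset.sum_const, C.card_fours] at h5
    push_cast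
    simp only [nsmul_eq_mul] at h5
    push_cast at h5
    linarith
  rw [Finset.sum_union hdisj, hsumE] at h2P
  have h6 : (24 : ℝ) * h - 8 * h * E.card = 8 * h * blockRank 2 B := by
    have h7 := congrArg (Int.cast : ℤ → ℝ) h2P
    push_cast at h7 hfour
    linarith
  have hh : (0 : ℝ) < h := Nat.cast_pos.2 C.h_pos
  have h8 : ((blockRank 2 B + E.card : ℕ) : ℝ) = ((3 : ℕ) : ℝ) := by
    push_cast
    refine mul_left_cancel₀ (show (8 * h : ℝ) ≠ 0 by positivity) ?_
    linarith
  exact_mod_cast h8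

end Ctx

end CfsgLib.QuatBlock
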