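import Cfsg.Agent.Lib.QuatBlock.Reps

/-!
# The weights of the coefficient systems at the rotations

For each parity the weight is the scaled variance of the coefficients at the positions of that
parity. Small weights force two adjacent values, and the relations fix the totals.
-/

set_option autoImplicit false
set_option linter.style.haveILetI false
set_option linter.unusedSectionVars false

noncomputable section

namespace CfsgLib.QuatBlock

open Finset
open CfsgLib.DihedralBlock (rot)
open scoped Classical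

/-- A set with twice a sum of squared differences. -/
theorem two_mul_variance {α : Type*} (s : Finset α) (f : α → ℤ) :
    2 * ((s.card : ℤ) * ∑ j ∈ s, f j ^ 2 - (∑ j ∈ s, f j) ^ 2) =
      ∑ j ∈ s, ∑ k ∈ s, (f j - f k) ^ 2 := by
  simp only [sub_sq, sum_add_distrib, sum_sub_distrib, sum_const, nsmul_eq_mul, mul_assoc,
    ← mul_sum, ← sum_mul]
  push_cast
  ring

/-- A small variance leaves two adjacent values. -/
theorem exists_two_values {α : Type*} (s : Finset α) (f : α → ℤ)
    (hlt : (s.card : ℤ) * ∑ j ∈ s, f j ^ 2 - (∑ j ∈ s, f j) ^ 2 < 2 * s.card) :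
    ∃ m : ℤ, ∀ j ∈ s, f j = m ∨ f j = m + 1 := by
  classical
  rcases s.eq_empty_or_nonempty with rfl | hne
  · exact ⟨0, by simp⟩
  obtain ⟨j0, hj0, hmin⟩ := Finset.exists_min_image s f hne
  refine ⟨f j0, fun l hl => ?_⟩
  by_contra hc
  push Not at hc
  have h2 : f j0 + 2 ≤ f l := by have := hmin l hl; omega
  have hne' : j0 ≠ l := fun e => by subst e; omega
  set T : Finset α := {j0, l} with hT
  have hTs : T ⊆ s := by intro j hj; simp [hT] at hj; rcases hj with rfl | rfl <;> assumption
  have hTc : T.card = 2 := card_pair hne'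
  have hbound : ∀ k, 2 ≤ (f j0 - f k) ^ 2 + (f l - f k) ^ 2 := fun k => by
    nlinarith [sq_nonneg (f j0 + f l - 2 * f k)]
  have h4 : (4 : ℤ) ≤ (f l - f j0) ^ 2 := by nlinarith
  have hA : 2 * (s.card : ℤ) + 4 ≤ ∑ k ∈ s, ((f j0 - f k) ^ 2 + (f l - f k) ^ 2) := by
    rw [← sum_sdiff hTs]
    have h1 : 2 * ((s \ T).card : ℤ) ≤ ∑ k ∈ s \ T, ((f j0 - f k) ^ 2 + (f l - f k) ^ 2) := by
      calc 2 * ((s \ T).card : ℤ) = ∑ _k ∈ s \ T, (2 : ℤ) := by simp [mul_comm]
        _ ≤ _ := sum_le_sum fun k _ => hbound k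
    have h3 : (8 : ℤ) ≤ ∑ k ∈ T, ((f j0 - f k) ^ 2 + (f l - f k) ^ 2) := by
      rw [hT, sum_pair hne']
      nlinarith
    rw [card_sdiff_of_subset hTs, hTc] at h1
    have h5 : 2 ≤ s.card := hTc ▸ card_le_card hTs
    push_cast [h5] at h1
    linarith
  have hB : 2 * (s.card : ℤ) - 4 ≤ ∑ j ∈ s \ T, ∑ k ∈ s, (f j - f k) ^ 2 := by
    calc 2 * (s.card : ℤ) - 4 = ∑ _j ∈ s \ T, (2 : ℤ) := by
          rw [sum_const, card_sdiff_of_subset hTs, hTc, nsmul_eq_mul]
          push_cast [(hTc ▸ card_le_card hTs : 2 ≤ s.card)]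
          ring
      _ ≤ _ := sum_le_sum fun j _ => by
          calc (2 : ℤ) ≤ ∑ k ∈ T, (f j - f k) ^ 2 := by
                rw [hT, sum_pair hne', sub_sq_comm, sub_sq_comm (f j) (f l)]
                exact hbound j
            _ ≤ _ := sum_le_sum_of_subset_of_nonneg hTs fun k _ _ => sq_nonneg _
  have h6 := two_mul_variance s f
  have h7 : ∑ j ∈ s, ∑ k ∈ s, (f j - f k) ^ 2 = ∑ j ∈ s \ T, ∑ k ∈ s, (f j - f k) ^ 2 +
      (∑ k ∈ s, (f j0 - f k) ^ 2 + ∑ k ∈ s, (f l - f k) ^ 2) := by
    rw [← sum_sdiff hTs, hT, sum_pair hne']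
  rw [sum_add_distrib] at hA
  linarith

/-- The variance of two adjacent values. -/
theorem variance_two_values {α : Type*} (s : Finset α) (f : α → ℤ) {m : ℤ}
    (hm : ∀ j ∈ s, f j = m ∨ f j = m + 1) :
    (s.card : ℤ) * ∑ j ∈ s, f j ^ 2 - (∑ j ∈ s, f j) ^ 2 =
      ((s.filter fun j => f j = m + 1).card : ℤ) *
        (s.card - (s.filter fun j => f j = m + 1).card) := by
  classical
  have h1 : ∀ j ∈ s, f j = m + if f j = m + 1 then 1 else 0 := fun j hj => by
    rcases hm j hj with e | e <;> simp [e]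
  have h2 : ∑ j ∈ s, f j = (s.card : ℤ) * m + (s.filter fun j => f j = m + 1).card := by
    rw [sum_congr rfl h1, sum_add_distrib, sum_const, nsmul_eq_mul, sum_boole]
  have h3 : ∑ j ∈ s, f j ^ 2 =
      (s.card : ℤ) * m ^ 2 + (2 * m + 1) * (s.filter fun j => f j = m + 1).card := by
    rw [sum_congr rfl (g := fun j => m ^ 2 + (2 * m + 1) * if f j = m + 1 then 1 else 0)
      fun j hj => by rcases hm j hj with e | e <;> simp [e] <;> ring,
      sum_add_distrib, sum_const, nsmul_eq_mul, ← mul_sum, sum_boole]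
  rw [h2, h3]
  ring

/-- The positions of one parity. -/
def pos (h : ℕ) [NeZero (4 * h)] (c : ZMod 2) : Finset (ZMod (4 * h)) :=
  univ.filter fun j => par h j = c

/-- The weight of one parity. -/
def wt (h : ℕ) [NeZero (4 * h)] (a : ZMod (4 * h) → ℤ) (c : ZMod 2) : ℤ :=
  (2 * h : ℕ) * ∑ j ∈ pos h c, a j ^ 2 - (∑ j ∈ pos h c, a j) ^ 2

section Wt

variable {h : ℕ} [NeZero (4 * h)]

theorem mem_pos {c : ZMod 2} {j : ZMod (4 * h)} : j ∈ pos h c ↔ par h j = c := by simp [pos]

theorem card_pos (c : ZMod 2) : (pos h c).card = 2 * h := by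
  have h01 : (pos h 0).card = (pos h 1).card :=
    card_nbij' (fun j => j + 1) (fun j => j - 1)
      (fun j hj => by rw [mem_coe, mem_pos] at *; rw [map_add, hj, map_one, zero_add])
      (fun j hj => by rw [mem_coe, mem_pos] at *; rw [map_sub, hj, map_one, sub_self])
      (fun j _ => add_sub_cancel_right j 1) (fun j _ => sub_add_cancel j 1)
  have hsum := card_filter_add_card_filter_not (s := (univ : Finset (ZMod (4 * h))))
    (fun j => par h j = 0)
  have e : (univ.filter fun j : ZMod (4 * h) => ¬ par h j = 0) = pos h 1 := by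
    ext j
    simp only [mem_filter, mem_univ, true_and, mem_pos]
    exact (show ∀ a : ZMod 2, ¬ a = 0 ↔ a = 1 by decide) _
  rw [e, card_univ, ZMod.card, show (univ.filter fun j : ZMod (4 * h) => par h j = 0) = pos h 0
    from rfl] at hsum
  rcases (by decide : ∀ a : ZMod 2, a = 0 ∨ a = 1) c with rfl | rfl <;> omega

theorem two_mul_wt (a : ZMod (4 * h) → ℤ) (c : ZMod 2) :
    2 * wt h a c = ∑ j ∈ pos h c, ∑ k ∈ pos h c, (a j - a k) ^ 2 := by
  rw [← two_mul_variance, card_pos]; rfl

theorem wt_nonneg (a : ZMod (4 * h) → ℤ) (c : ZMod 2) : 0 ≤ wt h a c := by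
  have : 0 ≤ 2 * wt h a c := by
    rw [two_mul_wt]; exact sum_nonneg fun j _ => sum_nonneg fun k _ => sq_nonneg _
  linarith

theorem eq_of_wt_eq_zero {a : ZMod (4 * h) → ℤ} {c : ZMod 2} (h0 : wt h a c = 0)
    {j k : ZMod (4 * h)} (hj : par h j = c) (hk : par h k = c) : a j = a k := by
  have h1 := two_mul_wt a c
  rw [h0, mul_zero] at h1
  have h2 := (sum_eq_zero_iff_of_nonneg fun j _ => sum_nonneg fun k _ => sq_nonneg _).1 h1.symm j
    (mem_pos.2 hj)
  have h3 := (sum_eq_zero_iff_of_nonneg fun k _ => sq_nonneg _).1 h2 k (mem_pos.2 hk)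
  exact sub_eq_zero.1 (pow_eq_zero_iff two_ne_zero |>.1 h3)

end Wt

variable {G : Type*} [Group G] {D : Subgroup G} {x : G} {h : ℕ} {t : ZMod (4 * h)}
  [NeZero (4 * h)] (S : IsTame D x h t)
include S

/-- The two kinds of weights below `4 * h`. -/
theorem small_product {s : ℕ} (hs : s ≤ 2 * h) (hlt : (s : ℤ) * ((2 * h : ℕ) - s) < 4 * h) :
    (Even s → (s : ℤ) * ((2 * h : ℕ) - s) = 0 ∨ (s : ℤ) * ((2 * h : ℕ) - s) = 4 * h - 4) ∧
      (Odd s → (s : ℤ) * ((2 * h : ℕ) - s) = 2 * h - 1 ∨
        (h = 4 ∧ (s : ℤ) * ((2 * h : ℕ) - s) = 15)) := by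
  obtain ⟨r, hr, hrs, hre⟩ : ∃ r : ℕ, r ≤ h ∧ (r = s ∨ r + s = 2 * h) ∧
      (s : ℤ) * ((2 * h : ℕ) - s) = (r : ℤ) * (2 * h - r) := by
    rcases le_or_gt s h with e | e
    · exact ⟨s, e, Or.inl rfl, by push_cast; ring⟩
    · refine ⟨2 * h - s, by omega, Or.inr (by omega), ?_⟩
      push_cast [hs]
      ring
  rw [hre] at hlt ⊢
  have hr4 : r < 4 := by
    by_contra hc
    push Not at hc
    have h1 : (4 : ℤ) ≤ r := by exact_mod_cast hc
    have h2 : (r : ℤ) ≤ h := by exact_mod_cast hr
    nlinarith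
  have hpar : Even r ↔ Even s := by
    rcases hrs with rfl | e
    · rfl
    · have : Even (r + s) := e ▸ ⟨h, by ring⟩
      exact Nat.even_add.1 this
  constructor
  · intro he
    have he' := hpar.2 he
    interval_cases r
    · left; simp
    · exact absurd he' (by decide)
    · right; ring
    · exact absurd he' (by decide)
  · intro ho
    have ho' : ¬ Even r := fun e => (Nat.not_even_iff_odd.2 ho) (hpar.1 e)
    interval_cases r
    · exact absurd (by decide) ho'
    · left; ring
    · exact absurd (by decide) ho'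
    · right
      obtain ⟨k, hk⟩ := S.exists_pow
      have h5 : h ≤ 4 := by push_cast at hlt; omega
      have h4 : h = 4 := by
        rcases k with _ | _ | _ | k
        · simp at hk; omega
        · simp at hk; omega
        · simpa using hk
        · have : 8 ≤ h := hk ▸ le_of_eq_of_le (by norm_num : 8 = 2 ^ 3)
            (Nat.pow_le_pow_right (by norm_num) (by omega))
          omega
      exact ⟨h4, by rw [h4]; norm_num⟩

/-- The count of an invariant predicate at one parity, modulo two. -/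
theorem count_mod_two (P : ZMod (4 * h) → Prop) [DecidablePred P] (hP : ∀ j, P (t * j) ↔ P j) (c : ZMod 2) :
    (((pos h c).filter P).card : ZMod 2) =
      if c = 0 then (if P 0 then 1 else 0) + (if P ((2 * h : ℕ) : ZMod (4 * h)) then 1 else 0)
      else 0 := by
  rw [Finset.natCast_card_filter,
    ← sum_filter_add_sum_filter_not (pos h c) (fun j => t * j = j)]
  have hmove : ∑ j ∈ (pos h c).filter (fun j => ¬ t * j = j),
      (if P j then (1 : ZMod 2) else 0) = 0 := by
    refine sum_involution (fun j _ => t * j) (fun j _ => ?_) (fun j hj _ => (mem_filter.1 hj).2)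
      (fun j hj => ?_) fun j _ => by rw [← mul_assoc, S.t_mul_t, one_mul]
    · rw [if_congr (hP j) rfl rfl, CharTwo.add_self_eq_zero]
    · obtain ⟨h1, h2⟩ := mem_filter.1 hj
      rw [mem_filter, mem_pos, S.par_t_mul]
      exact ⟨mem_pos.1 h1, fun e => h2 (by
        conv_rhs => rw [← one_mul j, ← S.t_mul_t, mul_assoc]
        exact e.symm)⟩
  rw [hmove, add_zero]
  by_cases hc : c = 0
  · subst hc
    rw [if_pos rfl, show (pos h 0).filter (fun j => t * j = j) =
      {0, ((2 * h : ℕ) : ZMod (4 * h))} from ?_, sum_pair (Ne.symm S.two_h_ne_zero)]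
    ext j
    simp only [mem_filter, mem_pos, S.t_mul_fix, mem_insert, mem_singleton]
    exact ⟨And.right, fun e => ⟨by rcases e with rfl | rfl; exacts [map_zero _, S.par_two_h], e⟩⟩
  · rw [if_neg hc, sum_eq_zero]
    intro j hj
    obtain ⟨h1, h2⟩ := mem_filter.1 hj
    exfalso
    refine hc ((mem_pos.1 h1).symm.trans ?_)
    rcases S.t_mul_fix.1 h2 with rfl | rfl
    exacts [map_zero _, S.par_two_h]

variable {a : ZMod (4 * h) → ℤ} (hsym : ∀ j, a (t * j) = a j)
include hsym

/-- The weight of the odd positions. -/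
theorem wt_one_cases (hlt : wt h a 1 < 4 * h) : wt h a 1 = 0 ∨ wt h a 1 = 4 * h - 4 := by
  obtain ⟨m, hm⟩ := exists_two_values (pos h 1) a (by
    have := hlt; rw [wt] at this; rw [card_pos]; push_cast at this ⊢; linarith)
  have hv := variance_two_values (pos h 1) a hm
  rw [card_pos] at hv
  have h2 := count_mod_two S (fun j => a j = m + 1) (fun j => by rw [hsym]) 1
  rw [if_neg one_ne_zero, ZMod.natCast_eq_zero_iff] at h2
  have hle := card_le_card (filter_subset (fun j => a j = m + 1) (pos h 1))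
  rw [card_pos] at hle
  rw [wt, hv] at hlt ⊢
  exact (small_product S hle hlt).1 (even_iff_two_dvd.2 h2)

/-- The weight of the even positions. -/
theorem wt_zero_cases (hlt : wt h a 0 < 4 * h) :
    |a 0 - a ((2 * h : ℕ) : ZMod (4 * h))| ≤ 1 ∧
    (a 0 = a ((2 * h : ℕ) : ZMod (4 * h)) → wt h a 0 = 0 ∨ wt h a 0 = 4 * h - 4) ∧
    (a 0 ≠ a ((2 * h : ℕ) : ZMod (4 * h)) → wt h a 0 = 2 * h - 1 ∨ (h = 4 ∧ wt h a 0 = 15)) := by
  obtain ⟨m, hm⟩ := exists_two_values (pos h 0) a (by
    have := hlt; rw [wt] at this; rw [card_pos]; push_cast at this ⊢; linarith)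
  have hv := variance_two_values (pos h 0) a hm
  rw [card_pos] at hv
  have h2 := count_mod_two S (fun j => a j = m + 1) (fun j => by rw [hsym]) 0
  rw [if_pos rfl] at h2
  have hle := card_le_card (filter_subset (fun j => a j = m + 1) (pos h 0))
  rw [card_pos] at hle
  rw [wt, hv] at hlt ⊢
  obtain ⟨he, ho⟩ := small_product S hle hlt
  have hA := hm 0 (mem_pos.2 (map_zero _))
  have hB := hm _ (mem_pos.2 (S.par_two_h))
  refine ⟨abs_le.2 (by omega), fun e => he ?_, fun e => ho ?_⟩
  · rw [even_iff_two_dvd, ← ZMod.natCast_eq_zero_iff, h2, e, CharTwo.add_self_eq_zero]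
  · rw [← Nat.not_even_iff_odd, even_iff_two_dvd, ← ZMod.natCast_eq_zero_iff, h2]
    rcases hA with hA | hA <;> rcases hB with hB | hB
    · exact absurd (hA.trans hB.symm) e
    · rw [if_pos hB, if_neg (by omega)]; decide
    · rw [if_pos hA, if_neg (by omega)]; decide
    · exact absurd (hA.trans hB.symm) e

omit hsym

/-- The right hand side of the relations. -/
def ev (t : ZMod (4 * h)) (j l : ZMod (4 * h)) : ℤ :=
  (if j = l then 1 else 0) + if j = t * l then 1 else 0

variable {α : Type*} (s : Finset α) (A : α → ZMod (4 * h) → ℤ)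
  (hrel : ∀ j k l q : ZMod (4 * h), par h j = par h k → par h l = par h q →
    ∑ χ ∈ s, (A χ j - A χ k) * (A χ l - A χ q) = ev t j l - ev t j q - ev t k l + ev t k q)
include hrel

theorem sum_wt (c : ZMod 2) :
    ∑ χ ∈ s, wt h (A χ) c = 4 * (h : ℤ) ^ 2 - if c = 0 then 0 else 4 * (h : ℤ) := by
  have h1 : ∑ χ ∈ s, 2 * wt h (A χ) c =
      ∑ j ∈ pos h c, ∑ k ∈ pos h c, (ev t j j - ev t j k - ev t k j + ev t k k) := by
    simp only [two_mul_wt, sq]
    rw [sum_comm]
    refine sum_congr rfl fun j hj => ?_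
    rw [sum_comm]
    exact sum_congr rfl fun k hk =>
      hrel j k j k ((mem_pos.1 hj).trans (mem_pos.1 hk).symm)
        ((mem_pos.1 hj).trans (mem_pos.1 hk).symm)
  have hrow : ∀ j ∈ pos h c, ∑ k ∈ pos h c, ev t j k = 2 := fun j hj => by
    simp only [ev, sum_add_distrib, sum_ite_eq, if_pos hj]
    rw [sum_eq_single (t * j)]
    · rw [if_pos (by rw [← mul_assoc, S.t_mul_t, one_mul])]; norm_num
    · intro k _ hk
      exact if_neg fun e => hk (by rw [e, ← mul_assoc, S.t_mul_t, one_mul])
    · intro hn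
      exact absurd (mem_pos.2 ((S.par_t_mul j).trans (mem_pos.1 hj))) hn
  have hcol : ∀ j ∈ pos h c, ∑ k ∈ pos h c, ev t k j = 2 := fun j hj => by
    simp only [ev, sum_add_distrib, sum_ite_eq', if_pos hj,
      if_pos (mem_pos.2 ((S.par_t_mul j).trans (mem_pos.1 hj)) : t * j ∈ pos h c)]
    norm_num
  have hdiag : ∑ j ∈ pos h c, ev t j j = (2 * h : ℕ) + if c = 0 then (2 : ℤ) else 0 := by
    simp only [ev, if_true, sum_add_distrib, sum_const, card_pos, nsmul_eq_mul, mul_one]
    congr 1
    rw [sum_boole]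
    split_ifs with hc
    · subst hc
      rw [show (pos h 0).filter (fun j => j = t * j) = {0, ((2 * h : ℕ) : ZMod (4 * h))} from ?_,
        card_pair (Ne.symm S.two_h_ne_zero)]
      · rfl
      ext j
      simp only [mem_filter, mem_pos, eq_comm (a := j), S.t_mul_fix, mem_insert, mem_singleton]
      exact ⟨And.right, fun e => ⟨by rcases e with e | e <;> rw [← e]; exacts [map_zero _, S.par_two_h], e⟩⟩
    · rw [show (pos h c).filter (fun j => j = t * j) = ∅ from ?_]
      · rfl
      refine filter_eq_empty_iff.2 fun j hj e => hc ((mem_pos.1 hj).symm.trans ?_)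
      rcases S.t_mul_fix.1 e.symm with rfl | rfl
      exacts [map_zero _, S.par_two_h]
  simp only [sum_add_distrib, sum_sub_distrib, sum_const, card_pos, nsmul_eq_mul, ← mul_sum] at h1
  rw [sum_congr rfl hrow, sum_congr rfl hcol, hdiag, sum_const, card_pos] at h1
  simp only [nsmul_eq_mul] at h1
  push_cast at h1
  split_ifs at h1 ⊢ <;> linarith

theorem sum_sq_diff :
    ∑ χ ∈ s, (A χ 0 - A χ ((2 * h : ℕ) : ZMod (4 * h))) ^ 2 = 4 := by
  have h1 := hrel 0 ((2 * h : ℕ) : ZMod (4 * h)) 0 ((2 * h : ℕ) : ZMod (4 * h))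
    (by rw [map_zero, S.par_two_h]) (by rw [map_zero, S.par_two_h])
  simp only [ev, mul_zero, (S.t_mul_fix).2 (Or.inr rfl), Ne.symm S.two_h_ne_zero, S.two_h_ne_zero,
    if_true, if_false] at h1
  simp only [sq]
  rw [h1]
  norm_num

/-- Exactly four rows differ at the two fixed positions. -/
theorem card_four (hbd : ∀ χ ∈ s, |A χ 0 - A χ ((2 * h : ℕ) : ZMod (4 * h))| ≤ 1) :
    (s.filter fun χ => A χ 0 ≠ A χ ((2 * h : ℕ) : ZMod (4 * h))).card = 4 := by
  have h1 := sum_sq_diff S s A hrel
  rw [sum_congr rfl (g := fun χ => if A χ 0 ≠ A χ ((2 * h : ℕ) : ZMod (4 * h)) then 1 else 0)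
    fun χ hχ => ?_, sum_boole] at h1
  · exact_mod_cast h1
  · have := abs_le.1 (hbd χ hχ)
    split_ifs with hne
    · have : A χ 0 - A χ ((2 * h : ℕ) : ZMod (4 * h)) = 1 ∨
          A χ 0 - A χ ((2 * h : ℕ) : ZMod (4 * h)) = -1 := by omega
      rcases this with e | e <;> rw [e] <;> norm_num
    · push Not at hne
      rw [hne]; ring

/-- At order sixteen an even number of the four have odd weight at the odd positions. -/
theorem even_card_mixed (hh : h = 2) (hsymA : ∀ χ ∈ s, ∀ j, A χ (t * j) = A χ j)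
    (hlt : ∀ χ ∈ s, wt h (A χ) 0 < 4 * h ∧ wt h (A χ) 1 < 4 * h) :
    Even (s.filter fun χ => A χ 0 ≠ A χ ((2 * h : ℕ) : ZMod (4 * h)) ∧ wt h (A χ) 1 ≠ 0).card := by
  set o : ZMod (4 * h) := 1 with ho
  set o' : ZMod (4 * h) := 1 + ((2 * h : ℕ) : ZMod (4 * h)) with ho'
  have hpo : par h o = 1 := map_one _
  have hpo' : par h o' = 1 := by rw [ho', map_add, map_one, S.par_two_h, add_zero]
  have hne1 : o ≠ o' := fun e => S.two_h_ne_zero (by linear_combination -e)
  have hto : t * o ≠ o := fun e => by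
    rcases S.t_mul_fix.1 e with e' | e'
    · exact one_ne_zero (hpo.symm.trans (by rw [e', map_zero]))
    · exact one_ne_zero (hpo.symm.trans (by rw [e', S.par_two_h]))
  have hto' : t * o ≠ o' := by
    intro e
    rw [ho, mul_one, ho'] at e
    rcases S.cases with ⟨ht, -⟩ | ⟨-, ht, -⟩
    · rw [ht] at e
      have e2 : (2 : ZMod (4 * h)) + ((2 * h : ℕ) : ZMod (4 * h)) = 0 := by linear_combination -e
      subst hh
      revert e2
      decide
    · rw [ht] at e
      have e2 : (2 : ZMod (4 * h)) = 0 := by linear_combination -e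
      subst hh
      revert e2
      decide
  have h1 := hrel 0 ((2 * h : ℕ) : ZMod (4 * h)) o o' (by rw [map_zero, S.par_two_h])
    (hpo.trans hpo'.symm)
  have hz : ∀ l q : ZMod (4 * h), par h l = 0 → par h q = 1 → ev t l q = 0 := fun l q hl hq => by
    rw [ev, if_neg fun e => one_ne_zero (hq.symm.trans (by rw [← e, hl])),
      if_neg fun e => one_ne_zero (hq.symm.trans (by rw [← S.par_t_mul q, ← e, hl])), add_zero]
  rw [hz _ _ (map_zero _) hpo, hz _ _ (map_zero _) hpo', hz _ _ S.par_two_h hpo,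
    hz _ _ S.par_two_h hpo'] at h1
  have h2 := congrArg (fun z : ℤ => (z : ZMod 2)) h1
  simp only [Int.cast_sum, Int.cast_sub, Int.cast_zero, Int.cast_add, sub_zero, add_zero] at h2
  rw [even_iff_two_dvd, ← ZMod.natCast_eq_zero_iff, Finset.natCast_card_filter]
  refine Eq.trans ?_ h2
  refine sum_congr rfl fun χ hχ => ?_
  obtain ⟨hb, -⟩ := wt_zero_cases S (hsymA χ hχ) (hlt χ hχ).1
  obtain ⟨m, hm⟩ := exists_two_values (pos h 1) (A χ) (by
    have := (hlt χ hχ).2; rw [wt] at this; rw [card_pos]; push_cast at this ⊢; linarith)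
  have hall : ∀ j ∈ pos h 1, A χ j = A χ o ∨ A χ j = A χ o' := by
    intro j hj
    have h4 : ({o, t * o, o', t * o'} : Finset (ZMod (4 * h))) = pos h 1 := by
      refine eq_of_subset_of_card_le ?_ (le_of_eq ?_)
      · intro k hk
        simp only [mem_insert, mem_singleton] at hk
        rw [mem_pos]
        rcases hk with rfl | rfl | rfl | rfl
        exacts [hpo, (S.par_t_mul _).trans hpo, hpo', (S.par_t_mul _).trans hpo']
      · have hti : ∀ {u v : ZMod (4 * h)}, t * u = t * v → u = v := fun {u v} e => by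
          have := congrArg (fun w => t * w) e
          simpa only [← mul_assoc, S.t_mul_t, one_mul] using this
        have hflip : ∀ {u v : ZMod (4 * h)}, t * u = v → t * v = u := fun {u v} e => by
          rw [← e, ← mul_assoc, S.t_mul_t, one_mul]
        have hto2 : t * o' ≠ o' := fun e => by
          rcases S.t_mul_fix.1 e with e' | e'
          · exact one_ne_zero (hpo'.symm.trans (by rw [e', map_zero]))
          · exact one_ne_zero (hpo'.symm.trans (by rw [e', S.par_two_h]))
        rw [card_pos, card_insert_of_notMem, card_insert_of_notMem, card_insert_of_notMem,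
          card_singleton, hh]
        · simp only [mem_singleton]; exact Ne.symm hto2
        · simp only [mem_insert, mem_singleton, not_or]
          exact ⟨hto', fun e => hne1 (hti e)⟩
        · simp only [mem_insert, mem_singleton, not_or]
          exact ⟨Ne.symm hto, hne1, fun e => hto' (hflip e.symm)⟩
    rw [← h4] at hj
    simp only [mem_insert, mem_singleton] at hj
    rcases hj with rfl | rfl | rfl | rfl
    · exact Or.inl rfl
    · exact Or.inl (hsymA χ hχ o)
    · exact Or.inr rfl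
    · exact Or.inr (hsymA χ hχ o')
  have hiff : wt h (A χ) 1 ≠ 0 ↔ A χ o ≠ A χ o' := by
    constructor
    · intro hw e
      apply hw
      have hc : ∀ j ∈ pos h 1, A χ j = A χ o := fun j hj => (hall j hj).elim id fun e' => e'.trans e.symm
      rw [wt, sum_congr rfl hc, sum_congr rfl fun j hj => by rw [hc j hj]]
      simp [card_pos]
      ring
    · exact fun hne hw => hne (eq_of_wt_eq_zero hw hpo hpo')
  have hd := abs_le.1 hb
  have ho1 := hm o (mem_pos.2 hpo)
  have ho2 := hm o' (mem_pos.2 hpo')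
  have hcases : ∀ u v : ℤ, -1 ≤ u - v → u - v ≤ 1 →
      ((u : ZMod 2) - v) = if u ≠ v then 1 else 0 := by
    intro u v hu hv
    split_ifs with hne
    · rcases (show u - v = 1 ∨ u - v = -1 by omega) with e | e <;>
        rw [← Int.cast_sub, e] <;> decide
    · push Not at hne; rw [hne, sub_self]
  rw [Int.cast_mul, Int.cast_sub, Int.cast_sub, hcases (A χ 0) (A χ _) hd.1 hd.2,
    hcases (A χ o) (A χ o') (by omega) (by omega)]
  simp only [hiff]
  split_ifs <;> simp_all

end CfsgLib.QuatBlock
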