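import Cfsg.Agent.Lib.QuatBlock.Reps

/-!
# A stable generalised character of the defect group

A two-dimensional character, corrected by a linear one in the semidihedral case. Away from the
rotations of order at least eight its value depends only on the order of the element.
-/

set_option autoImplicit false
set_option linter.style.haveILetI false
set_option linter.unusedSectionVars false

noncomputable section

namespace CfsgLib.QuatBlock

open Cfsg CfsgLib.Blocks MonoidAlgebra CfsgLib.BrauerPairs CfsgLib.BlockStar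
open CfsgLib.DihedralBlock (rot)
open scoped Classical

section Group

variable {G : Type*} [Group G] {D : Subgroup G} {x : G} {h : ℕ} {t : ZMod (4 * h)}
  [NeZero (4 * h)]

/-- The exponent of a rotation. -/
def idx (x : G) (u : G) : ZMod (4 * h) := Function.invFun (rot x) u

variable (S : IsTame D x h t)
include S

theorem idx_rot (i : ZMod (4 * h)) : idx x (rot x i) = i :=
  Function.leftInverse_invFun S.rot_injective i

theorem stdAddChar_two_h : ZMod.stdAddChar ((2 * h : ℕ) : ZMod (4 * h)) = -1 := by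
  have h1 : ZMod.stdAddChar ((2 * h : ℕ) : ZMod (4 * h)) *
      ZMod.stdAddChar ((2 * h : ℕ) : ZMod (4 * h)) = 1 := by
    rw [← AddChar.map_add_eq_mul, S.two_h_add_two_h, AddChar.map_zero_eq_one]
  refine (mul_self_eq_one_iff.1 h1).resolve_left fun e => S.two_h_ne_zero ?_
  exact ZMod.injective_stdAddChar (e.trans (AddChar.map_zero_eq_one _).symm)

/-- The two-dimensional value. -/
theorem xi_h : ZMod.stdAddChar (h : ZMod (4 * h)) + ZMod.stdAddChar (t * (h : ZMod (4 * h))) = 0 := by
  have h1 : ZMod.stdAddChar (h : ZMod (4 * h)) * ZMod.stdAddChar (h : ZMod (4 * h)) = -1 := by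
    rw [← AddChar.map_add_eq_mul, ← stdAddChar_two_h S]
    congr 1
    rw [← Nat.cast_add]; congr 1; ring
  have h2 : ZMod.stdAddChar (t * (h : ZMod (4 * h))) * ZMod.stdAddChar (h : ZMod (4 * h)) = 1 := by
    rw [← AddChar.map_add_eq_mul, S.t_mul_h, neg_add_cancel, AddChar.map_zero_eq_one]
  refine (mul_eq_zero.1 ?_).resolve_right
    (show ZMod.stdAddChar (h : ZMod (4 * h)) ≠ 0 from fun e => by simp [e] at h1)
  rw [add_mul, h1, h2, neg_add_cancel]

variable [Fintype D]

/-- The two-dimensional character. -/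
theorem exists_xi : ∃ ξ : G → ℂ, IsGeneralizedCharacter D (fun u : D => ξ (u : G)) ∧
    (∀ i : ZMod (4 * h), ξ (rot x i) = ZMod.stdAddChar i + ZMod.stdAddChar (t * i)) ∧
    ∀ u ∈ D, u ∉ Subgroup.zpowers x → ξ u = 0 := by
  set C : Subgroup D := (Subgroup.zpowers x).subgroupOf D with hC
  let μ : C →* ℂˣ :=
    { toFun := fun c => Units.mk0 (ZMod.stdAddChar (idx x ((c : D) : G) : ZMod (4 * h)))
        (by
          intro e
          have := AddChar.map_add_eq_mul (ZMod.stdAddChar (N := 4 * h)) (idx x ((c : D) : G))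
            (-idx x ((c : D) : G))
          rw [add_neg_cancel, AddChar.map_zero_eq_one, e, zero_mul] at this
          exact one_ne_zero this)
      map_one' := by
        ext
        simp only [Units.val_mk0, OneMemClass.coe_one, Units.val_one]
        rw [← DihedralBlock.rot_zero (N := 4 * h) x, idx_rot S, AddChar.map_zero_eq_one]
      map_mul' := fun c c' => by
        obtain ⟨i, hi⟩ := S.exists_rot (Subgroup.mem_subgroupOf.1 c.2)
        obtain ⟨j, hj⟩ := S.exists_rot (Subgroup.mem_subgroupOf.1 c'.2)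
        ext
        simp only [Units.val_mk0, Units.val_mul, Subgroup.coe_mul]
        rw [← hi, ← hj, ← S.rot_add, idx_rot S, idx_rot S, idx_rot S, AddChar.map_add_eq_mul] }
  have hchar : IsCharacter C (fun c => (μ c : ℂ)) :=
    CharTheory.IsIrrCharacter.isCharacter (CharTheory.isIrrCharacter_linear μ)
  set ind : D → ℂ := indFun C (fun c => (μ c : ℂ)) with hind
  refine ⟨fun u => if hu : u ∈ D then ind ⟨u, hu⟩ else 0, ?_, fun i => ?_, fun u hu huo => ?_⟩
  · have e : (fun u : D => if hu : (u : G) ∈ D then ind ⟨u, hu⟩ else 0) = ind :=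
      funext fun u => by rw [dif_pos u.2]
    rw [e]
    exact CharTheory.IsCharacter.isGeneralizedCharacter (Frobenius.isCharacter_indFun C _ hchar)
  · simp only [dif_pos (S.rot_mem i), hind, indFun]
    have key : ∀ d : D, extendByZero C (fun c => (μ c : ℂ))
        (d⁻¹ * ⟨rot x i, S.rot_mem i⟩ * d) =
        if d ∈ C then ZMod.stdAddChar i else ZMod.stdAddChar (t * i) := by
      intro d
      have hv : ∀ j : ZMod (4 * h), (d : G)⁻¹ * rot x i * d = rot x j →
          extendByZero C (fun c => (μ c : ℂ)) (d⁻¹ * ⟨rot x i, S.rot_mem i⟩ * d) =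
            ZMod.stdAddChar j := by
        intro j hj
        have hm : d⁻¹ * ⟨rot x i, S.rot_mem i⟩ * d ∈ C := Subgroup.mem_subgroupOf.2
          (by show (d : G)⁻¹ * rot x i * d ∈ _; rw [hj]; exact DihedralBlock.rot_mem_zpowers x j)
        rw [extendByZero, show d⁻¹ * ⟨rot x i, S.rot_mem i⟩ * d =
          ((⟨_, hm⟩ : C) : D) from rfl, Subtype.val_injective.extend_apply]
        show ZMod.stdAddChar (idx x ((d : G)⁻¹ * rot x i * d) : ZMod (4 * h)) = _
        rw [hj, idx_rot S]
      split_ifs with hd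
      · refine hv i ?_
        obtain ⟨j, hj⟩ := S.exists_rot (Subgroup.mem_subgroupOf.1 hd)
        rw [← hj, mul_assoc, S.rot_commute i j, inv_mul_cancel_left]
      · exact hv _ (S.conj_rot_inv d.2 (fun hc => hd (Subgroup.mem_subgroupOf.2 hc)) i)
    rw [Finset.sum_congr rfl fun d _ => key d, Finset.sum_ite, Finset.sum_const, Finset.sum_const]
    have hCc : Nat.card C = 4 * h := by
      rw [hC, Nat.card_congr (Subgroup.subgroupOfEquivOfLe S.zpowers_le).toEquiv, S.card_zpowers]
    have hin : (Finset.univ.filter fun d : D => d ∈ C).card = 4 * h := by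
      rw [← hCc, ← Fintype.card_subtype, Nat.card_eq_fintype_card]
    have hout : (Finset.univ.filter fun d : D => d ∉ C).card = 4 * h := by
      have h1 := Finset.card_filter_add_card_filter_not (s := (Finset.univ : Finset D))
        (fun d => d ∈ C)
      rw [Finset.card_univ, ← Nat.card_eq_fintype_card, S.card_eq, hin] at h1
      omega
    rw [hin, hout, hCc, nsmul_eq_mul, nsmul_eq_mul]
    have h0 : ((4 * h : ℕ) : ℂ) ≠ 0 := Nat.cast_ne_zero.2 (NeZero.ne _)
    field_simp
  · simp only [dif_pos hu, hind, indFun]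
    rw [Finset.sum_eq_zero, mul_zero]
    intro d _
    rw [extendByZero, Function.extend_apply']
    · rfl
    rintro ⟨c, hc⟩
    have hc' : (d : G)⁻¹ * u * d ∈ Subgroup.zpowers x := by
      have := Subgroup.mem_subgroupOf.1 c.2
      rw [hc] at this
      exact this
    obtain ⟨j, hj⟩ := S.exists_rot hc'
    have hu' : u = (d : G) * rot x j * (d : G)⁻¹ := by rw [hj]; group
    refine huo ?_
    rw [hu']
    by_cases hd : (d : G) ∈ Subgroup.zpowers x
    · exact mul_mem (mul_mem hd (DihedralBlock.rot_mem_zpowers x j)) (inv_mem hd)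
    · rw [S.conj_rot d.2 hd]; exact DihedralBlock.rot_mem_zpowers x _

/-- A sign. -/
def sgn (i : ZMod (4 * h)) : ℤˣ := if par h i = 0 then 1 else -1

omit S [Fintype D] in
theorem sgn_add (i j : ZMod (4 * h)) : sgn (i + j) = sgn i * sgn j := by
  unfold sgn
  rcases (by decide : ∀ a : ZMod 2, a = 0 ∨ a = 1) (par h i) with a | a <;>
    rcases (by decide : ∀ a : ZMod 2, a = 0 ∨ a = 1) (par h j) with b | b <;>
      rw [map_add, a, b] <;> simp [CharTwo.add_self_eq_zero]

/-- The linear character that is `-1` at the generator and at an outer involution. -/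
theorem exists_lam {y0 : G} (hy : y0 ∈ D) (hyo : y0 ∉ Subgroup.zpowers x) (hy2 : y0 * y0 = 1) :
    ∃ lam : G → ℂ, IsGeneralizedCharacter D (fun u : D => lam (u : G)) ∧
      (∀ i : ZMod (4 * h), lam (rot x i) = if par h i = 0 then 1 else -1) ∧
      ∀ i : ZMod (4 * h), lam (y0 * rot x i) = if par h i = 0 then -1 else 1 := by
  set f : G → ℤˣ := fun u => if u ∈ Subgroup.zpowers x then sgn (idx x u : ZMod (4 * h))
    else -sgn (idx x (y0⁻¹ * u) : ZMod (4 * h)) with hf
  have f1 : ∀ i : ZMod (4 * h), f (rot x i) = sgn i := fun i => by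
    simp only [hf, if_pos (DihedralBlock.rot_mem_zpowers x i), idx_rot S]
  have f2 : ∀ i : ZMod (4 * h), f (y0 * rot x i) = -sgn i := fun i => by
    simp only [hf, if_neg (S.outer_mul_rot hyo i), inv_mul_cancel_left, idx_rot S]
  have hst : ∀ i, sgn (t * i) = sgn i := fun i => by simp [sgn, S.par_t_mul]
  let lamhom : D →* ℤˣ := MonoidHom.mk' (fun u => f (u : G)) fun a b => by
    simp only [Subgroup.coe_mul]
    rcases S.eq_rot_or hy hyo a.2 with ⟨i, hi⟩ | ⟨i, hi⟩ <;>
      rcases S.eq_rot_or hy hyo b.2 with ⟨j, hj⟩ | ⟨j, hj⟩ <;> rw [← hi, ← hj]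
    · rw [← S.rot_add, f1, f1, f1, sgn_add]
    · rw [← mul_assoc, S.rot_mul_outer hy hyo, mul_assoc, ← S.rot_add, f1, f2, f2, sgn_add, hst,
        mul_neg]
    · rw [mul_assoc, ← S.rot_add, f1, f2, f2, sgn_add, neg_mul]
    · rw [mul_assoc y0, ← mul_assoc (rot x i), S.rot_mul_outer hy hyo, mul_assoc y0 (rot x (t * i)),
        ← S.rot_add, ← mul_assoc, hy2, one_mul, f1, f2, f2, sgn_add, hst, neg_mul_neg]
  let lamC : D →* ℂˣ := (Units.map (Int.castRingHom ℂ).toMonoidHom).comp lamhom
  refine ⟨fun u => ((f u : ℤ) : ℂ), ?_, fun i => ?_, fun i => ?_⟩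
  · exact CharTheory.IsIrrCharacter.isGeneralizedCharacter (CharTheory.isIrrCharacter_linear lamC)
  · simp only [f1, sgn]; split_ifs <;> simp
  · simp only [f2, sgn]; split_ifs <;> simp

/-- A generalised character with values depending only on the order below eight. -/
theorem exists_etaFun : ∃ F : G → ℂ, IsGeneralizedCharacter D (fun u : D => F (u : G)) ∧
    (∀ i : ZMod (4 * h), F (rot x (t * i)) = F (rot x i)) ∧
    (∃ a b c : ℂ, (∃ n : ℤ, a = n) ∧ a - b = 4 ∧ ∀ u ∈ D, u ^ 4 = 1 →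
      F u = if u = 1 then a else if u * u = 1 then b else c) := by
  obtain ⟨ξ, hξ, hξr, hξo⟩ := exists_xi S
  have hξt : ∀ i : ZMod (4 * h), ξ (rot x (t * i)) = ξ (rot x i) := fun i => by
    rw [hξr, hξr, ← mul_assoc, S.t_mul_t, one_mul, add_comm]
  have hξ1 : ξ 1 = 2 := by
    rw [← DihedralBlock.rot_zero (N := 4 * h) x, hξr, mul_zero, AddChar.map_zero_eq_one]
    norm_num
  have hξz : ξ (rot x ((2 * h : ℕ) : ZMod (4 * h))) = -2 := by
    rw [hξr, (S.t_mul_fix).2 (Or.inr rfl), stdAddChar_two_h S]; norm_num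
  have hξh : ξ (rot x (h : ZMod (4 * h))) = 0 := by rw [hξr, xi_h S]
  have hξnh : ξ (rot x (-(h : ZMod (4 * h)))) = 0 := by rw [← S.t_mul_h, hξt, hξh]
  have hzsq : rot x ((2 * h : ℕ) : ZMod (4 * h)) * rot x ((2 * h : ℕ) : ZMod (4 * h)) = 1 := by
    rw [← S.rot_add, S.two_h_add_two_h, DihedralBlock.rot_zero]
  have hz1 : rot x ((2 * h : ℕ) : ZMod (4 * h)) ≠ 1 := fun e =>
    S.two_h_ne_zero (S.rot_eq_one.1 e)
  have hh1 : rot x (h : ZMod (4 * h)) ≠ 1 := fun e => S.h_ne_zero (S.rot_eq_one.1 e)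
  have hh2 : rot x (h : ZMod (4 * h)) * rot x (h : ZMod (4 * h)) ≠ 1 :=
    S.rot_sq_ne_one S.h_ne_zero S.h_ne_two_h
  have hnh1 : rot x (-(h : ZMod (4 * h))) ≠ 1 := by rwa [S.rot_neg, Ne, inv_eq_one]
  have hnh2 : rot x (-(h : ZMod (4 * h))) * rot x (-(h : ZMod (4 * h))) ≠ 1 := by
    rw [S.rot_neg, ← mul_inv_rev]; exact fun e => hh2 (inv_eq_one.1 e)
  rcases S.cases with ⟨ht, -⟩ | ⟨he, ht, y0, hy, hyo, hy2⟩
  · refine ⟨ξ, hξ, hξt, 2, -2, 0, ⟨2, by norm_num⟩, by norm_num, fun u hu hu4 => ?_⟩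
    by_cases huo : u ∈ Subgroup.zpowers x
    · obtain ⟨i, rfl⟩ := S.exists_rot huo
      rcases S.eq_of_pow_four hu4 with rfl | rfl | rfl | rfl
      · rw [if_pos (DihedralBlock.rot_zero x), DihedralBlock.rot_zero, hξ1]
      · rw [if_neg hz1, if_pos hzsq, hξz]
      · rw [if_neg hh1, if_neg hh2, hξh]
      · rw [if_neg hnh1, if_neg hnh2, hξnh]
    · have hu1 : u ≠ 1 := fun e => huo (e ▸ Subgroup.one_mem _)
      rw [hξo u hu huo, if_neg hu1, if_neg (by rw [S.sq_outer_of_neg ht hu huo]; exact hz1)]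
  · obtain ⟨lam, hlam, hlr, hlo⟩ := exists_lam S hy hyo hy2
    obtain ⟨c0, hc0⟩ := he
    have hph : par h (h : ZMod (4 * h)) = 0 := by
      rw [par_natCast, hc0, Nat.cast_add, CharTwo.add_self_eq_zero]
    have hgen : IsGeneralizedCharacter D (fun u : D => ξ (u : G) + lam (u : G)) := by
      haveI : Fintype (IrrCharacter D) := Fintype.ofFinite _
      obtain ⟨m, hm⟩ := CharTheory.isGeneralizedCharacter_iff_exists_sum.1 hξ
      obtain ⟨n, hn⟩ := CharTheory.isGeneralizedCharacter_iff_exists_sum.1 hlam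
      refine CharTheory.isGeneralizedCharacter_iff_exists_sum.2 ⟨fun ψ => m ψ + n ψ, ?_⟩
      funext u
      rw [congrFun hm u, congrFun hn u]
      simp [add_mul, Finset.sum_add_distrib]
    refine ⟨fun u => ξ u + lam u, hgen, fun i => ?_, 3, -1, 1, ⟨3, by norm_num⟩, by norm_num,
      fun u hu hu4 => ?_⟩
    · simp only [hξt, hlr, S.par_t_mul]
    by_cases huo : u ∈ Subgroup.zpowers x
    · obtain ⟨i, rfl⟩ := S.exists_rot huo
      simp only [hlr]
      rcases S.eq_of_pow_four hu4 with rfl | rfl | rfl | rfl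
      · rw [if_pos (DihedralBlock.rot_zero x), if_pos (map_zero _), DihedralBlock.rot_zero, hξ1]
        norm_num
      · rw [if_neg hz1, if_pos hzsq, hξz, if_pos S.par_two_h]; norm_num
      · rw [if_neg hh1, if_neg hh2, hξh, if_pos hph]; norm_num
      · rw [if_neg hnh1, if_neg hnh2, hξnh, if_pos (by rw [map_neg, hph, neg_zero])]; norm_num
    · have hu1 : u ≠ 1 := fun e => huo (e ▸ Subgroup.one_mem _)
      simp only [hξo u hu huo]
      rw [if_neg hu1, zero_add]
      obtain ⟨i, rfl⟩ := (S.eq_rot_or hy hyo hu).resolve_left fun ⟨i, hi⟩ =>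
        huo (hi ▸ DihedralBlock.rot_mem_zpowers x i)
      have e : y0 * rot x i * (y0 * rot x i) = rot x (((2 * h : ℕ) : ZMod (4 * h)) * i) := by
        rw [S.sq_outer_mul hy hyo, hy2, one_mul, ht, sub_add_cancel]
      rw [hlo, e]
      rcases (by decide : ∀ a : ZMod 2, a = 0 ∨ a = 1) (par h i) with hi | hi
      · rw [if_pos hi, if_pos]
        obtain ⟨j, hj⟩ : ∃ j : ℕ, i.val = 2 * j := by
          rw [← ZMod.natCast_zmod_val i, par_natCast, ZMod.natCast_eq_zero_iff] at hi
          exact hi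
        rw [← ZMod.natCast_zmod_val i, hj, ← Nat.cast_mul, show 2 * h * (2 * j) = 4 * h * j by ring,
          Nat.cast_mul, ZMod.natCast_self, zero_mul, DihedralBlock.rot_zero]
      · rw [if_neg (by rw [hi]; exact one_ne_zero), if_neg]
        intro e'
        rw [S.rot_eq_one] at e'
        obtain ⟨j, hj⟩ : ∃ j : ℕ, i.val = 2 * j + 1 := by
          rw [← ZMod.natCast_zmod_val i, par_natCast] at hi
          have h2 : (i.val : ZMod 2) = ((1 : ℕ) : ZMod 2) := by rw [hi, Nat.cast_one]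
          rw [ZMod.natCast_eq_natCast_iff] at h2
          exact ⟨i.val / 2, by unfold Nat.ModEq at h2; omega⟩
        apply S.two_h_ne_zero
        rw [← ZMod.natCast_zmod_val i, hj, ← Nat.cast_mul,
          show 2 * h * (2 * j + 1) = 4 * h * j + 2 * h by ring, Nat.cast_add, Nat.cast_mul,
          ZMod.natCast_self, zero_mul, zero_add] at e'
        exact e'

end Group

variable {G : Type*} [Group G] [Fintype G] {M : Ideal AlgInt} [M.IsPrime] [Fact (2 : ℕ).Prime]
  [CharP (Res M) 2] [IsAlgClosed (Res M)]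
  {B : Set (IrrCharacter G)} {D : Subgroup G} {e0 : MonoidAlgebra (Res M) G}
  [∀ y : G, Fintype (Subgroup.centralizer ({y} : Set G))]
  {x : G} {h : ℕ} {t : ZMod (4 * h)} [NeZero (4 * h)]
  (hM : IsPModular 2 M) (hB : IsPBlock M B)
  (hmax : IsMaxPair 2 (⊤ : Subgroup G) (redElem M (blockCoeff B)) D e0) (S : IsTame D x h t)
include hM hB hmax S

/-- The stable generalised character. -/
theorem exists_stable : ∃ F : G → ℂ, StableFun 2 D e0 F ∧
    IsGeneralizedCharacter D (fun u : D => F (u : G)) ∧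
    (∃ n : ℤ, F 1 = n) ∧ F 1 - F (rot x ((2 * h : ℕ) : ZMod (4 * h))) = 4 := by
  haveI : Fintype D := Fintype.ofFinite _
  obtain ⟨F, hgen, hFt, a, b, c, hn, hab, hF⟩ := exists_etaFun S
  have hz1 : rot x ((2 * h : ℕ) : ZMod (4 * h)) ≠ 1 := fun e =>
    S.two_h_ne_zero (S.rot_eq_one.1 e)
  have hzsq : rot x ((2 * h : ℕ) : ZMod (4 * h)) * rot x ((2 * h : ℕ) : ZMod (4 * h)) = 1 := by
    rw [← S.rot_add, S.two_h_add_two_h, DihedralBlock.rot_zero]
  have hF1 : F 1 = a := by rw [hF 1 D.one_mem (one_pow _), if_pos rfl]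
  have hFz : F (rot x ((2 * h : ℕ) : ZMod (4 * h))) = b := by
    rw [hF _ (S.rot_mem _) (by rw [pow_succ, pow_succ, pow_two, hzsq, one_mul, hzsq]),
      if_neg hz1, if_pos hzsq]
  refine ⟨F, stableFun_of_fus hM hB hmax fun u hu v hv hf => ?_, hgen, hF1 ▸ hn,
    by rw [hF1, hFz, hab]⟩
  have hiff : ∀ n : ℕ, v ^ n = 1 ↔ u ^ n = 1 := fun n => by
    rw [← orderOf_dvd_iff_pow_eq_one, ← orderOf_dvd_iff_pow_eq_one, hf.orderOf_eq]
  by_cases hu4 : u ^ 4 = 1
  · rw [hF u hu hu4, hF v hv ((hiff 4).2 hu4)]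
    have e1 : v = 1 ↔ u = 1 := by simpa using hiff 1
    have e2 : v * v = 1 ↔ u * u = 1 := by simpa [pow_two] using hiff 2
    exact if_congr e1 rfl (if_congr e2 rfl rfl)
  · have hrot : ∀ w ∈ D, ¬ w ^ 4 = 1 → w ∈ Subgroup.zpowers x := by
      intro w hw hw4
      by_contra hwo
      refine hw4 ?_
      rcases S.sq_outer hw hwo with e | e
      · rw [pow_succ, pow_succ, pow_two, e, one_mul, e]
      · rw [show w ^ 4 = (w * w) * (w * w) by rw [pow_succ, pow_succ, pow_two]; group, e, hzsq]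
    obtain ⟨i, rfl⟩ := S.exists_rot (hrot u hu hu4)
    obtain ⟨l, rfl⟩ := S.exists_rot (hrot v hv (fun e => hu4 ((hiff 4).1 e)))
    rcases (fus_rot_iff hM hB hmax S (fun e => hu4 (by rw [e, DihedralBlock.rot_zero, one_pow]))
      (fun e => hu4 (by rw [e, pow_succ, pow_succ, pow_two, hzsq, one_mul, hzsq]))).1 hf with
      rfl | rfl
    · rfl
    · exact hFt i

end CfsgLib.QuatBlock
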