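import Cfsg.Agent.Lib.QuatBlock.Rotation
import Cfsg.Agent.Lib.QuatBlock.Combinatorics
import Cfsg.Agent.Lib.QuatBlock.StableFun
import Cfsg.Agent.Lib.BlockSections.TwoPower

/-!
# The contributions of a tame block as matrices

The values at the rotations and their orthogonality relations, and the integral matrices at one
and at the central involution.
-/

set_option autoImplicit false
set_option linter.style.haveILetI false
set_option linter.unusedSectionVars false
set_option maxHeartbeats 800000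

noncomputable section

namespace CfsgLib.QuatBlock

open Cfsg CfsgLib.Blocks MonoidAlgebra CfsgLib.BrauerPairs CfsgLib.BlockStar
open CfsgLib.BrauerCharacters (cenElem contrib blockFinset mem_blockFinset centralVal centralVal_pow)
open CfsgLib.BlockSections (belowBlock secX secQuot secField)
open CfsgLib.DihedralBlock (rot rotVal sum_mul_char sum_rotVal_mul conj_stdAddChar)
open scoped ComplexConjugate Classical

attribute [local instance 5] Fintype.ofFinite

section Fourier

variable {N : ℕ} [NeZero N]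

theorem conj_rotVal_eq (a : ZMod N → ℤ) (i : ZMod N) :
    conj (rotVal a i) = ∑ j : ZMod N, (a j : ℂ) * ZMod.stdAddChar (-(i * j)) := by
  rw [rotVal, map_sum]
  exact Finset.sum_congr rfl fun j _ => by rw [map_mul, map_intCast, conj_stdAddChar]

/-- A shifted inner product of values. -/
theorem sum_rotVal_conj_shift (a : ZMod N → ℤ) (c : ZMod N) :
    ∑ i : ZMod N, rotVal a i * conj (rotVal a (i + c)) =
      (N : ℂ) * ∑ j : ZMod N, (a j : ℂ) ^ 2 * ZMod.stdAddChar (-(c * j)) := by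
  simp only [conj_rotVal_eq, Finset.mul_sum]
  rw [Finset.sum_comm]
  refine Finset.sum_congr rfl fun j _ => ?_
  have h := sum_rotVal_mul a j
  calc ∑ i : ZMod N, rotVal a i * ((a j : ℂ) * ZMod.stdAddChar (-((i + c) * j)))
      = (a j : ℂ) * ZMod.stdAddChar (-(c * j)) *
          ∑ i : ZMod N, ZMod.stdAddChar (-(i * j)) * rotVal a i := by
        rw [Finset.mul_sum]
        refine Finset.sum_congr rfl fun i _ => ?_
        rw [show -((i + c) * j) = -(c * j) + -(i * j) by ring, AddChar.map_add_eq_mul]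
        ring
    _ = _ := by rw [h]; ring

end Fourier

/-- A tame block with its chosen data. -/
structure Ctx {G : Type*} [Group G] [Fintype G] [Fact (2 : ℕ).Prime]
    [∀ y : G, Fintype (Subgroup.centralizer ({y} : Set G))] (M : Ideal AlgInt) [M.IsPrime]
    [CharP (Res M) 2] [IsAlgClosed (Res M)] (B : Set (IrrCharacter G)) (D : Subgroup G)
    (e0 : MonoidAlgebra (Res M) G) (x : G) (h : ℕ) [NeZero (4 * h)] (t : ZMod (4 * h)) (y0 : G)
    (E : Finset G) (a : IrrCharacter G → ZMod (4 * h) → ℤ) : Prop where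
  hM : IsPModular 2 M
  hB : IsPBlock M B
  hmax : IsMaxPair 2 (⊤ : Subgroup G) (redElem M (blockCoeff B)) D e0
  tame : IsTame D x h t
  reps : IsTameReps (M := M) D e0 x h t y0 E
  rotData : IsRotData (M := M) D e0 x h t a

variable {G : Type*} [Group G] [Fintype G] [Fact (2 : ℕ).Prime]
  [∀ y : G, Fintype (Subgroup.centralizer ({y} : Set G))] {M : Ideal AlgInt} [M.IsPrime]
  [CharP (Res M) 2] [IsAlgClosed (Res M)] {B : Set (IrrCharacter G)} {D : Subgroup G}
  {e0 : MonoidAlgebra (Res M) G} {x : G} {h : ℕ} [NeZero (4 * h)] {t : ZMod (4 * h)} {y0 : G}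
  {E : Finset G} {a : IrrCharacter G → ZMod (4 * h) → ℤ}

/-- The scaled contribution, where it is an integer. -/
def cM (M : Ideal AlgInt) [M.IsPrime] [∀ y : G, Fintype (Subgroup.centralizer ({y} : Set G))]
    (D : Subgroup G) (e0 : MonoidAlgebra (Res M) G) (h : ℕ) (v : G) (χ φ : IrrCharacter G) : ℤ :=
  if hm : ∃ m : ℤ, ((8 * h : ℕ) : ℂ) * subT (M := M) 2 D e0 v χ φ = m then hm.choose else 0

namespace Ctx

variable (C : Ctx M B D e0 x h t y0 E a)
include C

local notation "z" => rot x ((2 * h : ℕ) : ZMod (4 * h))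
local notation "T" => subT (M := M) 2 D e0

theorem mem_one_or_z {v : G} (hv : v = 1 ∨ v = z) :
    v ∈ D ∧ D ⊓ Subgroup.centralizer ({v} : Set G) = D ∧ v * v = 1 := by
  rcases hv with rfl | rfl
  · exact ⟨D.one_mem, inf_eq_left.2 fun u _ => Subgroup.mem_centralizer_singleton_iff.2 (by simp),
      one_mul 1⟩
  · exact ⟨C.tame.rot_mem _, C.tame.inf_centralizer_two_h,
      by rw [← C.tame.rot_add, C.tame.two_h_add_two_h, DihedralBlock.rot_zero]⟩

theorem isDefectGroup : IsDefectGroup 2 M B D :=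
  (isDefectGroup_iff C.hM C.hB).2 (C.hmax.isDefectIn (isBlockIdem_redElem_blockCoeff C.hB))

theorem pow_blockDefect : 2 ^ blockDefect 2 B = 8 * h := by
  rw [← Blocks.card_isDefectGroup C.hM C.hB C.isDefectGroup, C.tame.card_eq]

theorem pow_defect_central {v : G} (hv : v = 1 ∨ v = z) :
    2 ^ blockDefect 2 (belowBlock (M := M) 2 D e0 v) = 8 * h := by
  obtain ⟨hvD, hc, -⟩ := C.mem_one_or_z hv
  refine le_antisymm ?_ ?_
  · obtain ⟨w, -, -, he⟩ := exists_fus_pow_defect C.hM C.hB C.hmax hvD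
    rw [he, ← C.tame.card_eq]
    exact Subgroup.card_le_of_le inf_le_left
  · have := card_inf_centralizer_le C.hM C.hB C.hmax hvD
    rwa [hc, C.tame.card_eq] at this

theorem defect_central {v : G} (hv : v = 1 ∨ v = z) :
    blockDefect 2 (belowBlock (M := M) 2 D e0 v) = blockDefect 2 B :=
  Nat.pow_right_injective le_rfl ((C.pow_defect_central hv).trans C.pow_blockDefect.symm)

theorem coe_secX_central {v : G} (hv : v = 1 ∨ v = z) (χ φ : IrrCharacter G) :
    (secX v (belowBlock (M := M) 2 D e0 v) 2 χ φ : ℂ) = ((8 * h : ℕ) : ℂ) * T v χ φ := by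
  rw [BlockSections.coe_secX, subT]
  congr 1
  rw [← C.pow_defect_central hv]
  push_cast
  rfl

theorem exists_int_central {v : G} (hv : v = 1 ∨ v = z) (χ φ : IrrCharacter G) :
    ∃ m : ℤ, ((8 * h : ℕ) : ℂ) * T v χ φ = m := by
  obtain ⟨-, -, h2⟩ := C.mem_one_or_z hv
  set b := belowBlock (M := M) 2 D e0 v
  have hsign : ∀ ξ : IrrCharacter (Subgroup.centralizer ({v} : Set G)), ∃ s : ℤ,
      centralVal (ξ : Subgroup.centralizer ({v} : Set G) → ℂ) (cenElem v) = s := by
    intro ξ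
    have h3 := centralVal_pow v ξ
    have h4 : orderOf (cenElem v) ∣ 2 := orderOf_dvd_of_pow_eq_one (Subtype.ext (by
      rw [SubmonoidClass.coe_pow, pow_two]; exact h2))
    obtain ⟨c, hc⟩ := h4
    have h5 : centralVal (ξ : Subgroup.centralizer ({v} : Set G) → ℂ) (cenElem v) ^ 2 = 1 := by
      rw [hc, pow_mul, h3, one_pow]
    rcases sq_eq_one_iff.1 h5 with e | e
    · exact ⟨1, by rw [e, Int.cast_one]⟩
    · exact ⟨-1, by rw [e]; push_cast; ring⟩
  choose s hs using hsign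
  refine ⟨∑ ξ ∈ blockFinset b, ∑ η ∈ blockFinset b,
    BrauerCharacters.secCoeff v b 2 χ φ ξ η * (s ξ * s η), ?_⟩
  rw [← C.coe_secX_central hv, BlockSections.coe_secX, BrauerCharacters.pow_mul_contrib]
  push_cast
  simp only [hs, map_intCast]
  rfl

theorem cast_cM {v : G} (hv : v = 1 ∨ v = z) (χ φ : IrrCharacter G) :
    (cM M D e0 h v χ φ : ℂ) = ((8 * h : ℕ) : ℂ) * T v χ φ := by
  rw [cM, dif_pos (C.exists_int_central hv χ φ)]
  exact (C.exists_int_central hv χ φ).choose_spec.symm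

theorem cM_comm {v : G} (hv : v = 1 ∨ v = z) (χ φ : IrrCharacter G) :
    cM M D e0 h v χ φ = cM M D e0 h v φ χ := by
  have h1 : (cM M D e0 h v χ φ : ℂ) = cM M D e0 h v φ χ := by
    have h2 : conj (cM M D e0 h v χ φ : ℂ) = cM M D e0 h v φ χ := by
      rw [C.cast_cM hv, C.cast_cM hv, map_mul, map_natCast, conj_subT]
    rwa [map_intCast] at h2
  exact_mod_cast h1

theorem h_pos : 0 < h := C.tame.h_pos

theorem cM_eq_zero_of_notMem {v : G} (hv : v = 1 ∨ v = z) {χ : IrrCharacter G} (hχ : χ ∉ B)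
    (φ : IrrCharacter G) : cM M D e0 h v χ φ = 0 := by
  have h1 := C.cast_cM hv χ φ
  rw [subT_eq_zero_of_notMem C.hM C.hB C.hmax (C.mem_one_or_z hv).1 hχ, mul_zero] at h1
  exact_mod_cast h1

theorem mem_reps_one_z {v : G} (hv : v = 1 ∨ v = z) :
    v ∈ insert 1 (insert z ((halfRot h t).image (rot x) ∪ E)) := by
  rcases hv with rfl | rfl <;> simp

/-- The matrices at one and at the involution are orthogonal scaled idempotents. -/
theorem sum_cM_mul [Fintype (IrrCharacter G)] {u v : G} (hu : u = 1 ∨ u = z)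
    (hv : v = 1 ∨ v = z) (χ φ : IrrCharacter G) :
    ∑ ψ ∈ blockFinset B, cM M D e0 h u χ ψ * cM M D e0 h v ψ φ =
      if u = v then ((8 * h : ℕ) : ℤ) * cM M D e0 h u χ φ else 0 := by
  have h1 := sum_subT_mul C.hM C.hB C.hmax C.reps.reps (C.mem_reps_one_z hu) (C.mem_reps_one_z hv)
    χ φ
  refine Int.cast_injective (α := ℂ) ?_
  push_cast [apply_ite (Int.cast : ℤ → ℂ)]
  simp only [C.cast_cM hu, C.cast_cM hv]
  rw [Finset.sum_congr rfl (g := fun ψ => ((8 * h : ℕ) : ℂ) * ((8 * h : ℕ) : ℂ) *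
    (T u χ ψ * T v ψ φ)) fun ψ _ => by ring, ← Finset.mul_sum, h1]
  split_ifs <;> push_cast <;> ring

/-- The divisibility of the entries against a character of height zero. -/
theorem exists_odd_cM {v : G} (hv : v = 1 ∨ v = z) {χ ψ : IrrCharacter G} (hχ : χ ∈ B)
    (hψ : ψ ∈ B) (hψ0 : blockHeight 2 B (ψ : G → ℂ) = 0) :
    ∃ q : ℤ, Odd q ∧ cM M D e0 h v χ ψ = 2 ^ blockHeight 2 B (χ : G → ℂ) * q := by
  obtain ⟨hvD, -, -⟩ := C.mem_one_or_z hv
  obtain ⟨-, -, hind⟩ := BlockSections.belowBlock_spec C.hM C.hB C.hmax hvD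
  have hy := BlockSections.isPElem_of_mem C.hM C.hB C.hmax hvD
  have hd := C.defect_central hv
  have hint := BlockSections.isIntegral_secQuot v _ C.hM hy hind hd hχ ψ
  have hnot := BlockSections.not_memLocalIdeal_secQuot v _ C.hM hy hind hd hχ hψ hψ0
  have hmul := BlockSections.coe_secQuot_mul (B := B) (p := 2) v
    (belowBlock (M := M) 2 D e0 v) χ ψ
  rw [C.coe_secX_central hv, ← C.cast_cM hv] at hmul
  set H := blockHeight 2 B (χ : G → ℂ)
  set Qv := (secQuot v (belowBlock (M := M) 2 D e0 v) 2 B χ ψ : ℂ)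
  have hQ : Qv = ((((cM M D e0 h v χ ψ : ℤ) : ℚ) / (2 : ℚ) ^ H : ℚ) : ℂ) := by
    push_cast at hmul ⊢
    rw [eq_div_iff (pow_ne_zero _ two_ne_zero), mul_comm, hmul]
  rw [hQ] at hint
  obtain ⟨q, hq⟩ := CharTheory.exists_int_of_isIntegral_ratCast hint
  refine ⟨q, ?_, ?_⟩
  · rw [← Int.not_even_iff_odd]
    intro he
    apply hnot
    show MemLocalIdeal M Qv
    rw [show Qv = (q : ℂ) by rw [hQ, ← hq]; norm_cast]
    exact (memLocalIdeal_intCast_iff C.hM q).2 (even_iff_two_dvd.1 he)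
  · rw [eq_div_iff (pow_ne_zero _ two_ne_zero)] at hq
    rw [mul_comm _ q]
    exact_mod_cast hq.symm

/-- A diagonal entry of positive height is divisible by one more power of two. -/
theorem dvd_cM_self {v : G} (hv : v = 1 ∨ v = z) {χ : IrrCharacter G} (hχ : χ ∈ B)
    (hpos : 0 < blockHeight 2 B (χ : G → ℂ)) :
    (2 : ℤ) ^ (blockHeight 2 B (χ : G → ℂ) + 1) ∣ cM M D e0 h v χ χ := by
  obtain ⟨hvD, -, -⟩ := C.mem_one_or_z hv
  obtain ⟨-, -, hind⟩ := BlockSections.belowBlock_spec C.hM C.hB C.hmax hvD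
  have hy := BlockSections.isPElem_of_mem C.hM C.hB C.hmax hvD
  have hd := C.defect_central hv
  have hint := BlockSections.isIntegral_secQuot v _ C.hM hy hind hd hχ χ
  have hmem := BlockSections.memLocalIdeal_secQuot_self v _ C.hM hy hind hd hχ hpos
  have hmul := BlockSections.coe_secQuot_mul (B := B) (p := 2) v
    (belowBlock (M := M) 2 D e0 v) χ χ
  rw [C.coe_secX_central hv, ← C.cast_cM hv] at hmul
  set H := blockHeight 2 B (χ : G → ℂ)
  set Qv := (secQuot v (belowBlock (M := M) 2 D e0 v) 2 B χ χ : ℂ)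
  have hQ : Qv = ((((cM M D e0 h v χ χ : ℤ) : ℚ) / (2 : ℚ) ^ H : ℚ) : ℂ) := by
    push_cast at hmul ⊢
    rw [eq_div_iff (pow_ne_zero _ two_ne_zero), mul_comm, hmul]
  rw [hQ] at hint
  obtain ⟨q, hq⟩ := CharTheory.exists_int_of_isIntegral_ratCast hint
  have hm : MemLocalIdeal M ((q : ℤ) : ℂ) := by
    rw [show ((q : ℤ) : ℂ) = Qv by rw [hQ, ← hq]; norm_cast]
    exact hmem
  obtain ⟨r, hr⟩ := (memLocalIdeal_intCast_iff C.hM q).1 hm
  rw [eq_div_iff (pow_ne_zero _ two_ne_zero)] at hq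
  refine ⟨r, ?_⟩
  have h2 : cM M D e0 h v χ χ = q * 2 ^ H := by exact_mod_cast hq.symm
  rw [h2, hr, pow_succ]
  push_cast
  ring

theorem cM_self_pos [Fintype (IrrCharacter G)] {v : G} (hv : v = 1 ∨ v = z) {χ : IrrCharacter G}
    (hχ : χ ∈ B) : 0 < cM M D e0 h v χ χ := by
  obtain ⟨ψ, hψ, hψ0⟩ :=
    BrauerCharacters.exists_height_eq_zero (p := 2) (Blocks.isPBlock_nonempty C.hB)
  obtain ⟨q, hq, he⟩ := C.exists_odd_cM hv hχ hψ hψ0
  have h1 := C.sum_cM_mul hv hv χ χ
  rw [if_pos rfl] at h1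
  have h2 : 0 < ∑ φ ∈ blockFinset B, cM M D e0 h v χ φ * cM M D e0 h v φ χ := by
    refine Finset.sum_pos' (fun φ _ => ?_) ⟨ψ, mem_blockFinset.2 hψ, ?_⟩
    · rw [C.cM_comm hv φ χ]; exact mul_self_nonneg _
    · rw [C.cM_comm hv ψ χ, he]
      refine mul_self_pos.2 (mul_ne_zero (pow_ne_zero _ two_ne_zero) ?_)
      rintro rfl
      exact (Int.not_odd_iff_even.2 Even.zero) hq
  rw [h1] at h2
  exact pos_of_mul_pos_right h2 (Int.natCast_nonneg _)

theorem sum_cM_self [Fintype (IrrCharacter G)] {v : G} (hv : v = 1 ∨ v = z) :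
    ∑ χ ∈ blockFinset B, cM M D e0 h v χ χ =
      ((8 * h : ℕ) : ℤ) * (blockRank 2 (belowBlock (M := M) 2 D e0 v) : ℤ) := by
  refine Int.cast_injective (α := ℂ) ?_
  push_cast
  rw [← sum_subT_self C.hM C.hB C.hmax (C.mem_one_or_z hv).1, Finset.mul_sum]
  refine Finset.sum_congr rfl fun χ _ => ?_
  rw [C.cast_cM hv]
  push_cast
  ring

/-! ### The rotations -/

theorem rotVal_t_mul (χ : IrrCharacter G) (i : ZMod (4 * h)) :
    rotVal (a χ) (t * i) = rotVal (a χ) i := by
  unfold rotVal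
  refine Finset.sum_nbij' (fun j => t * j) (fun j => t * j) (by simp) (by simp)
    (fun j _ => by rw [← mul_assoc, C.tame.t_mul_t, one_mul])
    (fun j _ => by rw [← mul_assoc, C.tame.t_mul_t, one_mul]) fun j _ => ?_
  rw [C.rotData.sym, show t * i * j = i * (t * j) by ring]

theorem mem_mid {i : ZMod (4 * h)} (hi : i ∈ midRot h) :
    i ≠ 0 ∧ i ≠ ((2 * h : ℕ) : ZMod (4 * h)) := by
  simpa [midRot] using hi

theorem rot_subT {i : ZMod (4 * h)} (hi : i ∈ midRot h) (χ φ : IrrCharacter G) :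
    ((4 * h : ℕ) : ℂ) * T (rot x i) χ φ = rotVal (a χ) i * conj (rotVal (a φ) i) :=
  C.rotData.subT_eq i (C.mem_mid hi).1 (C.mem_mid hi).2 χ φ

theorem rotVal_ne_zero {χ : IrrCharacter G} (hχ : χ ∈ B)
    (h0 : blockHeight 2 B (χ : G → ℂ) = 0) {i : ZMod (4 * h)} (hi : i ∈ midRot h) :
    rotVal (a χ) i ≠ 0 ∧ Odd (∑ j, a χ j) := by
  have hvD := C.tame.rot_mem i
  obtain ⟨-, -, hind⟩ := BlockSections.belowBlock_spec C.hM C.hB C.hmax hvD
  have hnot := BlockSections.not_memLocalIdeal_secX (rot x i) _ C.hM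
    (BlockSections.isPElem_of_mem C.hM C.hB C.hmax hvD) hind hχ h0 hχ h0
  have hX : (secX (rot x i) (belowBlock (M := M) 2 D e0 (rot x i)) 2 χ χ : ℂ) =
      rotVal (a χ) i * conj (rotVal (a χ) i) := by
    rw [BlockSections.coe_secX, ← C.rot_subT hi, subT]
    congr 1
    exact_mod_cast pow_defect_rot C.hM C.hB C.hmax C.tame (C.mem_mid hi).1 (C.mem_mid hi).2
  rw [hX] at hnot
  refine ⟨fun e => hnot (by rw [e, zero_mul]; exact memLocalIdeal_zero), ?_⟩
  rw [← Int.not_even_iff_odd]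
  intro he
  apply hnot
  rw [mul_comm]
  refine memLocalIdeal_mul_left ?_ ?_
  · rw [conj_rotVal_eq]
    refine memLocalRing_sum fun j _ => ?_
    refine memLocalRing_of_isIntegral ((isIntegral_algebraMap (R := ℤ) (x := a χ j)).mul ?_)
    refine IsIntegral.of_pow (n := 4 * h) (by have := C.h_pos; omega) ?_
    rw [← AddChar.map_nsmul_eq_pow, nsmul_eq_mul, ZMod.natCast_self, zero_mul,
      AddChar.map_zero_eq_one]
    exact isIntegral_one
  · have h2 := memLocalIdeal_rotVal_sub C.hM C.tame.exists_pow (a χ) i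
    have h3 : MemLocalIdeal M ((∑ j, a χ j : ℤ) : ℂ) :=
      (memLocalIdeal_intCast_iff C.hM _).2 (even_iff_two_dvd.1 he)
    have h4 := memLocalIdeal_add h2 h3
    rwa [sub_add_cancel] at h4

theorem h_mem_mid : (h : ZMod (4 * h)) ∈ midRot h :=
  Finset.mem_filter.2 ⟨Finset.mem_univ _, C.tame.h_ne_zero, C.tame.h_ne_two_h⟩

/-- The orthogonality of the columns. -/
theorem sum_rotVal_mul_rotVal [Fintype (IrrCharacter G)] {i l : ZMod (4 * h)} (hi : i ∈ midRot h)
    (hl : l ∈ midRot h) :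
    ∑ χ ∈ blockFinset B, rotVal (a χ) i * conj (rotVal (a χ) l) =
      if l = i ∨ l = t * i then ((4 * h : ℕ) : ℂ) else 0 := by
  have hS := C.tame
  have key : ∀ i l : ZMod (4 * h), i ∈ halfRot h t → l ∈ halfRot h t →
      ∑ χ ∈ blockFinset B, rotVal (a χ) i * conj (rotVal (a χ) l) =
        if i = l then ((4 * h : ℕ) : ℂ) else 0 := by
    intro i l hi hl
    have hi' := halfRot_subset hS hi
    have hl' := halfRot_subset hS hl
    obtain ⟨χ0, hχ0, h00⟩ :=
      BrauerCharacters.exists_height_eq_zero (p := 2) (Blocks.isPBlock_nonempty C.hB)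
    have h1 := sum_subT_mul C.hM C.hB C.hmax C.reps.reps (u := rot x l) (v := rot x i)
      (by simp only [Finset.mem_insert, Finset.mem_union, Finset.mem_image]
          exact Or.inr (Or.inr (Or.inl ⟨l, hl, rfl⟩)))
      (by simp only [Finset.mem_insert, Finset.mem_union, Finset.mem_image]
          exact Or.inr (Or.inr (Or.inl ⟨i, hi, rfl⟩))) χ0 χ0
    have hne1 := (C.rotVal_ne_zero hχ0 h00 hi').1
    have hne2 := (C.rotVal_ne_zero hχ0 h00 hl').1
    have h2 : rotVal (a χ0) l * conj (rotVal (a χ0) i) *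
        ∑ χ ∈ blockFinset B, rotVal (a χ) i * conj (rotVal (a χ) l) =
        if rot x l = rot x i then ((4 * h : ℕ) : ℂ) * (rotVal (a χ0) l * conj (rotVal (a χ0) l))
          else 0 := by
      rw [Finset.mul_sum, Finset.sum_congr rfl (g := fun ψ => ((4 * h : ℕ) : ℂ) * ((4 * h : ℕ) : ℂ) *
        (T (rot x l) χ0 ψ * T (rot x i) ψ χ0)) fun ψ _ => ?_, ← Finset.mul_sum, h1]
      · split_ifs with e
        · rw [← C.rot_subT hl']; ring
        · ring
      · rw [show ((4 * h : ℕ) : ℂ) * ((4 * h : ℕ) : ℂ) * (T (rot x l) χ0 ψ * T (rot x i) ψ χ0) =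
          ((4 * h : ℕ) : ℂ) * T (rot x l) χ0 ψ * (((4 * h : ℕ) : ℂ) * T (rot x i) ψ χ0) by ring,
          C.rot_subT hl', C.rot_subT hi']
        ring
    refine mul_left_cancel₀ (mul_ne_zero hne2 ((map_ne_zero (starRingEnd ℂ)).2 hne1)) ?_
    rw [h2]
    by_cases e : i = l
    · subst e
      rw [if_pos rfl, if_pos rfl]; ring
    · rw [if_neg fun e' => e (hS.rot_injective e').symm, if_neg e, mul_zero]
  -- move both indices to representatives
  have hrep : ∀ i ∈ midRot h, ∃ i' ∈ halfRot h t, (i = i' ∨ i = t * i') ∧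
      ∀ χ, rotVal (a χ) i = rotVal (a χ) i' := by
    intro i hi
    rcases mem_half_or hS hi with ⟨h1, -⟩ | ⟨-, h1⟩
    · exact ⟨i, h1, Or.inl rfl, fun χ => rfl⟩
    · exact ⟨t * i, h1, Or.inr (by rw [← mul_assoc, hS.t_mul_t, one_mul]),
        fun χ => (C.rotVal_t_mul χ i).symm⟩
  obtain ⟨i', hi', hii, hie⟩ := hrep i hi
  obtain ⟨l', hl', hll, hle⟩ := hrep l hl
  simp only [hie, hle]
  rw [key i' l' hi' hl']
  have htt : ∀ j : ZMod (4 * h), t * (t * j) = j := fun j => by
    rw [← mul_assoc, hS.t_mul_t, one_mul]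
  have hclass : (l = i ∨ l = t * i) ↔ (l' = i' ∨ l' = t * i') := by
    rcases hii with rfl | rfl <;> rcases hll with rfl | rfl <;> constructor <;>
      rintro (e | e) <;>
      (have e' := congrArg (fun u => t * u) e; (try simp only [htt] at e e' ⊢); tauto)
  rw [if_congr hclass rfl rfl]
  refine if_congr ?_ rfl rfl
  refine ⟨fun e => Or.inl e.symm, fun e => ?_⟩
  rcases e with e | e
  · exact e.symm
  · exfalso
    exact ((mem_half_or hS (halfRot_subset hS hi')).resolve_right fun hc => hc.1 hi').2 (e ▸ hl')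

/-- The relations of the multiplicities. -/
theorem rel [Fintype (IrrCharacter G)] {j k l q : ZMod (4 * h)} (hjk : par h j = par h k)
    (hlq : par h l = par h q) :
    ∑ χ ∈ blockFinset B, (a χ j - a χ k) * (a χ l - a χ q) =
      ev t j l - ev t j q - ev t k l + ev t k q := by
  have hS := C.tame
  set u : ZMod (4 * h) → ℂ := fun i => ZMod.stdAddChar (-(i * j)) - ZMod.stdAddChar (-(i * k))
    with hu
  set w : ZMod (4 * h) → ℂ := fun i => ZMod.stdAddChar (i * l) - ZMod.stdAddChar (i * q) with hw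
  have hN0 : ((4 * h : ℕ) : ℂ) ≠ 0 := Nat.cast_ne_zero.2 (NeZero.ne _)
  have hd : ∀ χ : IrrCharacter G, ((4 * h : ℕ) : ℂ) * ((a χ j : ℂ) - (a χ k : ℂ)) =
      ∑ i : ZMod (4 * h), u i * rotVal (a χ) i := fun χ => by
    simp only [hu, sub_mul, Finset.sum_sub_distrib, sum_rotVal_mul, mul_sub]
  have hd' : ∀ χ : IrrCharacter G, ((4 * h : ℕ) : ℂ) * ((a χ l : ℂ) - (a χ q : ℂ)) =
      ∑ i : ZMod (4 * h), w i * conj (rotVal (a χ) i) := fun χ => by
    have h1 : ((4 * h : ℕ) : ℂ) * ((a χ l : ℂ) - (a χ q : ℂ)) = conj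
        (∑ i : ZMod (4 * h), (ZMod.stdAddChar (-(i * l)) - ZMod.stdAddChar (-(i * q))) *
          rotVal (a χ) i) := by
      simp only [sub_mul, Finset.sum_sub_distrib, sum_rotVal_mul, ← mul_sub, map_mul, map_sub,
        map_intCast, map_natCast]
    rw [h1, map_sum]
    refine Finset.sum_congr rfl fun i _ => ?_
    simp only [hw, map_mul, map_sub, conj_stdAddChar, neg_neg]
  have hz : ∀ i : ZMod (4 * h), i ∉ midRot h → u i = 0 ∧ w i = 0 := by
    intro i hi
    simp only [midRot, Finset.mem_filter, Finset.mem_univ, true_and, not_and_or, not_not] at hi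
    have hpm : ∀ p r : ZMod (4 * h), par h p = par h r → i * p = i * r := by
      intro p r hpr
      rcases hi with rfl | rfl
      · rw [zero_mul, zero_mul]
      · obtain ⟨m, hm⟩ : ∃ m : ℕ, (p - r).val = 2 * m := by
          have h2 : par h (p - r) = 0 := by rw [map_sub, hpr, sub_self]
          rw [← ZMod.natCast_zmod_val (p - r), par_natCast, ZMod.natCast_eq_zero_iff] at h2
          exact h2
        rw [← sub_eq_zero, ← mul_sub, ← ZMod.natCast_zmod_val (p - r), hm, ← Nat.cast_mul,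
          show 2 * h * (2 * m) = 4 * h * m by ring, Nat.cast_mul, ZMod.natCast_self, zero_mul]
    exact ⟨by simp only [hu, hpm j k hjk, sub_self], by simp only [hw, hpm l q hlq, sub_self]⟩
  have key : ((4 * h : ℕ) : ℂ) * ((4 * h : ℕ) : ℂ) *
      (∑ χ ∈ blockFinset B, ((a χ j : ℂ) - a χ k) * ((a χ l : ℂ) - a χ q)) =
      ((4 * h : ℕ) : ℂ) * ∑ i : ZMod (4 * h), u i * (w i + w (t * i)) := by
    rw [Finset.mul_sum, Finset.sum_congr rfl (g := fun χ => ∑ i, ∑ i', u i * w i' *
        (rotVal (a χ) i * conj (rotVal (a χ) i'))) fun χ _ => by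
      rw [mul_mul_mul_comm, hd, hd', Finset.sum_mul_sum]
      exact Finset.sum_congr rfl fun i _ => Finset.sum_congr rfl fun i' _ => by ring,
      Finset.sum_comm, Finset.mul_sum]
    refine Finset.sum_congr rfl fun i _ => ?_
    rw [Finset.sum_comm]
    simp only [← Finset.mul_sum]
    by_cases hi : i ∈ midRot h
    swap
    · simp [(hz i hi).1]
    have hne : i ≠ t * i := fun e => by
      rcases hS.t_mul_fix.1 e.symm with e' | e'
      exacts [(C.mem_mid hi).1 e', (C.mem_mid hi).2 e']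
    rw [Finset.sum_congr rfl (g := fun i' => (if i' = i then u i * w i' * ((4 * h : ℕ) : ℂ) else 0) +
      if i' = t * i then u i * w i' * ((4 * h : ℕ) : ℂ) else 0) fun i' _ => ?_,
      Finset.sum_add_distrib, Finset.sum_ite_eq', Finset.sum_ite_eq']
    · simp only [Finset.mem_univ, if_true]; ring
    by_cases hi' : i' ∈ midRot h
    · rw [C.sum_rotVal_mul_rotVal hi hi']
      by_cases e1 : i' = i
      · subst e1; simp [hne]
      · by_cases e2 : i' = t * i
        · subst e2; simp [e1]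
        · simp [e1, e2]
    · simp [(hz i' hi').2]
  have hprod : ∀ p r : ZMod (4 * h),
      ∑ i : ZMod (4 * h), ZMod.stdAddChar (-(i * p)) *
          (ZMod.stdAddChar (i * r) + ZMod.stdAddChar (t * i * r)) =
        ((4 * h : ℕ) : ℂ) * (ev t p r : ℂ) := by
    intro p r
    rw [Finset.sum_congr rfl (g := fun i => ZMod.stdAddChar (i * (-p + r)) +
      ZMod.stdAddChar (i * (-p + t * r))) fun i _ => by
        rw [mul_add, ← AddChar.map_add_eq_mul, ← AddChar.map_add_eq_mul]
        congr 2 <;> ring, Finset.sum_add_distrib, sum_mul_char, sum_mul_char]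
    simp only [ev, neg_add_eq_zero]
    push_cast
    split_ifs <;> ring
  have hsum : ∑ i : ZMod (4 * h), u i * (w i + w (t * i)) = ((4 * h : ℕ) : ℂ) *
      ((ev t j l - ev t j q - ev t k l + ev t k q : ℤ) : ℂ) := by
    rw [Finset.sum_congr rfl (g := fun i =>
      ZMod.stdAddChar (-(i * j)) * (ZMod.stdAddChar (i * l) + ZMod.stdAddChar (t * i * l)) -
      ZMod.stdAddChar (-(i * j)) * (ZMod.stdAddChar (i * q) + ZMod.stdAddChar (t * i * q)) -
      ZMod.stdAddChar (-(i * k)) * (ZMod.stdAddChar (i * l) + ZMod.stdAddChar (t * i * l)) +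
      ZMod.stdAddChar (-(i * k)) * (ZMod.stdAddChar (i * q) + ZMod.stdAddChar (t * i * q)))
      fun i _ => by simp only [hu, hw]; ring,
      Finset.sum_add_distrib, Finset.sum_sub_distrib, Finset.sum_sub_distrib]
    simp only [hprod]
    push_cast
    ring
  rw [hsum, mul_assoc] at key
  have := mul_left_cancel₀ hN0 (mul_left_cancel₀ hN0 key)
  exact_mod_cast this

/-- The sums over the rotations of order at least four, with a shift. -/
theorem sum_mid_shift (χ : IrrCharacter G) :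
    ∑ i ∈ midRot h, rotVal (a χ) i * conj (rotVal (a χ) i) =
        2 * ((wt h (a χ) 0 : ℂ) + wt h (a χ) 1) ∧
      ∑ i ∈ midRot h, rotVal (a χ) i *
          conj (rotVal (a χ) (i + ((2 * h : ℕ) : ZMod (4 * h)))) =
        2 * ((wt h (a χ) 0 : ℂ) - wt h (a χ) 1) := by
  have hS := C.tame
  set H2 : ZMod (4 * h) := ((2 * h : ℕ) : ZMod (4 * h)) with hH2
  have hsplit : ∀ f : ZMod (4 * h) → ℂ, ∑ i, f i = f 0 + f H2 + ∑ i ∈ midRot h, f i := by
    intro f
    rw [← Finset.sum_filter_add_sum_filter_not Finset.univ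
      (fun i : ZMod (4 * h) => i ≠ 0 ∧ i ≠ H2) f, add_comm]
    refine congrArg₂ (· + ·) ?_ rfl
    rw [show (Finset.univ.filter fun i : ZMod (4 * h) => ¬(i ≠ 0 ∧ i ≠ H2)) = {0, H2} from ?_,
      Finset.sum_pair (Ne.symm hS.two_h_ne_zero)]
    ext i
    simp only [Finset.mem_filter, Finset.mem_univ, true_and, not_and_or, not_not, Finset.mem_insert,
      Finset.mem_singleton]
  have hpar : ∀ f : ZMod (4 * h) → ℂ, ∑ j, f j = ∑ j ∈ pos h 0, f j + ∑ j ∈ pos h 1, f j := by
    intro f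
    rw [← Finset.sum_filter_add_sum_filter_not Finset.univ (fun j : ZMod (4 * h) => par h j = 0) f]
    refine congrArg₂ (· + ·) rfl (Finset.sum_congr ?_ fun _ _ => rfl)
    ext j
    simp only [Finset.mem_filter, Finset.mem_univ, true_and, mem_pos]
    exact ⟨fun hb => Fin.eq_one_of_ne_zero _ hb, fun hb => by rw [hb]; exact one_ne_zero⟩
  have hsgn : ∀ j : ZMod (4 * h), ZMod.stdAddChar (-(H2 * j)) = if par h j = 0 then 1 else -1 := by
    intro j
    rw [← neg_mul, hS.neg_two_h]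
    have hval : j = (j.val : ZMod (4 * h)) := (ZMod.natCast_zmod_val j).symm
    rw [show H2 * j = j.val • H2 by rw [nsmul_eq_mul, ZMod.natCast_zmod_val, mul_comm j H2],
      AddChar.map_nsmul_eq_pow, stdAddChar_two_h hS]
    split_ifs with hj
    · rw [hval, par_natCast, ZMod.natCast_eq_zero_iff] at hj
      exact (even_iff_two_dvd.2 hj).neg_one_pow
    · rw [hval, par_natCast, ZMod.natCast_eq_zero_iff] at hj
      exact (Nat.not_even_iff_odd.1 fun e => hj (even_iff_two_dvd.1 e)).neg_one_pow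
  set s0 : ℂ := ∑ j ∈ pos h 0, (a χ j : ℂ)
  set s1 : ℂ := ∑ j ∈ pos h 1, (a χ j : ℂ)
  have hv0 : rotVal (a χ) 0 = s0 + s1 := by
    rw [rotVal, ← hpar fun j => (a χ j : ℂ)]
    exact Finset.sum_congr rfl fun j _ => by rw [zero_mul, AddChar.map_zero_eq_one, mul_one]
  have hv2 : rotVal (a χ) H2 = s0 - s1 := by
    rw [rotVal, hpar, sub_eq_add_neg, ← Finset.sum_neg_distrib]
    refine congrArg₂ (· + ·) (Finset.sum_congr rfl fun j hj => ?_)
      (Finset.sum_congr rfl fun j hj => ?_)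
    · have h1 := hsgn j
      rw [← neg_mul, hS.neg_two_h] at h1
      rw [h1, if_pos (mem_pos.1 hj), mul_one]
    · have h1 := hsgn j
      rw [← neg_mul, hS.neg_two_h] at h1
      rw [h1, if_neg (by rw [mem_pos.1 hj]; exact one_ne_zero), mul_neg, mul_one]
  have hcs : conj s0 = s0 ∧ conj s1 = s1 := by
    simp only [s0, s1, map_sum, map_intCast, and_self]
  have hA0 := sum_rotVal_conj_shift (a χ) 0
  have hA2 := sum_rotVal_conj_shift (a χ) H2
  rw [hsplit, hpar] at hA0 hA2
  simp only [zero_add, add_zero, zero_mul, neg_zero, AddChar.map_zero_eq_one, mul_one, hv0,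
    hS.two_h_add_two_h, ← hH2, hv2, map_add, map_sub, hcs] at hA0 hA2
  have hH22 : H2 + H2 = 0 := hS.two_h_add_two_h
  rw [hH22, hv0, map_add, hcs.1, hcs.2] at hA2
  simp only [hsgn] at hA2
  have c0 : ∑ j ∈ pos h 0, (a χ j : ℂ) ^ 2 * (if par h j = 0 then 1 else -1) =
      ∑ j ∈ pos h 0, (a χ j : ℂ) ^ 2 :=
    Finset.sum_congr rfl fun j hj => by rw [if_pos (mem_pos.1 hj), mul_one]
  have c1 : ∑ j ∈ pos h 1, (a χ j : ℂ) ^ 2 * (if par h j = 0 then 1 else -1) =
      -∑ j ∈ pos h 1, (a χ j : ℂ) ^ 2 := by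
    rw [← Finset.sum_neg_distrib]
    exact Finset.sum_congr rfl fun j hj => by
      rw [if_neg (by rw [mem_pos.1 hj]; exact one_ne_zero), mul_neg, mul_one]
  rw [c0, c1] at hA2
  constructor
  · simp only [wt]
    push_cast at hA0 ⊢
    linear_combination hA0
  · simp only [wt]
    push_cast at hA2 ⊢
    linear_combination hA2

/-- The contributions of the rotations to the diagonal. -/
theorem sum_half_subT (χ : IrrCharacter G) :
    ((4 * h : ℕ) : ℂ) * ∑ i ∈ halfRot h t, T (rot x i) χ χ =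
      (wt h (a χ) 0 : ℂ) + wt h (a χ) 1 := by
  rw [Finset.mul_sum,
    Finset.sum_congr rfl fun i hi => C.rot_subT (halfRot_subset C.tame hi) χ χ]
  have h1 := (C.sum_mid_shift χ).1
  rw [sum_midRot C.tame (g := fun i => rotVal (a χ) i * conj (rotVal (a χ) i))
    (fun i => by simp only [C.rotVal_t_mul]), ← two_mul] at h1
  exact mul_left_cancel₀ two_ne_zero h1

theorem rotVal_eq_zero_of_wt {χ : IrrCharacter G} (h0 : wt h (a χ) 0 = 0) (h1 : wt h (a χ) 1 = 0)
    {i : ZMod (4 * h)} (hi : i ∈ midRot h) : rotVal (a χ) i = 0 := by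
  have h2 := (C.sum_mid_shift χ).1
  rw [h0, h1, Int.cast_zero, add_zero, mul_zero] at h2
  have h3 : ∑ i ∈ midRot h, Complex.normSq (rotVal (a χ) i) = 0 := by
    apply Complex.ofReal_injective
    push_cast
    rw [← h2]
    exact Finset.sum_congr rfl fun i _ => (Complex.mul_conj _).symm
  exact Complex.normSq_eq_zero.1
    ((Finset.sum_eq_zero_iff_of_nonneg fun i _ => Complex.normSq_nonneg _).1 h3 i hi)

theorem rotVal_shift_of_wt {χ : IrrCharacter G} (h1 : wt h (a χ) 1 = 0)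
    {i : ZMod (4 * h)} (hi : i ∈ midRot h) :
    rotVal (a χ) (i + ((2 * h : ℕ) : ZMod (4 * h))) = rotVal (a χ) i := by
  have hS := C.tame
  set H2 : ZMod (4 * h) := ((2 * h : ℕ) : ZMod (4 * h))
  obtain ⟨hA, hB'⟩ := C.sum_mid_shift χ
  rw [h1, Int.cast_zero, add_zero] at hA
  rw [h1, Int.cast_zero, sub_zero] at hB'
  have hmm : ∀ i ∈ midRot h, i + H2 ∈ midRot h := by
    intro i hi
    obtain ⟨ha, hb⟩ := C.mem_mid hi
    refine Finset.mem_filter.2 ⟨Finset.mem_univ _, fun e => hb ?_, fun e => ha ?_⟩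
    · rw [eq_neg_of_add_eq_zero_left e, hS.neg_two_h]
    · exact add_right_cancel (e.trans (zero_add H2).symm)
  have hH22 : ∀ i : ZMod (4 * h), i + H2 + H2 = i := fun i => by
    rw [add_assoc, hS.two_h_add_two_h, add_zero]
  have hshift : ∀ f : ZMod (4 * h) → ℂ, ∑ i ∈ midRot h, f (i + H2) = ∑ i ∈ midRot h, f i :=
    fun f => Finset.sum_nbij' (fun i => i + H2) (fun i => i + H2) hmm hmm (fun i _ => hH22 i)
      (fun i _ => hH22 i) fun i _ => rfl
  have hC2 : ∑ i ∈ midRot h, rotVal (a χ) (i + H2) * conj (rotVal (a χ) (i + H2)) =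
      2 * (wt h (a χ) 0 : ℂ) := by
    rw [hshift fun i => rotVal (a χ) i * conj (rotVal (a χ) i), hA]
  have hD' : ∑ i ∈ midRot h, rotVal (a χ) (i + H2) * conj (rotVal (a χ) i) =
      2 * (wt h (a χ) 0 : ℂ) := by
    have := hshift fun i => rotVal (a χ) i * conj (rotVal (a χ) (i + H2))
    simp only [hH22] at this
    rw [this, hB']
  have h0 : ∑ i ∈ midRot h, Complex.normSq (rotVal (a χ) (i + H2) - rotVal (a χ) i) = 0 := by
    apply Complex.ofReal_injective
    push_cast
    simp only [← Complex.mul_conj, map_sub, sub_mul, mul_sub, Finset.sum_sub_distrib]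
    rw [hC2, hD', hB', hA]
    ring
  exact sub_eq_zero.1 (Complex.normSq_eq_zero.1
    ((Finset.sum_eq_zero_iff_of_nonneg fun i _ => Complex.normSq_nonneg _).1 h0 i hi))

end Ctx

end CfsgLib.QuatBlock
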