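import Cfsg.Agent.Lib.QuatBlock.Entries

/-!
# The heights and the diagonals

The weights of every member are below `4 * h`; the characters of height zero are the four whose
multiplicities differ at the two fixed positions; the contributions of the extra outer elements
live on these four.
-/

set_option autoImplicit false
set_option linter.style.haveILetI false
set_option linter.unusedSectionVars false
set_option linter.overlappingInstances false
set_option maxHeartbeats 800000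

noncomputable section

namespace CfsgLib.QuatBlock

open Cfsg CfsgLib.Blocks MonoidAlgebra CfsgLib.BrauerPairs CfsgLib.BlockStar
open CfsgLib.BrauerCharacters (cenElem blockFinset mem_blockFinset)
open CfsgLib.BlockSections (belowBlock secX diagSum conjCount)
open CfsgLib.DihedralBlock (rot rotVal)
open scoped ComplexConjugate Classical

attribute [local instance 5] Fintype.ofFinite

variable {G : Type*} [Group G] [Fintype G] [Fact (2 : ℕ).Prime]
  [∀ y : G, Fintype (Subgroup.centralizer ({y} : Set G))] {M : Ideal AlgInt} [M.IsPrime]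
  [CharP (Res M) 2] [IsAlgClosed (Res M)] {B : Set (IrrCharacter G)} {D : Subgroup G}
  {e0 : MonoidAlgebra (Res M) G} {x : G} {h : ℕ} [NeZero (4 * h)] {t : ZMod (4 * h)} {y0 : G}
  {E : Finset G} {a : IrrCharacter G → ZMod (4 * h) → ℤ}

/-- The real diagonal contribution. -/
def tre (M : Ideal AlgInt) [M.IsPrime] [∀ y : G, Fintype (Subgroup.centralizer ({y} : Set G))]
    (D : Subgroup G) (e0 : MonoidAlgebra (Res M) G) (v : G) (χ : IrrCharacter G) : ℝ :=
  (subT (M := M) 2 D e0 v χ χ).re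

/-- The members whose multiplicities differ at the two fixed positions. -/
def fours (B : Set (IrrCharacter G)) (h : ℕ) [NeZero (4 * h)]
    (a : IrrCharacter G → ZMod (4 * h) → ℤ) : Finset (IrrCharacter G) :=
  (blockFinset B).filter fun χ => a χ 0 ≠ a χ ((2 * h : ℕ) : ZMod (4 * h))

namespace Ctx

variable (C : Ctx M B D e0 x h t y0 E a)
include C

local notation "z" => rot x ((2 * h : ℕ) : ZMod (4 * h))
local notation "T" => subT (M := M) 2 D e0

theorem mem_E_D {u : G} (hu : u ∈ E) : u ∈ D := C.reps.mem_D C.tame hu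

theorem pow_defect_E {u : G} (hu : u ∈ E) :
    2 ^ blockDefect 2 (belowBlock (M := M) 2 D e0 u) = 4 :=
  pow_defect_outer C.hM C.hB C.hmax C.tame (C.mem_E_D hu) (C.reps.extra u hu)

theorem blockRank_E {u : G} (hu : u ∈ E) :
    blockRank 2 (belowBlock (M := M) 2 D e0 u) = 1 :=
  (outer_count C.hM C.hB C.hmax C.tame (C.mem_E_D hu) (C.reps.extra u hu)).2

theorem coe_secX_E {u : G} (hu : u ∈ E) (χ φ : IrrCharacter G) :
    (secX u (belowBlock (M := M) 2 D e0 u) 2 χ φ : ℂ) = 4 * T u χ φ := by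
  rw [BlockSections.coe_secX, subT]
  congr 1
  exact_mod_cast C.pow_defect_E hu

theorem subT_E_self {u : G} (hu : u ∈ E) (χ : IrrCharacter G) :
    T u χ χ = (tre M D e0 u χ : ℂ) ∧ 0 ≤ tre M D e0 u χ := by
  obtain ⟨-, -, hind⟩ := BlockSections.belowBlock_spec C.hM C.hB C.hmax (C.mem_E_D hu)
  have h1 := BlockSections.totNonneg_secX (p := 2) u _ C.hM
    (BlockSections.isPElem_of_mem C.hM C.hB C.hmax (C.mem_E_D hu)) hind χ 1
  obtain ⟨r, hr, he⟩ := h1
  have h2 : (secX u (belowBlock (M := M) 2 D e0 u) 2 χ χ : ℂ) = (r : ℂ) := by simpa using he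
  rw [C.coe_secX_E hu] at h2
  have h3 : T u χ χ = ((r / 4 : ℝ) : ℂ) := by push_cast; rw [← h2]; ring
  have h4 : tre M D e0 u χ = r / 4 := by rw [tre, h3, Complex.ofReal_re]
  exact ⟨h4 ▸ h3, by rw [h4]; positivity⟩

/-- The diagonal identity. -/
theorem diag_eq [Fintype (IrrCharacter G)] {χ : IrrCharacter G} (hχ : χ ∈ B) :
    (cM M D e0 h 1 χ χ : ℝ) + cM M D e0 h z χ χ + 2 * ((wt h (a χ) 0 : ℝ) + wt h (a χ) 1) +
      (8 * h : ℕ) * ∑ u ∈ E, tre M D e0 u χ = (8 * h : ℕ) := by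
  apply Complex.ofReal_injective
  simp only [Complex.ofReal_add, Complex.ofReal_mul, Complex.ofReal_sum, Complex.ofReal_intCast,
    Complex.ofReal_natCast, Complex.ofReal_ofNat]
  rw [show (cM M D e0 h 1 χ χ : ℂ) = ((8 * h : ℕ) : ℂ) * T 1 χ χ from C.cast_cM (Or.inl rfl) χ χ,
    show (cM M D e0 h z χ χ : ℂ) = ((8 * h : ℕ) : ℂ) * T z χ χ from C.cast_cM (Or.inr rfl) χ χ,
    ← C.sum_half_subT χ, Finset.sum_congr rfl fun u hu => (C.subT_E_self hu χ).1.symm]
  have h1 := sum_subT C.hM C.hB C.hmax C.reps.reps hχ χ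
  rw [if_pos rfl, C.reps.sum_eq C.tame] at h1
  rw [show ((8 * h : ℕ) : ℂ) = 2 * ((4 * h : ℕ) : ℂ) by push_cast; ring]
  linear_combination (2 * ((4 * h : ℕ) : ℂ)) * h1

theorem cM_ge_one [Fintype (IrrCharacter G)] {v : G} (hv : v = 1 ∨ v = z) {χ : IrrCharacter G}
    (hχ : χ ∈ B) : (1 : ℝ) ≤ cM M D e0 h v χ χ := by
  exact_mod_cast C.cM_self_pos hv hχ

theorem wt_lt [Fintype (IrrCharacter G)] {χ : IrrCharacter G} (hχ : χ ∈ B) :
    wt h (a χ) 0 + wt h (a χ) 1 < 4 * h := by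
  have h1 := C.diag_eq hχ
  have h2 := C.cM_ge_one (Or.inl rfl) hχ
  have h3 := C.cM_ge_one (Or.inr rfl) hχ
  have h4 : 0 ≤ ∑ u ∈ E, tre M D e0 u χ := Finset.sum_nonneg fun u hu => (C.subT_E_self hu χ).2
  have h5 : (0 : ℝ) ≤ (8 * h : ℕ) * ∑ u ∈ E, tre M D e0 u χ := mul_nonneg (Nat.cast_nonneg _) h4
  generalize cM M D e0 h z χ χ = mz at h1 h3
  have h6 : ((wt h (a χ) 0 + wt h (a χ) 1 : ℤ) : ℝ) < ((4 * h : ℕ) : ℤ) := by
    push_cast at h1 h5 ⊢
    linarith
  exact_mod_cast h6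

theorem wt_lt' [Fintype (IrrCharacter G)] {χ : IrrCharacter G} (hχ : χ ∈ B) :
    wt h (a χ) 0 < 4 * h ∧ wt h (a χ) 1 < 4 * h := by
  have := C.wt_lt hχ
  have := wt_nonneg (a χ) 0
  have := wt_nonneg (a χ) 1
  omega

theorem wt_zero [Fintype (IrrCharacter G)] {χ : IrrCharacter G} (hχ : χ ∈ B) :
    |a χ 0 - a χ ((2 * h : ℕ) : ZMod (4 * h))| ≤ 1 ∧
    (a χ 0 = a χ ((2 * h : ℕ) : ZMod (4 * h)) →
      wt h (a χ) 0 = 0 ∨ wt h (a χ) 0 = 4 * h - 4) ∧
    (a χ 0 ≠ a χ ((2 * h : ℕ) : ZMod (4 * h)) →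
      wt h (a χ) 0 = 2 * h - 1 ∨ (h = 4 ∧ wt h (a χ) 0 = 15)) :=
  wt_zero_cases C.tame (C.rotData.sym χ) (C.wt_lt' hχ).1

theorem wt_one [Fintype (IrrCharacter G)] {χ : IrrCharacter G} (hχ : χ ∈ B) :
    wt h (a χ) 1 = 0 ∨ wt h (a χ) 1 = 4 * h - 4 :=
  wt_one_cases C.tame (C.rotData.sym χ) (C.wt_lt' hχ).2

theorem card_fours [Fintype (IrrCharacter G)] : (fours B h a).card = 4 :=
  card_four C.tame (blockFinset B) a (fun _ _ _ _ hjk hlq => C.rel hjk hlq)
    fun _ hχ => (C.wt_zero (mem_blockFinset.1 hχ)).1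

theorem sum_a_mod_two (χ : IrrCharacter G) :
    ((∑ j, a χ j : ℤ) : ZMod 2) =
      (a χ 0 : ZMod 2) + a χ ((2 * h : ℕ) : ZMod (4 * h)) := by
  have hS := C.tame
  rw [Int.cast_sum, ← Finset.sum_filter_add_sum_filter_not Finset.univ
    (fun j : ZMod (4 * h) => t * j = j)]
  have hmove : ∑ j ∈ Finset.univ.filter (fun j : ZMod (4 * h) => ¬ t * j = j),
      (a χ j : ZMod 2) = 0 := by
    refine Finset.sum_involution (fun j _ => t * j) (fun j _ => ?_)
      (fun j hj _ => (Finset.mem_filter.1 hj).2) (fun j hj => ?_)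
      fun j _ => by rw [← mul_assoc, hS.t_mul_t, one_mul]
    · rw [C.rotData.sym, CharTwo.add_self_eq_zero]
    · refine Finset.mem_filter.2 ⟨Finset.mem_univ _, fun e => (Finset.mem_filter.1 hj).2 ?_⟩
      conv_rhs => rw [← one_mul j, ← hS.t_mul_t, mul_assoc]
      exact e.symm
  rw [hmove, add_zero, show Finset.univ.filter (fun j : ZMod (4 * h) => t * j = j) =
    {0, ((2 * h : ℕ) : ZMod (4 * h))} from ?_, Finset.sum_pair (Ne.symm hS.two_h_ne_zero)]
  ext j
  simp only [Finset.mem_filter, Finset.mem_univ, true_and, hS.t_mul_fix, Finset.mem_insert,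
    Finset.mem_singleton]

theorem mem_fours_of_height_zero {χ : IrrCharacter G} (hχ : χ ∈ B)
    (h0 : blockHeight 2 B (χ : G → ℂ) = 0) : χ ∈ fours B h a := by
  refine Finset.mem_filter.2 ⟨mem_blockFinset.2 hχ, fun e => ?_⟩
  obtain ⟨-, hodd⟩ := C.rotVal_ne_zero hχ h0 C.h_mem_mid
  have h1 := C.sum_a_mod_two χ
  rw [e, CharTwo.add_self_eq_zero, ZMod.intCast_zmod_eq_zero_iff_dvd] at h1
  exact (Int.not_even_iff_odd.2 hodd) (even_iff_two_dvd.2 (by exact_mod_cast h1))

/-- The characters of height zero. -/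
theorem height_zero_iff [Fintype (IrrCharacter G)] {χ : IrrCharacter G} (hχ : χ ∈ B) :
    blockHeight 2 B (χ : G → ℂ) = 0 ↔ χ ∈ fours B h a := by
  set S := (blockFinset B).filter fun φ : IrrCharacter G => blockHeight 2 B (φ : G → ℂ) = 0
  have hsub : S ⊆ fours B h a := fun φ hφ =>
    C.mem_fours_of_height_zero (mem_blockFinset.1 (Finset.mem_filter.1 hφ).1)
      (Finset.mem_filter.1 hφ).2
  obtain ⟨ψ, hψ, hψ0⟩ :=
    BrauerCharacters.exists_height_eq_zero (p := 2) (Blocks.isPBlock_nonempty C.hB)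
  have h1 := C.sum_cM_mul (Or.inr rfl) (Or.inr rfl) ψ ψ
  rw [if_pos rfl] at h1
  have h2 := congrArg (fun m : ℤ => (m : ZMod 4)) h1
  simp only [Int.cast_sum, Int.cast_mul] at h2
  rw [show (((8 * h : ℕ) : ℤ) : ZMod 4) = 0 by
      rw [Int.cast_natCast, ZMod.natCast_eq_zero_iff]; exact ⟨2 * h, by ring⟩, zero_mul,
    Finset.sum_congr rfl (g := fun φ : IrrCharacter G =>
      if blockHeight 2 B (φ : G → ℂ) = 0 then (1 : ZMod 4) else 0) fun φ hφ => ?_,
    Finset.sum_boole, ZMod.natCast_eq_zero_iff] at h2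
  swap
  · obtain ⟨q, hq, he⟩ := C.exists_odd_cM (Or.inr rfl) (mem_blockFinset.1 hφ) hψ hψ0
    obtain ⟨r, rfl⟩ := hq
    rw [C.cM_comm (Or.inr rfl) ψ φ, he]
    rcases Nat.eq_zero_or_pos (blockHeight 2 B (φ : G → ℂ)) with e | e
    · rw [if_pos e, e]
      push_cast
      generalize (r : ZMod 4) = r'
      revert r'
      decide
    · rw [if_neg e.ne']
      obtain ⟨k, hk⟩ : ∃ k, blockHeight 2 B (φ : G → ℂ) = k + 1 :=
        ⟨_, (Nat.succ_pred_eq_of_pos e).symm⟩
      rw [hk]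
      push_cast
      rw [pow_succ]
      generalize (2 : ZMod 4) ^ k = p'
      generalize (r : ZMod 4) = r'
      revert p' r'
      decide
  have hne : S.Nonempty := ⟨ψ, Finset.mem_filter.2 ⟨mem_blockFinset.2 hψ, hψ0⟩⟩
  have hle := Finset.card_le_card hsub
  rw [C.card_fours] at hle
  have hpos := hne.card_pos
  have heq : S = fours B h a := by
    refine Finset.eq_of_subset_of_card_le hsub ?_
    rw [C.card_fours]
    obtain ⟨c, hc⟩ := h2
    have : S.card = 4 * c := hc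
    omega
  rw [← heq]
  simp [S, mem_blockFinset, hχ]

/-- Outside the four the extra contributions vanish; on the four they are positive. -/
theorem subT_E_eq_zero [Fintype (IrrCharacter G)] {u : G} (hu : u ∈ E) :
    (∀ χ ∈ B, χ ∉ fours B h a → ∀ φ, T u χ φ = 0) ∧
      (∀ χ ∈ fours B h a, 0 < tre M D e0 u χ) ∧
      ∑ χ ∈ fours B h a, tre M D e0 u χ = 1 := by
  obtain ⟨-, -, hind⟩ := BlockSections.belowBlock_spec C.hM C.hB C.hmax (C.mem_E_D hu)
  have hy := BlockSections.isPElem_of_mem C.hM C.hB C.hmax (C.mem_E_D hu)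
  set b := belowBlock (M := M) 2 D e0 u
  have hsum := BlockSections.sum_diagSum (p := 2) u b C.hM hy hind
  rw [C.blockRank_E hu, mul_one, C.pow_defect_E hu] at hsum
  have hfs : fours B h a ⊆ blockFinset B := Finset.filter_subset _ _
  have hfour : ∀ χ ∈ fours B h a, secX u b 2 χ χ ≠ 0 := fun χ hχ => by
    have hχB := mem_blockFinset.1 (hfs hχ)
    have h0 := (C.height_zero_iff hχB).2 hχ
    exact BlockSections.secX_ne_zero_of_height_zero u b C.hM hy hind hχB h0 hχB h0
  have hnn : ∀ χ, 0 ≤ diagSum u b 2 χ := fun χ => Finset.sum_nonneg fun σ _ => by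
    obtain ⟨r, hr, e⟩ := BlockSections.totNonneg_secX (p := 2) u b C.hM hy hind χ σ
    rw [e, Complex.ofReal_re]; exact hr
  have hge : ((4 : ℕ) : ℝ) * conjCount u ≤ ∑ χ ∈ fours B h a, diagSum u b 2 χ := by
    rw [← C.card_fours, ← nsmul_eq_mul, ← Finset.sum_const]
    exact Finset.sum_le_sum fun χ hχ =>
      BlockSections.conjCount_le_diagSum u b C.hM hy hind (hfour χ hχ)
  rw [← Finset.sum_sdiff hfs] at hsum
  have hrest : ∑ χ ∈ blockFinset B \ fours B h a, diagSum u b 2 χ = 0 :=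
    le_antisymm (by linarith) (Finset.sum_nonneg fun χ _ => hnn χ)
  have hzero : ∀ χ ∈ B, χ ∉ fours B h a → ∀ φ, T u χ φ = 0 := by
    intro χ hχ hχ4 φ
    have hd := (Finset.sum_eq_zero_iff_of_nonneg fun χ _ => hnn χ).1 hrest χ
      (Finset.mem_sdiff.2 ⟨mem_blockFinset.2 hχ, hχ4⟩)
    have hx0 : secX u b 2 χ χ = 0 := by
      by_contra hne
      have h1 := BlockSections.conjCount_le_diagSum u b C.hM hy hind hne
      have h2 := BlockSections.galCard_pos (orderOf (cenElem u))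
      rw [hd] at h1
      exact absurd h1 (not_le.2 h2)
    have hx : secX u b 2 χ φ = 0 := by
      by_cases hφ : φ ∈ B
      · by_contra hne
        exact BlockSections.secX_self_ne_zero u b C.hM hy hind hφ hne hx0
      · exact BlockSections.secX_eq_zero_of_notMem_right u b C.hM hy hind χ hφ
    have h3 := C.coe_secX_E hu χ φ
    rw [hx, ZeroMemClass.coe_zero] at h3
    exact (mul_eq_zero.1 h3.symm).resolve_left (by norm_num)
  refine ⟨hzero, fun χ hχ => ?_, ?_⟩
  · refine lt_of_le_of_ne (C.subT_E_self hu χ).2 fun e => hfour χ hχ (Subtype.ext ?_)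
    rw [C.coe_secX_E hu, (C.subT_E_self hu χ).1, ← e]
    simp
  · apply Complex.ofReal_injective
    push_cast
    rw [Finset.sum_congr rfl fun χ _ => (C.subT_E_self hu χ).1.symm,
      Finset.sum_subset hfs fun χ hχ hχ4 => hzero χ (mem_blockFinset.1 hχ) hχ4 χ,
      sum_subT_self C.hM C.hB C.hmax (C.mem_E_D hu), C.blockRank_E hu, Nat.cast_one]

/-- Off the four the diagonal has no extra part. -/
theorem sum_tre_eq_zero [Fintype (IrrCharacter G)] {χ : IrrCharacter G} (hχ : χ ∈ B)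
    (hχ4 : χ ∉ fours B h a) : ∑ u ∈ E, tre M D e0 u χ = 0 :=
  Finset.sum_eq_zero fun u hu => by
    rw [tre, (C.subT_E_eq_zero hu).1 χ hχ hχ4 χ, Complex.zero_re]

/-- The trace identity. -/
theorem card_block_eq [Fintype (IrrCharacter G)] :
    Nat.card B = blockRank 2 (belowBlock (M := M) 2 D e0 1) +
      blockRank 2 (belowBlock (M := M) 2 D e0 z) + (2 * h - 1) + E.card := by
  have hS := C.tame
  have hhalf : ((halfRot h t).card : ℕ) = 2 * h - 1 := by
    have h1 := sum_midRot hS (g := fun _ : ZMod (4 * h) => (1 : ℕ)) fun _ => rfl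
    simp only [Finset.sum_const, smul_eq_mul, mul_one] at h1
    have h2 : (midRot h).card = 4 * h - 2 := by
      rw [midRot, show (Finset.univ.filter fun i : ZMod (4 * h) =>
        i ≠ 0 ∧ i ≠ ((2 * h : ℕ) : ZMod (4 * h))) =
          Finset.univ \ {0, ((2 * h : ℕ) : ZMod (4 * h))} from ?_,
        Finset.card_sdiff_of_subset (Finset.subset_univ _), Finset.card_univ, ZMod.card,
        Finset.card_pair (Ne.symm hS.two_h_ne_zero)]
      ext i
      simp
    omega
  have hrot : ∀ i ∈ halfRot h t,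
      ∑ χ ∈ blockFinset B, T (rot x i) χ χ = 1 := fun i hi => by
    have hi' := halfRot_subset hS hi
    refine mul_left_cancel₀ (Nat.cast_ne_zero.2 (NeZero.ne (4 * h)) : ((4 * h : ℕ) : ℂ) ≠ 0) ?_
    rw [Finset.mul_sum, Finset.sum_congr rfl fun χ _ => C.rot_subT hi' χ χ,
      C.sum_rotVal_mul_rotVal hi' hi', if_pos (Or.inl rfl), mul_one]
  have h1 : ∑ χ ∈ blockFinset B, ∑ v ∈ insert 1 (insert z ((halfRot h t).image (rot x) ∪ E)),
      T v χ χ = (Nat.card B : ℂ) := by
    rw [Finset.sum_congr rfl fun χ hχ =>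
      (sum_subT C.hM C.hB C.hmax C.reps.reps (mem_blockFinset.1 hχ) χ).trans (if_pos rfl),
      Finset.sum_const, nsmul_eq_mul, mul_one, Nat.cast_inj]
    rw [Nat.card_eq_card_finite_toFinset (Set.toFinite B)]
    congr 1
  rw [Finset.sum_comm, C.reps.sum_eq hS, Finset.sum_congr rfl hrot,
    sum_subT_self C.hM C.hB C.hmax D.one_mem, sum_subT_self C.hM C.hB C.hmax (hS.rot_mem _),
    show ∑ u ∈ E, ∑ χ ∈ blockFinset B, T u χ χ = (E.card : ℂ) from ?_, Finset.sum_const,
    nsmul_eq_mul, mul_one, hhalf] at h1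
  · have h2 : ((blockRank 2 (belowBlock (M := M) 2 D e0 1) +
      blockRank 2 (belowBlock (M := M) 2 D e0 z) + (2 * h - 1) + E.card : ℕ) : ℂ) =
        (Nat.card B : ℂ) := by
      rw [← h1]; push_cast; ring
    exact_mod_cast h2.symm
  · rw [Finset.sum_congr rfl (g := fun _ => (1 : ℂ)) fun u hu => by
      rw [sum_subT_self C.hM C.hB C.hmax (C.mem_E_D hu), C.blockRank_E hu, Nat.cast_one],
      Finset.sum_const, nsmul_eq_mul, mul_one]

end Ctx

end CfsgLib.QuatBlock
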