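import Cfsg.Prelude.Def_CaseTheorems
import Cfsg.Agent.Lib.DihedralBlock.Group
import Mathlib.GroupTheory.SpecificGroups.Quaternion

/-!
# Generalised quaternion and semidihedral 2-subgroups

The rotations are the powers of an element of order `4 * h`; an outer element acts on them as
multiplication by `t`.
-/

set_option autoImplicit false
set_option linter.style.haveILetI false
set_option linter.unusedSectionVars false

noncomputable section

namespace CfsgLib.QuatBlock

open CfsgLib.DihedralBlock (rot)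

variable {G : Type*} [Group G]

/-- `D` is generalised quaternion or semidihedral of order `8 * h`. -/
structure IsTame (D : Subgroup G) (x : G) (h : ℕ) (t : ZMod (4 * h)) : Prop where
  exists_pow : ∃ k, h = 2 ^ k
  orderOf_x : orderOf x = 4 * h
  x_mem : x ∈ D
  card_eq : Nat.card D = 8 * h
  conj_x : ∀ y ∈ D, y ∉ Subgroup.zpowers x → y * x * y⁻¹ = x ^ t.val
  cases : (t = -1 ∧ ∀ y ∈ D, y ∉ Subgroup.zpowers x → y * y = x ^ (2 * h)) ∨
    (Even h ∧ t = ((2 * h : ℕ) : ZMod (4 * h)) - 1 ∧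
      ∃ y ∈ D, y ∉ Subgroup.zpowers x ∧ y * y = 1)

/-- The parity of an exponent. -/
def par (h : ℕ) : ZMod (4 * h) →+* ZMod 2 := ZMod.castHom ⟨2 * h, by ring⟩ (ZMod 2)

theorem par_natCast (h a : ℕ) : par h (a : ZMod (4 * h)) = (a : ZMod 2) := map_natCast _ a

namespace IsTame

variable {D : Subgroup G} {x : G} {h : ℕ} {t : ZMod (4 * h)} [NeZero (4 * h)]
  (S : IsTame D x h t)
include S

theorem h_pos : 0 < h := by
  have := NeZero.ne (4 * h)
  omega

theorem two_h_ne_zero : ((2 * h : ℕ) : ZMod (4 * h)) ≠ 0 := fun e => by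
  rw [ZMod.natCast_eq_zero_iff] at e
  have := Nat.le_of_dvd (by have := S.h_pos; omega) e
  have := S.h_pos; omega

theorem two_h_add_two_h : ((2 * h : ℕ) : ZMod (4 * h)) + ((2 * h : ℕ) : ZMod (4 * h)) = 0 := by
  rw [← Nat.cast_add, show 2 * h + 2 * h = 4 * h by ring, ZMod.natCast_self]

theorem neg_two_h : -((2 * h : ℕ) : ZMod (4 * h)) = ((2 * h : ℕ) : ZMod (4 * h)) :=
  neg_eq_of_add_eq_zero_right S.two_h_add_two_h

theorem par_two_h : par h ((2 * h : ℕ) : ZMod (4 * h)) = 0 := by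
  rw [par_natCast, Nat.cast_mul, show ((2 : ℕ) : ZMod 2) = 0 from rfl, zero_mul]

theorem eq_zero_or_two_h {i : ZMod (4 * h)} (hi : i + i = 0) :
    i = 0 ∨ i = ((2 * h : ℕ) : ZMod (4 * h)) := by
  rw [← ZMod.natCast_zmod_val i, ← Nat.cast_add, ZMod.natCast_eq_zero_iff] at hi
  obtain ⟨c, hc⟩ := hi
  have := i.val_lt
  rcases c with _ | _ | c
  · left; rw [← ZMod.natCast_zmod_val i, show i.val = 0 by omega, Nat.cast_zero]
  · right; rw [← ZMod.natCast_zmod_val i]; congr 1; omega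
  · exfalso
    have : 4 * h * 2 ≤ i.val + i.val := hc ▸ Nat.mul_le_mul_left _ (by omega)
    omega

/-- The unit `u` with `t - 1 = -2 u`. -/
theorem exists_t_sub_one : ∃ u : ZMod (4 * h), IsUnit u ∧ t - 1 = -(u + u) := by
  rcases S.cases with ⟨ht, -⟩ | ⟨he, ht, -⟩
  · exact ⟨1, isUnit_one, by rw [ht]; ring⟩
  · refine ⟨1 - (h : ZMod (4 * h)), ?_, ?_⟩
    · have hodd : Nat.Coprime (h - 1) (4 * h) := by
        obtain ⟨k, hk⟩ := S.exists_pow
        have h1 : Odd (h - 1) := by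
          obtain ⟨c, hc⟩ := he
          exact ⟨c - 1, by have := S.h_pos; omega⟩
        rw [show 4 * h = 2 ^ (k + 2) by rw [hk]; ring]
        exact ((Nat.coprime_two_right).2 h1).pow_right _
      have := ((ZMod.isUnit_iff_coprime _ _).2 hodd).neg
      rwa [Nat.cast_sub S.h_pos, Nat.cast_one, neg_sub] at this
    · rw [ht]; push_cast; ring

theorem t_mul_t : t * t = 1 := by
  rcases S.cases with ⟨ht, -⟩ | ⟨he, ht, -⟩
  · rw [ht]; ring
  · obtain ⟨c, hc⟩ := he
    have h4 : ((4 * h : ℕ) : ZMod (4 * h)) = 0 := ZMod.natCast_self _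
    have e : t * t = 1 + ((4 * h : ℕ) : ZMod (4 * h)) * (h : ℕ) -
        ((4 * h : ℕ) : ZMod (4 * h)) := by
      rw [ht]; push_cast; ring
    rw [e, h4]; ring

theorem t_mul_fix {i : ZMod (4 * h)} :
    t * i = i ↔ i = 0 ∨ i = ((2 * h : ℕ) : ZMod (4 * h)) := by
  obtain ⟨u, hu, hut⟩ := S.exists_t_sub_one
  constructor
  · intro e
    refine S.eq_zero_or_two_h (hu.mul_right_eq_zero.1 ?_)
    have h2 : (t - 1) * i = 0 := by rw [sub_mul, one_mul, e, sub_self]
    rw [hut] at h2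
    linear_combination -h2
  · have e : t * i = i + -(u + u) * i := by rw [← hut]; ring
    rintro (rfl | rfl) <;> rw [e]
    · ring
    · have : -(u + u) * ((2 * h : ℕ) : ZMod (4 * h)) =
          -u * (((2 * h : ℕ) : ZMod (4 * h)) + ((2 * h : ℕ) : ZMod (4 * h))) := by ring
      rw [this, S.two_h_add_two_h]; ring

theorem par_t : par h t = 1 := by
  obtain ⟨u, -, hut⟩ := S.exists_t_sub_one
  have := congrArg (par h) hut
  rw [map_sub, map_one, map_neg, map_add, CharTwo.add_self_eq_zero, neg_zero, sub_eq_zero] at this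
  exact this

theorem par_t_mul (i : ZMod (4 * h)) : par h (t * i) = par h i := by
  rw [map_mul, S.par_t, one_mul]

theorem t_mul_h : t * (h : ZMod (4 * h)) = -(h : ZMod (4 * h)) := by
  rcases S.cases with ⟨ht, -⟩ | ⟨he, ht, -⟩
  · rw [ht]; ring
  · obtain ⟨c, hc⟩ := he
    have h4 : ((4 * h : ℕ) : ZMod (4 * h)) = 0 := ZMod.natCast_self _
    have e : t * (h : ZMod (4 * h)) = -(h : ZMod (4 * h)) +
        ((4 * h : ℕ) : ZMod (4 * h)) * (c : ℕ) := by
      rw [ht]
      have hc' : (h : ZMod (4 * h)) = (c : ZMod (4 * h)) + c := by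
        rw [← Nat.cast_add, ← hc]
      push_cast
      linear_combination (2 * (h : ZMod (4 * h))) * hc'
    rw [e, h4]; ring

theorem exists_sub_one_mul {i : ZMod (4 * h)} (hi : par h i = 0) :
    ∃ j : ZMod (4 * h), (t - 1) * j = i := by
  obtain ⟨u, hu, hut⟩ := S.exists_t_sub_one
  obtain ⟨m, hm⟩ : ∃ m : ℕ, i.val = 2 * m := by
    rw [← ZMod.natCast_zmod_val i, par_natCast, ZMod.natCast_eq_zero_iff] at hi
    exact hi
  obtain ⟨v, hv⟩ := hu
  refine ⟨-((v⁻¹ : (ZMod (4 * h))ˣ) : ZMod (4 * h)) * (m : ZMod (4 * h)), ?_⟩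
  rw [hut, ← ZMod.natCast_zmod_val i, hm, ← hv]
  have e : (v : ZMod (4 * h)) * ((v⁻¹ : (ZMod (4 * h))ˣ) : ZMod (4 * h)) = 1 := v.mul_inv
  push_cast
  linear_combination (2 * (m : ZMod (4 * h))) * e

theorem rot_natCast (a : ℕ) : rot x (a : ZMod (4 * h)) = x ^ a := by
  rw [rot, ZMod.val_natCast, ← S.orderOf_x, pow_mod_orderOf]

theorem rot_add (i j : ZMod (4 * h)) : rot x (i + j) = rot x i * rot x j := by
  conv_lhs => rw [← ZMod.natCast_zmod_val i, ← ZMod.natCast_zmod_val j, ← Nat.cast_add,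
    S.rot_natCast, pow_add]
  rfl

theorem rot_neg (i : ZMod (4 * h)) : rot x (-i) = (rot x i)⁻¹ :=
  eq_inv_of_mul_eq_one_left (by rw [← S.rot_add, neg_add_cancel, DihedralBlock.rot_zero])

theorem rot_injective : Function.Injective (rot x : ZMod (4 * h) → G) := by
  intro i j hij
  rw [rot, rot, pow_eq_pow_iff_modEq, S.orderOf_x] at hij
  exact ZMod.val_injective _ (hij.eq_of_lt_of_lt i.val_lt j.val_lt)

theorem rot_eq_one {i : ZMod (4 * h)} : rot x i = 1 ↔ i = 0 :=
  ⟨fun e => S.rot_injective (e.trans (DihedralBlock.rot_zero x).symm),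
    fun e => by rw [e, DihedralBlock.rot_zero]⟩

theorem isOfFinOrder_x : IsOfFinOrder x :=
  orderOf_pos_iff.1 (by rw [S.orderOf_x]; have := S.h_pos; omega)

theorem exists_rot {u : G} (hu : u ∈ Subgroup.zpowers x) : ∃ i : ZMod (4 * h), rot x i = u := by
  obtain ⟨k, hk⟩ := (IsOfFinOrder.mem_powers_iff_mem_zpowers S.isOfFinOrder_x).2 hu
  exact ⟨(k : ZMod (4 * h)), (S.rot_natCast k).trans hk⟩

theorem zpowers_le : Subgroup.zpowers x ≤ D := Subgroup.zpowers_le.2 S.x_mem

theorem rot_mem (i : ZMod (4 * h)) : rot x i ∈ D :=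
  S.zpowers_le (DihedralBlock.rot_mem_zpowers x i)

theorem rot_one : rot x (1 : ZMod (4 * h)) = x := by
  have := S.rot_natCast 1
  rwa [Nat.cast_one, pow_one] at this

theorem rot_commute (i j : ZMod (4 * h)) : rot x i * rot x j = rot x j * rot x i := by
  rw [← S.rot_add, ← S.rot_add, add_comm]

theorem isPGroup : IsPGroup 2 D := by
  obtain ⟨k, hk⟩ := S.exists_pow
  exact IsPGroup.of_card (n := k + 3) (by rw [S.card_eq, hk]; ring)

theorem index_zpowers : ((Subgroup.zpowers x).subgroupOf D).index = 2 := by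
  have h1 := Subgroup.card_mul_index ((Subgroup.zpowers x).subgroupOf D)
  rw [Nat.card_congr (Subgroup.subgroupOfEquivOfLe S.zpowers_le).toEquiv, Nat.card_zpowers,
    S.orderOf_x, S.card_eq] at h1
  have := S.h_pos
  exact Nat.eq_of_mul_eq_mul_left (show 0 < 4 * h by omega) (by linarith)

theorem exists_outer : ∃ y ∈ D, y ∉ Subgroup.zpowers x := by
  by_contra hc
  push Not at hc
  have h1 : D = Subgroup.zpowers x := le_antisymm hc S.zpowers_le
  have h2 := S.card_eq
  rw [h1, Nat.card_zpowers, S.orderOf_x] at h2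
  have := S.h_pos
  omega

theorem mul_outer {y y' : G} (hy : y ∈ D) (hy' : y' ∈ D) (hyo : y ∉ Subgroup.zpowers x)
    (hy'o : y' ∉ Subgroup.zpowers x) : y * y' ∈ Subgroup.zpowers x := by
  have := (Subgroup.mul_mem_iff_of_index_two S.index_zpowers (a := ⟨y, hy⟩) (b := ⟨y', hy'⟩)).2
  simp only [Subgroup.mem_subgroupOf, Subgroup.coe_mul] at this
  exact this (iff_of_false hyo hy'o)

theorem outer_mul_rot {y : G} (hy : y ∉ Subgroup.zpowers x) (i : ZMod (4 * h)) :
    y * rot x i ∉ Subgroup.zpowers x := fun hc => hy (by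
  simpa using Subgroup.mul_mem _ hc (inv_mem (DihedralBlock.rot_mem_zpowers x i)))

theorem conj_rot {y : G} (hy : y ∈ D) (hyo : y ∉ Subgroup.zpowers x) (i : ZMod (4 * h)) :
    y * rot x i * y⁻¹ = rot x (t * i) := by
  calc y * rot x i * y⁻¹ = (y * x * y⁻¹) ^ i.val := by rw [conj_pow]; rfl
    _ = x ^ (t.val * i.val) := by rw [S.conj_x y hy hyo, pow_mul]
    _ = rot x (t * i) := by
      rw [← S.rot_natCast, Nat.cast_mul, ZMod.natCast_zmod_val, ZMod.natCast_zmod_val]

theorem conj_rot_inv {y : G} (hy : y ∈ D) (hyo : y ∉ Subgroup.zpowers x) (i : ZMod (4 * h)) :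
    y⁻¹ * rot x i * y = rot x (t * i) := by
  have h1 := S.conj_rot hy hyo (t * i)
  rw [← mul_assoc, S.t_mul_t, one_mul] at h1
  rw [← h1]; group

theorem rot_mul_outer {y : G} (hy : y ∈ D) (hyo : y ∉ Subgroup.zpowers x) (i : ZMod (4 * h)) :
    rot x i * y = y * rot x (t * i) := by
  rw [← S.conj_rot_inv hy hyo]; group

/-- Every element is a rotation or a product of a fixed outer element with one. -/
theorem eq_rot_or {y : G} (hy : y ∈ D) (hyo : y ∉ Subgroup.zpowers x) {u : G} (hu : u ∈ D) :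
    (∃ i : ZMod (4 * h), rot x i = u) ∨ ∃ i : ZMod (4 * h), y * rot x i = u := by
  by_cases huo : u ∈ Subgroup.zpowers x
  · exact Or.inl (S.exists_rot huo)
  · have hyi : y⁻¹ ∉ Subgroup.zpowers x := fun hc => hyo (by simpa using inv_mem hc)
    obtain ⟨i, hi⟩ := S.exists_rot (S.mul_outer (inv_mem hy) hu hyi huo)
    exact Or.inr ⟨i, by rw [hi, mul_inv_cancel_left]⟩

/-- Conjugation of an outer element by a rotation. -/
theorem conj_outer {y : G} (hy : y ∈ D) (hyo : y ∉ Subgroup.zpowers x) (i j : ZMod (4 * h)) :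
    rot x j * (y * rot x i) * (rot x j)⁻¹ = y * rot x (i + (t - 1) * j) := by
  rw [← mul_assoc (rot x j), S.rot_mul_outer hy hyo, ← S.rot_neg, mul_assoc y, mul_assoc y,
    ← S.rot_add, ← S.rot_add]
  congr 2
  ring

/-- The two classes of outer elements. -/
theorem exists_conj_outer {y : G} (hy : y ∈ D) (hyo : y ∉ Subgroup.zpowers x) (i : ZMod (4 * h)) :
    ∃ j : ZMod (4 * h), rot x j * (y * rot x (if par h i = 0 then (0 : ZMod (4 * h)) else 1)) * (rot x j)⁻¹ =
      y * rot x i := by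
  have hpar : par h (i - if par h i = 0 then (0 : ZMod (4 * h)) else 1) = 0 := by
    split_ifs with hi
    · rw [sub_zero, hi]
    · rw [map_sub, map_one, (Fin.eq_one_of_ne_zero (par h i) hi : par h i = 1)]; rfl
  obtain ⟨j, hj⟩ := S.exists_sub_one_mul hpar
  refine ⟨j, ?_⟩
  rw [S.conj_outer hy hyo, hj, add_sub_cancel]

theorem sq_outer {y : G} (hy : y ∈ D) (hyo : y ∉ Subgroup.zpowers x) :
    y * y = 1 ∨ y * y = rot x ((2 * h : ℕ) : ZMod (4 * h)) := by
  obtain ⟨i, hi⟩ := S.exists_rot (S.mul_outer hy hy hyo hyo)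
  have h1 := S.conj_rot hy hyo i
  rw [hi, show y * (y * y) * y⁻¹ = y * y by group, ← hi] at h1
  rcases S.t_mul_fix.1 (S.rot_injective h1).symm with rfl | rfl
  · left; rw [← hi, DihedralBlock.rot_zero]
  · right; rw [← hi]

theorem sq_outer_mul {y : G} (hy : y ∈ D) (hyo : y ∉ Subgroup.zpowers x) (i : ZMod (4 * h)) :
    y * rot x i * (y * rot x i) = y * y * rot x ((t + 1) * i) := by
  calc y * rot x i * (y * rot x i) = y * y * (y⁻¹ * rot x i * y) * rot x i := by group
    _ = y * y * (rot x (t * i) * rot x i) := by rw [S.conj_rot_inv hy hyo, mul_assoc]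
    _ = _ := by rw [← S.rot_add]; congr 2; ring

/-- The involution of the rotations is central. -/
theorem two_h_comm {u : G} (hu : u ∈ D) :
    u * rot x ((2 * h : ℕ) : ZMod (4 * h)) = rot x ((2 * h : ℕ) : ZMod (4 * h)) * u := by
  by_cases huo : u ∈ Subgroup.zpowers x
  · obtain ⟨i, rfl⟩ := S.exists_rot huo
    exact S.rot_commute _ _
  · have h1 := S.conj_rot hu huo ((2 * h : ℕ) : ZMod (4 * h))
    rw [(S.t_mul_fix).2 (Or.inr rfl), mul_inv_eq_iff_eq_mul] at h1
    exact h1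

theorem eq_of_commute_outer {y : G} (hy : y ∈ D) (hyo : y ∉ Subgroup.zpowers x)
    {i : ZMod (4 * h)} (hc : y * rot x i = rot x i * y) :
    i = 0 ∨ i = ((2 * h : ℕ) : ZMod (4 * h)) := by
  refine S.t_mul_fix.1 (S.rot_injective ?_)
  rw [← S.conj_rot hy hyo, hc, mul_inv_cancel_right]

/-- The centraliser in `D` of an element of order at least four among the rotations. -/
theorem inf_centralizer_rot {i : ZMod (4 * h)} (h0 : i ≠ 0)
    (h2 : i ≠ ((2 * h : ℕ) : ZMod (4 * h))) :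
    D ⊓ Subgroup.centralizer ({rot x i} : Set G) = Subgroup.zpowers x := by
  refine le_antisymm (fun u hu => ?_) fun u hu => ⟨S.zpowers_le hu, ?_⟩
  · by_contra huo
    rcases S.eq_of_commute_outer hu.1 huo (Subgroup.mem_centralizer_singleton_iff.1 hu.2) with e | e
    · exact h0 e
    · exact h2 e
  · obtain ⟨j, rfl⟩ := S.exists_rot hu
    exact Subgroup.mem_centralizer_singleton_iff.2 (S.rot_commute j i)

theorem card_zpowers : Nat.card (Subgroup.zpowers x) = 4 * h := by
  rw [Nat.card_zpowers, S.orderOf_x]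

theorem inf_centralizer_two_h :
    D ⊓ Subgroup.centralizer ({rot x ((2 * h : ℕ) : ZMod (4 * h))} : Set G) = D :=
  inf_eq_left.2 fun _ hu => Subgroup.mem_centralizer_singleton_iff.2 (S.two_h_comm hu)

theorem h_ne_zero : (h : ZMod (4 * h)) ≠ 0 := fun e => by
  rw [ZMod.natCast_eq_zero_iff] at e
  have := Nat.le_of_dvd S.h_pos e
  have := S.h_pos; omega

theorem h_ne_two_h : (h : ZMod (4 * h)) ≠ ((2 * h : ℕ) : ZMod (4 * h)) := fun e => by
  have := congrArg ZMod.val e
  rw [ZMod.val_natCast_of_lt (by have := S.h_pos; omega),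
    ZMod.val_natCast_of_lt (by have := S.h_pos; omega)] at this
  have := S.h_pos; omega

/-- The centre of `D`. -/
theorem eq_of_central {u : G} (hu : u ∈ D) (hc : ∀ v ∈ D, u * v = v * u) :
    u = 1 ∨ u = rot x ((2 * h : ℕ) : ZMod (4 * h)) := by
  obtain ⟨y, hy, hyo⟩ := S.exists_outer
  by_cases huo : u ∈ Subgroup.zpowers x
  · obtain ⟨i, rfl⟩ := S.exists_rot huo
    rcases S.eq_of_commute_outer hy hyo (hc y hy).symm with rfl | rfl
    · exact Or.inl (DihedralBlock.rot_zero x)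
    · exact Or.inr rfl
  · rcases S.eq_of_commute_outer hu huo (hc _ (S.rot_mem (h : ZMod (4 * h)))) with e | e
    · exact absurd e S.h_ne_zero
    · exact absurd e S.h_ne_two_h

theorem card_inf_centralizer_outer {y : G} (hy : y ∈ D) (hyo : y ∉ Subgroup.zpowers x) :
    Nat.card ↥(D ⊓ Subgroup.centralizer ({y} : Set G)) = 4 := by
  classical
  set z := rot x ((2 * h : ℕ) : ZMod (4 * h)) with hz
  have hzr : z ∈ Subgroup.zpowers x := DihedralBlock.rot_mem_zpowers x _
  have hset : ((D ⊓ Subgroup.centralizer ({y} : Set G) : Subgroup G) : Set G) =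
      ↑({1, z, y, y * z} : Finset G) := by
    ext u
    simp only [Subgroup.coe_inf, Set.mem_inter_iff, SetLike.mem_coe, Finset.coe_insert,
      Finset.coe_singleton, Set.mem_insert_iff, Set.mem_singleton_iff,
      Subgroup.mem_centralizer_singleton_iff]
    constructor
    · rintro ⟨huD, huc⟩
      rcases S.eq_rot_or hy hyo huD with ⟨i, rfl⟩ | ⟨i, rfl⟩
      · rcases S.eq_of_commute_outer hy hyo huc.symm with rfl | rfl
        · exact Or.inl (DihedralBlock.rot_zero x)
        · exact Or.inr (Or.inl rfl)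
      · rw [mul_assoc] at huc
        rcases S.eq_of_commute_outer hy hyo (mul_left_cancel huc).symm with rfl | rfl
        · exact Or.inr (Or.inr (Or.inl (by rw [DihedralBlock.rot_zero, mul_one])))
        · exact Or.inr (Or.inr (Or.inr rfl))
    · rintro (rfl | rfl | rfl | rfl)
      · exact ⟨D.one_mem, by simp⟩
      · exact ⟨S.rot_mem _, (S.two_h_comm hy).symm⟩
      · exact ⟨hy, rfl⟩
      · exact ⟨D.mul_mem hy (S.rot_mem _), by rw [mul_assoc, ← S.two_h_comm hy]⟩
  have hz1 : z ≠ 1 := fun e => S.two_h_ne_zero (S.rot_eq_one.1 e)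
  have hy1 : y ≠ 1 := fun e => hyo (e ▸ Subgroup.one_mem _)
  have hyz : y * z ∉ Subgroup.zpowers x := S.outer_mul_rot hyo _
  rw [← SetLike.coe_sort_coe, hset, Nat.card_eq_card_finite_toFinset (Finset.finite_toSet _),
    Finset.finite_toSet_toFinset, Finset.card_insert_of_notMem, Finset.card_insert_of_notMem,
    Finset.card_insert_of_notMem, Finset.card_singleton]
  · simp only [Finset.mem_singleton]
    exact fun e => hz1 (left_eq_mul.1 e)
  · simp only [Finset.mem_insert, Finset.mem_singleton, not_or]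
    exact ⟨fun e => hyo (e ▸ hzr), fun e => hyz (e ▸ hzr)⟩
  · simp only [Finset.mem_insert, Finset.mem_singleton, not_or]
    exact ⟨Ne.symm hz1, Ne.symm hy1, fun e => hyz (e ▸ Subgroup.one_mem _)⟩

/-- The element of order four is a power of every rotation of order at least four. -/
theorem rot_h_mem_zpowers {i : ZMod (4 * h)} (h0 : i ≠ 0)
    (h2 : i ≠ ((2 * h : ℕ) : ZMod (4 * h))) :
    rot x (h : ZMod (4 * h)) ∈ Subgroup.zpowers (rot x i) := by
  obtain ⟨k, hk⟩ := S.exists_pow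
  set g := Nat.gcd i.val (4 * h) with hg
  obtain ⟨a, ha, hga⟩ : ∃ a ≤ k + 2, g = 2 ^ a := by
    refine (Nat.dvd_prime_pow Nat.prime_two).1 ?_
    rw [show 2 ^ (k + 2) = 4 * h by rw [hk]; ring]
    exact Nat.gcd_dvd_right _ _
  have hak : a ≤ k := by
    by_contra hlt
    push Not at hlt
    have hd : 2 * h ∣ i.val := by
      refine dvd_trans ?_ (Nat.gcd_dvd_left i.val (4 * h))
      rw [← hg, hga, hk, ← pow_succ']
      exact pow_dvd_pow 2 hlt
    obtain ⟨c, hc⟩ := hd
    have hi := i.val_lt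
    rcases c with _ | _ | c
    · exact h0 ((ZMod.val_eq_zero i).1 (by rw [hc, mul_zero]))
    · exact h2 (by rw [← ZMod.natCast_zmod_val i, hc, zero_add, mul_one])
    · have : 2 * h * 2 ≤ i.val := hc ▸ Nat.mul_le_mul_left _ (by omega)
      omega
  obtain ⟨m, hm⟩ : g ∣ h := by rw [hga, hk]; exact pow_dvd_pow 2 hak
  have hb : (g : ZMod (4 * h)) = i * ((Nat.gcdA i.val (4 * h) : ℤ) : ZMod (4 * h)) := by
    have := congrArg (fun z : ℤ => (z : ZMod (4 * h))) (Nat.gcd_eq_gcd_ab i.val (4 * h))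
    rw [← hg] at this
    push_cast at this
    rw [show (4 : ZMod (4 * h)) * (h : ZMod (4 * h)) = 0 by
      exact_mod_cast ZMod.natCast_self (4 * h), zero_mul, add_zero,
      ZMod.natCast_zmod_val] at this
    exact this
  set c : ZMod (4 * h) := ((Nat.gcdA i.val (4 * h) : ℤ) : ZMod (4 * h)) * (m : ZMod (4 * h))
    with hcdef
  refine Subgroup.mem_zpowers_iff.2 ⟨(c.val : ℤ), ?_⟩
  rw [zpow_natCast]
  calc rot x i ^ c.val = x ^ (i.val * c.val) := by rw [rot, ← pow_mul]
    _ = rot x (i * c) := by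
      rw [← S.rot_natCast, Nat.cast_mul, ZMod.natCast_zmod_val, ZMod.natCast_zmod_val]
    _ = _ := by
      congr 1
      rw [hcdef, ← mul_assoc, ← hb, ← Nat.cast_mul, ← hm]

theorem centralizer_rot_le {i : ZMod (4 * h)} (h0 : i ≠ 0)
    (h2 : i ≠ ((2 * h : ℕ) : ZMod (4 * h))) :
    Subgroup.centralizer ({rot x i} : Set G) ≤
      Subgroup.centralizer ({rot x (h : ZMod (4 * h))} : Set G) := by
  intro g hg
  obtain ⟨m, hm⟩ := Subgroup.mem_zpowers_iff.1 (S.rot_h_mem_zpowers h0 h2)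
  rw [Subgroup.mem_centralizer_singleton_iff] at hg ⊢
  rw [← hm]
  exact (Commute.zpow_right hg m).eq

theorem rot_sq_ne_one {i : ZMod (4 * h)} (h0 : i ≠ 0)
    (h2 : i ≠ ((2 * h : ℕ) : ZMod (4 * h))) : rot x i * rot x i ≠ 1 := fun e => by
  rw [← S.rot_add] at e
  rcases S.eq_zero_or_two_h (S.rot_eq_one.1 e) with e | e
  · exact h0 e
  · exact h2 e

/-- The rotations of order dividing four. -/
theorem eq_of_pow_four {i : ZMod (4 * h)} (e : rot x i ^ 4 = 1) :
    i = 0 ∨ i = ((2 * h : ℕ) : ZMod (4 * h)) ∨ i = (h : ZMod (4 * h)) ∨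
      i = -(h : ZMod (4 * h)) := by
  rw [rot, ← pow_mul, ← orderOf_dvd_iff_pow_eq_one, S.orderOf_x, mul_comm i.val,
    Nat.mul_dvd_mul_iff_left (by norm_num : 0 < 4)] at e
  obtain ⟨c, hc⟩ := e
  have hi := i.val_lt
  have hpos := S.h_pos
  have hc4 : c < 4 := Nat.lt_of_mul_lt_mul_left (a := h) (by rw [← hc]; linarith)
  rw [← ZMod.natCast_zmod_val i, hc]
  interval_cases c
  · exact Or.inl (by simp)
  · exact Or.inr (Or.inr (Or.inl (by simp)))
  · exact Or.inr (Or.inl (by rw [mul_comm h]))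
  · refine Or.inr (Or.inr (Or.inr (eq_neg_of_add_eq_zero_left ?_)))
    rw [← Nat.cast_add, show h * 3 + h = 4 * h by ring, ZMod.natCast_self]

theorem orderOf_two_h : orderOf (rot x ((2 * h : ℕ) : ZMod (4 * h))) = 2 := by
  refine orderOf_eq_prime ?_ fun e => S.two_h_ne_zero (S.rot_eq_one.1 e)
  rw [pow_two, ← S.rot_add, S.two_h_add_two_h, DihedralBlock.rot_zero]

/-- The squares of the outer elements of the quaternion group. -/
theorem sq_outer_of_neg (ht : t = -1) {y : G} (hy : y ∈ D) (hyo : y ∉ Subgroup.zpowers x) :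
    y * y = rot x ((2 * h : ℕ) : ZMod (4 * h)) := by
  rcases S.cases with ⟨-, hq⟩ | ⟨-, ht', -⟩
  · rw [hq y hy hyo, S.rot_natCast]
  · exfalso
    rw [ht] at ht'
    exact S.two_h_ne_zero (by linear_combination -ht')

end IsTame

/-- The generalised quaternion groups are of this kind. -/
theorem exists_isTame_quaternion [Finite G] {D : Subgroup G} {h : ℕ} (hpow : ∃ k, h = 2 ^ k)
    (σ : D ≃* QuaternionGroup (2 * h)) : ∃ x : G, IsTame D x h (-1) := by
  have hpos : 0 < h := by obtain ⟨k, rfl⟩ := hpow; exact Nat.two_pow_pos k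
  haveI : NeZero (2 * h) := ⟨by omega⟩
  haveI : NeZero (4 * h) := ⟨by omega⟩
  set r0 := σ.symm (QuaternionGroup.a 1) with hr0
  have hrot : ∀ u : D, (u : G) ∈ Subgroup.zpowers (r0 : G) ↔ ∃ i, σ u = QuaternionGroup.a i := by
    intro u
    constructor
    · intro hu
      obtain ⟨k, hk⟩ := (mem_powers_iff_mem_zpowers (x := (r0 : G))).2 hu
      have hu' : u = r0 ^ k := Subtype.ext (by simpa using hk.symm)
      exact ⟨(k : ZMod (2 * (2 * h))), by
        rw [hu', map_pow, hr0, σ.apply_symm_apply, QuaternionGroup.a_one_pow]⟩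
    · rintro ⟨i, hi⟩
      refine (mem_powers_iff_mem_zpowers (x := (r0 : G))).1 ⟨i.val, ?_⟩
      show ((r0 : G)) ^ i.val = u
      rw [← SubmonoidClass.coe_pow, show r0 ^ i.val = u from σ.injective ?_]
      rw [map_pow, hr0, σ.apply_symm_apply, QuaternionGroup.a_one_pow, hi, ZMod.natCast_zmod_val]
  have hxa : ∀ u : D, (u : G) ∉ Subgroup.zpowers (r0 : G) → ∃ i, σ u = QuaternionGroup.xa i := by
    intro u hu
    rcases h' : σ u with i | i
    · exact absurd ((hrot u).2 ⟨i, h'⟩) hu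
    · exact ⟨i, rfl⟩
  refine ⟨(r0 : G), hpow, ?_, r0.2, ?_, fun y hy hyo => ?_, Or.inl ⟨rfl, fun y hy hyo => ?_⟩⟩
  · rw [Subgroup.orderOf_coe, hr0, MulEquiv.orderOf_eq, QuaternionGroup.orderOf_a_one]; ring
  · rw [Nat.card_congr σ.toEquiv, Nat.card_eq_fintype_card, QuaternionGroup.card]; ring
  · obtain ⟨i, hi⟩ := hxa ⟨y, hy⟩ hyo
    have e : (⟨y, hy⟩ : D) * r0 * (⟨y, hy⟩ : D)⁻¹ = r0 ^ (-1 : ZMod (4 * h)).val := by
      rw [mul_inv_eq_iff_eq_mul]
      apply σ.injective
      rw [map_mul, map_mul, map_pow, hr0, σ.apply_symm_apply, hi, QuaternionGroup.a_one_pow,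
        QuaternionGroup.xa_mul_a, QuaternionGroup.a_mul_xa]
      congr 1
      have hN : 2 * (2 * h) = 4 * h := by ring
      have hv : ((-1 : ZMod (4 * h)).val + 1 : ℕ) = 2 * (2 * h) := by
        obtain ⟨m, hm⟩ : ∃ m, 4 * h = m + 2 := ⟨4 * h - 2, by omega⟩
        rw [ZMod.neg_val, if_neg (by
          intro e
          have := congrArg ZMod.val e
          rw [ZMod.val_one'' (by omega), ZMod.val_zero] at this
          omega), ZMod.val_one'' (by omega)]
        omega
      have h0 : (((-1 : ZMod (4 * h)).val + 1 : ℕ) : ZMod (2 * (2 * h))) = 0 := by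
        rw [hv]; exact ZMod.natCast_self _
      push_cast at h0
      linear_combination h0
    exact congrArg Subtype.val e
  · obtain ⟨i, hi⟩ := hxa ⟨y, hy⟩ hyo
    have e : (⟨y, hy⟩ : D) * ⟨y, hy⟩ = r0 ^ (2 * h) := by
      apply σ.injective
      rw [map_mul, map_pow, hr0, σ.apply_symm_apply, hi, QuaternionGroup.a_one_pow,
        QuaternionGroup.xa_mul_xa]
      congr 1
      push_cast
      ring
    exact congrArg Subtype.val e

/-- The semidihedral groups are of this kind. -/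
theorem exists_isTame_semidihedral [Finite G] {D : Subgroup G} {n : ℕ} (hn : 4 ≤ n)
    (hcard : Nat.card D = 2 ^ n) (hsd : Cfsg.IsQuasiDihedral D) :
    ∃ x : G, IsTame D x (2 ^ (n - 3))
      (((2 * 2 ^ (n - 3) : ℕ) : ZMod (4 * 2 ^ (n - 3))) - 1) := by
  obtain ⟨m, hm, hc, x, y, hx, hy, hconj⟩ := hsd
  have hmn : m + 1 = n := Nat.pow_right_injective le_rfl (hc.symm.trans hcard)
  obtain ⟨d, rfl⟩ : ∃ d, n = d + 4 := ⟨n - 4, by omega⟩
  obtain rfl : m = d + 3 := by omega
  simp only [show d + 4 - 3 = d + 1 by omega]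
  set h := 2 ^ (d + 1) with hh
  have hpos : 0 < h := Nat.two_pow_pos _
  haveI : NeZero (4 * h) := ⟨by omega⟩
  have h4 : 2 ^ (d + 3) = 4 * h := by rw [hh]; ring
  have h2' : 2 ^ (d + 3 - 1) = 2 * h := by
    rw [hh, show d + 3 - 1 = d + 1 + 1 by omega]; ring
  rw [h2'] at hconj
  have hxG : orderOf (x : G) = 4 * h := by rw [Subgroup.orderOf_coe, hx, h4]
  set t : ZMod (4 * h) := ((2 * h : ℕ) : ZMod (4 * h)) - 1 with ht
  have htv : t.val = 2 * h - 1 := by
    rw [ht, ← Nat.cast_one, ← Nat.cast_sub (by omega), ZMod.val_natCast_of_lt (by omega)]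
  have hyo : (y : G) ∉ Subgroup.zpowers (x : G) := by
    intro hmem
    obtain ⟨i, hi⟩ := Subgroup.mem_zpowers_iff.1 hmem
    have hyx : y = x ^ i := Subtype.ext (by simpa using hi.symm)
    have h1 : x ^ (2 * h - 1) = x ^ 1 := by
      rw [pow_one, ← hconj, hyx]; group
    rw [pow_eq_pow_iff_modEq, hx, h4] at h1
    have := h1.eq_of_lt_of_lt (by omega) (by omega)
    have : 2 ≤ h := by rw [hh]; exact Nat.le_self_pow (by omega) 2
    omega
  have hind : ((Subgroup.zpowers (x : G)).subgroupOf D).index = 2 := by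
    have h1 := Subgroup.card_mul_index ((Subgroup.zpowers (x : G)).subgroupOf D)
    rw [Nat.card_congr (Subgroup.subgroupOfEquivOfLe (Subgroup.zpowers_le.2 x.2)).toEquiv,
      Nat.card_zpowers, hxG, hcard, show 2 ^ (d + 4) = 4 * h * 2 by rw [hh]; ring] at h1
    exact Nat.eq_of_mul_eq_mul_left (show 0 < 4 * h by omega) h1
  have hy2 : y * y = 1 := by rw [← pow_two, ← hy, pow_orderOf_eq_one]
  refine ⟨(x : G), ⟨d + 1, rfl⟩, hxG, x.2, by rw [hcard]; simp only [show d + 4 - 3 = d + 1 by omega]; ring, fun u hu huo => ?_,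
    Or.inr ⟨⟨2 ^ d, by simp only [show d + 4 - 3 = d + 1 by omega]; ring⟩, rfl, (y : G), y.2, hyo, congrArg Subtype.val hy2⟩⟩
  have h1 : (y⁻¹ * ⟨u, hu⟩ : D) ∈ (Subgroup.zpowers (x : G)).subgroupOf D :=
    (Subgroup.mul_mem_iff_of_index_two hind).2 (iff_of_false
      (fun hc' => hyo (by simpa [Subgroup.mem_subgroupOf] using inv_mem hc'))
      (fun hc' => huo (Subgroup.mem_subgroupOf.1 hc')))
  obtain ⟨i, hi⟩ := Subgroup.mem_zpowers_iff.1 (Subgroup.mem_subgroupOf.1 h1)
  have hu' : u = (y : G) * (x : G) ^ i := by rw [hi]; simp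
  have hcG : (y : G) * x * (y : G)⁻¹ = (x : G) ^ (2 * h - 1) := congrArg Subtype.val hconj
  rw [htv, hu']
  calc (y : G) * (x : G) ^ i * x * ((y : G) * (x : G) ^ i)⁻¹ = (y : G) * x * (y : G)⁻¹ := by group
    _ = _ := hcG

end CfsgLib.QuatBlock
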