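import Cfsg.Agent.Lib.QuatBlock.TAlgebra
import Cfsg.Agent.Lib.QuatBlock.Group
import Cfsg.Agent.Lib.BlockStar.Nonvanishing
import Cfsg.Agent.Lib.BlockSections.OrderFour

/-!
# Fusion and defects of the pairs of a tame defect group

Rotations of order at least four are fused by the outer elements only; outer elements that are
not fused to a rotation carry blocks with four characters and rank one.
-/

set_option autoImplicit false
set_option linter.style.haveILetI false
set_option linter.unusedSectionVars false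

noncomputable section

namespace CfsgLib.QuatBlock

open Cfsg CfsgLib.Blocks MonoidAlgebra CfsgLib.BrauerPairs
open CfsgLib.BrauerCharacters (centralizer_zpowers_eq)
open CfsgLib.BlockSections (belowBlock)
open CfsgLib.DihedralBlock (rot)

variable {G : Type*} [Group G] [Fintype G] {M : Ideal AlgInt} [M.IsPrime] [Fact (2 : ℕ).Prime]
  [CharP (Res M) 2] [IsAlgClosed (Res M)]
  {B : Set (IrrCharacter G)} {D : Subgroup G} {e0 : MonoidAlgebra (Res M) G}
  [∀ y : G, Fintype (Subgroup.centralizer ({y} : Set G))]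
  {x : G} {h : ℕ} {t : ZMod (4 * h)} [NeZero (4 * h)]
  (hM : IsPModular 2 M) (hB : IsPBlock M B)
  (hmax : IsMaxPair 2 (⊤ : Subgroup G) (redElem M (blockCoeff B)) D e0) (S : IsTame D x h t)
include hM hB hmax

/-- Conjugate elements of the defect group are fused. -/
theorem fus_conj_mem {u d : G} (hu : u ∈ D) (hd : d ∈ D) : Fus 2 D e0 u (d * u * d⁻¹) := by
  refine fus_of_pairLE hM hB hmax (pairLE_bId hM hB hmax hu) ?_
  have h1 := (pairLE_bId hM hB hmax hu).conj (Subgroup.mem_top d)
  rwa [BlockSections.cj_zpowers,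
    cj_of_mem hd, (mem_pairStab.1 (le_pairStab hmax.1.1 hd)).2.2] at h1

/-- The block idempotent below the pair depends only on the subgroup. -/
theorem bId_congr {v w : G} (hv : v ∈ D) (hw : w ∈ D)
    (he : Subgroup.zpowers v = Subgroup.zpowers w) : bId 2 D e0 v = bId 2 D e0 w := by
  have h1 := pairLE_bId hM hB hmax hv
  rw [he] at h1
  exact eq_bId hM hB hmax h1

/-- The centraliser in the defect group is no larger than the defect group of the block. -/
theorem card_inf_centralizer_le {u : G} (hu : u ∈ D) :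
    Nat.card ↥(D ⊓ Subgroup.centralizer ({u} : Set G)) ≤
      2 ^ blockDefect 2 (belowBlock (M := M) 2 D e0 u) := by
  obtain ⟨hbl, -, -⟩ := BlockSections.belowBlock_spec hM hB hmax hu
  obtain ⟨D', hD', hge⟩ := (pairLE_bId hM hB hmax hu).exists_defect_ge hmax.1.1
  rw [cenIn_top, centralizer_zpowers_eq] at hD'
  rw [centralizer_zpowers_eq] at hge
  have hdef : IsDefectGroup 2 M (belowBlock (M := M) 2 D e0 u)
      (D'.subgroupOf (Subgroup.centralizer ({u} : Set G))) := by
    rwa [isDefectGroup_sub_iff hM hbl, Subgroup.map_subgroupOf_eq_of_le hD'.1]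
  rw [← Blocks.card_isDefectGroup hM hbl hdef,
    Nat.card_congr (Subgroup.subgroupOfEquivOfLe hD'.1).toEquiv]
  exact Subgroup.card_le_of_le hge

/-- The order of the defect group of the block is attained at a fused element. -/
theorem exists_fus_pow_defect {u : G} (hu : u ∈ D) :
    ∃ v ∈ D, Fus 2 D e0 u v ∧ 2 ^ blockDefect 2 (belowBlock (M := M) 2 D e0 u) =
      Nat.card ↥(D ⊓ Subgroup.centralizer ({v} : Set G)) := by
  have hb := isBlockIdem_redElem_blockCoeff (M := M) hB
  obtain ⟨hbl, -, -⟩ := BlockSections.belowBlock_spec hM hB hmax hu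
  have hle := pairLE_bId hM hB hmax hu
  obtain ⟨c, hc, hcle, hd⟩ := hmax.exists_conj_defect hb ((hle.pairOf_iff hb).2 hmax.1)
  have hcle' := hcle
  rw [BlockSections.cj_zpowers] at hcle'
  refine ⟨c * u * c⁻¹, hcle'.le (Subgroup.mem_zpowers _),
    fus_of_pairLE hM hB hmax hle hcle', ?_⟩
  rw [← cj_cenIn hc] at hd
  have h1 := hd.conj_cj c⁻¹
  rw [← cj_mul, inv_mul_cancel, cj_one, conjA_inv_conjA, cenIn_top, centralizer_zpowers_eq] at h1
  have hdef : IsDefectGroup 2 M (belowBlock (M := M) 2 D e0 u)
      ((cj c⁻¹ (D ⊓ Subgroup.centralizer (cj c (Subgroup.zpowers u) : Set G))).subgroupOf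
        (Subgroup.centralizer ({u} : Set G))) := by
    rwa [isDefectGroup_sub_iff hM hbl, Subgroup.map_subgroupOf_eq_of_le h1.1]
  rw [← Blocks.card_isDefectGroup hM hbl hdef,
    Nat.card_congr (Subgroup.subgroupOfEquivOfLe h1.1).toEquiv,
    Subgroup.card_map_of_injective (MulAut.conj c⁻¹).injective, BlockSections.cj_zpowers,
    centralizer_zpowers_eq]

include S

omit hM hB hmax in
theorem rot_pow_val (i k : ZMod (4 * h)) : rot x i ^ k.val = rot x (k * i) := by
  rw [mul_comm k i, rot, ← pow_mul, ← S.rot_natCast, Nat.cast_mul, ZMod.natCast_zmod_val,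
    ZMod.natCast_zmod_val]

omit hM hB hmax in
theorem normalizes_rot {y : G} (hy : y ∈ D) (i : ZMod (4 * h)) :
    y ∈ Subgroup.normalizer (Subgroup.zpowers (rot x i) : Set G) := by
  apply Subgroup.mem_normalizer_fintype
  intro w hw
  obtain ⟨k, rfl⟩ := Subgroup.mem_zpowers_iff.1 hw
  by_cases hyr : y ∈ Subgroup.zpowers x
  · obtain ⟨j, rfl⟩ := S.exists_rot hyr
    have hc : Commute (rot x j) (rot x i ^ k) :=
      (show Commute (rot x j) (rot x i) from S.rot_commute j i).zpow_right k
    rw [hc.eq, mul_inv_cancel_right]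
    exact zpow_mem (Subgroup.mem_zpowers _) k
  · rw [← conj_zpow, S.conj_rot hy hyr]
    refine zpow_mem ?_ k
    refine Subgroup.mem_zpowers_iff.2 ⟨(t.val : ℤ), ?_⟩
    rw [zpow_natCast, rot_pow_val S]

omit hM hB hmax in
/-- A cyclic group of rotations is determined by its order. -/
theorem zpowers_eq {u v : G} (hu : u ∈ Subgroup.zpowers x) (hv : v ∈ Subgroup.zpowers x)
    (hord : orderOf u = orderOf v) : Subgroup.zpowers u = Subgroup.zpowers v := by
  have key : ∀ w ∈ Subgroup.zpowers x,
      Subgroup.zpowers w = Subgroup.zpowers (x ^ (4 * h / orderOf w)) := by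
    intro w hw
    obtain ⟨i, rfl⟩ := (IsOfFinOrder.mem_powers_iff_mem_zpowers S.isOfFinOrder_x).2 hw
    have hdvd : orderOf (x ^ i) ∣ 4 * h := S.orderOf_x ▸ orderOf_pow_dvd i
    have hle : Subgroup.zpowers (x ^ i) ≤ Subgroup.zpowers (x ^ (4 * h / orderOf (x ^ i))) := by
      rw [Subgroup.zpowers_le]
      set d := orderOf (x ^ i) with hd
      have h1 : 4 * h ∣ i * d := by
        have h2 : (x ^ i) ^ d = 1 := pow_orderOf_eq_one _
        rw [← pow_mul] at h2
        exact S.orderOf_x ▸ orderOf_dvd_of_pow_eq_one h2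
      have hd0 : 0 < d := orderOf_pos _
      obtain ⟨c, hc⟩ : 4 * h / d ∣ i := by
        rw [← Nat.mul_dvd_mul_iff_right hd0, Nat.div_mul_cancel hdvd]
        exact h1
      exact Subgroup.mem_zpowers_iff.2 ⟨c, by rw [zpow_natCast, ← pow_mul, ← hc]⟩
    refine Subgroup.eq_of_le_of_card_ge hle ?_
    rw [Nat.card_zpowers, Nat.card_zpowers]
    refine Nat.le_of_dvd (orderOf_pos _) (orderOf_dvd_of_pow_eq_one ?_)
    rw [← pow_mul, Nat.div_mul_cancel hdvd, ← S.orderOf_x, pow_orderOf_eq_one]
  rw [key u hu, key v hv, hord]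

omit hM hB hmax in
theorem zpowers_rot_le {i : ZMod (4 * h)} : Subgroup.zpowers (rot x i) ≤ D :=
  Subgroup.zpowers_le.2 (S.rot_mem i)

/-- Fusion of rotations of order at least four. -/
theorem fus_rot_iff {i l : ZMod (4 * h)} (h0 : i ≠ 0) (h2 : i ≠ ((2 * h : ℕ) : ZMod (4 * h))) :
    Fus 2 D e0 (rot x i) (rot x l) ↔ l = i ∨ l = t * i := by
  constructor
  · intro hf
    have hord := hf.orderOf_eq
    obtain ⟨g, hg, hfix⟩ := hf
    set v := rot x i with hv
    have hb := isBlockIdem_redElem_blockCoeff (M := M) hB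
    have hle := pairLE_bId hM hB hmax (S.rot_mem i)
    set f := bId (M := M) 2 D e0 v with hf'
    set Q := Subgroup.zpowers v with hQ
    have hQe : Subgroup.zpowers (rot x l) = Q :=
      zpowers_eq S (DihedralBlock.rot_mem_zpowers x l) (DihedralBlock.rot_mem_zpowers x i) hord.symm
    rw [bId_congr hM hB hmax (S.rot_mem l) (S.rot_mem i) hQe, ← hf'] at hfix
    obtain ⟨D', hD', hge⟩ := hle.exists_defect_stab_ge hmax.1.1
    rw [inf_eq_left.2 fun y hy => normalizes_rot S hy i] at hge
    obtain rfl : D = D' := by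
      refine Subgroup.eq_of_le_of_card_ge hge ?_
      obtain ⟨c, hc, -, hd⟩ := hmax.exists_conj_defect_stab hb ((hle.pairOf_iff hb).2 hmax.1)
      rw [← cj_pairStab hc] at hd
      have h1 := hd.conj_cj c⁻¹
      rw [← cj_mul, inv_mul_cancel, cj_one, conjA_inv_conjA] at h1
      obtain ⟨a, -, ha⟩ := hD'.exists_conj h1
      have h3 : Nat.card D' ≤ Nat.card D := by
        have h2 := congrArg (fun U : Subgroup G => Nat.card U) ha
        have hc1 : ∀ (a : G) (U : Subgroup G), Nat.card (cj a U) = Nat.card U := fun a U =>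
          Subgroup.card_map_of_injective (MulAut.conj a).injective
        simp only [hc1] at h2
        rw [← h2]
        exact Subgroup.card_le_of_le inf_le_left
      exact h3
    have hp : IsPair 2 (⊤ : Subgroup G) Q f := hle.isPair_left hmax.1.1
    have hCT : cenIn (⊤ : Subgroup G) Q ≤ pairStab (⊤ : Subgroup G) Q f := cenIn_le_pairStab hp
    have hidx := hD'.relIndex_ne_zero hp.2.2 (fun y hy => (mem_pairStab.1 hy).2.2) hCT
      pairStab_le_normalizer_cenIn
    rw [Ne, CharP.cast_eq_zero_iff (Res M) 2] at hidx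
    have hpow : ∃ a, orderOf v = 2 ^ a :=
      BlockSections.isPElem_of_mem hM hB hmax (S.rot_mem i)
    have hT := le_of_regular_and_index (p := 2) le_sup_right (sup_le hD'.1 hCT)
      pairStab_le_normalizer_cenIn hidx fun y hy hodd => by
      obtain ⟨a, ha⟩ := hpow
      have hyv : Commute y v := DihedralBlock.commute_of_odd_cyclic
        (Nat.not_even_iff_odd.1 fun he => hodd (even_iff_two_dvd.1 he)) ha
        (mem_powers_iff_mem_zpowers.2
          ((Subgroup.mem_normalizer_iff.1 (mem_pairStab.1 hy).2.1 v).1 (Subgroup.mem_zpowers v)))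
      rw [cenIn_top, hQ, centralizer_zpowers_eq]
      exact Subgroup.mem_centralizer_singleton_iff.2 hyv.eq
    have hgT : g ∈ pairStab (⊤ : Subgroup G) Q f := by
      refine mem_pairStab_of_cj (Subgroup.mem_top g) ?_ hfix
      rw [hQ, BlockStar.cj_zpowers, hg, hQe]
    let U : Subgroup G :=
      { carrier := {y | y * v * y⁻¹ = rot x i ∨ y * v * y⁻¹ = rot x (t * i)}
        one_mem' := Or.inl (by group; rfl)
        mul_mem' := fun {y y'} hy hy' => by
          have e : y * y' * v * (y * y')⁻¹ = y * (y' * v * y'⁻¹) * y⁻¹ := by group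
          simp only [Set.mem_setOf_eq] at hy hy' ⊢
          rw [e]
          rcases hy' with hy' | hy' <;> rw [hy']
          · exact hy
          · have e' : rot x (t * i) = v ^ t.val := (rot_pow_val S i t).symm
            rcases hy with hy | hy
            · right; rw [e', ← conj_pow, hy]
            · left
              rw [e', ← conj_pow, hy, rot_pow_val S, ← mul_assoc, S.t_mul_t, one_mul]
        inv_mem' := fun {y} hy => by
          simp only [Set.mem_setOf_eq, inv_inv] at hy ⊢
          rcases hy with hy | hy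
          · left
            calc y⁻¹ * v * y = y⁻¹ * (y * v * y⁻¹) * y := by rw [hy]
              _ = _ := by rw [hv]; group
          · right
            calc y⁻¹ * v * y = y⁻¹ * rot x (t * i) ^ t.val * y := by
                  rw [rot_pow_val S, ← mul_assoc, S.t_mul_t, one_mul]
              _ = v ^ t.val := by rw [← hy, conj_pow]; group
              _ = rot x (t * i) := rot_pow_val S i t }
    have hU : D ⊔ cenIn (⊤ : Subgroup G) Q ≤ U := by
      refine sup_le (fun y hy => ?_) fun y hy => ?_
      · by_cases hyr : y ∈ Subgroup.zpowers x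
        · left
          obtain ⟨j, rfl⟩ := S.exists_rot hyr
          rw [hv, S.rot_commute, mul_inv_cancel_right]
        · exact Or.inr (S.conj_rot hy hyr i)
      · rw [cenIn_top, hQ, centralizer_zpowers_eq] at hy
        exact Or.inl (mul_inv_eq_iff_eq_mul.2 (Subgroup.mem_centralizer_singleton_iff.1 hy))
    rcases hU (hT hgT) with e | e
    · exact Or.inl (S.rot_injective (hg.symm.trans e))
    · exact Or.inr (S.rot_injective (hg.symm.trans e))
  · rintro (rfl | rfl)
    · exact Fus.refl _
    · obtain ⟨y, hy, hyo⟩ := S.exists_outer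
      have := fus_conj_mem hM hB hmax (S.rot_mem i) hy
      rwa [S.conj_rot hy hyo] at this

/-- The defect of the block at a rotation of order at least four. -/
theorem pow_defect_rot {i : ZMod (4 * h)} (h0 : i ≠ 0)
    (h2 : i ≠ ((2 * h : ℕ) : ZMod (4 * h))) :
    2 ^ blockDefect 2 (belowBlock (M := M) 2 D e0 (rot x i)) = 4 * h := by
  have hge := card_inf_centralizer_le hM hB hmax (S.rot_mem i)
  rw [S.inf_centralizer_rot h0 h2, S.card_zpowers] at hge
  obtain ⟨v, hv, hf, he⟩ := exists_fus_pow_defect hM hB hmax (S.rot_mem i)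
  refine le_antisymm ?_ hge
  rw [he]
  by_cases hvr : v ∈ Subgroup.zpowers x
  · obtain ⟨l, rfl⟩ := S.exists_rot hvr
    have hl0 : l ≠ 0 := fun e => by
      subst e
      have := hf.orderOf_eq
      rw [DihedralBlock.rot_zero, orderOf_one, orderOf_eq_one_iff, S.rot_eq_one] at this
      exact h0 this
    have hl2 : l ≠ ((2 * h : ℕ) : ZMod (4 * h)) := fun e => by
      subst e
      have := hf.orderOf_eq
      rw [S.orderOf_two_h] at this
      refine S.rot_sq_ne_one h0 h2 ?_
      rw [← pow_two, ← this, pow_orderOf_eq_one]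
    rw [S.inf_centralizer_rot hl0 hl2, S.card_zpowers]
  · rw [S.card_inf_centralizer_outer hv hvr]
    have := S.h_pos
    omega

/-- An element fused to outer elements only. -/
theorem pow_defect_outer {u : G} (hu : u ∈ D)
    (hext : ∀ v ∈ D, Fus 2 D e0 u v → v ∉ Subgroup.zpowers x) :
    2 ^ blockDefect 2 (belowBlock (M := M) 2 D e0 u) = 4 := by
  obtain ⟨v, hv, hf, he⟩ := exists_fus_pow_defect hM hB hmax hu
  rw [he, S.card_inf_centralizer_outer hv (hext v hv hf)]

/-- The defect of the block at the involution of the rotations. -/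
theorem pow_defect_two_h :
    2 ^ blockDefect 2 (belowBlock (M := M) 2 D e0 (rot x ((2 * h : ℕ) : ZMod (4 * h)))) =
      8 * h := by
  refine le_antisymm ?_ ?_
  · obtain ⟨v, -, -, he⟩ := exists_fus_pow_defect hM hB hmax (S.rot_mem ((2 * h : ℕ) : ZMod (4 * h)))
    rw [he, ← S.card_eq]
    exact Subgroup.card_le_of_le inf_le_left
  · have := card_inf_centralizer_le hM hB hmax (S.rot_mem ((2 * h : ℕ) : ZMod (4 * h)))
    rwa [S.inf_centralizer_two_h, S.card_eq] at this

/-- The block at an element fused to outer elements only: four characters, rank one. -/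
theorem outer_count {u : G} (hu : u ∈ D)
    (hext : ∀ v ∈ D, Fus 2 D e0 u v → v ∉ Subgroup.zpowers x) :
    Nat.card (belowBlock (M := M) 2 D e0 u) = 4 ∧
      blockRank 2 (belowBlock (M := M) 2 D e0 u) = 1 := by
  obtain ⟨hbl, -, -⟩ := BlockSections.belowBlock_spec hM hB hmax hu
  have huo := hext u hu (Fus.refl u)
  set H := Subgroup.centralizer ({u} : Set G) with hH
  set P : Subgroup G := D ⊓ H with hP
  have hP4 : Nat.card P = 4 := S.card_inf_centralizer_outer hu huo
  obtain ⟨D', hD', hge⟩ := (pairLE_bId hM hB hmax hu).exists_defect_ge hmax.1.1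
  rw [cenIn_top, centralizer_zpowers_eq] at hD'
  rw [centralizer_zpowers_eq] at hge
  have hdef0 : IsDefectGroup 2 M (belowBlock (M := M) 2 D e0 u) (D'.subgroupOf H) := by
    rwa [isDefectGroup_sub_iff hM hbl, Subgroup.map_subgroupOf_eq_of_le hD'.1]
  have hcard := Blocks.card_isDefectGroup hM hbl hdef0
  rw [Nat.card_congr (Subgroup.subgroupOfEquivOfLe hD'.1).toEquiv,
    pow_defect_outer hM hB hmax S hu hext] at hcard
  obtain rfl : D' = P := (Subgroup.eq_of_le_of_card_ge hge (by rw [hcard, ← hH, ← hP, hP4])).symm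
  set P' := P.subgroupOf H with hP'
  have hb' := isBlockIdem_redElem_blockCoeff (M := M) hbl
  obtain ⟨e, he⟩ := exists_isMaxPair_of_isDefectIn hb' ((isDefectGroup_iff hM hbl).1 hdef0)
  have hP'4 : Nat.card P' = 4 := by
    rw [hP', Nat.card_congr (Subgroup.subgroupOfEquivOfLe inf_le_right).toEquiv, hP4]
  have hab : ∀ a ∈ P', ∀ b ∈ P', a * b = b * a := fun a ha b hb => by
    haveI : IsMulCommutative P' := IsPGroup.isMulCommutative_of_card_eq_prime_sq
      (p := 2) (by rw [hP'4]; norm_num)
    exact congrArg Subtype.val (IsMulCommutative.is_comm.comm (⟨a, ha⟩ : P') ⟨b, hb⟩)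
  obtain ⟨h1, h2⟩ := BlockSections.order_four_count hM hbl hdef0 he hab hP'4
  refine ⟨h1, ?_⟩
  set u' : H := ⟨u, Subgroup.mem_centralizer_singleton_iff.2 rfl⟩ with hu'
  have hu'P : u' ∈ P' := Subgroup.mem_subgroupOf.2 ⟨hu, Subgroup.mem_centralizer_singleton_iff.2 rfl⟩
  have hstab : pairStab (⊤ : Subgroup H) P' e ≤ Subgroup.centralizer (P' : Set H) := by
    intro a ha
    refine BlockSections.mem_centralizer_of_sq hM hbl he rfl hab ha
      (BlockSections.mul_self_mem_centralizer_of_card_four hP'4 (mem_pairStab.1 ha).2.1 hu'P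
        (fun e => huo ?_) (mul_inv_eq_iff_eq_mul.2 (Subtype.ext
          (Subgroup.mem_centralizer_singleton_iff.1 a.2))))
    have := congrArg Subtype.val e
    rw [show u = 1 from this]
    exact Subgroup.one_mem _
  rw [Subgroup.relIndex_eq_one.2 hstab] at h2
  omega

end CfsgLib.QuatBlock
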