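import Cfsg.Agent.Lib.QuatBlock.Extras

/-!
# The families of a tame block

Outside the four there are two families of height one and the members whose values at the
rotations vanish. The exceptional distributions of weights force a rank sum two.
-/

set_option autoImplicit false
set_option linter.style.haveILetI false
set_option linter.unusedSectionVars false
set_option linter.overlappingInstances false
set_option maxHeartbeats 800000

noncomputable section

namespace CfsgLib.QuatBlock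

open Cfsg CfsgLib.Blocks MonoidAlgebra CfsgLib.BrauerPairs CfsgLib.BlockStar
open CfsgLib.BrauerCharacters (blockFinset mem_blockFinset)
open CfsgLib.BlockSections (belowBlock)
open CfsgLib.DihedralBlock (rot rotVal)
open scoped ComplexConjugate Classical

attribute [local instance 5] Fintype.ofFinite

variable {G : Type*} [Group G] [Fintype G] [Fact (2 : ℕ).Prime]
  [∀ y : G, Fintype (Subgroup.centralizer ({y} : Set G))] {M : Ideal AlgInt} [M.IsPrime]
  [CharP (Res M) 2] [IsAlgClosed (Res M)] {B : Set (IrrCharacter G)} {D : Subgroup G}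
  {e0 : MonoidAlgebra (Res M) G} {x : G} {h : ℕ} [NeZero (4 * h)] {t : ZMod (4 * h)} {y0 : G}
  {E : Finset G} {a : IrrCharacter G → ZMod (4 * h) → ℤ}

/-- The family visible on the even positions. -/
def famE (B : Set (IrrCharacter G)) (h : ℕ) [NeZero (4 * h)]
    (a : IrrCharacter G → ZMod (4 * h) → ℤ) : Finset (IrrCharacter G) :=
  (blockFinset B).filter fun χ => χ ∉ fours B h a ∧ wt h (a χ) 0 ≠ 0

/-- The family visible on the odd positions only. -/
def famO (B : Set (IrrCharacter G)) (h : ℕ) [NeZero (4 * h)]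
    (a : IrrCharacter G → ZMod (4 * h) → ℤ) : Finset (IrrCharacter G) :=
  (blockFinset B).filter fun χ => χ ∉ fours B h a ∧ wt h (a χ) 0 = 0 ∧ wt h (a χ) 1 ≠ 0

/-- The members vanishing at the rotations of order at least four. -/
def invis (B : Set (IrrCharacter G)) (h : ℕ) [NeZero (4 * h)]
    (a : IrrCharacter G → ZMod (4 * h) → ℤ) : Finset (IrrCharacter G) :=
  (blockFinset B).filter fun χ => χ ∉ fours B h a ∧ wt h (a χ) 0 = 0 ∧ wt h (a χ) 1 = 0

/-- One of the four has an exceptional distribution. -/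
def Tight (B : Set (IrrCharacter G)) (h : ℕ) [NeZero (4 * h)]
    (a : IrrCharacter G → ZMod (4 * h) → ℤ) : Prop :=
  ∃ ψ ∈ fours B h a, wt h (a ψ) 0 ≠ 2 * h - 1 ∨ wt h (a ψ) 1 ≠ 0

theorem fours_subset : fours B h a ⊆ blockFinset B := Finset.filter_subset _ _

namespace Ctx

variable (C : Ctx M B D e0 x h t y0 E a)
include C

local notation "z" => rot x ((2 * h : ℕ) : ZMod (4 * h))
local notation "T" => subT (M := M) 2 D e0

theorem nonfour_diag [Fintype (IrrCharacter G)] {χ : IrrCharacter G} (hχ : χ ∈ B)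
    (hχ4 : χ ∉ fours B h a) :
    cM M D e0 h 1 χ χ + cM M D e0 h z χ χ + 2 * (wt h (a χ) 0 + wt h (a χ) 1) = 8 * h ∧
      4 ≤ cM M D e0 h 1 χ χ ∧ 4 ≤ cM M D e0 h z χ χ ∧
      0 < blockHeight 2 B (χ : G → ℂ) := by
  have hht : 0 < blockHeight 2 B (χ : G → ℂ) := Nat.pos_of_ne_zero fun e =>
    hχ4 ((C.height_zero_iff hχ).1 e)
  have h4 : ∀ v, v = 1 ∨ v = z → 4 ≤ cM M D e0 h v χ χ := fun v hv => by
    refine Int.le_of_dvd (C.cM_self_pos hv hχ) (dvd_trans ?_ (C.dvd_cM_self hv hχ hht))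
    exact (show (4 : ℤ) = 2 ^ 2 by norm_num) ▸ pow_dvd_pow 2 (by omega)
  refine ⟨?_, h4 1 (Or.inl rfl), h4 z (Or.inr rfl), hht⟩
  have h1 := C.diag_eq hχ
  rw [C.sum_tre_eq_zero hχ hχ4, mul_zero, add_zero] at h1
  generalize cM M D e0 h z χ χ = mz at h1 ⊢
  generalize cM M D e0 h 1 χ χ = m1 at h1 ⊢
  refine Int.cast_injective (α := ℝ) ?_
  push_cast at h1 ⊢
  linarith

/-- The members of the families have height one. -/
theorem family_facts [Fintype (IrrCharacter G)] {χ : IrrCharacter G} (hχ : χ ∈ B)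
    (hχ4 : χ ∉ fours B h a) (hw : ¬(wt h (a χ) 0 = 0 ∧ wt h (a χ) 1 = 0)) :
    2 ≤ h ∧ wt h (a χ) 0 + wt h (a χ) 1 = 4 * h - 4 ∧
      (wt h (a χ) 0 = 0 ∨ wt h (a χ) 1 = 0) ∧
      cM M D e0 h 1 χ χ = 4 ∧ cM M D e0 h z χ χ = 4 ∧ blockHeight 2 B (χ : G → ℂ) = 1 := by
  obtain ⟨hd, h1, hz, hht⟩ := C.nonfour_diag hχ hχ4
  have he : a χ 0 = a χ ((2 * h : ℕ) : ZMod (4 * h)) := by
    by_contra hne
    exact hχ4 (Finset.mem_filter.2 ⟨mem_blockFinset.2 hχ, hne⟩)
  have hE := (C.wt_zero hχ).2.1 he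
  have hO := C.wt_one hχ
  have hpos := C.h_pos
  have key : 2 ≤ h ∧ wt h (a χ) 0 + wt h (a χ) 1 = 4 * h - 4 ∧
      (wt h (a χ) 0 = 0 ∨ wt h (a χ) 1 = 0) ∧
      cM M D e0 h 1 χ χ = 4 ∧ cM M D e0 h z χ χ = 4 := by
    rcases hE with e | e <;> rcases hO with o | o
    · exact absurd ⟨e, o⟩ hw
    all_goals
      refine ⟨?_, ?_, ?_, ?_, ?_⟩
      · by_contra hc
        apply hw
        constructor <;> omega
      · omega
      · first
          | exact Or.inl e
          | exact Or.inr o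
          | (exfalso; apply hw; constructor <;> omega)
      · omega
      · omega
  refine ⟨key.1, key.2.1, key.2.2.1, key.2.2.2.1, key.2.2.2.2, ?_⟩
  have hd2 := C.dvd_cM_self (Or.inr rfl) hχ hht
  rw [key.2.2.2.2] at hd2
  have h3 : 2 ^ (blockHeight 2 B (χ : G → ℂ) + 1) ≤ 2 ^ 2 :=
    Nat.le_of_dvd (by norm_num) (by exact_mod_cast hd2)
  have := (Nat.pow_le_pow_iff_right (by norm_num : 1 < 2)).1 h3
  omega

/-- The scaled rows of a member vanishing at the rotations. -/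
theorem invis_row [Fintype (IrrCharacter G)] {χ : IrrCharacter G} (hχ : χ ∈ invis B h a)
    (φ : IrrCharacter G) :
    cM M D e0 h 1 χ φ + cM M D e0 h z χ φ = (if χ = φ then ((8 * h : ℕ) : ℤ) else 0) ∧
      ((2 * h : ℕ) : ℤ) ∣ cM M D e0 h z χ φ := by
  obtain ⟨hχB', hχ4, h0, h1⟩ := Finset.mem_filter.1 hχ
  have hχB := mem_blockFinset.1 hχB'
  have hrot : ∀ i ∈ halfRot h t, T (rot x i) χ φ = 0 := fun i hi => by
    have hi' := halfRot_subset C.tame hi
    have h2 := C.rot_subT hi' χ φ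
    rw [C.rotVal_eq_zero_of_wt h0 h1 hi', zero_mul] at h2
    exact (mul_eq_zero.1 h2).resolve_left (Nat.cast_ne_zero.2 (NeZero.ne _))
  have hE : ∀ u ∈ E, T u χ φ = 0 := fun u hu => (C.subT_E_eq_zero hu).1 χ hχB hχ4 φ
  have hsum := sum_subT C.hM C.hB C.hmax C.reps.reps hχB φ
  rw [C.reps.sum_eq C.tame, Finset.sum_eq_zero hrot, Finset.sum_eq_zero hE, add_zero,
    add_zero] at hsum
  refine ⟨?_, ?_⟩
  · refine Int.cast_injective (α := ℂ) ?_
    rw [Int.cast_add, C.cast_cM (Or.inl rfl), C.cast_cM (Or.inr rfl), ← mul_add, hsum]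
    split_ifs <;> simp
  · obtain ⟨F, hst, hgen, ⟨n, hn⟩, hF⟩ := exists_stable C.hM C.hB C.hmax C.tame
    obtain ⟨m, hm⟩ := exists_int_sum_subT C.hM C.hB C.hmax C.reps.reps hst hgen χ φ
    rw [C.reps.sum_eq C.tame,
      Finset.sum_eq_zero fun i hi => mul_eq_zero_of_right (F (rot x i)) (hrot i hi),
      Finset.sum_eq_zero fun u hu => mul_eq_zero_of_right (F u) (hE u hu), add_zero,
      add_zero] at hm
    refine ⟨(if χ = φ then n else 0) - m, ?_⟩
    refine Int.cast_injective (α := ℂ) ?_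
    rw [C.cast_cM (Or.inr rfl), Int.cast_mul, Int.cast_natCast, Int.cast_sub,
      show ((8 * h : ℕ) : ℂ) = ((2 * h : ℕ) : ℂ) * 4 by push_cast; ring, mul_assoc, ← hm, ← hF,
      apply_ite (Int.cast : ℤ → ℂ), Int.cast_zero, ← hn]
    split_ifs with he <;>
      [rw [if_pos he] at hsum; rw [if_neg he] at hsum] <;>
      linear_combination (((2 * h : ℕ) : ℂ) * F 1) * hsum

theorem invis_facts [Fintype (IrrCharacter G)] {χ : IrrCharacter G} (hχ : χ ∈ invis B h a) :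
    cM M D e0 h 1 χ χ = 4 * h ∧ cM M D e0 h z χ χ = 4 * h ∧
      2 ^ blockHeight 2 B (χ : G → ℂ) = 2 * h ∧
      (∀ ψ ∈ fours B h a, cM M D e0 h z χ ψ ≠ 0 ∧
        cM M D e0 h 1 χ ψ = -cM M D e0 h z χ ψ) ∧
      ∀ φ ∈ B, φ ≠ χ → φ ∉ fours B h a → cM M D e0 h z χ φ = 0 := by
  obtain ⟨hχB', hχ4, h0, h1⟩ := Finset.mem_filter.1 hχ
  have hχB := mem_blockFinset.1 hχB'
  obtain ⟨-, -, -, hht⟩ := C.nonfour_diag hχB hχ4
  set H := blockHeight 2 B (χ : G → ℂ)
  have hne : ∀ ψ ∈ fours B h a, χ ≠ ψ := fun ψ hψ e => hχ4 (e ▸ hψ)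
  have hoff : ∀ ψ ∈ fours B h a, cM M D e0 h 1 χ ψ = -cM M D e0 h z χ ψ := fun ψ hψ => by
    have h2 := (C.invis_row hχ ψ).1
    rw [if_neg (hne ψ hψ)] at h2
    linarith
  obtain ⟨k, hk⟩ := C.tame.exists_pow
  have hpow : ((2 * h : ℕ) : ℤ) = 2 ^ (k + 1) := by rw [hk]; push_cast; ring
  -- the height is at least `k + 1`
  obtain ⟨ψ, hψ, hψ0⟩ :=
    BrauerCharacters.exists_height_eq_zero (p := 2) (Blocks.isPBlock_nonempty C.hB)
  have hkH : k + 1 ≤ H := by
    obtain ⟨q, hq, he⟩ := C.exists_odd_cM (Or.inr rfl) hχB hψ hψ0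
    have h2 := (C.invis_row hχ ψ).2
    rw [hpow, he] at h2
    by_contra hlt
    push Not at hlt
    have h3 : (2 : ℤ) ^ (H + 1) ∣ 2 ^ H * q := dvd_trans (pow_dvd_pow 2 hlt) h2
    rw [pow_succ] at h3
    have h4 := Int.dvd_of_mul_dvd_mul_left (pow_ne_zero _ two_ne_zero) h3
    exact (Int.not_even_iff_odd.2 hq) (even_iff_two_dvd.2 h4)
  have hge : ∀ v, v = 1 ∨ v = z → (4 * h : ℤ) ≤ cM M D e0 h v χ χ := fun v hv => by
    have h5 : (2 : ℤ) ^ (k + 2) ≤ cM M D e0 h v χ χ :=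
      Int.le_of_dvd (C.cM_self_pos hv hχB)
        (dvd_trans (pow_dvd_pow 2 (show k + 2 ≤ H + 1 by omega)) (C.dvd_cM_self hv hχB hht))
    rw [show (4 * h : ℤ) = 2 ^ (k + 2) by rw [hk]; push_cast; ring]
    exact h5
  have hsum := (C.invis_row hχ χ).1
  rw [if_pos rfl] at hsum
  push_cast at hsum
  have e1 : cM M D e0 h 1 χ χ = 4 * h := by
    have := hge 1 (Or.inl rfl); have := hge z (Or.inr rfl); push_cast at *; omega
  have ez : cM M D e0 h z χ χ = 4 * h := by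
    have := hge 1 (Or.inl rfl); have := hge z (Or.inr rfl); push_cast at *; omega
  have hHk : H = k + 1 := by
    have h6 := C.dvd_cM_self (Or.inr rfl) hχB hht
    rw [ez, show (4 * h : ℤ) = 2 ^ (k + 2) by rw [hk]; push_cast; ring] at h6
    have h7 : 2 ^ (H + 1) ≤ 2 ^ (k + 2) :=
      Nat.le_of_dvd (Nat.two_pow_pos _) (by exact_mod_cast h6)
    have := (Nat.pow_le_pow_iff_right (by norm_num : 1 < 2)).1 h7
    omega
  have hfour : ∀ ψ ∈ fours B h a,
      cM M D e0 h z χ ψ ≠ 0 ∧ (2 * h : ℤ) ^ 2 ≤ cM M D e0 h z χ ψ ^ 2 := by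
    intro ψ hψ
    have hψB := mem_blockFinset.1 (Finset.mem_filter.1 hψ).1
    obtain ⟨q, hq, he⟩ := C.exists_odd_cM (Or.inr rfl) hχB hψB ((C.height_zero_iff hψB).2 hψ)
    have hq0 : q ≠ 0 := by rintro rfl; exact (Int.not_odd_iff_even.2 Even.zero) hq
    refine ⟨by rw [he]; exact mul_ne_zero (pow_ne_zero _ two_ne_zero) hq0, ?_⟩
    rw [he, show blockHeight 2 B (χ : G → ℂ) = H from rfl, hHk,
      show (2 * h : ℤ) = 2 ^ (k + 1) by rw [hk]; push_cast; ring, mul_pow]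
    exact le_mul_of_one_le_right (sq_nonneg _) (by
      have : 0 < q ^ 2 := by positivity
      omega)
  refine ⟨e1, ez, by rw [hHk, hk]; ring,
    fun ψ hψ => ⟨(hfour ψ hψ).1, hoff ψ hψ⟩, fun φ hφ hφχ hφ4 => ?_⟩
  have hrow := C.sum_cM_mul (Or.inr rfl) (Or.inr rfl) χ χ
  rw [if_pos rfl, ez, Finset.sum_congr rfl fun ψ _ => by rw [C.cM_comm (Or.inr rfl) ψ χ, ← pow_two],
    ← Finset.sum_sdiff (fours_subset : fours B h a ⊆ blockFinset B)] at hrow
  have hχS : χ ∈ blockFinset B \ fours B h a := Finset.mem_sdiff.2 ⟨hχB', hχ4⟩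
  rw [← Finset.add_sum_erase _ _ hχS, ez] at hrow
  have h8 : (4 : ℤ) * (2 * h : ℤ) ^ 2 ≤ ∑ ψ ∈ fours B h a, cM M D e0 h z χ ψ ^ 2 := by
    calc (4 : ℤ) * (2 * h : ℤ) ^ 2 = ∑ _ψ ∈ fours B h a, (2 * h : ℤ) ^ 2 := by
          rw [Finset.sum_const, C.card_fours, nsmul_eq_mul]; rfl
      _ ≤ _ := Finset.sum_le_sum fun ψ hψ => (hfour ψ hψ).2
  have h9 : ∑ ψ ∈ (blockFinset B \ fours B h a).erase χ, cM M D e0 h z χ ψ ^ 2 = 0 := by
    refine le_antisymm ?_ (Finset.sum_nonneg fun ψ _ => sq_nonneg _)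
    rw [show ((8 * h : ℕ) : ℤ) = 8 * (h : ℤ) by push_cast; ring] at hrow
    linarith
  have h10 := (Finset.sum_eq_zero_iff_of_nonneg fun ψ _ => sq_nonneg _).1 h9 φ
    (Finset.mem_erase.2 ⟨hφχ, Finset.mem_sdiff.2 ⟨mem_blockFinset.2 hφ, hφ4⟩⟩)
  exact pow_eq_zero_iff two_ne_zero |>.1 h10

/-- The data of an exceptional row. -/
theorem tight_row [Fintype (IrrCharacter G)] {ψ : IrrCharacter G} (hψ : ψ ∈ fours B h a)
    (hw : wt h (a ψ) 0 ≠ 2 * h - 1 ∨ wt h (a ψ) 1 ≠ 0) :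
    2 ≤ h ∧ 4 * h - 1 ≤ wt h (a ψ) 0 + wt h (a ψ) 1 ∧ cM M D e0 h z ψ ψ = 1 ∧ E = ∅ := by
  obtain ⟨hψB', hne⟩ := Finset.mem_filter.1 hψ
  have hψB := mem_blockFinset.1 hψB'
  have hE0 := (C.wt_zero hψB).2.2 hne
  have hO := C.wt_one hψB
  have hpos := C.h_pos
  have hh : 2 ≤ h ∧ 4 * h - 1 ≤ wt h (a ψ) 0 + wt h (a ψ) 1 := by
    rcases hE0 with e | ⟨e4, e⟩ <;> rcases hO with o | o <;> constructor <;> omega
  obtain ⟨h2, hW⟩ := hh
  have h1 := C.diag_eq hψB
  have hm1 := C.cM_self_pos (Or.inl rfl) hψB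
  have hmz := C.cM_self_pos (Or.inr rfl) hψB
  have hr : 0 ≤ ∑ u ∈ E, tre M D e0 u ψ := Finset.sum_nonneg fun u hu => (C.subT_E_self hu ψ).2
  set mz := cM M D e0 h z ψ ψ
  set m1 := cM M D e0 h 1 ψ ψ
  have h3 : ((m1 + mz + 2 * (wt h (a ψ) 0 + wt h (a ψ) 1) : ℤ) : ℝ) +
      (8 * h : ℕ) * ∑ u ∈ E, tre M D e0 u ψ = ((8 * h : ℤ) : ℝ) := by
    push_cast
    rw [Finset.mul_sum] at h1 ⊢
    push_cast at h1
    linarith
  have h4 : ((m1 + mz + 2 * (wt h (a ψ) 0 + wt h (a ψ) 1) : ℤ) : ℝ) ≤ ((8 * h : ℤ) : ℝ) := by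
    have : (0 : ℝ) ≤ (8 * h : ℕ) * ∑ u ∈ E, tre M D e0 u ψ := mul_nonneg (Nat.cast_nonneg _) hr
    linarith
  have h5 : m1 + mz + 2 * (wt h (a ψ) 0 + wt h (a ψ) 1) ≤ 8 * h := by exact_mod_cast h4
  refine ⟨h2, hW, by omega, ?_⟩
  have h6 : m1 + mz + 2 * (wt h (a ψ) 0 + wt h (a ψ) 1) = 8 * h := by omega
  rw [h6, add_eq_left, mul_eq_zero] at h3
  have h7 := h3.resolve_left (Nat.cast_ne_zero.2 (by omega))
  by_contra hne'
  obtain ⟨u, hu⟩ := Finset.nonempty_iff_ne_empty.2 hne'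
  have := ((C.subT_E_eq_zero hu).2.1 ψ hψ).trans_le
    (Finset.single_le_sum (fun v hv => (C.subT_E_self hv ψ).2) hu)
  rw [h7] at this
  exact lt_irrefl _ this

theorem tight_invis [Fintype (IrrCharacter G)] (ht : Tight B h a) : invis B h a = ∅ := by
  obtain ⟨ψ, hψ, hw⟩ := ht
  obtain ⟨h2, -, hmz, -⟩ := C.tight_row hψ hw
  rw [Finset.eq_empty_iff_forall_notMem]
  intro χ hχ
  obtain ⟨-, ez, -, hrow, -⟩ := C.invis_facts hχ
  have hne := (hrow ψ hψ).1
  have hsq := Finset.sum_mul_sq_le_sq_mul_sq (blockFinset B) (fun φ => cM M D e0 h z χ φ)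
    (fun φ => cM M D e0 h z φ ψ)
  have e1 : ∑ φ ∈ blockFinset B, cM M D e0 h z χ φ ^ 2 =
      ((8 * h : ℕ) : ℤ) * cM M D e0 h z χ χ := by
    have h1 := C.sum_cM_mul (Or.inr rfl) (Or.inr rfl) χ χ
    rw [if_pos rfl] at h1
    rw [← h1]
    exact Finset.sum_congr rfl fun φ _ => by rw [pow_two, C.cM_comm (Or.inr rfl) φ χ]
  have e2 : ∑ φ ∈ blockFinset B, cM M D e0 h z φ ψ ^ 2 =
      ((8 * h : ℕ) : ℤ) * cM M D e0 h z ψ ψ := by
    have h1 := C.sum_cM_mul (Or.inr rfl) (Or.inr rfl) ψ ψ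
    rw [if_pos rfl] at h1
    rw [← h1]
    exact Finset.sum_congr rfl fun φ _ => by rw [pow_two, C.cM_comm (Or.inr rfl) φ ψ]
  rw [C.sum_cM_mul (Or.inr rfl) (Or.inr rfl) χ ψ, if_pos rfl, e1, e2, ez, hmz] at hsq
  obtain ⟨c, hc⟩ := (C.invis_row hχ ψ).2
  rw [hc] at hne hsq
  push_cast at hsq hne
  have hc0 : 1 ≤ c ^ 2 := by
    rcases lt_trichotomy c 0 with e | e | e
    · nlinarith
    · simp [e] at hne
    · nlinarith
  have hh : (2 : ℤ) ≤ h := by exact_mod_cast h2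
  nlinarith [pow_pos (show (0 : ℤ) < h by linarith) 3, mul_le_mul_of_nonneg_left hc0 (by positivity : (0 : ℤ) ≤ (h : ℤ) ^ 4),
    mul_le_mul_of_nonneg_left hh (by positivity : (0 : ℤ) ≤ (h : ℤ) ^ 3)]

theorem split_card [Fintype (IrrCharacter G)] :
    Nat.card B = 4 + (famE B h a).card + (famO B h a).card + (invis B h a).card := by
  have h1 : Nat.card B = (blockFinset B).card := by
    rw [Nat.card_eq_card_finite_toFinset (Set.toFinite B)]
    congr 1
  have h2 := Finset.card_filter_add_card_filter_not (s := blockFinset B)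
    (fun χ => a χ 0 ≠ a χ ((2 * h : ℕ) : ZMod (4 * h)))
  rw [show (blockFinset B).filter (fun χ => a χ 0 ≠ a χ ((2 * h : ℕ) : ZMod (4 * h))) =
    fours B h a from rfl, C.card_fours,
    show (blockFinset B).filter (fun χ => ¬ a χ 0 ≠ a χ ((2 * h : ℕ) : ZMod (4 * h))) =
      (famE B h a ∪ famO B h a) ∪ invis B h a from ?_,
    Finset.card_union_of_disjoint, Finset.card_union_of_disjoint] at h2
  · omega
  · rw [Finset.disjoint_left]
    intro χ h3 h4
    exact (Finset.mem_filter.1 h3).2.2 (Finset.mem_filter.1 h4).2.2.1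
  · rw [Finset.disjoint_left]
    intro χ h3 h4
    have h5 := (Finset.mem_filter.1 h4).2
    rcases Finset.mem_union.1 h3 with e | e
    · exact (Finset.mem_filter.1 e).2.2 h5.2.1
    · exact (Finset.mem_filter.1 e).2.2.2 h5.2.2
  · ext χ
    simp only [famE, famO, invis, fours, Finset.mem_filter, Finset.mem_union]
    tauto

/-- The weights on the even positions. -/
theorem count_famE [Fintype (IrrCharacter G)] :
    ∑ χ ∈ fours B h a, wt h (a χ) 0 + (4 * (h : ℤ) - 4) * (famE B h a).card =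
      4 * (h : ℤ) ^ 2 := by
  have h1 := sum_wt C.tame (blockFinset B) a (fun _ _ _ _ hjk hlq => C.rel hjk hlq) 0
  rw [if_pos rfl, sub_zero] at h1
  rw [← h1, ← Finset.sum_sdiff (fours_subset : fours B h a ⊆ blockFinset B), add_comm]
  congr 1
  have h2 : ∀ χ ∈ blockFinset B \ fours B h a,
      wt h (a χ) 0 = if χ ∈ famE B h a then 4 * (h : ℤ) - 4 else 0 := by
    intro χ hχ
    obtain ⟨hB', h4⟩ := Finset.mem_sdiff.1 hχ
    split_ifs with hf
    · have h3 := C.family_facts (mem_blockFinset.1 hB') h4 fun e => (Finset.mem_filter.1 hf).2.2 e.1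
      have := (Finset.mem_filter.1 hf).2.2
      rcases h3.2.2.1 with e | e
      · exact absurd e this
      · have := h3.2.1; omega
    · by_contra hne
      exact hf (Finset.mem_filter.2 ⟨hB', h4, hne⟩)
  rw [Finset.sum_congr rfl h2, Finset.sum_ite_mem, Finset.sum_const, nsmul_eq_mul, mul_comm,
    Finset.inter_eq_right.2 (show famE B h a ⊆ blockFinset B \ fours B h a from fun χ hχ =>
      Finset.mem_sdiff.2 ⟨(Finset.mem_filter.1 hχ).1, (Finset.mem_filter.1 hχ).2.1⟩)]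

/-- The weights on the odd positions. -/
theorem count_famO [Fintype (IrrCharacter G)] :
    (4 * (h : ℤ) - 4) * (((fours B h a).filter fun χ => wt h (a χ) 1 ≠ 0).card +
      (famO B h a).card : ℕ) = 4 * (h : ℤ) ^ 2 - 4 * h := by
  have h1 := sum_wt C.tame (blockFinset B) a (fun _ _ _ _ hjk hlq => C.rel hjk hlq) 1
  rw [if_neg one_ne_zero] at h1
  rw [← h1, ← Finset.card_union_of_disjoint (by
    rw [Finset.disjoint_left]
    intro χ h3 h4
    exact (Finset.mem_filter.1 h4).2.1 (Finset.mem_filter.1 h3).1)]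
  set U := ((fours B h a).filter fun χ => wt h (a χ) 1 ≠ 0) ∪ famO B h a
  have h2 : ∀ χ ∈ blockFinset B,
      wt h (a χ) 1 = if χ ∈ U then 4 * (h : ℤ) - 4 else 0 := by
    intro χ hχ
    have hO := C.wt_one (mem_blockFinset.1 hχ)
    by_cases h0 : wt h (a χ) 1 = 0
    · rw [h0]
      split_ifs with hU
      · exfalso
        rcases Finset.mem_union.1 hU with e | e
        · exact (Finset.mem_filter.1 e).2 h0
        · exact (Finset.mem_filter.1 e).2.2.2 h0
      · rfl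
    · rw [if_pos, hO.resolve_left h0]
      by_cases h4 : χ ∈ fours B h a
      · exact Finset.mem_union_left _ (Finset.mem_filter.2 ⟨h4, h0⟩)
      · refine Finset.mem_union_right _ (Finset.mem_filter.2 ⟨hχ, h4, ?_, h0⟩)
        exact (C.family_facts (mem_blockFinset.1 hχ) h4 fun e => h0 e.2).2.2.1.resolve_right h0
  rw [Finset.sum_congr rfl h2, Finset.sum_ite_mem, Finset.sum_const, nsmul_eq_mul, mul_comm,
    Finset.inter_eq_right.2 fun χ hχ => ?_]
  rcases Finset.mem_union.1 hχ with e | e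
  · exact (Finset.mem_filter.1 (Finset.mem_filter.1 e).1).1
  · exact (Finset.mem_filter.1 e).1

/-- The generic distribution. -/
theorem counts_generic [Fintype (IrrCharacter G)] (hgen : ¬ Tight B h a) :
    (famE B h a).card = h - 1 ∧ (famO B h a).card = (if h = 1 then 0 else h) ∧
      ∀ ψ ∈ fours B h a, wt h (a ψ) 0 = 2 * h - 1 ∧ wt h (a ψ) 1 = 0 := by
  have hall : ∀ ψ ∈ fours B h a, wt h (a ψ) 0 = 2 * h - 1 ∧ wt h (a ψ) 1 = 0 := fun ψ hψ => by
    by_contra hc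
    exact hgen ⟨ψ, hψ, by tauto⟩
  refine ⟨?_, ?_, hall⟩
  · rcases Nat.lt_or_ge h 2 with e | e
    · rw [show h - 1 = 0 by omega, Finset.card_eq_zero, Finset.eq_empty_iff_forall_notMem]
      intro χ hχ
      obtain ⟨hB', h4, h0⟩ := Finset.mem_filter.1 hχ
      have := (C.family_facts (mem_blockFinset.1 hB') h4 fun e' => h0 e'.1).1
      omega
    · have h1 := C.count_famE
      rw [Finset.sum_congr rfl fun ψ hψ => (hall ψ hψ).1, Finset.sum_const, C.card_fours,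
        nsmul_eq_mul] at h1
      obtain ⟨m, rfl⟩ : ∃ m, h = m + 2 := ⟨h - 2, by omega⟩
      push_cast at h1
      have h2 : ((famE B (m + 2) a).card : ℤ) = (m + 1 : ℕ) :=
        mul_left_cancel₀ (show (4 * (m : ℤ) + 4) ≠ 0 by positivity) (by push_cast; linarith)
      have h3 : (famE B (m + 2) a).card = m + 1 := by exact_mod_cast h2
      omega
  · split_ifs with e
    · rw [Finset.card_eq_zero, Finset.eq_empty_iff_forall_notMem]
      intro χ hχ
      obtain ⟨hB', h4, h0, h1⟩ := Finset.mem_filter.1 hχ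
      have := (C.family_facts (mem_blockFinset.1 hB') h4 fun e' => h1 e'.2).1
      omega
    · have h1 := C.count_famO
      have hK : ((fours B h a).filter fun χ => wt h (a χ) 1 ≠ 0).card = 0 := by
        rw [Finset.card_eq_zero, Finset.filter_eq_empty_iff]
        exact fun χ hχ => not_not.2 (hall χ hχ).2
      rw [hK, zero_add] at h1
      have hpos := C.h_pos
      obtain ⟨m, rfl⟩ : ∃ m, h = m + 2 := ⟨h - 2, by omega⟩
      push_cast at h1
      have h2 : ((famO B (m + 2) a).card : ℤ) = (m + 2 : ℕ) :=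
        mul_left_cancel₀ (show (4 * (m : ℤ) + 4) ≠ 0 by positivity) (by push_cast; linarith)
      exact_mod_cast h2

/-- The exceptional distribution. -/
theorem counts_tight [Fintype (IrrCharacter G)] (ht : Tight B h a) :
    E = ∅ ∧ invis B h a = ∅ ∧
      ((h = 2 ∧ (famE B h a).card = 1 ∧ (famO B h a).card = 0 ∧
          ∃ ψ ∈ fours B h a, wt h (a ψ) 1 ≠ 0) ∨
        (h = 4 ∧ (famE B h a).card = 1 ∧ (famO B h a).card = 4 ∧
          ∀ ψ ∈ fours B h a, wt h (a ψ) 1 = 0)) := by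
  obtain ⟨ψ0, hψ0, hw⟩ := ht
  obtain ⟨h2, hW, -, hE⟩ := C.tight_row hψ0 hw
  refine ⟨hE, C.tight_invis ⟨ψ0, hψ0, hw⟩, ?_⟩
  have hb : ∀ ψ ∈ fours B h a, (wt h (a ψ) 0 = 2 * h - 1 ∨ (h = 4 ∧ wt h (a ψ) 0 = 15)) ∧
      (wt h (a ψ) 1 = 0 ∨ wt h (a ψ) 1 = 4 * h - 4) ∧
      wt h (a ψ) 0 + wt h (a ψ) 1 < 4 * h := fun ψ hψ => by
    obtain ⟨hB', hne⟩ := Finset.mem_filter.1 hψ
    exact ⟨(C.wt_zero (mem_blockFinset.1 hB')).2.2 hne, C.wt_one (mem_blockFinset.1 hB'),
      C.wt_lt (mem_blockFinset.1 hB')⟩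
  have hh : h = 2 ∨ h = 4 := by
    obtain ⟨h0, h1, hlt⟩ := hb ψ0 hψ0
    rcases h0 with e | ⟨e4, e⟩ <;> rcases h1 with o | o <;> omega
  have hcE := C.count_famE
  have hcO := C.count_famO
  rcases hh with rfl | rfl
  · have h15 : ∀ ψ ∈ fours B 2 a, wt 2 (a ψ) 0 = 3 := fun ψ hψ => by
      obtain ⟨h0, -, -⟩ := hb ψ hψ
      omega
    refine Or.inl ⟨rfl, ?_⟩
    rw [Finset.sum_congr rfl h15, Finset.sum_const, C.card_fours, nsmul_eq_mul] at hcE
    push_cast at hcE hcO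
    have hmix := even_card_mixed C.tame (blockFinset B) a
      (fun _ _ _ _ hjk hlq => C.rel hjk hlq) rfl (fun χ _ => C.rotData.sym χ)
      (fun χ hχ => C.wt_lt' (mem_blockFinset.1 hχ))
    rw [← Finset.filter_filter] at hmix
    have hex : ∃ ψ ∈ fours B 2 a, wt 2 (a ψ) 1 ≠ 0 := by
      refine ⟨ψ0, hψ0, hw.resolve_left fun e => e ?_⟩
      have := h15 ψ0 hψ0
      omega
    have hpos : 0 < ((fours B 2 a).filter fun χ => wt 2 (a χ) 1 ≠ 0).card := by
      obtain ⟨ψ, hψ, hψw⟩ := hex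
      exact Finset.card_pos.2 ⟨ψ, Finset.mem_filter.2 ⟨hψ, hψw⟩⟩
    obtain ⟨c, hc⟩ := hmix
    have hc' : ((fours B 2 a).filter fun χ => wt 2 (a χ) 1 ≠ 0).card = c + c := hc
    exact ⟨by omega, by omega, hex⟩
  · have h1 : ∀ ψ ∈ fours B 4 a, wt 4 (a ψ) 1 = 0 := fun ψ hψ => by
      obtain ⟨h0, h1, hlt⟩ := hb ψ hψ
      omega
    refine Or.inr ⟨rfl, ?_⟩
    rw [Finset.card_eq_zero.2 (Finset.filter_eq_empty_iff.2 fun χ hχ => not_not.2 (h1 χ hχ)),
      zero_add] at hcO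
    have hdec : ∀ ψ ∈ fours B 4 a,
        wt 4 (a ψ) 0 = 7 + 8 * if wt 4 (a ψ) 0 = 15 then 1 else 0 := fun ψ hψ => by
      obtain ⟨h0, -, -⟩ := hb ψ hψ
      split_ifs with e <;> omega
    rw [Finset.sum_congr rfl hdec, Finset.sum_add_distrib, Finset.sum_const, C.card_fours,
      nsmul_eq_mul, ← Finset.mul_sum, Finset.sum_boole] at hcE
    have hK : 0 < ((fours B 4 a).filter fun ψ => wt 4 (a ψ) 0 = 15).card := by
      refine Finset.card_pos.2 ⟨ψ0, Finset.mem_filter.2 ⟨hψ0, ?_⟩⟩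
      obtain ⟨h0, -, -⟩ := hb ψ0 hψ0
      have := h1 ψ0 hψ0
      rcases h0 with e | e
      · exfalso; rcases hw with w | w
        · exact w e
        · exact w this
      · exact e.2
    have hK4 := Finset.card_filter_le (fours B 4 a) fun ψ => wt 4 (a ψ) 0 = 15
    rw [C.card_fours] at hK4
    push_cast at hcE hcO
    exact ⟨by omega, by omega, h1⟩

/-- Orthogonal rows of the matrix at the involution are no more than its rank. -/
theorem card_orth_le [Fintype (IrrCharacter G)] (J : Finset (IrrCharacter G))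
    (hJ : J ⊆ blockFinset B)
    (horth : ∀ i ∈ J, ∀ j ∈ J, i ≠ j → cM M D e0 h z i j = 0) :
    J.card ≤ blockRank 2 (belowBlock (M := M) 2 D e0 z) := by
  set N : ℝ := ((8 * h : ℕ) : ℝ) with hN
  have hN0 : 0 < N := Nat.cast_pos.2 (by have := C.h_pos; omega)
  set m : IrrCharacter G → IrrCharacter G → ℝ := fun χ φ => (cM M D e0 h z χ φ : ℝ) with hm
  have hcomm : ∀ χ φ, m χ φ = m φ χ := fun χ φ => by simp only [hm, C.cM_comm (Or.inr rfl) χ φ]
  have hmul : ∀ χ φ, ∑ ψ ∈ blockFinset B, m χ ψ * m ψ φ = N * m χ φ := fun χ φ => by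
    have h1 := C.sum_cM_mul (Or.inr rfl) (Or.inr rfl) χ φ
    rw [if_pos rfl] at h1
    simp only [hm, hN]
    exact_mod_cast h1
  have hpos : ∀ j ∈ J, 0 < m j j := fun j hj => by
    simp only [hm]
    exact_mod_cast C.cM_self_pos (Or.inr rfl) (mem_blockFinset.1 (hJ hj))
  have key : ∀ φ, ∑ j ∈ J, m φ j ^ 2 / m j j ≤ m φ φ := by
    intro φ
    have h0 : 0 ≤ ∑ ψ ∈ blockFinset B, (m φ ψ - ∑ j ∈ J, m φ j / m j j * m j ψ) ^ 2 :=
      Finset.sum_nonneg fun ψ _ => sq_nonneg _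
    have e1 : ∑ ψ ∈ blockFinset B, m φ ψ * ∑ j ∈ J, m φ j / m j j * m j ψ =
        N * ∑ j ∈ J, m φ j ^ 2 / m j j := by
      simp only [Finset.mul_sum]
      rw [Finset.sum_comm]
      refine Finset.sum_congr rfl fun j _ => ?_
      rw [Finset.sum_congr rfl (g := fun ψ => m φ j / m j j * (m φ ψ * m ψ j)) fun ψ _ => by
        rw [hcomm ψ j]; ring, ← Finset.mul_sum, hmul]
      ring
    have e2 : ∑ ψ ∈ blockFinset B, (∑ j ∈ J, m φ j / m j j * m j ψ) ^ 2 =
        N * ∑ j ∈ J, m φ j ^ 2 / m j j := by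
      simp only [pow_two, Finset.sum_mul_sum]
      rw [Finset.sum_comm, Finset.mul_sum]
      refine Finset.sum_congr rfl fun i hi => ?_
      rw [Finset.sum_comm, Finset.sum_eq_single i]
      · rw [Finset.sum_congr rfl (g := fun ψ => (m φ i / m i i) ^ 2 * (m i ψ * m ψ i)) fun ψ _ => by
          rw [hcomm ψ i]; ring, ← Finset.mul_sum, hmul]
        have := (hpos i hi).ne'
        field_simp
      · intro j hj hne
        rw [Finset.sum_congr rfl
          (g := fun ψ => m φ i / m i i * (m φ j / m j j) * (m i ψ * m ψ j)) fun ψ _ => by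
          rw [hcomm ψ j]; ring, ← Finset.mul_sum, hmul,
          show m i j = 0 by simp only [hm]; exact_mod_cast horth i hi j hj hne.symm]
        ring
      · exact fun hc => absurd hi hc
    simp only [sub_sq, Finset.sum_add_distrib, Finset.sum_sub_distrib, mul_assoc,
      ← Finset.mul_sum, e1, e2] at h0
    rw [Finset.sum_congr rfl (g := fun ψ => m φ ψ * m ψ φ) fun ψ _ => by
      rw [hcomm ψ φ, pow_two], hmul] at h0
    nlinarith
  have h1 : ∑ φ ∈ blockFinset B, ∑ j ∈ J, m φ j ^ 2 / m j j =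
      N * (J.card : ℝ) := by
    rw [Finset.sum_comm, mul_comm, ← nsmul_eq_mul, ← Finset.sum_const]
    refine Finset.sum_congr rfl fun j hj => ?_
    rw [← Finset.sum_div, Finset.sum_congr rfl (g := fun φ => m j φ * m φ j) fun φ _ => by
      rw [hcomm j φ, pow_two], hmul, mul_div_assoc, div_self (hpos j hj).ne', mul_one]
  have h2 : ∑ φ ∈ blockFinset B, m φ φ =
      N * (blockRank 2 (belowBlock (M := M) 2 D e0 z) : ℝ) := by
    simp only [hm, hN]
    exact_mod_cast C.sum_cM_self (Or.inr rfl)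
  have h3 : N * (J.card : ℝ) ≤ N * (blockRank 2 (belowBlock (M := M) 2 D e0 z) : ℝ) := by
    rw [← h1, ← h2]
    exact Finset.sum_le_sum fun φ _ => key φ
  exact_mod_cast le_of_mul_le_mul_left h3 hN0

theorem card_invis_le [Fintype (IrrCharacter G)] :
    (invis B h a).card ≤ blockRank 2 (belowBlock (M := M) 2 D e0 z) ∧
      ((famE B h a).Nonempty →
        (invis B h a).card + 1 ≤ blockRank 2 (belowBlock (M := M) 2 D e0 z)) := by
  have hsub : invis B h a ⊆ blockFinset B := Finset.filter_subset _ _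
  have hz : ∀ i ∈ invis B h a, ∀ φ ∈ B, φ ≠ i → φ ∉ fours B h a →
      cM M D e0 h z i φ = 0 := fun i hi => (C.invis_facts hi).2.2.2.2
  refine ⟨C.card_orth_le _ hsub fun i hi j hj hne =>
    hz i hi j (mem_blockFinset.1 (hsub hj)) hne.symm (Finset.mem_filter.1 hj).2.1, ?_⟩
  rintro ⟨f, hf⟩
  obtain ⟨hfB, hf4, hf0⟩ := Finset.mem_filter.1 hf
  have hfn : f ∉ invis B h a := fun e => hf0 (Finset.mem_filter.1 e).2.2.1
  rw [← Finset.card_insert_of_notMem hfn]
  refine C.card_orth_le _ (Finset.insert_subset hfB hsub) fun i hi j hj hne => ?_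
  rcases Finset.mem_insert.1 hi with ei | hi <;> rcases Finset.mem_insert.1 hj with ej | hj
  · exact absurd (ei.trans ej.symm) hne
  · rw [C.cM_comm (Or.inr rfl), ei]
    exact hz j hj f (mem_blockFinset.1 hfB) (fun e => hne (ei.trans e)) hf4
  · rw [ej]
    exact hz i hi f (mem_blockFinset.1 hfB) (fun e => hne (e.symm.trans ej.symm)) hf4
  · exact hz i hi j (mem_blockFinset.1 (hsub hj)) hne.symm (Finset.mem_filter.1 hj).2.1

end Ctx

end CfsgLib.QuatBlock
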