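import Cfsg.Agent.Lib.QuatBlock.Central
import Cfsg.Agent.Lib.BrauerPairs.TransportPairs

/-!
# Passing to the centraliser of the involution

An element with square the involution has its centraliser inside the centraliser of the involution,
so the fusion of these elements and their classes are the same there.
-/

set_option autoImplicit false
set_option linter.style.haveILetI false
set_option linter.unusedSectionVars false
set_option linter.overlappingInstances false
set_option maxHeartbeats 800000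

noncomputable section

namespace CfsgLib.QuatBlock

open Cfsg CfsgLib.Blocks MonoidAlgebra CfsgLib.BrauerPairs CfsgLib.BlockStar
open CfsgLib.BrauerCharacters (blockFinset mem_blockFinset centralizer_zpowers_eq)
open CfsgLib.BlockSections (belowBlock)
open CfsgLib.DihedralBlock (rot)
open scoped Classical

attribute [local instance 5] Fintype.ofFinite

section Transport

variable {k : Type*} [Field k] {G : Type*} [Group G] {H : Type*} [Group H] [Finite G] [Finite H]
  {φ : H →* G} {p : ℕ}

/-- An inclusion of pairs is carried along an injective homomorphism with large enough image. -/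
theorem pairLE_map (hφ : Function.Injective φ) {Q S : Subgroup H} {f g : MonoidAlgebra k H}
    (hcen : Subgroup.centralizer ((Q.map φ : Subgroup G) : Set G) ≤ φ.range)
    (h : PairLE p (⊤ : Subgroup H) Q f S g) :
    PairLE p (⊤ : Subgroup G) (Q.map φ) (mapG φ f) (S.map φ) (mapG φ g) := by
  have hpair : ∀ (R : Subgroup H) (c : MonoidAlgebra k H),
      Subgroup.centralizer ((R.map φ : Subgroup G) : Set G) ≤ φ.range →
      IsPair p (⊤ : Subgroup H) R c → IsPair p (⊤ : Subgroup G) (R.map φ) (mapG φ c) := by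
    intro R c hR hc
    refine ⟨hc.1.map φ, le_top, ?_⟩
    have h2 := (isBlockIdem_mapG_iff hφ).2 hc.2.2
    rw [map_cenIn hφ, ← MonoidHom.range_eq_map] at h2
    rwa [cenIn_top, ← inf_eq_right.2 hR]
  suffices ∀ a : Subgroup H × MonoidAlgebra k H,
      Relation.ReflTransGen (NormalRel p (⊤ : Subgroup H)) a (S, g) →
      Subgroup.centralizer ((a.1.map φ : Subgroup G) : Set G) ≤ φ.range →
      PairLE p (⊤ : Subgroup G) (a.1.map φ) (mapG φ a.2) (S.map φ) (mapG φ g) from this _ h hcen
  intro a ha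
  induction ha using Relation.ReflTransGen.head_induction_on with
  | refl => exact fun _ => PairLE.refl _ _ _ _
  | @head b c hbc _ ih =>
    intro hb
    obtain ⟨h1, h2, h3, h4, h5, h6⟩ := hbc
    have hc : Subgroup.centralizer ((c.1.map φ : Subgroup G) : Set G) ≤ φ.range :=
      (Subgroup.centralizer_le (SetLike.coe_subset_coe.2 (Subgroup.map_mono h3))).trans hb
    refine (NormalLE.pairLE ?_).trans (ih hc)
    exact ⟨hpair _ _ hb h1, hpair _ _ hc h2, Subgroup.map_mono h3,
      (Subgroup.map_mono h4).trans (Subgroup.le_normalizer_map φ),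
      (mapG_mem_fixedBy_iff hφ).2 h5, by rw [mapG_brau hφ, ← map_mul, h6]⟩

end Transport

variable {G : Type*} [Group G] [Fintype G] [Fact (2 : ℕ).Prime]
  [∀ y : G, Fintype (Subgroup.centralizer ({y} : Set G))] {M : Ideal AlgInt} [M.IsPrime]
  [CharP (Res M) 2] [IsAlgClosed (Res M)] {B : Set (IrrCharacter G)} {D : Subgroup G}
  {e0 : MonoidAlgebra (Res M) G} {x : G} {h : ℕ} [NeZero (4 * h)] {t : ZMod (4 * h)} {y0 : G}
  {E : Finset G} {a : IrrCharacter G → ZMod (4 * h) → ℤ}

/-- No fused conjugate is a rotation. -/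
def Extra (D : Subgroup G) (e0 : MonoidAlgebra (Res M) G) (x u : G) : Prop :=
  ∀ v ∈ D, Fus 2 D e0 u v → v ∉ Subgroup.zpowers x

theorem IsTameReps.card_eq (R : IsTameReps (M := M) D e0 x h t y0 E) (S : IsTame D x h t) :
    E.card = (if Extra (M := M) D e0 x y0 then 1 else 0) +
      if Extra (M := M) D e0 x (y0 * x) ∧ ¬ Fus 2 D e0 y0 (y0 * x) then 1 else 0 := by
  have hy := R.y0_mem
  have hyo := R.y0_outer
  have hy1D := D.mul_mem hy S.x_mem
  have hne : y0 ≠ y0 * x := fun e => by
    have h1 := congrArg (y0⁻¹ * ·) e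
    simp only [inv_mul_cancel, inv_mul_cancel_left] at h1
    have h2 := S.orderOf_x
    rw [← h1, orderOf_one] at h2
    have := S.h_pos
    omega
  have hEx : ∀ u ∈ E, Extra (M := M) D e0 x u := fun u hu => R.extra u hu
  have hmemR : ∀ u ∈ E, u ∈ insert 1 (insert (rot x ((2 * h : ℕ) : ZMod (4 * h)))
      ((halfRot h t).image (rot x) ∪ E)) := fun u hu => by simp [hu]
  have hcov : ∀ u ∈ D, Extra (M := M) D e0 x u → ∃ w ∈ E, Fus 2 D e0 w u := by
    intro u hu hx'
    obtain ⟨w, hw, hf⟩ := R.reps.cover u hu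
    refine ⟨w, ?_, hf⟩
    have h1 := hx' w (R.reps.mem w hw) hf.symm
    simp only [Finset.mem_insert, Finset.mem_union, Finset.mem_image] at hw
    rcases hw with rfl | rfl | ⟨i, -, rfl⟩ | hw
    · exact absurd (Subgroup.one_mem _) h1
    · exact absurd (DihedralBlock.rot_mem_zpowers x _) h1
    · exact absurd (DihedralBlock.rot_mem_zpowers x _) h1
    · exact hw
  have hsub : ∀ u ∈ E, u = y0 ∨ u = y0 * x := fun u hu => by simpa using R.subset hu
  have hpair : ∀ u ∈ E, ∀ v ∈ E, Fus 2 D e0 u v → u = v := fun u hu v hv hf =>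
    R.reps.indep u (hmemR u hu) v (hmemR v hv) hf
  by_cases hA : Extra (M := M) D e0 x y0
  · obtain ⟨w, hw, hwf⟩ := hcov y0 hy hA
    by_cases hB' : Extra (M := M) D e0 x (y0 * x) ∧ ¬ Fus 2 D e0 y0 (y0 * x)
    · obtain ⟨w', hw', hwf'⟩ := hcov _ hy1D hB'.1
      have e1 : w = y0 := (hsub w hw).resolve_right fun e => hB'.2 (e ▸ hwf).symm
      have e2 : w' = y0 * x := (hsub w' hw').resolve_left fun e => hB'.2 (e ▸ hwf')
      rw [if_pos hA, if_pos hB', show E = {y0, y0 * x} from Finset.Subset.antisymm R.subset (by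
        intro v hv
        rcases Finset.mem_insert.1 hv with e | e
        · rw [e, ← e1]; exact hw
        · rw [Finset.mem_singleton.1 e, ← e2]; exact hw'), Finset.card_pair hne]
    · rw [if_pos hA, if_neg hB', add_zero, Finset.card_eq_one]
      refine ⟨w, Finset.eq_singleton_iff_unique_mem.2 ⟨hw, fun v hv => ?_⟩⟩
      by_contra hvw
      have hb : ∀ u ∈ E, u = y0 * x → Fus 2 D e0 y0 (y0 * x) := fun u hu e => by
        by_contra hn
        exact hB' ⟨e ▸ hEx u hu, hn⟩
      rcases hsub v hv with ev | ev <;> rcases hsub w hw with ew | ew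
      · exact hvw (ev.trans ew.symm)
      · exact hvw (hpair v hv w hw (by rw [ev, ew]; exact hb w hw ew))
      · exact hvw (hpair v hv w hw (by rw [ev, ew]; exact (hb v hv ev).symm))
      · exact hvw (ev.trans ew.symm)
  · have hy0 : y0 ∉ E := fun hu => hA (hEx _ hu)
    by_cases hB' : Extra (M := M) D e0 x (y0 * x) ∧ ¬ Fus 2 D e0 y0 (y0 * x)
    · obtain ⟨w', hw', -⟩ := hcov _ hy1D hB'.1
      have e2 : w' = y0 * x := (hsub w' hw').resolve_left fun e => hy0 (e ▸ hw')
      rw [if_neg hA, if_pos hB', zero_add, Finset.card_eq_one]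
      exact ⟨y0 * x, Finset.eq_singleton_iff_unique_mem.2 ⟨e2 ▸ hw', fun v hv =>
        (hsub v hv).resolve_left fun e => hy0 (e ▸ hv)⟩⟩
    · rw [if_neg hA, if_neg hB', add_zero, Finset.card_eq_zero,
        Finset.eq_empty_iff_forall_notMem]
      intro v hv
      have e : v = y0 * x := (hsub v hv).resolve_left fun e => hy0 (e ▸ hv)
      refine hA fun w hw hf => hEx v hv w hw ?_
      have hfus : Fus 2 D e0 y0 (y0 * x) := by
        by_contra hn
        exact hB' ⟨e ▸ hEx v hv, hn⟩
      exact e ▸ hfus.symm.trans hf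

namespace Ctx

variable (C : Ctx M B D e0 x h t y0 E a)
include C

local notation "z" => rot x ((2 * h : ℕ) : ZMod (4 * h))

/-- The counts at the centraliser of the involution. -/
theorem local_count [Fintype (IrrCharacter G)] :
    (y0 * y0 = z → y0 * x * (y0 * x) = z →
      blockRank 2 (belowBlock (M := M) 2 D e0 z) + E.card = 3) ∧
    (y0 * y0 = 1 → y0 * x * (y0 * x) = z →
      blockRank 2 (belowBlock (M := M) 2 D e0 z) +
        (if Extra (M := M) D e0 x (y0 * x) then 1 else 0) = 2) := by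
  have hb := isBlockIdem_redElem_blockCoeff (M := M) C.hB
  have hS := C.tame
  have hzD : z ∈ D := hS.rot_mem _
  obtain ⟨hblz, hlez, -⟩ := BlockSections.belowBlock_spec C.hM C.hB C.hmax hzD
  set H := Subgroup.centralizer ({z} : Set G) with hH
  set bH := belowBlock (M := M) 2 D e0 z with hbH
  have hDH : D ≤ H := fun v hv => Subgroup.mem_centralizer_singleton_iff.2 (hS.two_h_comm hv)
  have hφ := H.subtype_injective
  -- the maximal pair of the block of the centraliser
  have hzC : D ≤ Subgroup.centralizer (Subgroup.zpowers z : Set G) := by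
    rw [centralizer_zpowers_eq]; exact hDH
  obtain ⟨g0, hn', hge⟩ := hlez.normalLE_of_le_normalizer C.hmax.1.1 hlez.le le_rfl
    (hzC.trans (Subgroup.centralizer_le_normalizer _))
  obtain rfl : g0 = e0 :=
    (existsUnique_pairLE C.hmax.1.1 le_rfl).unique hge (PairLE.refl _ _ _ _)
  have hloc := isMaxPair_local_of_central hb C.hmax hzC hn'
  rw [cenIn_top, centralizer_zpowers_eq] at hloc
  set D' := D.subgroupOf H with hD'
  have hP' : D'.map H.subtype = D := Subgroup.map_subgroupOf_eq_of_le hDH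
  have hcen : (cenIn (⊤ : Subgroup H) D').map H.subtype = cenIn H D := by
    rw [map_cenIn hφ, map_top_subtype, hP']
  obtain ⟨e', -, he'⟩ := exists_of_isBlockIdem_map hφ (hcen.symm ▸ hloc.1.1.2.2)
  have hbid : mapG H.subtype (redElem M (blockCoeff bH)) = subIdem M H bH :=
    (redElem_subgroupBlockCoeff H _).symm
  have hmaxH : IsMaxPair 2 (⊤ : Subgroup H) (redElem M (blockCoeff bH)) D' e' := by
    refine PairOf.isMaxPair_of_card ?_ fun R g hR => ?_
    · rw [← pairOf_mapG_iff hφ, map_top_subtype, hP', he', hbid]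
      exact hloc.1
    · have hR' := (pairOf_mapG_iff hφ).2 hR
      rw [map_top_subtype, hbid] at hR'
      have h1 := hloc.card_le (isBlockIdem_subIdem hblz) hR'
      rwa [Subgroup.card_map_of_injective hφ, ← hP', Subgroup.card_map_of_injective hφ] at h1
  -- the same group inside the centraliser
  set x' : H := ⟨x, hDH hS.x_mem⟩ with hx'
  set y' : H := ⟨y0, hDH C.reps.y0_mem⟩ with hy'
  have hpow : ∀ n : ℕ, ((x' ^ n : H) : G) = x ^ n := fun n => rfl
  have hrot : ∀ i : ZMod (4 * h), ((rot x' i : H) : G) = rot x i := fun i => rfl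
  have hzp : ∀ u : H, u ∈ Subgroup.zpowers x' ↔ (u : G) ∈ Subgroup.zpowers x := by
    intro u
    simp only [Subgroup.mem_zpowers_iff]
    exact exists_congr fun n => ⟨fun e => by rw [← e]; rfl, fun e => Subtype.ext (by simpa using e)⟩
  have S' : IsTame D' x' h t := by
    refine ⟨hS.exists_pow, (Subgroup.orderOf_mk _ _).trans hS.orderOf_x,
      Subgroup.mem_subgroupOf.2 hS.x_mem, ?_, fun y hy hyo => ?_, ?_⟩
    · rw [Nat.card_congr (Subgroup.subgroupOfEquivOfLe hDH).toEquiv, hS.card_eq]
    · exact Subtype.ext (hS.conj_x y (Subgroup.mem_subgroupOf.1 hy) fun e => hyo ((hzp y).2 e))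
    · rcases hS.cases with ⟨ht, hsq⟩ | ⟨he, ht, y, hy, hyo, hy2⟩
      · exact Or.inl ⟨ht, fun y hy hyo => Subtype.ext
          (hsq y (Subgroup.mem_subgroupOf.1 hy) fun e => hyo ((hzp y).2 e))⟩
      · exact Or.inr ⟨he, ht, ⟨y, hDH hy⟩, Subgroup.mem_subgroupOf.2 hy,
          fun e => hyo ((hzp _).1 e), Subtype.ext hy2⟩
  have hy'D : y' ∈ D' := Subgroup.mem_subgroupOf.2 C.reps.y0_mem
  have hy'o : y' ∉ Subgroup.zpowers x' := fun e => C.reps.y0_outer ((hzp _).1 e)
  haveI : ∀ y : H, Fintype (Subgroup.centralizer ({y} : Set H)) := fun y => Fintype.ofFinite _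
  haveI : Fintype (IrrCharacter H) := Fintype.ofFinite _
  obtain ⟨EH, hRH⟩ := exists_isTameReps C.hM hblz hmaxH S' hy'D hy'o
  obtain ⟨aH, hrH⟩ := exists_isRotData C.hM hblz hmaxH S'
  have CH : Ctx M bH D' e' x' h t y' EH aH := ⟨C.hM, hblz, hmaxH, S', hRH, hrH⟩
  have hzc : ∀ g : H, Commute (rot x' ((2 * h : ℕ) : ZMod (4 * h))) g := fun g =>
    Subtype.ext (by
      show z * (g : G) = (g : G) * z
      exact (Subgroup.mem_centralizer_singleton_iff.1 g.2).symm)
  have hcount := CH.central_count hzc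
  rw [hRH.card_eq S'] at hcount
  -- fusion of the elements with square the involution
  have hbI : ∀ u : H, u ∈ D' → (u : G) * u = z →
      mapG H.subtype (bId (M := M) 2 D' e' u) = bId (M := M) 2 D g0 (u : G) := by
    intro u hu hu2
    have h1 := pairLE_map (φ := H.subtype) hφ (by
      rw [MonoidHom.map_zpowers, centralizer_zpowers_eq, H.range_subtype]
      intro g hg
      refine Subgroup.mem_centralizer_singleton_iff.2 ?_
      have hc : g * (u : G) = (u : G) * g := Subgroup.mem_centralizer_singleton_iff.1 hg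
      rw [← hu2, ← mul_assoc, hc, mul_assoc, hc, mul_assoc]) (pairLE_bId C.hM hblz hmaxH hu)
    rw [MonoidHom.map_zpowers, hP', he'] at h1
    exact eq_bId C.hM C.hB C.hmax h1
  have hdown : ∀ u v : H, u ∈ D' → v ∈ D' → (u : G) * u = z → Fus 2 D' e' u v →
      (v : G) * v = z ∧ Fus 2 D g0 (u : G) (v : G) := by
    intro u v hu hv hu2 hf
    obtain ⟨g, hg, hgc⟩ := hf
    have hgG : (g : G) * u * (g : G)⁻¹ = v := congrArg Subtype.val hg
    have hv2 : (v : G) * v = z := by
      rw [← hgG, show (g : G) * u * (g : G)⁻¹ * ((g : G) * u * (g : G)⁻¹) =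
        (g : G) * ((u : G) * u) * (g : G)⁻¹ by group, hu2,
        Subgroup.mem_centralizer_singleton_iff.1 g.2, mul_inv_cancel_right]
    refine ⟨hv2, (g : G), hgG, ?_⟩
    rw [← hbI u hu hu2, ← hbI v hv hv2, ← hgc, mapG_conjA hφ]
    rfl
  have hup : ∀ u v : H, u ∈ D' → v ∈ D' → (u : G) * u = z → (v : G) * v = z →
      Fus 2 D g0 (u : G) (v : G) → Fus 2 D' e' u v := by
    intro u v hu hv hu2 hv2 hf
    obtain ⟨g, hg, hgc⟩ := hf
    have hgH : g ∈ H := by
      refine Subgroup.mem_centralizer_singleton_iff.2 ?_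
      have e : g * z * g⁻¹ = z := by
        conv_lhs => rw [← hu2]
        rw [show g * ((u : G) * u) * g⁻¹ = g * (u : G) * g⁻¹ * (g * (u : G) * g⁻¹) by group, hg,
          hv2]
      exact mul_inv_eq_iff_eq_mul.1 e
    refine ⟨⟨g, hgH⟩, Subtype.ext hg, mapG_injective hφ ?_⟩
    rw [mapG_conjA hφ, hbI u hu hu2, hbI v hv hv2]
    exact hgc
  have hzne : z ≠ 1 := fun e => hS.two_h_ne_zero (hS.rot_eq_one.1 e)
  have hextra : ∀ u : H, u ∈ D' → (u : G) * u = z →
      (Extra (M := M) D' e' x' u ↔ Extra (M := M) D g0 x (u : G)) := by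
    intro u hu hu2
    constructor
    · intro hE v hv hf hvr
      obtain ⟨i, hi⟩ := hS.exists_rot hvr
      have hord := hf.orderOf_eq
      have hv4 : v ^ 4 = 1 := by
        refine orderOf_dvd_iff_pow_eq_one.1 (hord ▸ orderOf_dvd_of_pow_eq_one ?_)
        rw [pow_succ, pow_succ, pow_two, hu2, mul_assoc, hu2, ← hS.rot_add, hS.two_h_add_two_h,
          DihedralBlock.rot_zero]
      have hv2 : v * v ≠ 1 := fun e => hzne (by
        rw [← hu2, ← pow_two, ← orderOf_dvd_iff_pow_eq_one, hord]
        exact orderOf_dvd_of_pow_eq_one (by rw [pow_two, e]))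
      have hvz : v * v = z := by
        have e4 : rot x (i + i + (i + i)) = 1 := by
          rw [hS.rot_add, hS.rot_add, hi, ← pow_two, ← pow_two, ← pow_mul]
          exact hv4
        rcases hS.eq_zero_or_two_h (hS.rot_eq_one.1 e4) with e | e
        · exact absurd (by rw [← hi, ← hS.rot_add, e, DihedralBlock.rot_zero]) hv2
        · rw [← hi, ← hS.rot_add, e]
      exact hE ⟨v, hDH hv⟩ (Subgroup.mem_subgroupOf.2 hv)
        (hup u ⟨v, hDH hv⟩ hu (Subgroup.mem_subgroupOf.2 hv) hu2 hvz hf) ((hzp _).2 hvr)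
    · intro hE v hv hf hvr
      obtain ⟨-, hfG⟩ := hdown u v hu hv hu2 hf
      exact hE (v : G) (Subgroup.mem_subgroupOf.1 hv) hfG ((hzp v).1 hvr)
  have hy1D : y' * x' ∈ D' := D'.mul_mem hy'D S'.x_mem
  constructor
  · intro e0' e1'
    rw [hextra y' hy'D e0', hextra (y' * x') hy1D e1',
      show Fus 2 D' e' y' (y' * x') ↔ Fus 2 D g0 y0 (y0 * x) from
        ⟨fun hf => (hdown _ _ hy'D hy1D e0' hf).2, fun hf => hup _ _ hy'D hy1D e0' e1' hf⟩]
      at hcount
    rw [C.reps.card_eq hS]
    exact hcount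
  · intro e0' e1'
    have hA : Extra (M := M) D' e' x' y' := fun v hv hf =>
      CH.not_fus_rot hzc hy'D hy'o (Subtype.ext e0') hf
    have hnf : ¬ Fus 2 D' e' y' (y' * x') := fun hf => by
      have h1 := hf.orderOf_eq
      have h2 : (y' * x') * (y' * x') = 1 := by
        rw [← pow_two, ← orderOf_dvd_iff_pow_eq_one, ← h1]
        exact orderOf_dvd_of_pow_eq_one (by rw [pow_two]; exact Subtype.ext e0')
      exact hzne (e1'.symm.trans (congrArg Subtype.val h2))
    rw [hextra (y' * x') hy1D e1', if_pos hA] at hcount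
    simp only [hnf, not_false_eq_true, and_true] at hcount
    simp only [hy', hx', Subgroup.coe_mul] at hcount
    omega

end Ctx

end CfsgLib.QuatBlock
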