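import Cfsg.Agent.Lib.QuatBlock.Local

/-!
# The invariants of a tame block

The counts at the centraliser of the involution exclude the exceptional distribution and give
the number of characters, the two-regular rank and the heights.
-/

set_option autoImplicit false
set_option linter.style.haveILetI false
set_option linter.unusedSectionVars false
set_option linter.overlappingInstances false
set_option maxHeartbeats 800000

noncomputable section

namespace CfsgLib.QuatBlock

open Cfsg CfsgLib.Blocks MonoidAlgebra CfsgLib.BrauerPairs CfsgLib.BlockStar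
open CfsgLib.BrauerCharacters (blockFinset mem_blockFinset)
open CfsgLib.BlockSections (belowBlock)
open CfsgLib.DihedralBlock (rot)
open scoped Classical

attribute [local instance 5] Fintype.ofFinite

variable {G : Type*} [Group G] [Fintype G] [Fact (2 : ℕ).Prime]
  [∀ y : G, Fintype (Subgroup.centralizer ({y} : Set G))] {M : Ideal AlgInt} [M.IsPrime]
  [CharP (Res M) 2] [IsAlgClosed (Res M)] {B : Set (IrrCharacter G)} {D : Subgroup G}
  {e0 : MonoidAlgebra (Res M) G} {x : G} {h : ℕ} [NeZero (4 * h)] {t : ZMod (4 * h)} {y0 : G}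
  {E : Finset G} {a : IrrCharacter G → ZMod (4 * h) → ℤ}

namespace Ctx

variable (C : Ctx M B D e0 x h t y0 E a)
include C

local notation "z" => rot x ((2 * h : ℕ) : ZMod (4 * h))

theorem card_eq_rank [Fintype (IrrCharacter G)] :
    Nat.card B = blockRank 2 B + blockRank 2 (belowBlock (M := M) 2 D e0 z) + (2 * h - 1) +
      E.card := by
  rw [C.card_block_eq, blockRank_belowBlock_one C.hM C.hB C.hmax]

theorem rank_pos : 1 ≤ blockRank 2 B :=
  BrauerCharacters.blockRank_pos (Blocks.isPBlock_nonempty C.hB)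

/-- The size in the generic case. -/
theorem card_generic [Fintype (IrrCharacter G)] (hgen : ¬ Tight B h a) :
    Nat.card B = (if h = 1 then 4 else 2 * h + 3) + (invis B h a).card ∧
      (2 ≤ h → (invis B h a).card + 1 ≤ blockRank 2 (belowBlock (M := M) 2 D e0 z)) := by
  obtain ⟨hFE, hFO, -⟩ := C.counts_generic hgen
  have hk := C.split_card
  rw [hFE, hFO] at hk
  have hpos := C.h_pos
  refine ⟨?_, fun h2 => (C.card_invis_le).2 (Finset.card_pos.1 (by omega))⟩
  split_ifs at hk ⊢ with e <;> omega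

/-- The exceptional case is impossible once the count at the involution is known. -/
theorem card_tight [Fintype (IrrCharacter G)] (ht : Tight B h a) :
    E.card = 0 ∧ ((h = 2 ∧ Nat.card B = 5) ∨ (h = 4 ∧ Nat.card B = 9)) := by
  obtain ⟨hE, hI, hc⟩ := C.counts_tight ht
  have hk := C.split_card
  rw [hI, Finset.card_empty] at hk
  refine ⟨by rw [hE, Finset.card_empty], ?_⟩
  rcases hc with ⟨e, h1, h2, -⟩ | ⟨e, h1, h2, -⟩ <;> omega

/-- The invariants for a quaternion group. -/
theorem quat_facts [Fintype (IrrCharacter G)] (e0' : y0 * y0 = z)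
    (e1' : y0 * x * (y0 * x) = z) :
    ¬ Tight B h a ∧ Nat.card B = blockRank 2 B + 2 * h + 2 ∧ blockRank 2 B ≤ 3 := by
  have hl := C.local_count.1 e0' e1'
  have hk := C.card_eq_rank
  have hpos := C.h_pos
  have hl1 := C.rank_pos
  have hgen : ¬ Tight B h a := fun ht => by
    obtain ⟨hE, hc⟩ := C.card_tight ht
    rcases hc with ⟨e, e'⟩ | ⟨e, e'⟩ <;> omega
  refine ⟨hgen, by omega, ?_⟩
  obtain ⟨hB', hI⟩ := C.card_generic hgen
  have hI' := C.card_invis_le.1
  split_ifs at hB' with e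
  · omega
  · have := hI (by omega)
    omega

/-- The invariants for a semidihedral group. -/
theorem semi_facts [Fintype (IrrCharacter G)] (h2 : 2 ≤ h) (e0' : y0 * y0 = 1)
    (e1' : y0 * x * (y0 * x) = z) :
    ¬ Tight B h a ∧ (Nat.card B = 2 * h + 3 ∨ Nat.card B = 2 * h + 4) ∧ blockRank 2 B ≤ 3 ∧
      (blockRank 2 B = 1 → Nat.card B = 2 * h + 3) ∧
      (blockRank 2 B = 3 → Nat.card B = 2 * h + 4 ∧
        ¬ Extra (M := M) D e0 x y0 ∧ ¬ Extra (M := M) D e0 x (y0 * x)) := by
  have hl := C.local_count.2 e0' e1'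
  have hk := C.card_eq_rank
  have hl1 := C.rank_pos
  have hnf : ¬ Fus 2 D e0 y0 (y0 * x) := fun hf => by
    have h1 := hf.orderOf_eq
    have h3 : (y0 * x) * (y0 * x) = 1 := by
      rw [← pow_two, ← orderOf_dvd_iff_pow_eq_one, ← h1]
      exact orderOf_dvd_of_pow_eq_one (by rw [pow_two]; exact e0')
    rw [h3] at e1'
    exact C.tame.two_h_ne_zero (C.tame.rot_eq_one.1 e1'.symm)
  have hE := C.reps.card_eq C.tame
  simp only [hnf, not_false_eq_true, and_true] at hE
  have hgen : ¬ Tight B h a := fun ht => by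
    obtain ⟨hE0, hc⟩ := C.card_tight ht
    rcases hc with ⟨e, e'⟩ | ⟨e, e'⟩ <;> split_ifs at hE hl <;> omega
  obtain ⟨hB', hI⟩ := C.card_generic hgen
  rw [if_neg (by omega)] at hB'
  have hI' := hI h2
  refine ⟨hgen, ?_, ?_, fun e => ?_, fun e => ?_⟩
  · split_ifs at hE hl <;> omega
  · split_ifs at hE hl <;> omega
  · split_ifs at hE hl <;> omega
  · refine ⟨?_, fun hA => ?_, fun hA => ?_⟩
    · split_ifs at hE hl <;> omega
    · rw [if_pos hA] at hE; split_ifs at hE hl <;> omega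
    · rw [if_pos hA] at hE hl; split_ifs at hE <;> omega

theorem height_nonfour [Fintype (IrrCharacter G)] {χ : IrrCharacter G} (hχ : χ ∈ B)
    (h4 : χ ∉ fours B h a) :
    (χ ∈ famE B h a ∪ famO B h a ∧ 2 ≤ h ∧ blockHeight 2 B (χ : G → ℂ) = 1) ∨
      (χ ∈ invis B h a ∧ 2 ^ blockHeight 2 B (χ : G → ℂ) = 2 * h) := by
  have hχ' := mem_blockFinset.2 hχ
  by_cases hw : wt h (a χ) 0 = 0 ∧ wt h (a χ) 1 = 0
  · have hI : χ ∈ invis B h a := Finset.mem_filter.2 ⟨hχ', h4, hw⟩
    exact Or.inr ⟨hI, (C.invis_facts hI).2.2.1⟩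
  · obtain ⟨h2, -, -, -, -, h1⟩ := C.family_facts hχ h4 hw
    refine Or.inl ⟨Finset.mem_union.2 ?_, h2, h1⟩
    by_cases h0 : wt h (a χ) 0 = 0
    · exact Or.inr (Finset.mem_filter.2 ⟨hχ', h4, h0, fun e => hw ⟨h0, e⟩⟩)
    · exact Or.inl (Finset.mem_filter.2 ⟨hχ', h4, h0⟩)

/-- The heights. -/
theorem height_facts [Fintype (IrrCharacter G)] (hgen : ¬ Tight B h a) {n : ℕ}
    (hn : 2 * h = 2 ^ (n - 2)) :
    Nat.card {χ : IrrCharacter G // χ ∈ B ∧ blockHeight 2 B (χ : G → ℂ) = 0} = 4 ∧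
    (∀ χ ∈ B, blockHeight 2 B (χ : G → ℂ) = 0 ∨ blockHeight 2 B (χ : G → ℂ) = 1 ∨
      blockHeight 2 B (χ : G → ℂ) = n - 2) ∧
    (2 ≤ h →
      Nat.card {χ : IrrCharacter G // χ ∈ B ∧ blockHeight 2 B (χ : G → ℂ) = 1} = 2 * h - 1) := by
  have hinv : ∀ χ : IrrCharacter G, 2 ^ blockHeight 2 B (χ : G → ℂ) = 2 * h →
      blockHeight 2 B (χ : G → ℂ) = n - 2 := fun χ e =>
    Nat.pow_right_injective le_rfl (e.trans hn)
  refine ⟨?_, fun χ hχ => ?_, fun h2 => ?_⟩
  · rw [Nat.subtype_card (fours B h a) fun χ => ?_, C.card_fours]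
    exact ⟨fun h4 => ⟨mem_blockFinset.1 (fours_subset h4),
      (C.height_zero_iff (mem_blockFinset.1 (fours_subset h4))).2 h4⟩,
      fun hc => (C.height_zero_iff hc.1).1 hc.2⟩
  · by_cases h4 : χ ∈ fours B h a
    · exact Or.inl ((C.height_zero_iff hχ).2 h4)
    · rcases C.height_nonfour hχ h4 with ⟨-, -, e⟩ | ⟨-, e⟩
      · exact Or.inr (Or.inl e)
      · exact Or.inr (Or.inr (hinv χ e))
  · obtain ⟨hFE, hFO, -⟩ := C.counts_generic hgen
    rw [Nat.subtype_card (famE B h a ∪ famO B h a) fun χ => ?_, Finset.card_union_of_disjoint,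
      hFE, hFO, if_neg (by omega)]
    · omega
    · rw [Finset.disjoint_left]
      exact fun χ h1 h3 => (Finset.mem_filter.1 h1).2.2 (Finset.mem_filter.1 h3).2.2.1
    constructor
    · intro hu
      have hp : χ ∈ blockFinset B ∧ χ ∉ fours B h a ∧
          ¬(wt h (a χ) 0 = 0 ∧ wt h (a χ) 1 = 0) := by
        rcases Finset.mem_union.1 hu with e | e
        · exact ⟨(Finset.mem_filter.1 e).1, (Finset.mem_filter.1 e).2.1,
            fun c => (Finset.mem_filter.1 e).2.2 c.1⟩
        · exact ⟨(Finset.mem_filter.1 e).1, (Finset.mem_filter.1 e).2.1,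
            fun c => (Finset.mem_filter.1 e).2.2.2 c.2⟩
      exact ⟨mem_blockFinset.1 hp.1,
        (C.family_facts (mem_blockFinset.1 hp.1) hp.2.1 hp.2.2).2.2.2.2.2⟩
    · rintro ⟨hχ, h1⟩
      have h4 : χ ∉ fours B h a := fun e => by
        rw [(C.height_zero_iff hχ).2 e] at h1
        exact zero_ne_one h1
      rcases C.height_nonfour hχ h4 with ⟨e, -, -⟩ | ⟨-, e⟩
      · exact e
      · rw [h1, pow_one] at e
        omega

end Ctx

end CfsgLib.QuatBlock
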