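import Cfsg.Agent.Lib.QuatBlock.Main
import Mathlib.GroupTheory.Solvable

/-!
# Blocks of rank three with dihedral or semidihedral defect group

All involutions of the defect group are then conjugate and in the semidihedral case an outer
element is conjugate to an even rotation; so the centre has odd order and the group is not solvable.
-/

set_option autoImplicit false
set_option linter.style.haveILetI false
set_option linter.unusedSectionVars false
set_option linter.overlappingInstances false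
set_option maxHeartbeats 800000

noncomputable section

namespace CfsgLib.QuatBlock

open Cfsg CfsgLib.Blocks MonoidAlgebra CfsgLib.BrauerPairs CfsgLib.BlockStar
open CfsgLib.BrauerCharacters (cenElem blockFinset mem_blockFinset secPart contrib)
open CfsgLib.BlockSections (belowBlock)
open CfsgLib.DihedralBlock (rot rotVal)
open scoped ComplexConjugate Classical commutatorElement

attribute [local instance 5] Fintype.ofFinite

section Abstract

variable {G : Type*} [Group G]

/-- A nontrivial subgroup that follows its commutators into every normal subgroup excludes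
solvability. -/
theorem not_isSolvable_of_commutator {D : Subgroup G} (hD : D ≠ ⊥)
    (h : ∀ L : Subgroup G, L.Normal → ⁅D, D⁆ ≤ L → D ≤ L) : ¬ Group.IsSolvable G := by
  intro hs
  have hle : ∀ n, D ≤ derivedSeries G n := by
    intro n
    induction n with
    | zero => exact le_top
    | succ n ih => exact h _ (derivedSeries_normal G (n + 1)) (Subgroup.commutator_mono ih ih)
  obtain ⟨n, hn⟩ := hs.solvable
  exact hD (le_bot_iff.1 (hn ▸ hle n))

/-- An involution conjugate to a different one is not central. -/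
theorem odd_center [Finite G] {M : Ideal AlgInt} {B : Set (IrrCharacter G)} {D : Subgroup G}
    (hM : IsPModular 2 M) (hB : IsPBlock M B) (hD : IsDefectGroup 2 M B D) {z y : G}
    (hcen : ∀ c ∈ D, c * c = 1 → (∀ v ∈ D, c * v = v * c) → c = 1 ∨ c = z)
    (hyz : IsConj y z) (hne : y ≠ z) : Odd (Nat.card (Subgroup.center G)) := by
  haveI : Fact (2 : ℕ).Prime := ⟨Nat.prime_two⟩
  haveI : M.IsPrime := Blocks.isPrime_of_isPModular hM
  by_contra hc
  rw [Nat.not_odd_iff_even, even_iff_two_dvd] at hc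
  obtain ⟨c, hc2⟩ := exists_prime_orderOf_dvd_card' 2 hc
  rw [← Subgroup.orderOf_coe] at hc2
  set N := Subgroup.zpowers (c : G)
  haveI : N.Normal := ⟨fun n hn g => by
    have : n ∈ Subgroup.center G := (Subgroup.zpowers_le.2 c.2) hn
    rw [Subgroup.mem_center_iff.1 this g, mul_inv_cancel_right]
    exact hn⟩
  have hN : IsPGroup 2 N := IsPGroup.of_card (n := 1) (by rw [Nat.card_zpowers, hc2, pow_one])
  have hcD : (c : G) ∈ D :=
    ((Cores.le_pCore hN).trans (pCore_le_isDefectGroup hM hB hD)) (Subgroup.mem_zpowers _)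
  have hcc : (c : G) * c = 1 := by rw [← pow_two, ← hc2, pow_orderOf_eq_one]
  rcases hcen _ hcD hcc fun v _ => (Subgroup.mem_center_iff.1 c.2 v).symm with e | e
  · rw [e, orderOf_one] at hc2
    omega
  · obtain ⟨g, hg⟩ := isConj_iff.1 hyz
    have hzc : z ∈ Subgroup.center G := e ▸ c.2
    refine hne ?_
    calc y = g⁻¹ * (g * y * g⁻¹) * g := by group
      _ = g⁻¹ * (z * g) := by rw [hg, mul_assoc]
      _ = z := by rw [← Subgroup.mem_center_iff.1 hzc g, inv_mul_cancel_left]

end Abstract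

section Dihedral

variable {G : Type*} [Group G] [Fintype G] [Fact (2 : ℕ).Prime] [Fintype (IrrCharacter G)]
  [∀ y : G, Fintype (Subgroup.centralizer ({y} : Set G))] {M : Ideal AlgInt} [M.IsPrime]
  [CharP (Res M) 2] [IsAlgClosed (Res M)] {B : Set (IrrCharacter G)} {D : Subgroup G}
  {e0 : MonoidAlgebra (Res M) G} {r : G} {N : ℕ} [NeZero N]
  {a : IrrCharacter G → ZMod N → ℤ} {π : G → ℂ}

/-- A reflection not conjugate to the central involution gives one more orthogonal column. -/
theorem rank_add_half_lt (hM : IsPModular 2 M) (hB : IsPBlock M B)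
    (hmax : IsMaxPair 2 (⊤ : Subgroup G) (redElem M (blockCoeff B)) D e0)
    (h : DihedralBlock.IsDih D r N) (R : DihedralBlock.IsRotData (M := M) D e0 r a π) {y : G}
    (hy : y ∈ D) (hy1 : y ≠ 1) (hy2 : y * y = 1) (hyz : ¬ IsConj y (r ^ (N / 2))) :
    blockRank 2 B + N / 2 + 1 ≤ Nat.card B := by
  classical
  obtain ⟨χ1, hχ1, h01⟩ :=
    BrauerCharacters.exists_height_eq_zero (p := 2) (Blocks.isPBlock_nonempty hB)
  obtain ⟨hbl, -, hind⟩ := BlockSections.belowBlock_spec hM hB hmax hy
  set b := belowBlock (M := M) 2 D e0 y with hb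
  have hyo := h.exists_orderOf hy
  have hinv : y⁻¹ = y := inv_eq_of_mul_eq_one_right hy2
  -- a member not vanishing on the section
  obtain ⟨ψ, hψ, g, hg, hne⟩ : ∃ ψ ∈ B, ∃ g : G, IsPPart 2 g y ∧ (ψ : G → ℂ) g ≠ 0 := by
    by_contra hc
    push Not at hc
    have h1 := BlockSections.sum_contrib_self (y := y) (hM := hM) (p := 2) (hb := hbl) (hy := hyo)
    rw [Finset.sum_eq_zero fun χ _ => ?_] at h1
    · have := BrauerCharacters.blockRank_pos (p := 2) (Blocks.isPBlock_nonempty hbl)
      exact absurd (Nat.cast_eq_zero.1 h1.symm) (by omega)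
    by_cases hχ : χ ∈ B
    · rw [BlockSections.contrib_eq_sum_apply (hM := hM) (hb := hbl),
        Finset.sum_eq_zero fun s _ => ?_, mul_zero]
      split_ifs with hs
      · rfl
      · rw [hc χ hχ ((cenElem y * s : Subgroup.centralizer ({y} : Set G)) : G) ⟨(s : G), rfl,
          (Subgroup.mem_centralizer_singleton_iff.1 s.2).symm, hyo,
          by rwa [Subgroup.orderOf_coe]⟩, zero_mul]
    · exact BlockSections.contrib_eq_zero_of_notMem (hM := hM) (hy := hyo) (hind := hind) (hχ := hχ) ..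
  have hg' : IsPPart 2 g⁻¹ y := by
    have := DihedralBlock.isPPart_inv hg
    rwa [hinv] at this
  -- a real combination
  obtain ⟨c1, c2, hreal, hnz⟩ : ∃ c1 c2 : ℂ, (∀ χ : IrrCharacter G,
      conj (c1 * (χ : G → ℂ) g + c2 * (χ : G → ℂ) g⁻¹) =
        c1 * (χ : G → ℂ) g + c2 * (χ : G → ℂ) g⁻¹) ∧
      c1 * (ψ : G → ℂ) g + c2 * (ψ : G → ℂ) g⁻¹ ≠ 0 := by
    have hcj : ∀ χ : IrrCharacter G, conj ((χ : G → ℂ) g) = (χ : G → ℂ) g⁻¹ ∧
        conj ((χ : G → ℂ) g⁻¹) = (χ : G → ℂ) g := fun χ =>
      ⟨BrauerCharacters.conj_apply χ g, by rw [BrauerCharacters.conj_apply, inv_inv]⟩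
    by_cases e : (ψ : G → ℂ) g + (ψ : G → ℂ) g⁻¹ = 0
    · refine ⟨Complex.I, -Complex.I, fun χ => ?_, fun e' => hne ?_⟩
      · simp only [map_add, map_mul, map_neg, Complex.conj_I, (hcj χ).1, (hcj χ).2]
        ring
      · have h2 : Complex.I * (2 * (ψ : G → ℂ) g) = 0 := by linear_combination e' + Complex.I * e
        simpa using h2
    · refine ⟨1, 1, fun χ => ?_, by simpa using e⟩
      simp only [map_add, map_mul, map_one, (hcj χ).1, (hcj χ).2]
      ring
  set w : IrrCharacter G → ℂ := fun χ => c1 * (χ : G → ℂ) g + c2 * (χ : G → ℂ) g⁻¹ with hw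
  have hN := h.two_mul_half
  have h4 := h.four_le
  set i : Fin (N / 2) → ZMod N := fun j => ((j.1 + 1 : ℕ) : ZMod N) with hi
  have hi0 : ∀ j, i j ≠ 0 := fun j e => by
    rw [hi, ZMod.natCast_eq_zero_iff] at e
    have := Nat.le_of_dvd (by omega) e
    omega
  have hiinj : ∀ j k, j ≠ k → i j ≠ i k ∧ i j ≠ -i k := by
    intro j k hjk
    have := j.isLt; have := k.isLt
    refine ⟨fun e => hjk (Fin.ext ?_), fun e => ?_⟩
    · have e' := congrArg ZMod.val e
      simp only [hi, ZMod.val_natCast] at e'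
      rw [Nat.mod_eq_of_lt (by omega), Nat.mod_eq_of_lt (by omega)] at e'
      omega
    · rw [eq_neg_iff_add_eq_zero] at e
      simp only [hi, ← Nat.cast_add, ZMod.natCast_eq_zero_iff] at e
      have hne : (j.1 + 1) + (k.1 + 1) < N := by
        have : j.1 ≠ k.1 := fun e' => hjk (Fin.ext e')
        omega
      have := Nat.le_of_dvd (by omega) e
      omega
  have hcol : ∀ (j : Fin (N / 2)) (g0 : G), IsPPart 2 g0 y →
      ∑ χ ∈ blockFinset B, (χ : G → ℂ) g0 * rotVal (a χ) (i j) = 0 := by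
    intro j g0 hg0
    rw [DihedralBlock.sum_block_eq hM hB hmax h R (hi0 j)]
    obtain ⟨s, k, hs, hk, hval⟩ := DihedralBlock.exists_secPart_eq hM hB hmax h R (hi0 j)
    have hncj : ¬ IsConj y (rot r (i j))⁻¹ := fun hc => by
      obtain ⟨c, hc'⟩ := isConj_iff.1 hc
      have hsq : (rot r (i j))⁻¹ * (rot r (i j))⁻¹ = 1 := by
        rw [← hc', show c * y * c⁻¹ * (c * y * c⁻¹) = c * (y * y) * c⁻¹ by group, hy2]
        group
      rcases h.eq_z (Subgroup.inv_mem _ (DihedralBlock.rot_mem_zpowers r _)) hsq with e | e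
      · rw [e, conj_eq_one_iff] at hc'
        exact hy1 hc'
      · exact hyz (isConj_iff.2 ⟨c, hc'.trans e⟩)
    have h1 := DihedralBlock.sum_apply_mul_secPart_eq_zero hM (DihedralBlock.exists_orderOf_rot h (i j))
      (BlockSections.belowBlock_spec hM hB hmax (DihedralBlock.rot_mem_group h (i j))).1 hs hg0 hncj
    simp only [hval, ← mul_assoc, ← Finset.sum_mul] at h1
    exact (mul_eq_zero.1 h1).resolve_right hk
  have hreg : ∀ g1 : G, ¬ 2 ∣ orderOf g1 → ∀ g0 : G, IsPPart 2 g0 y →
      ∑ χ ∈ blockFinset B, (χ : G → ℂ) g1 * (χ : G → ℂ) g0 = 0 := by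
    intro g1 hg1 g0 hg0
    have hp1 : IsPPart 2 g1 1 := ⟨g1, one_mul g1, Commute.one_left g1, ⟨0, by simp⟩, hg1⟩
    have hp0 : IsPPart 2 g0⁻¹ y := by
      have := DihedralBlock.isPPart_inv hg0
      rwa [hinv] at this
    have h1 := Blocks.finsum_mul_eq_zero_of_isPBlock hM hB hp1 hp0
      fun hc => hy1 (isConj_one_right.1 hc)
    rw [BrauerCharacters.finsum_mem_eq_sum_blockFinset] at h1
    simpa only [inv_inv] using h1
  set W : Option (Fin (N / 2)) → IrrCharacter G → ℂ :=
    fun o => o.elim w fun j χ => rotVal (a χ) (i j)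
  have hmain := DihedralBlock.blockRank_add_le (p := 2) (B := B) W ?_ ?_ ?_
  · rw [Fintype.card_option, Fintype.card_fin] at hmain
    omega
  · rintro (_ | j) g1 hg1
    · simp only [W, Option.elim_none, hw, mul_add, mul_left_comm _ c1, mul_left_comm _ c2,
        Finset.sum_add_distrib, ← Finset.mul_sum, hreg g1 hg1 g hg, hreg g1 hg1 _ hg', mul_zero,
        add_zero]
    · exact DihedralBlock.sum_apply_mul_rotVal_eq_zero hM hB hmax h R (hi0 j) hg1
  · have key : ∀ j, ∑ χ ∈ blockFinset B, w χ * rotVal (a χ) (i j) = 0 := fun j => by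
      simp only [hw, add_mul, mul_assoc, Finset.sum_add_distrib, ← Finset.mul_sum, hcol j g hg,
        hcol j _ hg', mul_zero, add_zero]
    rintro (_ | j) (_ | k) hjk
    · exact absurd rfl hjk
    · exact key k
    · simp only [W, Option.elim_some, Option.elim_none]
      rw [← key j]
      exact Finset.sum_congr rfl fun χ _ => mul_comm _ _
    · exact DihedralBlock.sum_mul_rotVal_eq_zero hM hB hmax h R (hi0 j) (hi0 k)
        (hiinj j k fun e => hjk (by rw [e])).1 (hiinj j k fun e => hjk (by rw [e])).2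
  · rintro (_ | j)
    · simp only [W, Option.elim_none]
      rw [Finset.sum_congr rfl (g := fun χ => ((Complex.normSq (w χ) : ℝ) : ℂ)) fun χ _ => by
        rw [← Complex.mul_conj]
        exact congrArg (w χ * ·) (hreal χ).symm, ← Complex.ofReal_sum, Complex.ofReal_ne_zero]
      exact (Finset.sum_pos' (f := fun χ => Complex.normSq (w χ)) (fun χ _ => Complex.normSq_nonneg _)
        ⟨ψ, mem_blockFinset.2 hψ, Complex.normSq_pos.2 hnz⟩).ne'
    · simp only [W, Option.elim_some]
      rw [(DihedralBlock.sum_sq_rotVal hM hB hmax h R (hi0 j) hχ1 h01).1]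
      exact Nat.cast_ne_zero.2 Nat.card_pos.ne'

end Dihedral

/-- In rank three the reflections are conjugate to the central involution. -/
theorem isConj_refl_of_rank_three {G : Type*} [Group G] [Finite G] {M : Ideal AlgInt}
    (hM : IsPModular 2 M) {B : Set (IrrCharacter G)} (hB : IsPBlock M B) {D : Subgroup G}
    (hD : IsDefectGroup 2 M B D) {n : ℕ} (hn : 3 ≤ n) (σ : D ≃* DihedralGroup (2 ^ (n - 1)))
    (hl : blockRank 2 B = 3) {r : G} (h : DihedralBlock.IsDih D r (2 ^ (n - 1))) {y : G}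
    (hy : y ∈ D) (hyr : y ∉ Subgroup.zpowers r) : IsConj y (r ^ (2 ^ (n - 1) / 2)) := by
  haveI : Fact (2 : ℕ).Prime := ⟨Nat.prime_two⟩
  haveI := Fintype.ofFinite G
  haveI : M.IsMaximal := hM.2.1
  haveI := charP_res hM
  haveI := isAlgClosed_res (M := M)
  haveI := Fintype.ofFinite (IrrCharacter G)
  haveI : ∀ y : G, Fintype (Subgroup.centralizer ({y} : Set G)) := fun y => Fintype.ofFinite _
  have hb := isBlockIdem_redElem_blockCoeff (M := M) hB
  obtain ⟨e0, hmax⟩ := exists_isMaxPair_of_isDefectIn hb ((isDefectGroup_iff hM hB).1 hD)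
  haveI : NeZero (2 ^ (n - 1)) := ⟨pow_ne_zero _ two_ne_zero⟩
  obtain ⟨a, π, R⟩ := DihedralBlock.exists_isRotData hM hB hmax h
  have hk := (DihedralBlock.block_invariants M hM B hB D hD n hn ⟨σ⟩).1
  by_contra hc
  have h1 := rank_add_half_lt hM hB hmax h R hy (fun e => hyr (e ▸ Subgroup.one_mem _))
    (h.refl y hy hyr).1 hc
  have h2 : 2 ^ (n - 1) / 2 = 2 ^ (n - 2) := by
    rw [show n - 1 = (n - 2) + 1 by omega, pow_succ, Nat.mul_div_cancel _ two_pos]
  omega

/-- The dihedral case. -/
theorem dihedral_center_odd {G : Type*} [Group G] [Finite G] {M : Ideal AlgInt}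
    (hM : IsPModular 2 M) {B : Set (IrrCharacter G)} (hB : IsPBlock M B) {D : Subgroup G}
    (hD : IsDefectGroup 2 M B D) {n : ℕ} (hn : 3 ≤ n) (σ : D ≃* DihedralGroup (2 ^ (n - 1)))
    (hl : blockRank 2 B = 3) :
    Odd (Nat.card (Subgroup.center G)) ∧ ¬ Group.IsSolvable G := by
  obtain ⟨r, h⟩ := DihedralBlock.exists_isDih hn σ
  set N := 2 ^ (n - 1) with hN
  set z := r ^ (N / 2) with hz
  have hconj : ∀ y ∈ D, y ∉ Subgroup.zpowers r → IsConj y z := fun y hy hyr =>
    isConj_refl_of_rank_three hM hB hD hn σ hl h hy hyr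
  obtain ⟨s, hs, hsr⟩ := h.exists_refl
  refine ⟨odd_center hM hB hD (z := z) (y := s) ?_ (hconj s hs hsr)
    (fun e => hsr (e ▸ h.z_mem)), not_isSolvable_of_commutator (D := D) ?_ fun L hL hcomm => ?_⟩
  · intro c hc hc2 hcc
    by_cases hcr : c ∈ Subgroup.zpowers r
    · exact h.eq_z hcr hc2
    · exfalso
      have h1 := (h.refl c hc hcr).2 r (Subgroup.mem_zpowers r)
      rw [hcc r h.r_mem, mul_inv_cancel_right] at h1
      have : orderOf r ∣ 2 := orderOf_dvd_of_pow_eq_one (by
        rw [pow_two]; nth_rewrite 2 [h1]; exact mul_inv_cancel r)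
      have := Nat.le_of_dvd (by norm_num) (h.orderOf_r ▸ this)
      have := h.four_le
      omega
  · intro e
    exact hsr (by
      have : s = 1 := Subgroup.mem_bot.1 (e ▸ hs)
      rw [this]; exact Subgroup.one_mem _)
  · have hr2 : r * r ∈ L := by
      have h1 := Subgroup.commutator_mem_commutator h.r_mem hs
      have h2 : ⁅r, s⁆ = r * r := by
        rw [commutatorElement_def, mul_assoc r s r⁻¹, mul_assoc,
          (h.refl s hs hsr).2 _ (inv_mem (Subgroup.mem_zpowers r)), inv_inv]
      rw [h2] at h1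
      exact hcomm h1
    have hzL : z ∈ L := by
      obtain ⟨k, hk⟩ := h.exists_pow
      rw [hz, show N / 2 = 2 * 2 ^ k by
        rw [hk, show 2 ^ (k + 2) = 2 * (2 * 2 ^ k) by ring, Nat.mul_div_cancel_left _ two_pos],
        pow_mul, pow_two]
      exact L.pow_mem hr2 _
    have hout : ∀ y ∈ D, y ∉ Subgroup.zpowers r → y ∈ L := fun y hy hyr => by
      obtain ⟨c, hc⟩ := isConj_iff.1 (hconj y hy hyr)
      have := hL.conj_mem z hzL c⁻¹
      rw [← hc] at this
      simpa [mul_assoc] using this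
    intro u hu
    by_cases hur : u ∈ Subgroup.zpowers r
    · have h1 : s * u ∉ Subgroup.zpowers r := fun hc => hsr (by
        simpa using Subgroup.mul_mem _ hc (inv_mem hur))
      simpa using L.mul_mem (inv_mem (hout s hs hsr)) (hout _ (D.mul_mem hs hu) h1)
    · exact hout u hu hur

/-- The semidihedral case. -/
theorem semidihedral_center_odd {G : Type*} [Group G] [Finite G] {M : Ideal AlgInt}
    (hM : IsPModular 2 M) {B : Set (IrrCharacter G)} (hB : IsPBlock M B) {D : Subgroup G}
    (hD : IsDefectGroup 2 M B D) (hsd : Cfsg.IsQuasiDihedral D) (hl : blockRank 2 B = 3) :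
    Odd (Nat.card (Subgroup.center G)) ∧ ¬ Group.IsSolvable G := by
  obtain ⟨m, hm, hcard, hrest⟩ := hsd
  haveI : Fact (2 : ℕ).Prime := ⟨Nat.prime_two⟩
  haveI := Fintype.ofFinite G
  haveI : M.IsMaximal := hM.2.1
  haveI := charP_res hM
  haveI := isAlgClosed_res (M := M)
  haveI := Fintype.ofFinite (IrrCharacter G)
  haveI : ∀ y : G, Fintype (Subgroup.centralizer ({y} : Set G)) := fun y => Fintype.ofFinite _
  have hb := isBlockIdem_redElem_blockCoeff (M := M) hB
  obtain ⟨e0, hmax⟩ := exists_isMaxPair_of_isDefectIn hb ((isDefectGroup_iff hM hB).1 hD)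
  obtain ⟨x, hS⟩ := exists_isTame_semidihedral (G := G) (n := m + 1) (by omega) hcard
    ⟨m, hm, hcard, hrest⟩
  set h := 2 ^ (m + 1 - 3) with hh
  haveI : NeZero (4 * h) := ⟨by simp [hh]⟩
  set t : ZMod (4 * h) := ((2 * h : ℕ) : ZMod (4 * h)) - 1 with ht
  have h2 : 2 ≤ h := by
    rw [hh]
    exact Nat.le_self_pow (by omega) 2
  rcases hS.cases with ⟨ht1, -⟩ | ⟨he, -, y, hy, hyo, hy2⟩
  · exfalso
    rw [ht, sub_eq_neg_self] at ht1
    exact hS.two_h_ne_zero ht1
  obtain ⟨E, hR⟩ := exists_isTameReps hM hB hmax hS hy hyo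
  obtain ⟨a, hrot⟩ := exists_isRotData hM hB hmax hS
  have C : Ctx M B D e0 x h t y E a := ⟨hM, hB, hmax, hS, hR, hrot⟩
  set z := rot x ((2 * h : ℕ) : ZMod (4 * h)) with hz
  have hz1 : z ≠ 1 := fun e => hS.two_h_ne_zero (hS.rot_eq_one.1 e)
  have hzz : z * z = 1 := C.z_mul_z
  have hyx : y * x * (y * x) = z := by
    have h1 := hS.sq_outer_mul hy hyo (1 : ZMod (4 * h))
    rwa [hS.rot_one, hy2, one_mul, mul_one, ht, sub_add_cancel] at h1
  obtain ⟨-, -, -, -, h3⟩ := C.semi_facts h2 hy2 hyx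
  obtain ⟨-, hA, hB'⟩ := h3 hl
  -- the outer involution is conjugate to the involution of the rotations
  have hconj : IsConj y z := by
    simp only [Extra, not_forall, not_not] at hA
    obtain ⟨v, hv, ⟨g, hg, -⟩, hvr⟩ := hA
    obtain ⟨i, rfl⟩ := hS.exists_rot hvr
    refine isConj_iff.2 ⟨g, hg.trans ?_⟩
    have hi2 : rot x (i + i) = 1 := by
      rw [hS.rot_add, ← hg,
        show g * y * g⁻¹ * (g * y * g⁻¹) = g * (y * y) * g⁻¹ by group, hy2]
      group
    rcases hS.eq_zero_or_two_h (hS.rot_eq_one.1 hi2) with e | e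
    · exfalso
      rw [e, DihedralBlock.rot_zero, conj_eq_one_iff] at hg
      exact hyo (hg ▸ Subgroup.one_mem _)
    · rw [e]
  -- the outer element of order four is conjugate to an even rotation
  obtain ⟨i, g, hpi, hg⟩ : ∃ (i : ZMod (4 * h)) (g : G),
      par h i = 0 ∧ g * (y * x) * g⁻¹ = rot x i := by
    simp only [Extra, not_forall, not_not] at hB'
    obtain ⟨v, hv, ⟨g, hg, -⟩, hvr⟩ := hB'
    obtain ⟨i, rfl⟩ := hS.exists_rot hvr
    refine ⟨i, g, ?_, hg⟩
    have hph : par h (h : ZMod (4 * h)) = 0 := by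
      obtain ⟨c, hc⟩ := he
      rw [par_natCast, hc, Nat.cast_add, CharTwo.add_self_eq_zero]
    have h4 : rot x i ^ 4 = 1 := by
      rw [← hg, conj_pow, show (y * x) ^ 4 = y * x * (y * x) * (y * x * (y * x)) by
        rw [pow_succ, pow_succ, pow_two, mul_assoc (y * x * (y * x))], hyx, hzz]
      group
    rcases hS.eq_of_pow_four h4 with e | e | e | e <;> rw [e]
    · exact map_zero _
    · exact hS.par_two_h
    · exact hph
    · rw [map_neg, hph, neg_zero]
  refine ⟨odd_center hM hB hD (z := z) (y := y) ?_ hconj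
    (fun e => hyo (e ▸ DihedralBlock.rot_mem_zpowers x _)),
    not_isSolvable_of_commutator (D := D) ?_ fun L hL hcomm => ?_⟩
  · intro c hc _ hcc
    exact hS.eq_of_central hc hcc
  · intro e
    have hy1 : y = 1 := Subgroup.mem_bot.1 (e ▸ hy)
    exact hyo (by rw [hy1]; exact Subgroup.one_mem _)
  · have heven : ∀ j : ZMod (4 * h), par h j = 0 → rot x j ∈ L := by
      intro j hj
      obtain ⟨k, hk⟩ := hS.exists_sub_one_mul hj
      have h1 := hcomm (Subgroup.commutator_mem_commutator (hS.rot_mem (-k)) hy)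
      have h5 : ⁅rot x (-k), y⁆ = rot x j := by
        rw [commutatorElement_def, ← hS.rot_neg, neg_neg, mul_assoc (rot x (-k)), mul_assoc,
          hS.conj_rot hy hyo, ← hS.rot_add, ← hk]
        congr 1
        ring
      rwa [h5] at h1
    have hyL : y ∈ L := by
      obtain ⟨c, hc⟩ := isConj_iff.1 hconj
      have := hL.conj_mem z (heven _ hS.par_two_h) c⁻¹
      rw [← hc] at this
      simpa [mul_assoc] using this
    have hyxL : y * x ∈ L := by
      have := hL.conj_mem _ (heven i hpi) g⁻¹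
      rw [← hg] at this
      simpa [mul_assoc] using this
    have hxL : x ∈ L := by simpa using L.mul_mem (inv_mem hyL) hyxL
    intro u hu
    have hr : ∀ j : ZMod (4 * h), rot x j ∈ L := fun j => L.pow_mem hxL _
    rcases hS.eq_rot_or hy hyo hu with ⟨j, rfl⟩ | ⟨j, rfl⟩
    · exact hr j
    · exact L.mul_mem hyL (hr j)

end CfsgLib.QuatBlock
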