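import Cfsg.Agent.Lib.QuatBlock.Fusion
import Cfsg.Agent.Lib.Frobenius.Induce
import Cfsg.Agent.Lib.CharTheory.Linear
import Cfsg.Agent.Lib.CharTheory.Decomp
import Mathlib.Analysis.SpecialFunctions.Complex.CircleAddChar

/-!
# Representatives of the subsections of a tame block, and a stable generalised character

The representatives are one, the central involution, half of the other rotations and at most two
outer elements. There is a stable generalised character of the defect group whose values at one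
and at the involution differ by four.
-/

set_option autoImplicit false
set_option linter.style.haveILetI false
set_option linter.unusedSectionVars false

noncomputable section

namespace CfsgLib.QuatBlock

open Cfsg CfsgLib.Blocks MonoidAlgebra CfsgLib.BrauerPairs
open CfsgLib.DihedralBlock (rot)

/-- Half of the rotations of order at least four. -/
def halfRot (h : ℕ) [NeZero (4 * h)] (t : ZMod (4 * h)) : Finset (ZMod (4 * h)) :=
  Finset.univ.filter fun i => i ≠ 0 ∧ i ≠ ((2 * h : ℕ) : ZMod (4 * h)) ∧ i.val < (t * i).val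

/-- The rotations of order at least four. -/
def midRot (h : ℕ) [NeZero (4 * h)] : Finset (ZMod (4 * h)) :=
  Finset.univ.filter fun i => i ≠ 0 ∧ i ≠ ((2 * h : ℕ) : ZMod (4 * h))

section Half

variable {G : Type*} [Group G] {D : Subgroup G} {x : G} {h : ℕ} {t : ZMod (4 * h)}
  [NeZero (4 * h)] (S : IsTame D x h t)
include S

theorem mem_midRot_t_mul {i : ZMod (4 * h)} : t * i ∈ midRot h ↔ i ∈ midRot h := by
  have key : ∀ j : ZMod (4 * h), j ∈ midRot h → t * j ∈ midRot h := by
    intro j hj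
    simp only [midRot, Finset.mem_filter, Finset.mem_univ, true_and] at hj ⊢
    have e : ∀ c, t * j = c → j = t * c := fun c hc => by rw [← hc, ← mul_assoc, S.t_mul_t, one_mul]
    refine ⟨fun hc => hj.1 (by rw [e _ hc, mul_zero]), fun hc => hj.2 ?_⟩
    rw [e _ hc, (S.t_mul_fix).2 (Or.inr rfl)]
  refine ⟨fun hi => ?_, key i⟩
  have := key _ hi
  rwa [← mul_assoc, S.t_mul_t, one_mul] at this

theorem mem_half_or {i : ZMod (4 * h)} (hi : i ∈ midRot h) :
    (i ∈ halfRot h t ∧ t * i ∉ halfRot h t) ∨ (i ∉ halfRot h t ∧ t * i ∈ halfRot h t) := by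
  have hi' := (mem_midRot_t_mul S).2 hi
  have htt : t * (t * i) = i := by rw [← mul_assoc, S.t_mul_t, one_mul]
  simp only [midRot, halfRot, Finset.mem_filter, Finset.mem_univ, true_and] at hi hi' ⊢
  have hne : i.val ≠ (t * i).val := fun e => by
    rcases S.t_mul_fix.1 (ZMod.val_injective _ e).symm with e | e
    · exact hi.1 e
    · exact hi.2 e
  rw [htt]
  rcases lt_or_gt_of_ne hne with hl | hl
  · exact Or.inl ⟨⟨hi.1, hi.2, hl⟩, fun hc => absurd hc.2.2 (not_lt.2 hl.le)⟩
  · exact Or.inr ⟨fun hc => absurd hc.2.2 (not_lt.2 hl.le), ⟨hi'.1, hi'.2, hl⟩⟩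

theorem halfRot_subset : halfRot h t ⊆ midRot h := fun i hi => by
  simp only [midRot, halfRot, Finset.mem_filter, Finset.mem_univ, true_and] at hi ⊢
  exact ⟨hi.1, hi.2.1⟩

/-- An invariant sum over the rotations is twice the sum over half of them. -/
theorem sum_midRot {A : Type*} [AddCommMonoid A] {g : ZMod (4 * h) → A}
    (hg : ∀ i, g (t * i) = g i) :
    ∑ i ∈ midRot h, g i = ∑ i ∈ halfRot h t, g i + ∑ i ∈ halfRot h t, g i := by
  rw [← Finset.sum_filter_add_sum_filter_not (midRot h) (fun i => i ∈ halfRot h t),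
    Finset.filter_mem_eq_inter, Finset.inter_eq_right.2 (halfRot_subset S)]
  congr 1
  refine Finset.sum_nbij' (fun i => t * i) (fun i => t * i) (fun i hi => ?_) (fun i hi => ?_)
    (fun i _ => by rw [← mul_assoc, S.t_mul_t, one_mul])
    (fun i _ => by rw [← mul_assoc, S.t_mul_t, one_mul]) (fun i _ => (hg i).symm)
  · rw [Finset.mem_filter] at hi
    exact ((mem_half_or S hi.1).resolve_left fun hc => hi.2 hc.1).2
  · rw [Finset.mem_filter]
    have hm := halfRot_subset S hi
    exact ⟨(mem_midRot_t_mul S).2 hm,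
      ((mem_half_or S hm).resolve_right fun hc => hc.1 hi).2⟩

end Half

open scoped Classical

variable {G : Type*} [Group G] [Fintype G] {M : Ideal AlgInt} [M.IsPrime] [Fact (2 : ℕ).Prime]
  [CharP (Res M) 2] [IsAlgClosed (Res M)]
  {B : Set (IrrCharacter G)} {D : Subgroup G} {e0 : MonoidAlgebra (Res M) G}
  [∀ y : G, Fintype (Subgroup.centralizer ({y} : Set G))]
  {x : G} {h : ℕ} {t : ZMod (4 * h)} [NeZero (4 * h)]
  (hM : IsPModular 2 M) (hB : IsPBlock M B)
  (hmax : IsMaxPair 2 (⊤ : Subgroup G) (redElem M (blockCoeff B)) D e0) (S : IsTame D x h t)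

open scoped Classical in
/-- The representatives. -/
structure IsTameReps (D : Subgroup G) (e0 : MonoidAlgebra (Res M) G) (x : G) (h : ℕ)
    [NeZero (4 * h)] (t : ZMod (4 * h)) (y0 : G) (E : Finset G) : Prop where
  y0_mem : y0 ∈ D
  y0_outer : y0 ∉ Subgroup.zpowers x
  subset : E ⊆ {y0, y0 * x}
  extra : ∀ u ∈ E, ∀ v ∈ D, Fus 2 D e0 u v → v ∉ Subgroup.zpowers x
  reps : IsReps 2 D e0 (insert 1 (insert (rot x ((2 * h : ℕ) : ZMod (4 * h)))
    ((halfRot h t).image (rot x) ∪ E)))

namespace IsTameReps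

variable {y0 : G} {E : Finset G} (R : IsTameReps (M := M) D e0 x h t y0 E)
include R S

theorem mem_D {u : G} (hu : u ∈ E) : u ∈ D := by
  rcases Finset.mem_insert.1 (R.subset hu) with e | e
  · exact e ▸ R.y0_mem
  · rw [Finset.mem_singleton.1 e]; exact D.mul_mem R.y0_mem S.x_mem

theorem outer {u : G} (hu : u ∈ E) : u ∉ Subgroup.zpowers x :=
  R.extra u hu u (R.mem_D S hu) (Fus.refl u)

theorem card_le_two : E.card ≤ 2 :=
  (Finset.card_le_card R.subset).trans (Finset.card_le_two)

open scoped Classical in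
/-- The sum over the representatives. -/
theorem sum_eq {A : Type*} [AddCommMonoid A] (f : G → A) :
    ∑ v ∈ insert 1 (insert (rot x ((2 * h : ℕ) : ZMod (4 * h)))
        ((halfRot h t).image (rot x) ∪ E)), f v =
      f 1 + (f (rot x ((2 * h : ℕ) : ZMod (4 * h))) +
        (∑ i ∈ halfRot h t, f (rot x i) + ∑ u ∈ E, f u)) := by
  have hne : ∀ (i : ZMod (4 * h)), ∀ u ∈ E, rot x i ≠ u := fun i u hu e =>
    R.outer S hu (e ▸ DihedralBlock.rot_mem_zpowers x i)
  have hrot : ∀ {i l : ZMod (4 * h)}, l ∈ halfRot h t → i ∉ midRot h → rot x l ≠ rot x i :=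
    fun hl hi e => hi (S.rot_injective e ▸ halfRot_subset S hl)
  rw [Finset.sum_insert, Finset.sum_insert, Finset.sum_union,
    Finset.sum_image fun i _ l _ e => S.rot_injective e]
  · rw [Finset.disjoint_left]
    intro v hv hv'
    obtain ⟨i, -, rfl⟩ := Finset.mem_image.1 hv
    exact hne i _ hv' rfl
  · simp only [Finset.mem_union, Finset.mem_image, not_or, not_exists, not_and]
    exact ⟨fun l hl => hrot hl (by simp [midRot]), fun hc => hne _ _ hc rfl⟩
  · simp only [Finset.mem_insert, Finset.mem_union, Finset.mem_image, not_or, not_exists, not_and]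
    refine ⟨fun e => S.two_h_ne_zero (S.rot_eq_one.1 e.symm), fun l hl => ?_, fun hc => ?_⟩
    · rw [← DihedralBlock.rot_zero (N := 4 * h) x]
      exact hrot hl (by simp [midRot])
    · exact hne 0 _ hc (DihedralBlock.rot_zero x)

end IsTameReps

include hM hB hmax S

open scoped Classical in
theorem exists_isTameReps {y0 : G} (hy : y0 ∈ D) (hyo : y0 ∉ Subgroup.zpowers x) :
    ∃ E : Finset G, IsTameReps (M := M) D e0 x h t y0 E := by
  classical
  set z := rot x ((2 * h : ℕ) : ZMod (4 * h)) with hz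
  set R0 : Finset G := insert 1 (insert z ((halfRot h t).image (rot x))) with hR0
  have hrotR : ∀ u ∈ R0, ∃ i : ZMod (4 * h), rot x i = u ∧
      (i = 0 ∨ i = ((2 * h : ℕ) : ZMod (4 * h)) ∨ i ∈ halfRot h t) := by
    intro u hu
    simp only [hR0, Finset.mem_insert, Finset.mem_image] at hu
    rcases hu with rfl | rfl | ⟨i, hi, rfl⟩
    · exact ⟨0, DihedralBlock.rot_zero x, Or.inl rfl⟩
    · exact ⟨_, rfl, Or.inr (Or.inl rfl)⟩
    · exact ⟨i, rfl, Or.inr (Or.inr hi)⟩
  have hmid : ∀ i : ZMod (4 * h), i ≠ 0 → i ≠ ((2 * h : ℕ) : ZMod (4 * h)) → i ∈ midRot h :=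
    fun i a b => Finset.mem_filter.2 ⟨Finset.mem_univ _, a, b⟩
  -- every rotation is fused to a member
  have hcovR : ∀ i : ZMod (4 * h), ∃ u ∈ R0, Fus 2 D e0 u (rot x i) := by
    intro i
    by_cases h0 : i = 0
    · exact ⟨1, by simp [hR0], by rw [h0, DihedralBlock.rot_zero]; exact Fus.refl _⟩
    by_cases h2 : i = ((2 * h : ℕ) : ZMod (4 * h))
    · exact ⟨z, by simp [hR0], by rw [h2]; exact Fus.refl _⟩
    rcases mem_half_or S (hmid i h0 h2) with ⟨hi, -⟩ | ⟨-, hi⟩
    · exact ⟨rot x i, by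
        simp only [hR0, Finset.mem_insert, Finset.mem_image]
        exact Or.inr (Or.inr ⟨i, hi, rfl⟩), Fus.refl _⟩
    · exact ⟨rot x (t * i), by
        simp only [hR0, Finset.mem_insert, Finset.mem_image]
        exact Or.inr (Or.inr ⟨_, hi, rfl⟩),
        ((fus_rot_iff hM hB hmax S h0 h2).2 (Or.inr rfl)).symm⟩
  have hind : ∀ u ∈ R0, ∀ v ∈ R0, Fus 2 D e0 u v → u = v := by
    intro u hu v hv hf
    obtain ⟨i, rfl, hi⟩ := hrotR u hu
    obtain ⟨l, rfl, hl⟩ := hrotR v hv
    by_cases hi2 : rot x i * rot x i = 1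
    · have hl2 : rot x l * rot x l = 1 := by
        have := hf.orderOf_eq
        rw [← pow_two] at hi2 ⊢
        rw [← orderOf_dvd_iff_pow_eq_one] at hi2 ⊢
        rwa [← this]
      rw [← S.rot_add] at hi2 hl2
      rcases S.eq_zero_or_two_h (S.rot_eq_one.1 hi2) with rfl | rfl <;>
        rcases S.eq_zero_or_two_h (S.rot_eq_one.1 hl2) with rfl | rfl
      · rfl
      · exfalso
        have := hf.orderOf_eq
        rw [DihedralBlock.rot_zero, orderOf_one, S.orderOf_two_h] at this
        omega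
      · exfalso
        have := hf.orderOf_eq
        rw [DihedralBlock.rot_zero, orderOf_one, S.orderOf_two_h] at this
        omega
      · rfl
    · have h0 : i ≠ 0 := fun e => hi2 (by rw [e, DihedralBlock.rot_zero, one_mul])
      have h2 : i ≠ ((2 * h : ℕ) : ZMod (4 * h)) := fun e =>
        hi2 (by rw [e, ← S.rot_add, S.two_h_add_two_h, DihedralBlock.rot_zero])
      have hiI : i ∈ halfRot h t := (hi.resolve_left h0).resolve_left h2
      rcases (fus_rot_iff hM hB hmax S h0 h2).1 hf with rfl | rfl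
      · rfl
      · exfalso
        have hm := (mem_half_or S (hmid i h0 h2)).resolve_right fun hc => hc.1 hiI
        rcases hl with e | e | e
        · have := (mem_midRot_t_mul S).2 (hmid i h0 h2)
          simp [midRot, e] at this
        · have := (mem_midRot_t_mul S).2 (hmid i h0 h2)
          simp [midRot, e] at this
        · exact hm.2 e
  have hmemR0 : ∀ u ∈ R0, u ∈ D := fun u hu => by
    obtain ⟨i, rfl, -⟩ := hrotR u hu
    exact S.rot_mem i
  obtain ⟨R, h1, h2, hR⟩ := exists_isReps (M := M) (p := 2) (e0 := e0) R0 {y0, y0 * x} hmemR0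
    (fun u hu => by
      rcases Finset.mem_insert.1 hu with e | e
      · exact e ▸ hy
      · rw [Finset.mem_singleton.1 e]; exact D.mul_mem hy S.x_mem) hind fun v hv => by
    rcases S.eq_rot_or hy hyo hv with ⟨i, rfl⟩ | ⟨i, rfl⟩
    · obtain ⟨u, hu, hf⟩ := hcovR i
      exact ⟨u, Finset.mem_union_left _ hu, hf⟩
    · obtain ⟨j, hj⟩ := S.exists_conj_outer hy hyo i
      refine ⟨y0 * rot x (if par h i = 0 then (0 : ZMod (4 * h)) else 1),
        Finset.mem_union_right _ ?_, ?_⟩
      · split_ifs <;> simp [DihedralBlock.rot_zero, S.rot_one]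
      · rw [← hj]
        exact fus_conj_mem hM hB hmax (D.mul_mem hy (S.rot_mem _)) (S.rot_mem j)
  refine ⟨R \ R0, hy, hyo, fun u hu => ?_, fun u hu v hv hf hvr => ?_, ?_⟩
  · rw [Finset.mem_sdiff] at hu
    exact (Finset.mem_union.1 (h2 hu.1)).resolve_left hu.2
  · rw [Finset.mem_sdiff] at hu
    obtain ⟨i, rfl⟩ := S.exists_rot hvr
    obtain ⟨w, hw, hwf⟩ := hcovR i
    exact hu.2 (hR.indep u hu.1 w (h1 hw) (hf.trans hwf.symm) ▸ hw)
  · convert hR using 1
    rw [← Finset.insert_union, ← Finset.insert_union, ← hR0, Finset.union_sdiff_of_subset h1]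

end CfsgLib.QuatBlock
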