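import Cfsg.Agent.Lib.QuatBlock.Fusion
import Cfsg.Agent.Lib.DihedralBlock.LocalData
import Cfsg.Agent.Lib.Jordan.CyclicDefect.Family
import Cfsg.Agent.Lib.BlockStar.LocalRank

/-!
# The contributions at the rotations

The block of the centraliser of the element of order four is nilpotent with cyclic defect group,
so the contributions at the rotations are products of Fourier transforms of multiplicities. The
base member can be chosen fixed by an outer element, as the multiplicities of a character of height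
zero have an odd sum; then the multiplicities are invariant under the action of the outer elements.
-/

set_option autoImplicit false
set_option linter.style.haveILetI false
set_option linter.unusedSectionVars false
set_option maxHeartbeats 1000000

noncomputable section

namespace CfsgLib.QuatBlock

open Cfsg CfsgLib.Blocks MonoidAlgebra CfsgLib.BrauerPairs CfsgLib.BlockStar
open CfsgLib.BrauerCharacters (cenElem blockFinset mem_blockFinset centralizer_zpowers_eq)
open CfsgLib.BlockSections (belowBlock secX)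
open CfsgLib.DihedralBlock (rot rotVal commute_subIdem isPPart_coe_subgroup)
open CfsgLib.Jordan.CyclicDefect (AbNilp restrictP)
open scoped ComplexConjugate Classical

attribute [local instance 5] Fintype.ofFinite

/-- A member fixed by an involution of a set over which an invariant weight has odd sum. -/
theorem exists_fixed_of_odd {α : Type*} (s : Finset α) (φ : α → α) (w : α → ℤ)
    (hm : ∀ a ∈ s, φ a ∈ s) (hi : ∀ a ∈ s, φ (φ a) = a) (hw : ∀ a ∈ s, w (φ a) = w a)
    (hodd : Odd (∑ a ∈ s, w a)) : ∃ a ∈ s, φ a = a := by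
  by_contra hc
  push Not at hc
  have h2 : ((∑ a ∈ s, w a : ℤ) : ZMod 2) = 0 := by
    rw [Int.cast_sum]
    refine Finset.sum_involution (fun a _ => φ a) (fun a ha => ?_) (fun a ha _ => hc a ha) hm hi
    rw [hw a ha, CharTwo.add_self_eq_zero]
  obtain ⟨k, hk⟩ := hodd
  rw [hk] at h2
  push_cast at h2
  rw [show (2 : ZMod 2) = 0 from rfl, zero_mul, zero_add] at h2
  exact one_ne_zero h2

/-- The value at a rotation is congruent to the sum of the multiplicities. -/
theorem memLocalIdeal_rotVal_sub {M : Ideal AlgInt} [M.IsPrime] (hM : IsPModular 2 M) {h : ℕ}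
    [NeZero (4 * h)] (hpow : ∃ k, h = 2 ^ k) (a : ZMod (4 * h) → ℤ) (i : ZMod (4 * h)) :
    MemLocalIdeal M (rotVal a i - ((∑ j, a j : ℤ) : ℂ)) := by
  haveI : Fact (Nat.Prime 2) := ⟨Nat.prime_two⟩
  obtain ⟨k, hk⟩ := hpow
  rw [rotVal]
  push_cast
  rw [← Finset.sum_sub_distrib]
  refine memLocalIdeal_sum fun j _ => ?_
  rw [← mul_sub_one]
  refine memLocalIdeal_mul_left (memLocalRing_intCast _)
    (memLocalIdeal_sub_one_of_pow_prime_pow hM (k := k + 2) ?_)
  rw [← AddChar.map_nsmul_eq_pow, show 2 ^ (k + 2) = 4 * h by rw [hk]; ring, nsmul_eq_mul,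
    ZMod.natCast_self, zero_mul, AddChar.map_zero_eq_one]

section Homs

variable {C : Type*} [Group C] {G : Type*} [Group G] {D : Subgroup G} {x : G} {h : ℕ}
  {t : ZMod (4 * h)} [NeZero (4 * h)] (S : IsTame D x h t)
include S

theorem idx_rot_mul {u v : G} (hu : u ∈ Subgroup.zpowers x) (hv : v ∈ Subgroup.zpowers x) :
    ZMod.stdAddChar (Function.invFun (rot x) (u * v) : ZMod (4 * h)) =
      ZMod.stdAddChar (Function.invFun (rot x) u : ZMod (4 * h)) *
        ZMod.stdAddChar (Function.invFun (rot x) v : ZMod (4 * h)) := by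
  obtain ⟨i, rfl⟩ := S.exists_rot hu
  obtain ⟨j, rfl⟩ := S.exists_rot hv
  rw [← S.rot_add, Function.leftInverse_invFun S.rot_injective,
    Function.leftInverse_invFun S.rot_injective, Function.leftInverse_invFun S.rot_injective,
    AddChar.map_add_eq_mul]

end Homs

variable {G : Type*} [Group G] [Fintype G] {M : Ideal AlgInt} [M.IsPrime] [Fact (2 : ℕ).Prime]
  [CharP (Res M) 2] [IsAlgClosed (Res M)]
  {B : Set (IrrCharacter G)} {D : Subgroup G} {e0 : MonoidAlgebra (Res M) G}
  [∀ y : G, Fintype (Subgroup.centralizer ({y} : Set G))]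
  {x : G} {h : ℕ} {t : ZMod (4 * h)} [NeZero (4 * h)]
  (hM : IsPModular 2 M) (hB : IsPBlock M B)
  (hmax : IsMaxPair 2 (⊤ : Subgroup G) (redElem M (blockCoeff B)) D e0) (S : IsTame D x h t)

/-- The output of the local analysis at the rotations. -/
structure IsRotData (D : Subgroup G) (e0 : MonoidAlgebra (Res M) G) (x : G) (h : ℕ)
    [NeZero (4 * h)] (t : ZMod (4 * h)) (a : IrrCharacter G → ZMod (4 * h) → ℤ) : Prop where
  sym : ∀ χ j, a χ (t * j) = a χ j
  subT_eq : ∀ i : ZMod (4 * h), i ≠ 0 → i ≠ ((2 * h : ℕ) : ZMod (4 * h)) →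
    ∀ χ ψ : IrrCharacter G, ((4 * h : ℕ) : ℂ) * subT (M := M) 2 D e0 (rot x i) χ ψ =
      rotVal (a χ) i * conj (rotVal (a ψ) i)

include hM hB hmax S

theorem exists_isRotData : ∃ a : IrrCharacter G → ZMod (4 * h) → ℤ,
    IsRotData (M := M) D e0 x h t a := by
  have hb := isBlockIdem_redElem_blockCoeff (M := M) hB
  have hh0 := S.h_ne_zero
  have hh2 := S.h_ne_two_h
  set w := rot x (h : ZMod (4 * h)) with hw
  have hwD : w ∈ D := S.rot_mem _
  obtain ⟨hblw, -, -⟩ := BlockSections.belowBlock_spec hM hB hmax hwD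
  have hlew := pairLE_bId hM hB hmax hwD
  set H := Subgroup.centralizer ({w} : Set G) with hH
  set bH := belowBlock (M := M) 2 D e0 w with hbH
  set P := Subgroup.zpowers x with hPdef
  have hPH : P ≤ H := fun u hu => by
    obtain ⟨i, rfl⟩ := S.exists_rot hu
    exact Subgroup.mem_centralizer_singleton_iff.2 (S.rot_commute i _)
  have hφ := H.subtype_injective
  haveI : Fintype H := Fintype.ofFinite _
  haveI : Fintype (IrrCharacter H) := Fintype.ofFinite _
  -- the pair at the rotations
  have hPC : P ≤ Subgroup.centralizer (Subgroup.zpowers w : Set G) := by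
    rw [centralizer_zpowers_eq]; exact hPH
  have hwP : Subgroup.zpowers w ≤ P :=
    Subgroup.zpowers_le.2 (DihedralBlock.rot_mem_zpowers x _)
  obtain ⟨g, hn, hgD⟩ := hlew.normalLE_of_le_normalizer hmax.1.1 hwP S.zpowers_le
    (hPC.trans (Subgroup.centralizer_le_normalizer _))
  have hgx : g = bId 2 D e0 x := eq_bId hM hB hmax hgD
  have hQf := hn.1
  have hpo : PairOf 2 (⊤ : Subgroup G) (redElem M (blockCoeff B)) P g :=
    (hgD.pairOf_iff hb).2 hmax.1
  have hloc : PairOf 2 (cenIn (⊤ : Subgroup G) (Subgroup.zpowers w))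
      (bId 2 D e0 w) P g :=
    (pairOf_local_iff hQf le_rfl (cenIn_le_pairStab hQf) hwP).2
      ⟨by rw [cenIn_top, centralizer_zpowers_eq]; exact hPH, hn⟩
  rw [cenIn_top, centralizer_zpowers_eq, ← hH] at hloc
  set P' := P.subgroupOf H with hP'def
  have hP' : P'.map H.subtype = P := Subgroup.map_subgroupOf_eq_of_le hPH
  have hcen : (cenIn (⊤ : Subgroup H) P').map H.subtype = cenIn H P := by
    rw [map_cenIn hφ, map_top_subtype, hP']
  obtain ⟨e', -, he'⟩ := exists_of_isBlockIdem_map hφ (hcen.symm ▸ hloc.1.2.2)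
  have hbid : mapG H.subtype (redElem M (blockCoeff bH)) = subIdem M H bH :=
    (redElem_subgroupBlockCoeff H _).symm
  have hcardP : Nat.card P' = 4 * h := by
    rw [hP'def, Nat.card_congr (Subgroup.subgroupOfEquivOfLe hPH).toEquiv, S.card_zpowers]
  have hbHi := isBlockIdem_redElem_blockCoeff (M := M) hblw
  have hmaxH : IsMaxPair 2 (⊤ : Subgroup H) (redElem M (blockCoeff bH)) P' e' := by
    refine PairOf.isMaxPair_of_card ?_ fun R f hR => ?_
    · rw [← pairOf_mapG_iff hφ, map_top_subtype, hP', he', hbid]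
      exact hloc
    · obtain ⟨R₂, f₂, hR₂, hle₂⟩ := exists_isMaxPair_above hR
      refine (Subgroup.card_le_of_le hle₂.le).trans (le_of_eq ?_)
      rw [hcardP, ← pow_defect_rot hM hB hmax S hh0 hh2]
      exact Blocks.card_isDefectGroup hM hblw
        ((isDefectGroup_iff hM hblw).2 (hR₂.isDefectIn hbHi))
  have hcomm : ∀ u ∈ P', ∀ v ∈ P', u * v = v * u := by
    intro u hu v hv
    obtain ⟨i, hi⟩ := S.exists_rot (Subgroup.mem_subgroupOf.1 hu)
    obtain ⟨j, hj⟩ := S.exists_rot (Subgroup.mem_subgroupOf.1 hv)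
    exact Subtype.ext (by rw [Subgroup.coe_mul, Subgroup.coe_mul, ← hi, ← hj, S.rot_commute])
  have hnil : IsNilp 2 (⊤ : Subgroup H) (redElem M (blockCoeff bH)) := by
    refine (hmaxH.isNilp_iff_of_abelian hbHi hcomm).2 fun u hu => ?_
    obtain ⟨-, hun, huf⟩ := mem_pairStab.1 hu
    set c : G := (u : G) with hc
    have huP : c ∈ Subgroup.normalizer (P : Set G) := by
      apply Subgroup.mem_normalizer_fintype
      intro v hv
      have := (Subgroup.mem_normalizer_iff.1 hun ⟨v, hPH hv⟩).1 (Subgroup.mem_subgroupOf.2 hv)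
      exact Subgroup.mem_subgroupOf.1 this
    have hcg : conjA c g = g := by
      rw [← he', hc, show (u : G) = H.subtype u from rfl, ← mapG_conjA hφ, huf]
    have hcx : c * x * c⁻¹ ∈ P :=
      (Subgroup.mem_normalizer_iff.1 huP x).1 (Subgroup.mem_zpowers x)
    obtain ⟨l, hl⟩ := S.exists_rot hcx
    have hord : orderOf (rot x l) = orderOf (rot x (1 : ZMod (4 * h))) := by
      rw [hl, S.rot_one, ← MulAut.conj_apply, MulEquiv.orderOf_eq]
    have hz : Subgroup.zpowers (rot x l) = P := by
      rw [zpowers_eq S (DihedralBlock.rot_mem_zpowers x l) (DihedralBlock.rot_mem_zpowers x _) hord,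
        S.rot_one]
    have hf : Fus 2 D e0 (rot x (1 : ZMod (4 * h))) (rot x l) := by
      refine ⟨c, by rw [S.rot_one, hl], ?_⟩
      rw [bId_congr hM hB hmax (S.rot_mem l) S.x_mem hz, S.rot_one, ← hgx, hcg]
    have h10 : (1 : ZMod (4 * h)) ≠ 0 := fun e => hh0 (by rw [← mul_one (h : ZMod (4 * h)), e, mul_zero])
    have h12 : (1 : ZMod (4 * h)) ≠ ((2 * h : ℕ) : ZMod (4 * h)) := fun e => by
      have h1 := congrArg (par h) e
      rw [map_one, S.par_two_h] at h1
      exact one_ne_zero h1
    have hfix : c * x * c⁻¹ = x := by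
      rcases (fus_rot_iff hM hB hmax S h10 h12).1 hf with e | e
      · rw [← hl, e, S.rot_one]
      · exfalso
        rw [mul_one] at e
        rw [e] at hl
        have h1 : c * w * c⁻¹ = rot x (t * (h : ZMod (4 * h))) := by
          rw [hw, rot, ← conj_pow, ← hl, rot_pow_val S, mul_comm t]
        have h2 : c * w * c⁻¹ = w := by
          rw [Subgroup.mem_centralizer_singleton_iff.1 (u.2 : c ∈ H), mul_inv_cancel_right]
        rw [h2, hw] at h1
        rcases S.t_mul_fix.1 (S.rot_injective h1).symm with e' | e'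
        · exact hh0 e'
        · exact hh2 e'
    refine Subgroup.mem_centralizer_iff.2 fun v hv => Subtype.ext ?_
    obtain ⟨k, hk⟩ := Subgroup.mem_zpowers_iff.1 (Subgroup.mem_subgroupOf.1 hv)
    have hcom : Commute c x := mul_inv_eq_iff_eq_mul.1 hfix
    rw [Subgroup.coe_mul, Subgroup.coe_mul, ← hk]
    exact ((hcom.zpow_right k).eq).symm
  have Hn : AbNilp 2 M bH P' e' := ⟨hM, hblw, hmaxH, hnil, hcomm⟩
  haveI : ∀ y : H, Fintype (Subgroup.centralizer ({y} : Set H)) := fun y => Fintype.ofFinite _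
  haveI : Fintype P' := Fintype.ofFinite _
  -- the linear characters
  let lj : ZMod (4 * h) → (P' →* ℂˣ) := fun j => MonoidHom.mk'
    (fun v => Units.mk0
      (ZMod.stdAddChar ((Function.invFun (rot x) ((v : H) : G) : ZMod (4 * h)) * j)) (by
        intro e
        have := AddChar.map_add_eq_mul (ZMod.stdAddChar (N := 4 * h))
          ((Function.invFun (rot x) ((v : H) : G) : ZMod (4 * h)) * j)
          (-((Function.invFun (rot x) ((v : H) : G) : ZMod (4 * h)) * j))
        rw [add_neg_cancel, AddChar.map_zero_eq_one, e, zero_mul] at this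
        exact one_ne_zero this))
    (fun u v => by
      ext
      obtain ⟨i, hi⟩ := S.exists_rot (Subgroup.mem_subgroupOf.1 u.2)
      obtain ⟨k, hk⟩ := S.exists_rot (Subgroup.mem_subgroupOf.1 v.2)
      simp only [Units.val_mk0, Units.val_mul, Subgroup.coe_mul]
      rw [← hi, ← hk, ← S.rot_add, Function.leftInverse_invFun S.rot_injective,
        Function.leftInverse_invFun S.rot_injective, Function.leftInverse_invFun S.rot_injective,
        add_mul, AddChar.map_add_eq_mul])
  have hlj : ∀ (j i : ZMod (4 * h)) (v : P'), ((v : H) : G) = rot x i →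
      ((lj j v : ℂˣ) : ℂ) = ZMod.stdAddChar (i * j) := fun j i v hv => by
    simp only [lj, MonoidHom.mk'_apply, Units.val_mk0, hv,
      (show Function.invFun (rot x) (rot x i) = i from Function.leftInverse_invFun S.rot_injective i)]
  set x' : P' := ⟨⟨x, hPH (Subgroup.mem_zpowers x)⟩,
    Subgroup.mem_subgroupOf.2 (Subgroup.mem_zpowers x)⟩ with hx'
  have hljinj : Function.Injective lj := fun j k e => by
    have h1 := congrArg (fun l : P' →* ℂˣ => ((l x' : ℂˣ) : ℂ)) e
    simp only [hlj _ 1 x' S.rot_one.symm, one_mul] at h1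
    exact ZMod.injective_stdAddChar h1
  have hljbij : Function.Bijective lj := by
    haveI : IsCyclic P' := (Subgroup.subgroupOfEquivOfLe hPH).isCyclic.2 inferInstance
    letI : CommGroup P' :=
      { (inferInstance : Group P') with mul_comm := fun u v => Subtype.ext (hcomm _ u.2 _ v.2) }
    have hc : Nat.card (P' →* ℂˣ) = Nat.card (ZMod (4 * h)) := by
      rw [CommGroup.card_monoidHom_of_hasEnoughRootsOfUnity P' ℂ, Nat.card_zmod]
      exact hcardP
    haveI : Finite (P' →* ℂˣ) := Nat.finite_of_card_ne_zero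
      (by rw [hc, Nat.card_zmod]; exact NeZero.ne _)
    exact (Nat.bijective_iff_injective_and_card _).2 ⟨hljinj, hc.symm⟩
  -- the values at the rotations, for any base member
  have key : ∀ (θ : IrrCharacter H) (hθ : θ ∈ bH) (i : ZMod (4 * h)), i ≠ 0 →
      i ≠ ((2 * h : ℕ) : ZMod (4 * h)) → ∀ χ ψ : IrrCharacter G,
      ((4 * h : ℕ) : ℂ) * subT (M := M) 2 D e0 (rot x i) χ ψ =
        rotVal (fun j => subMult H χ (Hn.th hθ (lj j))) i *
          conj (rotVal (fun j => subMult H ψ (Hn.th hθ (lj j))) i) := by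
    intro θ hθ i hi0 hi2
    set v := rot x i with hv
    have hvP : v ∈ P := DihedralBlock.rot_mem_zpowers x i
    have hvD : v ∈ D := S.rot_mem i
    have hCle : Subgroup.centralizer ({v} : Set G) ≤ H := S.centralizer_rot_le hi0 hi2
    set v' : H := ⟨v, hPH hvP⟩ with hv'
    have hv'P : v' ∈ P' := Subgroup.mem_subgroupOf.2 hvP
    obtain ⟨hbl', hle', hind'⟩ := BlockSections.belowBlock_spec hM hblw hmaxH hv'P
    set cv := subIdem M _ (belowBlock (M := M) 2 P' e' v') with hcv
    have hvv : Subgroup.zpowers v = (Subgroup.zpowers v').map H.subtype :=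
      (MonoidHom.map_zpowers H.subtype v').symm
    have hCmap : (Subgroup.centralizer ({v'} : Set H)).map H.subtype =
        Subgroup.centralizer ({v} : Set G) := by
      ext y
      constructor
      · rintro ⟨c, hc, rfl⟩
        exact Subgroup.mem_centralizer_singleton_iff.2
          (congrArg Subtype.val (Subgroup.mem_centralizer_singleton_iff.1 hc))
      · exact fun hy => ⟨⟨y, hCle hy⟩, Subgroup.mem_centralizer_singleton_iff.2
          (Subtype.ext (Subgroup.mem_centralizer_singleton_iff.1 hy)), rfl⟩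
    -- the block idempotents agree
    have hid : bId 2 D e0 v = mapG H.subtype cv := by
      have hnorm : P' ≤ Subgroup.normalizer (Subgroup.zpowers v' : Set H) := fun u hu =>
        Subgroup.centralizer_le_normalizer _ (by
          rw [centralizer_zpowers_eq]
          exact Subgroup.mem_centralizer_singleton_iff.2 (hcomm u hu v' hv'P))
      obtain ⟨e'', hn2, hge2⟩ := hle'.normalLE_of_le_normalizer hmaxH.1.1 hle'.le le_rfl hnorm
      obtain rfl : e'' = e' :=
        (existsUnique_pairLE hmaxH.1.1 le_rfl).unique hge2 (PairLE.refl _ _ _ _)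
      obtain ⟨-, -, -, -, hfix, hbr⟩ := hn2
      have hn3 : NormalLE 2 (⊤ : Subgroup G) (Subgroup.zpowers v) (mapG H.subtype cv) P g := by
        refine ⟨⟨S.isPGroup.to_le (Subgroup.zpowers_le.2 hvD), le_top, ?_⟩, hn.2.1,
          Subgroup.zpowers_le.2 hvP, fun u hu => ?_, fun u hu => ?_, ?_⟩
        · rw [cenIn_top, centralizer_zpowers_eq, ← hCmap, isBlockIdem_mapG_iff hφ]
          exact isBlockIdem_subIdem hbl'
        · exact normalizes_rot S (S.zpowers_le hu) i
        · have h1 := congrArg (mapG H.subtype) (hfix ⟨u, hPH hu⟩ (Subgroup.mem_subgroupOf.2 hu))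
          rwa [mapG_conjA hφ] at h1
        · have h1 := congrArg (mapG H.subtype) hbr
          rwa [map_mul, ← mapG_brau hφ, hP', he'] at h1
      exact (eq_bId hM hB hmax (hn3.pairLE.trans hgD)).symm
    -- the section lies in `H`
    have hsec : ∀ u ∈ secSet 2 v, ∃ hu : u ∈ H,
        ppart 2 (⟨u, hu⟩ : H) = v' ∧ (⟨u, hu⟩ : H) ∈ secSet 2 v' ∧
        (⟨u, hu⟩ : H) ∈ Subgroup.centralizer ({v'} : Set H) := by
      intro u hu
      have hgC : u ∈ Subgroup.centralizer ({v} : Set G) :=
        Subgroup.mem_centralizer_singleton_iff.2 (commute_of_isPPart (mem_secSet.1 hu)).symm.eq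
      refine ⟨hCle hgC, ?_⟩
      have h1 := isPPart_coe_subgroup (ppart_spec (p := 2) (⟨u, hCle hgC⟩ : H))
      have h2 : ppart 2 (⟨u, hCle hgC⟩ : H) = v' :=
        Subtype.ext ((ppart_eq h1).symm.trans (ppart_eq (mem_secSet.1 hu)))
      exact ⟨h2, mem_secSet.2 (h2 ▸ ppart_spec _), Subgroup.mem_centralizer_singleton_iff.2
        (Subtype.ext (Subgroup.mem_centralizer_singleton_iff.1 hgC))⟩
    have hcvb : cv ∈ blocksAt M v' := by
      rw [mem_blockIdems, cenIn_zpowers]
      exact isBlockIdem_subIdem hbl'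
    have hval : ∀ (χ : IrrCharacter G) (u : G) (hu : u ∈ secSet 2 v) (hu' : u ∈ H),
        val χ u (bId 2 D e0 v) =
          rotVal (fun j => subMult H χ (Hn.th hθ (lj j))) i * val θ (⟨u, hu'⟩ : H) cv := by
      intro χ u hu hu'
      obtain ⟨_, hp, hus, huC⟩ := hsec u hu
      rw [hid]
      show val χ ((⟨u, hu'⟩ : H) : G) (mapG H.subtype cv) = _
      rw [val_subtype H χ (isBlockIdem_subIdem (M := M) hbl').mul_self (commute_subIdem hbl' huC),
        ← Finset.sum_subset (Finset.subset_univ (Finset.univ.image fun j => Hn.th hθ (lj j)))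
          fun ξ _ hξ => ?_, Finset.sum_image fun j _ k _ e => hljinj (Hn.th_injective hθ e)]
      · rw [rotVal, Finset.sum_mul]
        refine Finset.sum_congr rfl fun j _ => ?_
        have hlam : Lam 2 e' (lj j) (ppart 2 (⟨u, hu'⟩ : H)) cv =
            ((lj j ⟨v', hv'P⟩ : ℂˣ) : ℂ) := by
          rw [hp, Lam_eq (Hn.fusInv _) (x := 1)
            (by rw [conjA_one, one_mul, inv_one, mul_one]; exact hle'), one_mul, inv_one, mul_one,
            lamAt_of_mem]
        rw [Hn.th_val hθ _ _ cv (hp.symm ▸ hcvb), hlam, hlj j i ⟨v', hv'P⟩ rfl]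
        ring
      · refine mul_eq_zero_of_right _ ?_
        obtain ⟨q, hq, hcq, hk, hreg⟩ := mem_secSet.1 hus
        have hqC : q ∈ Subgroup.centralizer ({v'} : Set H) :=
          Subgroup.mem_centralizer_singleton_iff.2 hcq.symm.eq
        have hgs' : ((cenElem v' * ⟨q, hqC⟩ : Subgroup.centralizer ({v'} : Set H)) : H) =
            (⟨u, hu'⟩ : H) := hq
        rw [← hgs', val_subIdem ξ _ hbl']
        exact BrauerCharacters.secPart_eq_zero_of_isInducedBlock v'
          (BlockSections.isPElem_of_mem hM hblw hmaxH hv'P) hM hind'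
          (fun hm => hξ (by
            obtain ⟨l, rfl⟩ := Hn.exists_th_eq hθ hm
            obtain ⟨j, rfl⟩ := hljbij.2 l
            exact Finset.mem_image_of_mem _ (Finset.mem_univ j))) (by rwa [Subgroup.orderOf_mk])
    intro χ ψ
    have h1 := secPairing_bId hM hB hmax hvD χ ψ
    have h2 := secPairing_eq_subPair hM hblw hmaxH hv'P θ θ
    have h3 := scaled_subPair_eq_one hM hblw hmaxH hnil hθ (Hn.height_zero hθ) ⟨v', hv'P⟩
    have hc : Nat.card ↥(P' ⊓ Subgroup.centralizer ({v'} : Set H)) = 4 * h := by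
      rw [inf_eq_left.2 fun u hu => Subgroup.mem_centralizer_singleton_iff.2 (hcomm u hu v' hv'P),
        hcardP]
    have hc' : Nat.card (Subgroup.centralizer ({v'} : Set H)) =
        Nat.card (Subgroup.centralizer ({v} : Set G)) := by
      rw [← hCmap, Subgroup.card_map_of_injective hφ]
    have hsum : secPairing 2 v (bId 2 D e0 v) χ ψ =
        rotVal (fun j => subMult H χ (Hn.th hθ (lj j))) i *
          conj (rotVal (fun j => subMult H ψ (Hn.th hθ (lj j))) i) *
            secPairing 2 v' cv θ θ := by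
      rw [secPairing, secPairing, Finset.mul_sum]
      refine Finset.sum_bij (fun u hu => (⟨u, (hsec u hu).fst⟩ : H))
        (fun u hu => (hsec u hu).2.2.1) (fun u _ u' _ e => congrArg Subtype.val e)
        (fun q hq => ⟨(q : G), mem_secSet.2 (isPPart_coe_subgroup (mem_secSet.1 hq)), rfl⟩)
        fun u hu => ?_
      rw [hval χ u hu (hsec u hu).fst, hval ψ u hu (hsec u hu).fst, map_mul]
      ring
    rw [h1, h2, hc'] at hsum
    rw [hc] at h3
    set T := subPair (Subgroup.centralizer ({v'} : Set H)) 2 (cenElem v')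
      (belowBlock (M := M) 2 P' e' v') (belowBlock (M := M) 2 P' e' v') θ θ
    have hC0 : (Nat.card (Subgroup.centralizer ({v} : Set G)) : ℂ) ≠ 0 :=
      Nat.cast_ne_zero.2 Nat.card_pos.ne'
    refine mul_left_cancel₀ hC0 ?_
    rw [mul_left_comm, hsum]
    linear_combination (rotVal (fun j => subMult H χ (Hn.th hθ (lj j))) i *
      conj (rotVal (fun j => subMult H ψ (Hn.th hθ (lj j))) i) *
      (Nat.card (Subgroup.centralizer ({v} : Set G)) : ℂ)) * h3
  -- conjugation by an outer element
  obtain ⟨y, hy, hyo⟩ := S.exists_outer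
  have hyw : y * w * y⁻¹ = w⁻¹ := by rw [hw, S.conj_rot hy hyo, S.t_mul_h, S.rot_neg]
  have hyH : ∀ u : G, u ∈ H ↔ y * u * y⁻¹ ∈ H := by
    intro u
    rw [hH, Subgroup.mem_centralizer_singleton_iff, Subgroup.mem_centralizer_singleton_iff]
    have e2 : w = (y * w * y⁻¹)⁻¹ := by rw [hyw, inv_inv]
    constructor
    · intro hu
      have h1 : Commute (y * u * y⁻¹) (y * w * y⁻¹) :=
        (show Commute u w from hu).map (MulAut.conj y).toMonoidHom
      rw [e2]
      exact h1.inv_right.eq
    · intro hu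
      have h1 : Commute (y * u * y⁻¹) (y * w * y⁻¹) := by
        rw [hyw]; exact (show Commute (y * u * y⁻¹) w from hu).inv_right
      have h2 := h1.map (MulAut.conj y⁻¹).toMonoidHom
      simpa [mul_assoc] using h2.eq
  let σ : H ≃* H :=
    { toFun := fun u => ⟨y * u * y⁻¹, (hyH u).1 u.2⟩
      invFun := fun u => ⟨y⁻¹ * u * y, (hyH _).2 (by simpa [mul_assoc] using u.2)⟩
      left_inv := fun u => Subtype.ext (by simp [mul_assoc])
      right_inv := fun u => Subtype.ext (by simp [mul_assoc])
      map_mul' := fun u v => Subtype.ext (by simp [mul_assoc]) }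
  have hyP : ∀ u ∈ P, y * u * y⁻¹ ∈ P := fun u hu => by
    obtain ⟨i, rfl⟩ := S.exists_rot hu
    rw [S.conj_rot hy hyo]
    exact DihedralBlock.rot_mem_zpowers x _
  have hσP : P'.map σ.toMonoidHom = P' := by
    refine Subgroup.eq_of_le_of_card_ge ?_ ?_
    · rintro _ ⟨u, hu, rfl⟩
      exact Subgroup.mem_subgroupOf.2 (hyP _ (Subgroup.mem_subgroupOf.1 hu))
    · rw [Subgroup.card_map_of_injective σ.injective]
  have hyg : conjA y g = g := by
    have h1 := hgD.conj (Subgroup.mem_top y)
    rw [hPdef, BlockSections.cj_zpowers, cj_of_mem hy,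
      (mem_pairStab.1 (le_pairStab hmax.1.1 hy)).2.2] at h1
    have h2 := eq_bId hM hB hmax h1
    rw [h2, hgx]
    refine bId_congr hM hB hmax (h1.le (Subgroup.mem_zpowers _)) S.x_mem ?_
    refine zpowers_eq S (hyP x (Subgroup.mem_zpowers x)) (Subgroup.mem_zpowers x) ?_
    rw [← MulAut.conj_apply, MulEquiv.orderOf_eq]
  have hσe : mapG σ.toMonoidHom e' = e' := by
    apply mapG_injective hφ
    have key2 : ∀ f : MonoidAlgebra (Res M) H,
        mapG H.subtype (mapG σ.toMonoidHom f) = conjA y (mapG H.subtype f) := by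
      intro f
      induction f using MonoidAlgebra.induction_linear with
      | zero => simp
      | add a b ha hb => simp only [map_add, ha, hb]
      | single u r => simp [mapG, conjA, σ]
    rw [key2, he', hyg]
  have hsm : ∀ (χ : IrrCharacter G) (ξ : IrrCharacter H),
      subMult H χ (compIrr σ ξ) = subMult H χ ξ := by
    intro χ ξ
    rw [subMult, subMult]
    congr 2
    have h1 := Clifford.classInner_comp_mulEquiv σ (fun c : H => (χ : G → ℂ) c) (ξ : H → ℂ)
    refine Eq.trans ?_ h1
    congr 1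
    funext c
    exact (CharTheory.IsIrrCharacter.isClassFunction χ.2 (c : G) y).symm
  have hσσ : ∀ ξ : IrrCharacter H, compIrr σ (compIrr σ ξ) = ξ := by
    intro ξ
    have hyy : y * y ∈ H := hPH (S.mul_outer hy hy hyo hyo)
    refine Subtype.ext (funext fun u => ?_)
    rw [compIrr_apply, compIrr_apply, ← CharTheory.IsIrrCharacter.isClassFunction ξ.2 u ⟨_, hyy⟩]
    refine congrArg _ (Subtype.ext ?_)
    show y * (y * (u : G) * y⁻¹) * y⁻¹ = y * y * (u : G) * (y * y)⁻¹
    group
  -- a height-zero character has an odd sum, so some member is fixed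
  obtain ⟨χ0, hχ0, h00⟩ :=
    BrauerCharacters.exists_height_eq_zero (p := 2) (Blocks.isPBlock_nonempty hB)
  obtain ⟨θ1, hθ1, -⟩ :=
    BrauerCharacters.exists_height_eq_zero (p := 2) (B := bH) (Blocks.isPBlock_nonempty hblw)
  have hoddsum : Odd (∑ j, subMult H χ0 (Hn.th hθ1 (lj j))) := by
    rw [← Int.not_even_iff_odd]
    intro he
    obtain ⟨hblv, -, hindv⟩ := BlockSections.belowBlock_spec hM hB hmax hwD
    refine BlockSections.not_memLocalIdeal_secX w _ hM
      (BlockSections.isPElem_of_mem hM hB hmax hwD) hindv hχ0 h00 hχ0 h00 ?_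
    rw [BlockSections.coe_secX]
    have h1 := key θ1 hθ1 _ hh0 hh2 χ0 χ0
    have h5 : ((4 * h : ℕ) : ℂ) = (2 : ℂ) ^ blockDefect 2 (belowBlock (M := M) 2 D e0 w) := by
      have := congrArg (fun n : ℕ => (n : ℂ)) (pow_defect_rot hM hB hmax S hh0 hh2)
      push_cast at this ⊢
      exact this.symm
    rw [h5, subT, ← hw] at h1
    rw [show ((2 : ℕ) : ℂ) = 2 from Nat.cast_ofNat]
    suffices MemLocalIdeal M (rotVal (fun j => subMult H χ0 (Hn.th hθ1 (lj j))) (h : ZMod (4 * h)) *
        conj (rotVal (fun j => subMult H χ0 (Hn.th hθ1 (lj j))) (h : ZMod (4 * h)))) by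
      rw [← h1] at this
      convert this
    set r := rotVal (fun j => subMult H χ0 (Hn.th hθ1 (lj j))) (h : ZMod (4 * h))
    have hr : MemLocalIdeal M r := by
      have h2 := memLocalIdeal_rotVal_sub hM S.exists_pow
        (fun j => subMult H χ0 (Hn.th hθ1 (lj j))) (h : ZMod (4 * h))
      have h3 : MemLocalIdeal M ((∑ j, subMult H χ0 (Hn.th hθ1 (lj j)) : ℤ) : ℂ) :=
        (memLocalIdeal_intCast_iff hM _).2 (even_iff_two_dvd.1 he)
      have h4 := memLocalIdeal_add h2 h3
      rwa [sub_add_cancel] at h4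
    rw [mul_comm]
    refine memLocalIdeal_mul_left ?_ hr
    refine memLocalRing_of_isIntegral ?_
    simp only [r, rotVal, map_sum, map_mul, map_intCast]
    refine IsIntegral.sum _ fun j _ => (isIntegral_algebraMap (R := ℤ)
      (x := subMult H χ0 (Hn.th hθ1 (lj j)))).mul ?_
    rw [DihedralBlock.conj_stdAddChar]
    refine IsIntegral.of_pow (n := 4 * h) (by have := S.h_pos; omega) ?_
    rw [← AddChar.map_nsmul_eq_pow, nsmul_eq_mul, ZMod.natCast_self, zero_mul,
      AddChar.map_zero_eq_one]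
    exact isIntegral_one
  obtain ⟨j0, -, hj0⟩ : ∃ j0 ∈ (Finset.univ : Finset (ZMod (4 * h))),
      compIrr σ (Hn.th hθ1 (lj j0)) = Hn.th hθ1 (lj j0) := by
    obtain ⟨ξ, hξ, hfix⟩ := exists_fixed_of_odd (blockFinset bH) (compIrr σ)
      (fun ξ => subMult H χ0 ξ)
      (fun ξ hξ => mem_blockFinset.2 (Hn.compIrr_mem σ hσP hσe (mem_blockFinset.1 hξ)))
      (fun ξ _ => hσσ ξ) (fun ξ _ => hsm χ0 ξ) (by
        convert hoddsum using 1
        refine (Finset.sum_bij (fun j _ => Hn.th hθ1 (lj j))
          (fun j _ => mem_blockFinset.2 (Hn.th_mem hθ1 _))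
          (fun j _ k _ e => hljinj (Hn.th_injective hθ1 e)) (fun ξ hξ => ?_) fun j _ => rfl).symm
        obtain ⟨l, rfl⟩ := Hn.exists_th_eq hθ1 (mem_blockFinset.1 hξ)
        obtain ⟨j, rfl⟩ := hljbij.2 l
        exact ⟨j, Finset.mem_univ _, rfl⟩)
    obtain ⟨l, rfl⟩ := Hn.exists_th_eq hθ1 (mem_blockFinset.1 hξ)
    obtain ⟨j, rfl⟩ := hljbij.2 l
    exact ⟨j, Finset.mem_univ _, hfix⟩
  set θ := Hn.th hθ1 (lj j0) with hθdef
  have hθ : θ ∈ bH := Hn.th_mem hθ1 _
  refine ⟨fun χ j => subMult H χ (Hn.th hθ (lj j)), ⟨fun χ j => ?_, fun i hi0 hi2 =>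
    key θ hθ i hi0 hi2⟩⟩
  rw [← hsm χ (Hn.th hθ (lj j)), Hn.th_comp hθ σ hσP hσe hj0]
  congr 2
  refine MonoidHom.ext fun v => Units.ext ?_
  obtain ⟨i, hi⟩ := S.exists_rot (Subgroup.mem_subgroupOf.1 v.2)
  rw [hlj _ i v hi.symm, MonoidHom.comp_apply, hlj j (t * i) _ ?_, mul_left_comm, mul_assoc]
  show y * ((v : H) : G) * y⁻¹ = _
  rw [← hi, S.conj_rot hy hyo]

end CfsgLib.QuatBlock
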