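import Cfsg.Agent.Lib.BlockStar.NilpotentPairs
import Cfsg.Agent.Lib.BlockSections.Count
import Cfsg.Agent.Lib.CharTheory.Orthogonality

/-!
# The contribution matrices at representatives of the subsections of a block

For representatives of the pairs below a maximal pair, up to fusion, the contribution matrices
are orthogonal idempotents adding up to the identity, and the combinations of them by stable
generalised characters of the defect group are integral.
-/

set_option autoImplicit false
set_option linter.style.haveILetI false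
set_option linter.unusedSectionVars false

noncomputable section

namespace CfsgLib.QuatBlock

open Cfsg CfsgLib.Blocks MonoidAlgebra CfsgLib.BrauerPairs CfsgLib.BlockStar
open CfsgLib.BrauerCharacters (cenElem contrib blockFinset mem_blockFinset)
open CfsgLib.BlockSections (belowBlock)
open scoped ComplexConjugate

variable {G : Type*} [Group G] [Fintype G] {M : Ideal AlgInt} [M.IsPrime]

/-- The block idempotent of the centraliser below the pair. -/
abbrev bId (p : ℕ) (P : Subgroup G) (e0 : MonoidAlgebra (Res M) G) (v : G) :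
    MonoidAlgebra (Res M) G :=
  subIdem M (Subgroup.centralizer ({v} : Set G)) (belowBlock (M := M) p P e0 v)

/-- Two elements of the defect group are fused when their pairs are conjugate. -/
def Fus (p : ℕ) (P : Subgroup G) (e0 : MonoidAlgebra (Res M) G) (u v : G) : Prop :=
  ∃ g : G, g * u * g⁻¹ = v ∧ conjA g (bId p P e0 u) = bId p P e0 v

section Equiv

variable {p : ℕ} {P : Subgroup G} {e0 : MonoidAlgebra (Res M) G}

theorem Fus.refl (u : G) : Fus p P e0 u u := ⟨1, by group, conjA_one _⟩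

theorem Fus.symm {u v : G} (h : Fus p P e0 u v) : Fus p P e0 v u := by
  obtain ⟨g, hg, hc⟩ := h
  exact ⟨g⁻¹, by rw [← hg]; group, by rw [← hc, conjA_inv_conjA]⟩

theorem Fus.trans {u v w : G} (h : Fus p P e0 u v) (h' : Fus p P e0 v w) : Fus p P e0 u w := by
  obtain ⟨g, hg, hc⟩ := h
  obtain ⟨g', hg', hc'⟩ := h'
  exact ⟨g' * g, by rw [← hg', ← hg]; group, by rw [conjA_mul, hc, hc']⟩

theorem Fus.orderOf_eq {u v : G} (h : Fus p P e0 u v) : orderOf u = orderOf v := by
  obtain ⟨g, hg, -⟩ := h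
  rw [← hg, ← MulAut.conj_apply, MulEquiv.orderOf_eq]

theorem Fus.card_centralizer {u v : G} (h : Fus p P e0 u v) :
    Nat.card (Subgroup.centralizer ({u} : Set G)) =
      Nat.card (Subgroup.centralizer ({v} : Set G)) := by
  obtain ⟨g, hg, -⟩ := h
  rw [← hg, BlockSections.centralizer_cj_singleton]
  exact (Subgroup.card_map_of_injective (MulAut.conj g).injective).symm

end Equiv

/-- Representatives of the fusion classes. -/
structure IsReps (p : ℕ) (P : Subgroup G) (e0 : MonoidAlgebra (Res M) G) (R : Finset G) :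
    Prop where
  mem : ∀ u ∈ R, u ∈ P
  cover : ∀ v ∈ P, ∃ u ∈ R, Fus p P e0 u v
  indep : ∀ u ∈ R, ∀ v ∈ R, Fus p P e0 u v → u = v

open scoped Classical in
/-- A fusion-independent set extends to representatives by any covering set. -/
theorem exists_isReps {p : ℕ} {P : Subgroup G} {e0 : MonoidAlgebra (Res M) G} (R0 S : Finset G)
    (hR0 : ∀ u ∈ R0, u ∈ P) (hS : ∀ u ∈ S, u ∈ P)
    (hind : ∀ u ∈ R0, ∀ v ∈ R0, Fus p P e0 u v → u = v)
    (hcov : ∀ v ∈ P, ∃ u ∈ R0 ∪ S, Fus p P e0 u v) :
    ∃ R : Finset G, R0 ⊆ R ∧ R ⊆ R0 ∪ S ∧ IsReps p P e0 R := by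
  classical
  suffices H : ∃ R : Finset G, R0 ⊆ R ∧ R ⊆ R0 ∪ S ∧
      (∀ u ∈ R, ∀ v ∈ R, Fus p P e0 u v → u = v) ∧ ∀ w ∈ S, ∃ u ∈ R, Fus p P e0 u w by
    obtain ⟨R, h1, h2, h3, h4⟩ := H
    refine ⟨R, h1, h2, fun u hu => ?_, fun v hv => ?_, h3⟩
    · rcases Finset.mem_union.1 (h2 hu) with h | h
      · exact hR0 u h
      · exact hS u h
    · obtain ⟨w, hw, hwv⟩ := hcov v hv
      rcases Finset.mem_union.1 hw with h | h
      · exact ⟨w, h1 h, hwv⟩
      · obtain ⟨u, hu, huw⟩ := h4 w h
        exact ⟨u, hu, huw.trans hwv⟩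
  clear hcov hS
  induction S using Finset.induction_on with
  | empty => exact ⟨R0, le_rfl, Finset.subset_union_left, hind, fun w hw => absurd hw (by simp)⟩
  | insert w S _ ih =>
    obtain ⟨R, h1, h2, h3, h4⟩ := ih
    have hsub : R0 ∪ S ⊆ R0 ∪ insert w S :=
      Finset.union_subset_union_right (Finset.subset_insert w S)
    by_cases hw : ∃ u ∈ R, Fus p P e0 u w
    · refine ⟨R, h1, h2.trans hsub, h3, fun v hv => ?_⟩
      rcases Finset.mem_insert.1 hv with rfl | hv
      · exact hw
      · exact h4 v hv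
    · refine ⟨insert w R, h1.trans (Finset.subset_insert _ _), Finset.insert_subset
        (Finset.mem_union_right _ (Finset.mem_insert_self _ _)) (h2.trans hsub), ?_, ?_⟩
      · intro u hu v hv huv
        rcases Finset.mem_insert.1 hu with hu | hu <;> rcases Finset.mem_insert.1 hv with hv | hv
        · rw [hu, hv]
        · exact absurd ⟨v, hv, (hu ▸ huv).symm⟩ hw
        · exact absurd ⟨u, hu, hv ▸ huv⟩ hw
        · exact h3 u hu v hv huv
      · intro v hv
        rcases Finset.mem_insert.1 hv with rfl | hv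
        · exact ⟨v, Finset.mem_insert_self _ _, Fus.refl v⟩
        · obtain ⟨u, hu, huv⟩ := h4 v hv
          exact ⟨u, Finset.mem_insert_of_mem hu, huv⟩

variable [∀ y : G, Fintype (Subgroup.centralizer ({y} : Set G))]

/-- The contribution of the pair at `v`. -/
def subT (p : ℕ) [Fact p.Prime] (P : Subgroup G) (e0 : MonoidAlgebra (Res M) G) (v : G)
    (χ φ : IrrCharacter G) : ℂ :=
  contrib v (belowBlock (M := M) p P e0 v) p χ φ

variable {p : ℕ} [Fact p.Prime] [CharP (Res M) p] [IsAlgClosed (Res M)]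
  {B : Set (IrrCharacter G)} {P : Subgroup G} {e0 : MonoidAlgebra (Res M) G}
  (hM : IsPModular p M) (hB : IsPBlock M B)
  (hmax : IsMaxPair p (⊤ : Subgroup G) (redElem M (blockCoeff B)) P e0)

omit [CharP (Res M) p] [IsAlgClosed (Res M)] in
theorem conj_subT (v : G) (χ φ : IrrCharacter G) :
    conj (subT (M := M) p P e0 v χ φ) = subT (M := M) p P e0 v φ χ :=
  BrauerCharacters.conj_contrib _ _ χ φ

include hM hB hmax

theorem pairLE_bId {v : G} (hv : v ∈ P) :
    PairLE p (⊤ : Subgroup G) (Subgroup.zpowers v) (bId p P e0 v) P e0 :=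
  (BlockSections.belowBlock_spec hM hB hmax hv).2.1

theorem eq_bId {v : G} {c : MonoidAlgebra (Res M) G}
    (hc : PairLE p (⊤ : Subgroup G) (Subgroup.zpowers v) c P e0) : c = bId p P e0 v :=
  (existsUnique_pairLE hmax.1.1 hc.le).unique hc
    (pairLE_bId hM hB hmax (hc.le (Subgroup.mem_zpowers v)))

theorem subT_eq_zero_of_notMem {v : G} (hv : v ∈ P) {χ : IrrCharacter G} (hχ : χ ∉ B)
    (φ : IrrCharacter G) : subT (M := M) p P e0 v χ φ = 0 :=
  BlockSections.contrib_eq_zero_of_notMem v hM (BlockSections.isPElem_of_mem hM hB hmax hv)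
    (BlockSections.belowBlock_spec hM hB hmax hv).2.2 hχ φ

theorem subT_eq_zero_of_notMem_right {v : G} (hv : v ∈ P) (χ : IrrCharacter G)
    {φ : IrrCharacter G} (hφ : φ ∉ B) : subT (M := M) p P e0 v χ φ = 0 := by
  rw [← conj_subT, subT_eq_zero_of_notMem hM hB hmax hv hφ, map_zero]

theorem secPairing_bId {v : G} (hv : v ∈ P) (χ φ : IrrCharacter G) :
    secPairing p v (bId p P e0 v) χ φ =
      (Nat.card (Subgroup.centralizer ({v} : Set G)) : ℂ) * subT (M := M) p P e0 v χ φ :=
  secPairing_eq_subPair hM hB hmax hv χ φ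

/-- Fused pairs have equal contributions. -/
theorem subT_eq_of_fus {u v : G} (hu : u ∈ P) (hv : v ∈ P) (h : Fus p P e0 u v)
    (χ φ : IrrCharacter G) : subT (M := M) p P e0 u χ φ = subT (M := M) p P e0 v χ φ := by
  have hc := h.card_centralizer
  obtain ⟨g, hg, he⟩ := h
  have h1 := secPairing_bId hM hB hmax hv χ φ
  rw [← he, ← hg, secPairing_conj hM hB hmax
    ((pairLE_bId hM hB hmax hu).isPair_left hmax.1.1).2.2, hg, ← hc,
    secPairing_bId hM hB hmax hu] at h1
  exact mul_left_cancel₀ (Nat.cast_ne_zero.2 Nat.card_pos.ne') h1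

/-- Elements fusing the pairs below the maximal pair. -/
theorem fus_of_pairLE {u g : G} {c : MonoidAlgebra (Res M) G}
    (h : PairLE p (⊤ : Subgroup G) (Subgroup.zpowers u) c P e0)
    (h' : PairLE p (⊤ : Subgroup G) (Subgroup.zpowers (g * u * g⁻¹)) (conjA g c) P e0) :
    Fus p P e0 u (g * u * g⁻¹) := by
  refine ⟨g, rfl, ?_⟩
  rw [← eq_bId hM hB hmax h]
  exact eq_bId hM hB hmax h'

/-- A function invariant under fusion is stable. -/
theorem stableFun_of_fus {F : G → ℂ}
    (hF : ∀ u ∈ P, ∀ v ∈ P, Fus p P e0 u v → F v = F u) : StableFun p P e0 F :=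
  fun _ _ _ h h' => hF _ (h.le (Subgroup.mem_zpowers _)) _ (h'.le (Subgroup.mem_zpowers _))
    (fus_of_pairLE hM hB hmax h h')

variable {R : Finset G} (hR : IsReps p P e0 R)
include hR

open scoped Classical in
/-- A sum over the pairs is a sum over the representatives. -/
theorem pairSum_eq {F : G → ℂ} (hF : StableFun p P e0 F) (χ φ : IrrCharacter G) :
    pairSum p P e0 F χ φ =
      (Nat.card G : ℂ) * ∑ v ∈ R, F v * subT (M := M) p P e0 v χ φ := by
  classical
  have hb := isBlockIdem_redElem_blockCoeff (M := M) hB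
  set eB := redElem M (blockCoeff B)
  set Φ : G × G → G × MonoidAlgebra (Res M) G :=
    fun x => (x.1 * x.2 * x.1⁻¹, conjA x.1 (bId p P e0 x.2)) with hΦ
  set W : G × MonoidAlgebra (Res M) G → ℂ :=
    fun π => LamF p P e0 F π.1 π.2 * secPairing p π.1 π.2 χ φ with hW
  set Pairs : Finset (G × MonoidAlgebra (Res M) G) :=
    (Finset.univ.filter (fun y : G => ∃ k : ℕ, orderOf y = p ^ k)).biUnion
      fun y => ((blocksAt M y).filter fun c =>
        PairOf p (⊤ : Subgroup G) eB (Subgroup.zpowers y) c).image (Prod.mk y) with hPairs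
  have hmemPairs : ∀ π, π ∈ Pairs ↔ (∃ k : ℕ, orderOf π.1 = p ^ k) ∧
      PairOf p (⊤ : Subgroup G) eB (Subgroup.zpowers π.1) π.2 := by
    rintro ⟨y, c⟩
    simp only [hPairs, Finset.mem_biUnion, Finset.mem_filter, Finset.mem_univ, true_and,
      Finset.mem_image, Prod.mk.injEq]
    constructor
    · rintro ⟨y', hy', c', ⟨-, hc'⟩, rfl, rfl⟩; exact ⟨hy', hc'⟩
    · rintro ⟨hy, hc⟩; exact ⟨y, hy, c, ⟨mem_blockIdems.2 hc.1.2.2, hc⟩, rfl, rfl⟩
  have hlhs : pairSum p P e0 F χ φ = ∑ π ∈ Pairs, W π := by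
    rw [hPairs, pairSum, Finset.sum_biUnion]
    · refine Finset.sum_congr rfl fun y _ => ?_
      rw [Finset.sum_image (fun a _ b _ h => (Prod.mk.injEq _ _ _ _ ▸ h).2), Finset.sum_filter]
      refine Finset.sum_congr rfl fun c _ => ?_
      split_ifs with hp
      · rfl
      · rw [LamF_eq_zero_of_not_pairOf hb hmax F hp, zero_mul]
    · intro y _ y' _ hne
      refine Finset.disjoint_left.2 fun π h h' => hne ?_
      obtain ⟨c, -, rfl⟩ := Finset.mem_image.1 h
      obtain ⟨c', -, h''⟩ := Finset.mem_image.1 h'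
      exact (congrArg Prod.fst h'').symm
  set S : Finset (G × G) := Finset.univ ×ˢ R with hS
  have hPhi_mem : ∀ x ∈ S, Φ x ∈ Pairs := by
    intro x hx
    have hxP := hR.mem _ (Finset.mem_product.1 hx).2
    obtain ⟨k, hk⟩ := BlockSections.isPElem_of_mem hM hB hmax hxP
    refine (hmemPairs _).2 ⟨⟨k, by rw [← hk]; exact (MulAut.conj x.1).orderOf_eq x.2⟩, ?_⟩
    have := ((pairLE_bId hM hB hmax hxP).pairOf_iff hb).2 hmax.1 |>.conj hb (Subgroup.mem_top x.1)
    rwa [BlockSections.cj_zpowers] at this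
  set cC : G → ℕ := fun v => Nat.card (Subgroup.centralizer ({v} : Set G)) with hcC
  have hWPhi : ∀ x ∈ S, W (Φ x) = F x.2 * ((cC x.2 : ℂ) * subT (M := M) p P e0 x.2 χ φ) := by
    intro x hx
    have hxP := hR.mem _ (Finset.mem_product.1 hx).2
    have e1 : (1 : G) * x.2 * 1⁻¹ = x.2 := by group
    show LamF p P e0 F (x.1 * x.2 * x.1⁻¹) (conjA x.1 (bId p P e0 x.2)) *
      secPairing p (x.1 * x.2 * x.1⁻¹) (conjA x.1 (bId p P e0 x.2)) χ φ = _
    rw [LamF_conj hF, LamF_eq hF (x := 1) (by rw [conjA_one, e1]; exact pairLE_bId hM hB hmax hxP),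
      e1, secPairing_conj hM hB hmax ((pairLE_bId hM hB hmax hxP).isPair_left hmax.1.1).2.2,
      secPairing_bId hM hB hmax hxP]
  have hfib : ∀ π ∈ Pairs,
      ∑ x ∈ S.filter (fun x => Φ x = π), ((cC x.2 : ℂ))⁻¹ = 1 := by
    intro π hπ
    obtain ⟨-, hpo⟩ := (hmemPairs π).1 hπ
    obtain ⟨c, -, hc⟩ := hpo.exists_conj_le hb hmax
    rw [BlockSections.cj_zpowers] at hc
    obtain ⟨u, huR, g0, hg0, hg0'⟩ := hR.cover _ (hc.le (Subgroup.mem_zpowers _))
    have hπ1 : (c⁻¹ * g0) * u * (c⁻¹ * g0)⁻¹ = π.1 := by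
      calc (c⁻¹ * g0) * u * (c⁻¹ * g0)⁻¹ = c⁻¹ * (g0 * u * g0⁻¹) * c := by group
        _ = π.1 := by rw [hg0]; group
    have hπ2 : conjA (c⁻¹ * g0) (bId p P e0 u) = π.2 := by
      rw [conjA_mul, hg0', ← eq_bId hM hB hmax hc, conjA_inv_conjA]
    set k := c⁻¹ * g0
    have hbij : (S.filter fun x => Φ x = π) =
        Finset.image (fun z : Subgroup.centralizer ({u} : Set G) => (k * (z : G), u))
          Finset.univ := by
      ext x
      simp only [Finset.mem_filter, hS, Finset.mem_product, Finset.mem_univ, true_and,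
        Finset.mem_image]
      constructor
      · rintro ⟨hx, hxe⟩
        have h1 : x.1 * x.2 * x.1⁻¹ = π.1 := congrArg Prod.fst hxe
        have h2 : conjA x.1 (bId p P e0 x.2) = π.2 := congrArg Prod.snd hxe
        have hfus : Fus p P e0 x.2 u := ⟨k⁻¹ * x.1, by
          calc k⁻¹ * x.1 * x.2 * (k⁻¹ * x.1)⁻¹ = k⁻¹ * (x.1 * x.2 * x.1⁻¹) * k := by group
            _ = u := by rw [h1, ← hπ1]; group, by rw [conjA_mul, h2, ← hπ2, conjA_inv_conjA]⟩
        have hxu := hR.indep _ hx _ huR hfus
        refine ⟨⟨k⁻¹ * x.1, Subgroup.mem_centralizer_singleton_iff.2 ?_⟩,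
          Prod.ext (mul_inv_cancel_left _ _) hxu.symm⟩
        rw [hxu] at h1
        calc k⁻¹ * x.1 * u = k⁻¹ * (x.1 * u * x.1⁻¹) * x.1 := by group
          _ = u * (k⁻¹ * x.1) := by rw [h1, ← hπ1]; group
      · rintro ⟨z, rfl⟩
        refine ⟨huR, Prod.ext ?_ ?_⟩
        · show k * (z : G) * u * (k * (z : G))⁻¹ = π.1
          rw [mul_assoc k, Subgroup.mem_centralizer_singleton_iff.1 z.2, ← hπ1]
          group
        · show conjA (k * (z : G)) (bId p P e0 u) = π.2
          rw [conjA_mul, (mem_ctr.1 (isBlockIdem_subIdem (M := M)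
            (BlockSections.belowBlock_spec hM hB hmax (hR.mem u huR)).1).mem).2 _ z.2, hπ2]
    rw [hbij, Finset.sum_image fun z _ z' _ h =>
        Subtype.ext (mul_left_cancel (congrArg Prod.fst h))]
    simp only [Finset.sum_const, Finset.card_univ, nsmul_eq_mul, ← Nat.card_eq_fintype_card]
    exact mul_inv_cancel₀ (Nat.cast_ne_zero.2 Nat.card_pos.ne')
  rw [hlhs, Finset.mul_sum]
  calc ∑ π ∈ Pairs, W π
      = ∑ π ∈ Pairs, ∑ x ∈ S.filter (fun x => Φ x = π), ((cC x.2 : ℂ))⁻¹ * W (Φ x) := by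
        refine Finset.sum_congr rfl fun π hπ => ?_
        rw [← one_mul (W π), ← hfib π hπ, Finset.sum_mul]
        exact Finset.sum_congr rfl fun x hx => by rw [(Finset.mem_filter.1 hx).2]
    _ = ∑ x ∈ S, ((cC x.2 : ℂ))⁻¹ * W (Φ x) :=
        Finset.sum_fiberwise_of_maps_to hPhi_mem _
    _ = ∑ x ∈ S, F x.2 * subT (M := M) p P e0 x.2 χ φ := by
        refine Finset.sum_congr rfl fun x hx => ?_
        have hc0 : (cC x.2 : ℂ) ≠ 0 := Nat.cast_ne_zero.2 Nat.card_pos.ne'
        rw [hWPhi x hx]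
        field_simp
    _ = _ := by
        rw [hS, Finset.sum_product]
        simp only [Finset.sum_const, Finset.card_univ, ← Nat.card_eq_fintype_card, nsmul_eq_mul,
          Finset.mul_sum]

theorem classInner_starF {F : G → ℂ} (hF : StableFun p P e0 F) (χ φ : IrrCharacter G) :
    classInner (starF p χ P e0 F) (φ : G → ℂ) = ∑ v ∈ R, F v * subT (M := M) p P e0 v χ φ := by
  refine mul_left_cancel₀ (Nat.cast_ne_zero.2 (Nat.card_pos (α := G)).ne') ?_
  rw [card_mul_classInner_starF hM, pairSum_eq hM hB hmax hR hF]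

/-- The product with the constant one is the character. -/
theorem starF_const_one {χ : IrrCharacter G} (hχ : χ ∈ B) :
    starF p χ P e0 (fun _ => (1 : ℂ)) = (χ : G → ℂ) := by
  classical
  have hb := isBlockIdem_redElem_blockCoeff (M := M) hB
  funext g
  rw [starF, apply_eq_sum_val (M := M) (p := p) χ g]
  refine Finset.sum_congr rfl fun c hc => ?_
  by_cases hp : PairOf p (⊤ : Subgroup G) (redElem M (blockCoeff B))
      (Subgroup.zpowers (ppart p g)) c
  · obtain ⟨x, hx⟩ := (exists_conj_iff hb hmax).2 hp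
    rw [LamF_eq (fun _ _ _ _ _ => rfl) hx, one_mul]
  · rw [val_eq_zero_of_not_pairOf hM hB hχ (mem_blockIdems.1 hc) hp, mul_zero]

/-- The contributions add up to the identity. -/
theorem sum_subT {χ : IrrCharacter G} (hχ : χ ∈ B) (φ : IrrCharacter G) [Decidable (χ = φ)] :
    ∑ v ∈ R, subT (M := M) p P e0 v χ φ = if χ = φ then 1 else 0 := by
  have h := classInner_starF hM hB hmax hR (F := fun _ => (1 : ℂ)) (fun _ _ _ _ _ => rfl) χ φ
  simp only [one_mul] at h
  rw [← h, starF_const_one hM hB hmax hR hχ]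
  convert CharTheory.classInner_irrCharacter χ φ

/-- The combinations by stable generalised characters are integral. -/
theorem exists_int_sum_subT {F : G → ℂ} (hF : StableFun p P e0 F)
    (hgen : IsGeneralizedCharacter P (fun v : P => F (v : G))) (χ φ : IrrCharacter G) :
    ∃ m : ℤ, ∑ v ∈ R, F v * subT (M := M) p P e0 v χ φ = (m : ℂ) := by
  rw [← classInner_starF hM hB hmax hR hF]
  exact CharTheory.exists_classInner_eq_int
    (isGeneralizedCharacter_starF hM hB hmax χ hF hgen)
    (CharTheory.IsIrrCharacter.isGeneralizedCharacter φ.2)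

omit hR in
theorem isClassFunction_starF (χ : IrrCharacter G) {F : G → ℂ} (hF : StableFun p P e0 F) :
    IsClassFunction G (starF p χ P e0 F) := fun g h => by
  have := HvalF_conj χ hM hF h g (one_mul (1 : MonoidAlgebra (Res M) G)) (Commute.one_right _)
  rwa [map_one, HvalF_one, HvalF_one] at this

open scoped Classical in
/-- The contributions are orthogonal idempotents. -/
theorem sum_subT_mul [Fintype (IrrCharacter G)] {u v : G} (hu : u ∈ R) (hv : v ∈ R)
    (χ φ : IrrCharacter G) :
    ∑ ψ ∈ blockFinset B, subT (M := M) p P e0 u χ ψ * subT (M := M) p P e0 v ψ φ =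
      if u = v then subT (M := M) p P e0 u χ φ else 0 := by
  rw [Finset.sum_subset (Finset.subset_univ _) fun ψ _ hψ => by
    rw [subT_eq_zero_of_notMem_right hM hB hmax (hR.mem u hu) χ
      fun h => hψ (mem_blockFinset.2 h), zero_mul]]
  set ind : G → G → ℂ := fun w x => if Fus p P e0 w x then 1 else 0 with hind
  have hst : ∀ w, StableFun p P e0 (ind w) := fun w => stableFun_of_fus hM hB hmax
    fun a _ b _ hab => if_congr ⟨fun h => h.trans hab.symm, fun h => h.trans hab⟩ rfl rfl
  have hsum : ∀ w ∈ R, ∀ (α β : IrrCharacter G),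
      classInner (starF p α P e0 (ind w)) (β : G → ℂ) = subT (M := M) p P e0 w α β := by
    intro w hw α β
    rw [classInner_starF hM hB hmax hR (hst w), Finset.sum_eq_single w, hind]
    · simp [Fus.refl]
    · intro x hx hne
      simp only [hind, if_neg fun h => hne (hR.indep w hw x hx h).symm, zero_mul]
    · exact fun h => absurd hw h
  have hst2 : StableFun p P e0 fun x => ind u x * conj (ind v x) := fun a g c h1 h2 => by
    show ind u _ * conj (ind v _) = _
    rw [hst u a g c h1 h2, hst v a g c h1 h2]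
  have hpars : classInner (starF p χ P e0 (ind u)) (starF p φ P e0 (ind v)) =
      ∑ ψ : IrrCharacter G, classInner (starF p χ P e0 (ind u)) (ψ : G → ℂ) *
        conj (classInner (starF p φ P e0 (ind v)) (ψ : G → ℂ)) := by
    conv_lhs => rw [CharTheory.eq_sum_classInner (isClassFunction_starF hM hB hmax φ (hst v))]
    simp only [classInner, Finset.sum_apply, Pi.smul_apply, smul_eq_mul, map_sum, map_mul,
      Finset.mul_sum, Finset.sum_mul]
    rw [Finset.sum_comm]
    refine Finset.sum_congr rfl fun ψ _ => ?_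
    rw [Finset.sum_comm]
    exact Finset.sum_congr rfl fun x _ => Finset.sum_congr rfl fun y _ => by ring
  simp only [hsum u hu, hsum v hv, conj_subT] at hpars
  rw [← hpars]
  refine mul_left_cancel₀ (Nat.cast_ne_zero.2 (Nat.card_pos (α := G)).ne') ?_
  rw [card_mul_classInner_starF_starF hM, pairSum_eq hM hB hmax hR hst2]
  congr 1
  rw [Finset.sum_eq_single u]
  · simp only [hind, if_pos (Fus.refl u), one_mul]
    by_cases huv : u = v
    · rw [if_pos huv, if_pos (huv ▸ Fus.refl u), map_one, one_mul]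
    · rw [if_neg huv, if_neg fun h => huv (hR.indep v hv u hu h).symm, map_zero, zero_mul]
  · intro x hx hne
    simp only [hind, if_neg fun h => hne (hR.indep u hu x hx h).symm, zero_mul]
  · exact fun h => absurd hu h

omit hR in
/-- The trace of a contribution is the rank of the block. -/
theorem sum_subT_self [Fintype (IrrCharacter G)] {v : G} (hv : v ∈ P) :
    ∑ χ ∈ blockFinset B, subT (M := M) p P e0 v χ χ =
      (blockRank p (belowBlock (M := M) p P e0 v) : ℂ) := by
  rw [Finset.sum_subset (Finset.subset_univ _) fun ψ _ hψ =>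
    subT_eq_zero_of_notMem hM hB hmax hv (fun h => hψ (mem_blockFinset.2 h)) ψ]
  exact BlockSections.sum_contrib_self v hM (BlockSections.isPElem_of_mem hM hB hmax hv)
    (BlockSections.belowBlock_spec hM hB hmax hv).1

end CfsgLib.QuatBlock
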